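import Mathlib
import Cfsg.Agent.H10.Perm17
import Cfsg.Agent.H23.HallSym
import Cfsg.Agent.H20.Fpf
import Cfsg.Agent.H21.Fix

set_option autoImplicit false

/-!
# H24.AltGen: groups generated by two permutations of large prime order
-/

namespace Cfsg.Agent.H24

open Equiv Equiv.Perm MulAction

theorem prim_of_cycle {α : Type*} [Fintype α] [DecidableEq α] {G : Subgroup (Perm α)}
    (hG : IsPretransitive G α) {q : ℕ} (hq : q.Prime) {y : Perm α} (hy : y ∈ G) (hyc : y.IsCycle)
    (hyq : y.support.card = q) (hd : Fintype.card α < 2 * q) : IsPreprimitive G α := by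
  classical
  let yG : G := ⟨y, hy⟩
  let S : SubMulAction (Subgroup.zpowers yG) α :=
    { carrier := {z | z ∈ y.support}
      smul_mem' := by
        rintro ⟨c, hc⟩ z hz
        obtain ⟨i, rfl⟩ := Subgroup.mem_zpowers_iff.mp hc
        show (((yG ^ i : G) : Perm α) z) ∈ y.support
        rw [SubgroupClass.coe_zpow, Equiv.Perm.zpow_apply_mem_support]
        exact hz }
  have : IsPretransitive (Subgroup.zpowers yG) S := ⟨fun u v => by
    obtain ⟨i, hi⟩ := hyc.sameCycle (mem_support.mp u.2) (mem_support.mp v.2)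
    refine ⟨⟨yG ^ i, i, rfl⟩, Subtype.ext ?_⟩
    show (((yG ^ i : G) : Perm α) (u : α)) = v
    rw [SubgroupClass.coe_zpow]
    exact hi⟩
  have hcard : Nat.card S = q := by
    rw [← hyq]
    have : Nat.card S = Nat.card {z // z ∈ y.support} := rfl
    rw [this, Nat.card_eq_fintype_card, Fintype.card_coe]
  have : IsPreprimitive (Subgroup.zpowers yG) S := IsPreprimitive.of_prime_card (by rw [hcard]; exact hq)
  let f : S →ₑ[(Subgroup.zpowers yG).subtype] α := ⟨Subtype.val, fun c z => rfl⟩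
  apply IsPreprimitive.of_card_lt (f := f)
  have h1 : (Set.range f).ncard = q := by
    have : Set.range f = {z | z ∈ y.support} := Subtype.range_val
    rw [this, ← hyq]
    exact Set.ncard_coe_finset _
  rw [h1, Nat.card_eq_fintype_card]
  exact hd

theorem trans_of_two {α : Type*} [Fintype α] [DecidableEq α] {G : Subgroup (Perm α)} {x y : Perm α}
    (hx : x ∈ G) (hy : y ∈ G) {p q : ℕ} (hp : p.Prime) (hxo : orderOf x = p) (hyc : y.IsCycle)
    (hyq : y.support.card = q) (hcov : ∀ z, z ∈ x.support ∨ z ∈ y.support)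
    (hd : Fintype.card α < p + q) : IsPretransitive G α := by
  classical
  obtain ⟨a, ha, -⟩ := id hyc
  have h1 : ∀ z, z ∈ y.support → ∃ g : G, g • a = z := by
    intro z hz
    obtain ⟨i, hi⟩ := hyc.sameCycle ha (mem_support.mp hz)
    exact ⟨⟨y ^ i, G.zpow_mem hy i⟩, hi⟩
  have h2 : ∀ z, ∃ g : G, g • a = z := by
    intro z
    rcases hcov z with hz | hz
    swap
    · exact h1 z hz
    have hc : (x.cycleOf z).support.card = p := by
      obtain ⟨n, hn⟩ := cycleType_prime_order (σ := x) (by rw [hxo]; exact hp)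
      have h3 : (x.cycleOf z).support.card ∈ x.cycleType := by
        rw [cycleType_def, Multiset.mem_map]
        exact ⟨x.cycleOf z, cycleOf_mem_cycleFactorsFinset_iff.mpr hz, rfl⟩
      rw [hn, hxo] at h3
      exact Multiset.eq_of_mem_replicate h3
    have h4 : ¬ Disjoint (x.cycleOf z).support y.support := by
      intro hdis
      have := Finset.card_union_of_disjoint hdis
      have h5 := Finset.card_le_univ ((x.cycleOf z).support ∪ y.support)
      omega
    rw [Finset.not_disjoint_iff] at h4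
    obtain ⟨w, hw1, hw2⟩ := h4
    obtain ⟨g, hg⟩ := h1 w hw2
    obtain ⟨⟨i, hi⟩, -⟩ := mem_support_cycleOf_iff.mp hw1
    refine ⟨⟨x ^ i, G.zpow_mem hx i⟩⁻¹ * g, ?_⟩
    rw [mul_smul, hg, inv_smul_eq_iff]
    exact hi.symm
  refine ⟨fun u v => ?_⟩
  obtain ⟨g, hg⟩ := h2 u
  obtain ⟨k, hk⟩ := h2 v
  exact ⟨k * g⁻¹, by rw [mul_smul, ← hg, inv_smul_smul, hk]⟩

/-- A nontrivial subgroup normalized by a `2`-transitive-like group has order divisible by the degree. -/
theorem card_dvd_of_normalized {α : Type*} [Fintype α] [DecidableEq α] {H M : Subgroup (Perm α)} (hMH : M ≤ H)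
    (D : Finset α) (hHD : ∀ h ∈ H, ∀ z, z ∉ D → h z = z)
    (hHt : ∀ z ∈ D, ∀ w ∈ D, ∃ h ∈ H, h z = w) {x : Perm α} (hx : x ∈ H) {b : α} (hbD : b ∈ D)
    (hxc : ∀ z ∈ D, ∀ w ∈ D, z ≠ b → w ≠ b → ∃ i : ℤ, (x ^ i) z = w) (hxb : x b = b)
    (hM : ∀ h ∈ H, ∀ m ∈ M, h * m * h⁻¹ ∈ M) (hM1 : M ≠ ⊥) : D.card ∣ Nat.card M := by
  classical
  have hmaps : ∀ h ∈ H, ∀ z ∈ D, h z ∈ D := by
    intro h hh z hz
    by_contra hc
    have h1 := hHD h hh (h z) hc
    have h2 : h z = z := h.injective h1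
    rw [h2] at hc
    exact hc hz
  have h1 : ∃ m ∈ M, m b ≠ b := by
    by_contra hc
    push Not at hc
    apply hM1
    rw [Subgroup.eq_bot_iff_forall]
    intro m hm
    ext z
    rw [Perm.one_apply]
    by_cases hz : z ∈ D
    · obtain ⟨h, hh, rfl⟩ := hHt b hbD z hz
      have h2 := hc (h⁻¹ * m * h) (by
        have := hM h⁻¹ (H.inv_mem hh) m hm
        rwa [inv_inv] at this)
      rw [Perm.mul_apply, Perm.mul_apply] at h2
      rw [Perm.inv_eq_iff_eq] at h2
      exact h2
    · exact hHD m (hMH hm) z hz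
  obtain ⟨m, hm, hmb⟩ := h1
  have h2 : ∀ w ∈ D, ∃ k ∈ M, k b = w := by
    intro w hw
    by_cases hwb : w = b
    · exact ⟨1, M.one_mem, by rw [hwb, Perm.one_apply]⟩
    obtain ⟨i, hi⟩ := hxc (m b) (hmaps m (hMH hm) b hbD) w hw hmb hwb
    refine ⟨x ^ i * m * (x ^ i)⁻¹, hM _ (H.zpow_mem hx i) m hm, ?_⟩
    rw [Perm.mul_apply, Perm.mul_apply]
    have h3 : ((x ^ i)⁻¹) b = b := by
      rw [Perm.inv_eq_iff_eq]
      exact (zpow_apply_eq_self_of_apply_eq_self hxb i).symm
    rw [h3, hi]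
  have h3 : orbit M b = (D : Set α) := by
    ext w
    constructor
    · rintro ⟨k, rfl⟩
      exact hmaps k (hMH k.2) b hbD
    · intro hw
      obtain ⟨k, hk, hkw⟩ := h2 w hw
      exact ⟨⟨k, hk⟩, hkw⟩
  have h4 : Nat.card (orbit M b) = D.card := by
    rw [h3]
    simp
  rw [← h4]
  exact ⟨Nat.card (stabilizer M b), (Nat.card_congr (orbitProdStabilizerEquivGroup M b)).symm.trans
    (Nat.card_prod _ _)⟩

end Cfsg.Agent.H24
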