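import Cfsg.Agent.H24.AltGen

set_option autoImplicit false

/-!
# H24.AltGen2: exclusion of a self-normalizing Sylow subgroup
-/

namespace Cfsg.Agent.H24

open Equiv Equiv.Perm MulAction

universe u

theorem iterate_conjNormal {G : Type*} [Group G] (K : Subgroup G) [K.Normal] (x : G) (n : ℕ) (k : K) :
    ((MulAut.conjNormal x : MulAut K)^[n]) k = (MulAut.conjNormal (x ^ n) : MulAut K) k := by
  induction n generalizing k with
  | zero => simp
  | succ n ih => rw [Function.iterate_succ_apply, ih, pow_succ, map_mul, MulAut.mul_apply]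

theorem not_self_norm {α : Type u} [Fintype α] [DecidableEq α] {H : Subgroup (Perm α)}
    (D : Finset α) (hHD : ∀ h ∈ H, ∀ z, z ∉ D → h z = z)
    (hHt : ∀ z ∈ D, ∀ w ∈ D, ∃ h ∈ H, h z = w) {x : Perm α} (hx : x ∈ H) {b : α} (hbD : b ∈ D)
    (hxc : ∀ z ∈ D, ∀ w ∈ D, z ≠ b → w ≠ b → ∃ i : ℤ, (x ^ i) z = w) (hxb : x b = b)
    {p : ℕ} (hp : p.Prime) (hxo : orderOf x = p) (hDp : D.card = p + 1) (h6 : 6 ∣ p + 1)
    (hp2 : ¬ p ^ 2 ∣ Nat.card H)
    (hN : ∀ h ∈ H, h * x * h⁻¹ ∈ Subgroup.zpowers x → h ∈ Subgroup.zpowers x) : False := by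
  classical
  have : Fact p.Prime := ⟨hp⟩
  have : Fact (Nat.Prime 2) := ⟨Nat.prime_two⟩
  set x' : H := ⟨x, hx⟩ with hx'
  have hx'o : orderOf x' = p := by rw [← hxo, ← Subgroup.orderOf_coe]
  have hP0 : Nat.card (Subgroup.zpowers x') = p := by rw [Nat.card_zpowers, hx'o]
  obtain ⟨P, hP⟩ := (IsPGroup.of_card (n := 1) (by rw [hP0, pow_one]) :
    IsPGroup p (Subgroup.zpowers x')).exists_le_sylow
  have hPe : (P : Subgroup H) = Subgroup.zpowers x' := by
    symm
    apply Subgroup.eq_of_le_of_card_ge hP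
    obtain ⟨n, hn⟩ := P.2.exists_card_eq
    rw [hn, hP0]
    have h1 : n ≤ 1 := by
      by_contra hc
      push Not at hc
      apply hp2
      refine (pow_dvd_pow p (show 2 ≤ n by omega)).trans ?_
      rw [← hn]
      exact Subgroup.card_subgroup_dvd_card _
    calc p ^ n ≤ p ^ 1 := Nat.pow_le_pow_right hp.pos h1
      _ = p := pow_one p
  have hNle : ∀ h : H, h * x' * h⁻¹ ∈ Subgroup.zpowers x' → h ∈ Subgroup.zpowers x' := by
    intro h hh
    obtain ⟨i, hi⟩ := Subgroup.mem_zpowers_iff.mp hh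
    have h1 : (h : Perm α) * x * (h : Perm α)⁻¹ ∈ Subgroup.zpowers x := by
      refine Subgroup.mem_zpowers_iff.mpr ⟨i, ?_⟩
      have := congrArg Subtype.val hi
      simpa using this
    obtain ⟨j, hj⟩ := Subgroup.mem_zpowers_iff.mp (hN h h.2 h1)
    refine Subgroup.mem_zpowers_iff.mpr ⟨j, Subtype.ext ?_⟩
    simpa using hj
  have hcent : Subgroup.normalizer ((P : Subgroup H) : Set H) ≤ Subgroup.centralizer ((P : Subgroup H) : Set H) := by
    intro n hn
    have h1 : n ∈ Subgroup.zpowers x' := by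
      apply hNle
      rw [← hPe]
      exact (Subgroup.mem_normalizer_iff.mp hn x').mp (by rw [hPe]; exact Subgroup.mem_zpowers x')
    rw [Subgroup.mem_centralizer_iff]
    intro k hk
    have hk' : k ∈ Subgroup.zpowers x' := by rw [← hPe]; exact hk
    obtain ⟨i, rfl⟩ := Subgroup.mem_zpowers_iff.mp h1
    obtain ⟨j, rfl⟩ := Subgroup.mem_zpowers_iff.mp hk'
    rw [← zpow_add, ← zpow_add, add_comm]
  set K : Subgroup H := (MonoidHom.transferSylow P hcent).ker with hK
  have hKc : K.IsComplement' (P : Subgroup H) := MonoidHom.ker_transferSylow_isComplement' P hcent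
  have hKcard : Nat.card K * p = Nat.card H := by
    rw [← hKc.card_mul_card, hPe, hP0]
  have hKn : K.Normal := by rw [hK]; infer_instance
  have hnorm : ∀ M : Subgroup H, M.Normal → ∀ h ∈ H, ∀ m ∈ M.map H.subtype, h * m * h⁻¹ ∈ M.map H.subtype := by
    rintro M hM h hh _ ⟨m, hm, rfl⟩
    exact ⟨⟨h, hh⟩ * m * (⟨h, hh⟩)⁻¹, hM.conj_mem m hm ⟨h, hh⟩, rfl⟩
  have hcardmap : ∀ M : Subgroup H, Nat.card (M.map H.subtype) = Nat.card M := fun M =>
    Nat.card_congr (M.equivMapOfInjective H.subtype H.subtype_injective).symm.toEquiv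
  have hdvd : ∀ M : Subgroup H, M.Normal → M ≠ ⊥ → p + 1 ∣ Nat.card M := by
    intro M hM hM1
    rw [← hDp, ← hcardmap M]
    refine card_dvd_of_normalized (Subgroup.map_subtype_le M) D hHD hHt hx hbD hxc hxb (hnorm M hM) ?_
    intro hc
    apply hM1
    rwa [Subgroup.map_eq_bot_iff_of_injective _ H.subtype_injective] at hc
  have hK1 : K ≠ ⊥ := by
    intro hc
    have h1 : Nat.card H = p := by rw [← hKcard, hc, Subgroup.card_bot, one_mul]
    have h2 := hdvd ⊤ inferInstance (by
      intro hc2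
      have h3 : x' ∈ (⊤ : Subgroup H) := Subgroup.mem_top _
      rw [hc2, Subgroup.mem_bot] at h3
      rw [h3, orderOf_one] at hx'o
      exact hp.one_lt.ne hx'o)
    rw [Subgroup.card_top, h1] at h2
    have := Nat.le_of_dvd hp.pos h2
    omega
  have hKnil : Group.IsNilpotent K := by
    refine H20.Fpf.isNilpotent_of_fpf hp (Nat.card K) K le_rfl (MulAut.conjNormal x' : MulAut K) ?_ ?_
    · intro g
      rw [iterate_conjNormal, ← hx'o, pow_orderOf_eq_one, map_one, MulAut.one_apply]
    · intro g hg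
      have h1 : x' * (g : H) * x'⁻¹ = g := by
        have := congrArg Subtype.val hg
        rwa [MulAut.conjNormal_apply] at this
      have h2 : (g : H) ∈ Subgroup.zpowers x' := by
        apply hNle
        have h3 : (g : H) * x' * (g : H)⁻¹ = x' := by
          rw [mul_inv_eq_iff_eq_mul] at h1 ⊢
          exact h1.symm
        rw [h3]
        exact Subgroup.mem_zpowers x'
      have h4 : (g : H) ∈ K ⊓ (P : Subgroup H) := ⟨g.2, by rw [hPe]; exact h2⟩
      rw [hKc.disjoint.eq_bot, Subgroup.mem_bot] at h4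
      exact Subtype.ext h4
  obtain ⟨S⟩ := (inferInstance : Nonempty (Sylow 2 K))
  have hSn : (S : Subgroup K).Normal :=
    (((Group.isNilpotent_of_finite_tfae (G := K)).out 0 3 rfl rfl).1 hKnil) 2 inferInstance S
  have hSc : (S : Subgroup K).Characteristic := Sylow.characteristic_of_normal S hSn
  have hSM : ((S : Subgroup K).map K.subtype).Normal := inferInstance
  have hScard : Nat.card ((S : Subgroup K).map K.subtype) = Nat.card S :=
    Nat.card_congr ((S : Subgroup K).equivMapOfInjective K.subtype K.subtype_injective).symm.toEquiv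
  obtain ⟨j, hj⟩ := S.2.exists_card_eq
  have h2K : 2 ∣ Nat.card K := ((show 2 ∣ 6 by norm_num).trans h6).trans (hdvd K hKn hK1)
  have hS1 : ((S : Subgroup K).map K.subtype) ≠ ⊥ := by
    intro hc
    have h1 : Nat.card S = 1 := by rw [← hScard, hc, Subgroup.card_bot]
    have h2 : 2 ∣ Nat.card S := S.dvd_card_of_dvd_card h2K
    rw [h1] at h2
    omega
  have h3 := hdvd _ hSM hS1
  rw [hScard, hj] at h3
  have h4 : 3 ∣ 2 ^ j := ((show 3 ∣ 6 by norm_num).trans h6).trans h3
  have h5 := Nat.prime_three.dvd_of_dvd_pow h4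
  omega

end Cfsg.Agent.H24
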