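import Cfsg.Agent.H24.AltGen2
import Cfsg.Agent.H5.Small

set_option autoImplicit false

/-!
# H24.AltGen3: degree 7 and degree 6
-/

namespace Cfsg.Agent.H24

open Equiv Equiv.Perm MulAction

universe u

theorem card_eq_mul_stab {α : Type*} [Fintype α] [DecidableEq α] {H : Subgroup (Perm α)}
    (D : Finset α) (hHD : ∀ h ∈ H, ∀ z ∈ D, h z ∈ D)
    (hHt : ∀ z ∈ D, ∀ w ∈ D, ∃ h ∈ H, h z = w) {b : α} (hb : b ∈ D) :
    Nat.card H = D.card * Nat.card (H ⊓ stabilizer (Perm α) b : Subgroup (Perm α)) := by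
  have h3 : orbit H b = (D : Set α) := by
    ext w
    constructor
    · rintro ⟨k, rfl⟩
      exact hHD k k.2 b hb
    · intro hw
      obtain ⟨k, hk, hkw⟩ := hHt b hb w hw
      exact ⟨⟨k, hk⟩, hkw⟩
  have h4 : Nat.card (orbit H b) = D.card := by
    rw [h3]
    simp
  have h5 : Nat.card (stabilizer H b) = Nat.card (H ⊓ stabilizer (Perm α) b : Subgroup (Perm α)) := by
    have h6 : (stabilizer H b) = (H ⊓ stabilizer (Perm α) b).subgroupOf H := by
      ext h
      rw [mem_stabilizer_iff, Subgroup.mem_subgroupOf, Subgroup.mem_inf]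
      exact ⟨fun hh => ⟨h.2, hh⟩, fun hh => hh.2⟩
    rw [h6]
    exact Nat.card_congr (Subgroup.subgroupOfEquivOfLe inf_le_left).toEquiv
  rw [← h4, ← h5, ← Nat.card_prod]
  exact (Nat.card_congr (orbitProdStabilizerEquivGroup H b)).symm

theorem eq_alt_of_card {α : Type*} [Fintype α] [DecidableEq α] (h5 : 5 ≤ Nat.card α) {G : Subgroup (Perm α)}
    (hGe : G ≤ alternatingGroup α) {k : ℕ} (hk : Nat.card (alternatingGroup α) ≤ k * Nat.card G)
    (hk2 : k.factorial < Nat.card (alternatingGroup α)) : G = alternatingGroup α := by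
  classical
  have := alternatingGroup.isSimpleGroup h5
  set G' := G.subgroupOf (alternatingGroup α) with hG'
  have hcard : Nat.card G' = Nat.card G :=
    Nat.card_congr (Subgroup.subgroupOfEquivOfLe hGe).toEquiv
  have h1 := G'.index_mul_card
  rw [hcard] at h1
  have hGpos : 0 < Nat.card G := Nat.card_pos
  have h2 : G'.index ≤ k := by
    by_contra hc
    push Not at hc
    have := Nat.mul_lt_mul_of_pos_right hc hGpos
    omega
  by_cases ht : G' = ⊤
  · rw [hG', Subgroup.subgroupOf_eq_top] at ht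
    exact le_antisymm hGe ht
  exfalso
  have h3 := Nat.card_le_card_of_injective _ (H5.toPermHom_injective_of_simple G' ht)
  rw [Nat.card_perm] at h3
  have h4 : Nat.card (alternatingGroup α ⧸ G') = G'.index := rfl
  rw [h4] at h3
  have h5 := Nat.factorial_le h2
  omega

theorem dvd_fact_half {α : Type*} [Fintype α] [DecidableEq α] [Nontrivial α] {G : Subgroup (Perm α)}
    (hGe : G ≤ alternatingGroup α) : 2 * Nat.card G ∣ (Fintype.card α).factorial := by
  have h1 := two_mul_card_alternatingGroup (α := α)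
  rw [Fintype.card_perm] at h1
  rw [← h1, ← Nat.card_eq_fintype_card]
  exact Nat.mul_dvd_mul_left 2 (Subgroup.card_dvd_of_le hGe)

theorem cycle_zpow {α : Type*} [Fintype α] [DecidableEq α] {x : Perm α} (hxc : x.IsCycle) {z w : α}
    (hz : z ∈ x.support) (hw : w ∈ x.support) : ∃ i : ℤ, (x ^ i) z = w :=
  hxc.sameCycle (mem_support.mp hz) (mem_support.mp hw)

theorem orderOf_cycle {α : Type*} [Fintype α] [DecidableEq α] {x : Perm α} (hxc : x.IsCycle) {p : ℕ}
    (hxp : x.support.card = p) : orderOf x = p := by rw [hxc.orderOf, hxp]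

theorem move_of_trans {α : Type*} {G : Subgroup (Perm α)} {k : ℕ} (hG : IsMultiplyPretransitive G α k)
    {u v : Fin k → α} (hu : Function.Injective u) (hv : Function.Injective v) :
    ∃ g ∈ G, ∀ i, g (u i) = v i := by
  obtain ⟨g, hg⟩ := hG.exists_smul_eq (⟨u, hu⟩ : Fin k ↪ α) ⟨v, hv⟩
  refine ⟨g, g.2, fun i => ?_⟩
  have := congrArg (fun e : Fin k ↪ α => e i) hg
  exact this

theorem inj2 {α : Type*} {a b : α} (h : a ≠ b) : Function.Injective ![a, b] := by
  intro i j hij
  fin_cases i <;> fin_cases j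
  · rfl
  · exact absurd hij h
  · exact absurd hij.symm h
  · rfl

/-- Data on the two fixed points of a `p`-cycle in a 2-transitive group of degree `p + 2`. -/
theorem two_points {α : Type u} [Fintype α] [DecidableEq α] {G : Subgroup (Perm α)} {p : ℕ} (hp : p.Prime)
    (hα : Fintype.card α = p + 2) (hG2 : IsMultiplyPretransitive G α 2) {x : Perm α} (hx : x ∈ G)
    (hxc : x.IsCycle) (hxp : x.support.card = p) (h6 : 6 ∣ p + 1)
    (hp2 : ¬ p ^ 2 ∣ Nat.card G) :
    ∃ a b : α, a ≠ b ∧ x.supportᶜ = {a, b} ∧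
      ∃ Y : Subgroup (Perm α), Y = G ⊓ stabilizer (Perm α) a ⊓ stabilizer (Perm α) b ∧ x ∈ Y ∧
        Nat.card G = (p + 2) * ((p + 1) * Nat.card Y) ∧
        ∃ h ∈ Y, h * x * h⁻¹ ∈ Subgroup.zpowers x ∧ h ∉ Subgroup.zpowers x := by
  classical
  have h1 : (x.supportᶜ).card = 2 := by rw [Finset.card_compl, hxp, hα]; omega
  obtain ⟨a, b, hab, hxab⟩ := Finset.card_eq_two.mp h1
  have hsup : ∀ z, z ∈ x.support ↔ z ≠ a ∧ z ≠ b := by
    intro z
    have : z ∈ x.supportᶜ ↔ z = a ∨ z = b := by rw [hxab, Finset.mem_insert, Finset.mem_singleton]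
    rw [Finset.mem_compl] at this
    constructor
    · intro h
      constructor
      · rintro rfl
        exact this.mpr (Or.inl rfl) h
      · rintro rfl
        exact this.mpr (Or.inr rfl) h
    · rintro ⟨h2, h3⟩
      by_contra hc
      rcases this.mp hc with h | h
      · exact h2 h
      · exact h3 h
  have hxa : x a = a := by
    by_contra hc
    exact ((hsup a).mp (mem_support.mpr hc)).1 rfl
  have hxb : x b = b := by
    by_contra hc
    exact ((hsup b).mp (mem_support.mpr hc)).2 rfl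
  set H : Subgroup (Perm α) := G ⊓ stabilizer (Perm α) a with hH
  set Y : Subgroup (Perm α) := H ⊓ stabilizer (Perm α) b with hY
  have hxH : x ∈ H := ⟨hx, hxa⟩
  have hxY : x ∈ Y := ⟨hxH, hxb⟩
  have h2t : ∀ z ∈ (Finset.univ.erase a : Finset α), ∀ w ∈ (Finset.univ.erase a : Finset α), ∃ h ∈ H, h z = w := by
    intro z hz w hw
    have hza : z ≠ a := (Finset.mem_erase.mp hz).1
    have hwa : w ≠ a := (Finset.mem_erase.mp hw).1
    obtain ⟨g, hg, hg2⟩ := move_of_trans hG2 (u := ![a, z]) (v := ![a, w])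
      (inj2 hza.symm) (inj2 hwa.symm)
    exact ⟨g, ⟨hg, hg2 0⟩, hg2 1⟩
  have h1t : ∀ z ∈ (Finset.univ : Finset α), ∀ w ∈ (Finset.univ : Finset α), ∃ h ∈ G, h z = w := by
    intro z _ w _
    have : IsPretransitive G α := by
      rw [← is_one_pretransitive_iff]
      exact isMultiplyPretransitive_of_le' (by norm_num : 1 ≤ 2) (by
        rw [ENat.card_eq_coe_natCard, Nat.card_eq_fintype_card, hα]
        exact_mod_cast (by omega : 2 ≤ p + 2))
    obtain ⟨g, hg⟩ := this.exists_smul_eq z w
    exact ⟨g, g.2, hg⟩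
  have hHmaps : ∀ h ∈ H, ∀ z ∈ (Finset.univ.erase a : Finset α), h z ∈ (Finset.univ.erase a : Finset α) := by
    intro h hh z hz
    refine Finset.mem_erase.mpr ⟨?_, Finset.mem_univ _⟩
    intro hc
    have h3 : h a = a := hh.2
    have h4 : h z = h a := by rw [hc, h3]
    exact (Finset.mem_erase.mp hz).1 (h.injective h4)
  have hbD : b ∈ (Finset.univ.erase a : Finset α) := Finset.mem_erase.mpr ⟨hab.symm, Finset.mem_univ _⟩
  have hDc : (Finset.univ.erase a : Finset α).card = p + 1 := by
    rw [Finset.card_erase_of_mem (Finset.mem_univ _), Finset.card_univ, hα]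
    rfl
  have hc1 : Nat.card G = (p + 2) * Nat.card H := by
    rw [card_eq_mul_stab Finset.univ (fun _ _ _ _ => Finset.mem_univ _) h1t (Finset.mem_univ a),
      Finset.card_univ, hα]
  have hc2 : Nat.card H = (p + 1) * Nat.card Y := by
    rw [card_eq_mul_stab (Finset.univ.erase a) hHmaps h2t hbD, hDc]
  refine ⟨a, b, hab, hxab, Y, rfl, hxY, by rw [hc1, hc2], ?_⟩
  by_contra hc
  push Not at hc
  refine not_self_norm (H := H) (Finset.univ.erase a) ?_ h2t hxH hbD ?_ hxb hp (orderOf_cycle hxc hxp) hDc h6 ?_ ?_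
  · intro h hh z hz
    have : z = a := by
      by_contra hza
      exact hz (Finset.mem_erase.mpr ⟨hza, Finset.mem_univ _⟩)
    rw [this]
    exact hh.2
  · intro z hz w hw hzb hwb
    exact cycle_zpow hxc ((hsup z).mpr ⟨(Finset.mem_erase.mp hz).1, hzb⟩)
      ((hsup w).mpr ⟨(Finset.mem_erase.mp hw).1, hwb⟩)
  · intro hd
    apply hp2
    rw [hc1]
    exact hd.mul_left _
  · intro h hh hhx
    refine hc h ⟨hh, ?_⟩ hhx
    -- `h` fixes `b`
    have h3 : h a = a := hh.2
    obtain ⟨i, hi⟩ := Subgroup.mem_zpowers_iff.mp hhx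
    have h4 : (h * x * h⁻¹) b = b := by
      rw [← hi]
      exact zpow_apply_eq_self_of_apply_eq_self hxb i
    rw [Perm.mul_apply, Perm.mul_apply] at h4
    have h5 : x (h⁻¹ b) = h⁻¹ b := by
      apply h.injective
      rw [h4]
      exact (h.apply_symm_apply b).symm
    have h6 : h⁻¹ b ≠ a := by
      intro hc
      rw [Perm.inv_eq_iff_eq] at hc
      rw [h3] at hc
      exact hab hc.symm
    have h7 : h⁻¹ b = b := by
      by_contra hc
      exact (mem_support.mp ((hsup _).mpr ⟨h6, hc⟩)) h5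
    show h b = b
    rw [Perm.inv_eq_iff_eq] at h7
    exact h7.symm

theorem deg7 {α : Type u} [Fintype α] [DecidableEq α] (hα : Fintype.card α = 7) {G : Subgroup (Perm α)}
    (hGe : G ≤ alternatingGroup α) (hG2 : IsMultiplyPretransitive G α 2) {x : Perm α} (hx : x ∈ G)
    (hxc : x.IsCycle) (hxp : x.support.card = 5) : G = alternatingGroup α := by
  classical
  have : Nontrivial α := Fintype.one_lt_card_iff_nontrivial.mp (by rw [hα]; norm_num)
  have hd : 2 * Nat.card G ∣ 5040 := by
    have := dvd_fact_half hGe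
    rw [hα] at this
    exact this
  have hp2 : ¬ 5 ^ 2 ∣ Nat.card G := by
    intro h
    have h1 : 5 ^ 2 ∣ 5040 := (h.mul_left 2).trans hd
    omega
  obtain ⟨a, b, hab, hxab, Y, hY, hxY, hcG, h, hhY, hh1, hh2⟩ := two_points (by norm_num) (by rw [hα]) hG2 hx hxc hxp
    (by norm_num) hp2
  have hzY : Subgroup.zpowers x ≤ Y := (Subgroup.zpowers_le).mpr hxY
  have hzc : Nat.card (Subgroup.zpowers x) = 5 := by rw [Nat.card_zpowers, orderOf_cycle hxc hxp]
  have h5d : 5 ∣ Nat.card Y := by rw [← hzc]; exact Subgroup.card_dvd_of_le hzY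
  have h10 : 10 ≤ Nat.card Y := by
    obtain ⟨k, hk⟩ := h5d
    have hk1 : k ≠ 1 := by
      rintro rfl
      apply hh2
      have : Subgroup.zpowers x = Y := Subgroup.eq_of_le_of_card_ge hzY (by rw [hk, hzc])
      rw [this]
      exact hhY
    have hk0 : k ≠ 0 := by
      rintro rfl
      have : 0 < Nat.card Y := Nat.card_pos
      omega
    omega
  have hA : Nat.card (alternatingGroup α) = 2520 := by
    have h1 := two_mul_card_alternatingGroup (α := α)
    rw [Fintype.card_perm, hα, ← Nat.card_eq_fintype_card] at h1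
    have : Nat.factorial 7 = 5040 := rfl
    omega
  refine eq_alt_of_card (k := 6) (by rw [Nat.card_eq_fintype_card, hα]; norm_num) hGe ?_ ?_
  · rw [hA, hcG]
    omega
  · rw [hA]
    decide

end Cfsg.Agent.H24
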