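import Cfsg.Agent.H24.AltGen3

set_option autoImplicit false

/-!
# H24.AltGen4: degree 13
-/

namespace Cfsg.Agent.H24

open Equiv Equiv.Perm MulAction

universe u

theorem cycleOf_card {α : Type*} [Fintype α] [DecidableEq α] {r : Perm α} {p : ℕ} (hp : p.Prime)
    (hro : orderOf r = p) {z : α} (hz : z ∈ r.support) : (r.cycleOf z).support.card = p := by
  obtain ⟨n, hn⟩ := cycleType_prime_order (σ := r) (by rw [hro]; exact hp)
  have h3 : (r.cycleOf z).support.card ∈ r.cycleType := by
    rw [cycleType_def, Multiset.mem_map]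
    exact ⟨r.cycleOf z, cycleOf_mem_cycleFactorsFinset_iff.mpr hz, rfl⟩
  rw [hn, hro] at h3
  exact Multiset.eq_of_mem_replicate h3

theorem five_cycle {α : Type*} [Fintype α] [DecidableEq α] {u : Perm α} (ho : orderOf u = 5)
    (hs : u.support.card ≤ 9) : u.IsCycle ∧ u.support.card = 5 := by
  obtain ⟨n, hn⟩ := cycleType_prime_order (σ := u) (by rw [ho]; norm_num)
  have h1 := sum_cycleType u
  rw [hn, ho, Multiset.sum_replicate, smul_eq_mul] at h1
  have hn0 : n = 0 := by omega
  subst hn0
  refine ⟨?_, by omega⟩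
  rw [← card_cycleType_eq_one, hn]
  simp

theorem conj_pow_pow {G : Type*} [Group G] {n r : G} {i : ℕ} (h : n * r * n⁻¹ = r ^ i) (k : ℕ) :
    n ^ k * r * (n ^ k)⁻¹ = r ^ (i ^ k) := by
  induction k with
  | zero => simp
  | succ k ih =>
    rw [pow_succ' n k]
    calc n * n ^ k * r * (n * n ^ k)⁻¹ = n * (n ^ k * r * (n ^ k)⁻¹) * n⁻¹ := by group
      _ = n * r ^ (i ^ k) * n⁻¹ := by rw [ih]
      _ = (n * r * n⁻¹) ^ (i ^ k) := by rw [conj_pow]
      _ = r ^ (i ^ (k + 1)) := by rw [h, ← pow_mul, pow_succ, mul_comm]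

theorem sameCycle_of_not_disjoint {α : Type*} [Fintype α] [DecidableEq α] {r : Perm α} {z w : α}
    (h : ¬ Disjoint (r.cycleOf z).support (r.cycleOf w).support) : ∃ i : ℤ, (r ^ i) z = w := by
  rw [Finset.not_disjoint_iff] at h
  obtain ⟨v, h1, h2⟩ := h
  exact (mem_support_cycleOf_iff.mp h1).1.trans (mem_support_cycleOf_iff.mp h2).1.symm

theorem three_cycle_of_five {α : Type u} [Fintype α] [DecidableEq α] (hα : Fintype.card α = 13)
    {G : Subgroup (Perm α)} (hG3 : IsMultiplyPretransitive G α 3) {r : Perm α} (hr : r ∈ G)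
    (hro : orderOf r = 5) {a b c : α} (hab : a ≠ b) (hac : a ≠ c) (hbc : b ≠ c) (hra : r a = a)
    (hrb : r b = b) (hrc : r c = c) :
    (∃ g ∈ G, g.IsCycle ∧ g.support.card = 5) ∨ (∃ g ∈ G, g.IsThreeCycle) := by
  classical
  have : Fact (Nat.Prime 5) := ⟨by norm_num⟩
  by_cases hno : ∃ g ∈ G, g.IsCycle ∧ g.support.card = 5
  · exact Or.inl hno
  right
  have hno' : ∀ u ∈ G, orderOf u = 5 → 10 ≤ u.support.card := by
    intro u hu huo
    by_contra hc
    exact hno ⟨u, hu, five_cycle huo (by omega)⟩
  have hsub : ∀ u : Perm α, u a = a → u b = b → u c = c → u.support ⊆ Finset.univ \ {a, b, c} := by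
    intro u h1 h2 h3 z hz
    rw [Finset.mem_sdiff]
    refine ⟨Finset.mem_univ _, ?_⟩
    rw [Finset.mem_insert, Finset.mem_insert, Finset.mem_singleton]
    rw [mem_support] at hz
    rintro (rfl | rfl | rfl)
    · exact hz h1
    · exact hz h2
    · exact hz h3
  have h3c : ({a, b, c} : Finset α).card = 3 := Finset.card_eq_three.mpr ⟨a, b, c, hab, hac, hbc, rfl⟩
  have h10 : (Finset.univ \ ({a, b, c} : Finset α)).card = 10 := by
    rw [Finset.card_sdiff_of_subset (Finset.subset_univ _), Finset.card_univ, hα, h3c]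
  have hrs : r.support = Finset.univ \ {a, b, c} :=
    Finset.eq_of_subset_of_card_le (hsub r hra hrb hrc) (by rw [h10]; exact hno' r hr hro)
  have hinj : ∀ {x y z : α}, x ≠ y → x ≠ z → y ≠ z → Function.Injective ![x, y, z] := by
    intro x y z h1 h2 h3 i j hij
    fin_cases i <;> fin_cases j
    · rfl
    · exact absurd hij h1
    · exact absurd hij h2
    · exact absurd hij.symm h1
    · rfl
    · exact absurd hij h3
    · exact absurd hij.symm h2
    · exact absurd hij.symm h3
    · rfl
  let e : Fin 3 ↪ α := ⟨![a, b, c], hinj hab hac hbc⟩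
  let e' : Fin 3 ↪ α := ⟨![b, c, a], hinj hbc hab.symm hac.symm⟩
  let r' : G := ⟨r, hr⟩
  have hr'o : orderOf r' = 5 := by rw [← hro, ← Subgroup.orderOf_coe]
  have hPc : Nat.card (Subgroup.zpowers r') = 5 := by rw [Nat.card_zpowers, hr'o]
  have hfix : ∀ (g : G) (f : Fin 3 ↪ α), (∀ i, (g : Perm α) (f i) = f i) → g ∈ stabilizer G f := by
    intro g f h
    rw [mem_stabilizer_iff]
    ext i
    exact h i
  have hre : r' ∈ stabilizer G e := hfix r' e (by
    intro i
    fin_cases i
    · exact hra
    · exact hrb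
    · exact hrc)
  have hre' : r' ∈ stabilizer G e' := hfix r' e' (by
    intro i
    fin_cases i
    · exact hrb
    · exact hrc
    · exact hra)
  obtain ⟨n, hn, hne⟩ := H21.normalizer_transitive_fixed (G := G) (Ω := Fin 3 ↪ α) (p := 5)
    (fun u v => hG3.exists_smul_eq u v) e e' (Subgroup.zpowers r')
    (IsPGroup.of_card (n := 1) (by rw [hPc, pow_one])) (Subgroup.zpowers_le.mpr hre)
    (Subgroup.zpowers_le.mpr hre') (by
      intro hd
      have h1 : 5 ^ 2 ∣ Nat.card (stabilizer G e) := by
        rw [← Subgroup.relIndex_bot_left, ← Subgroup.relIndex_mul_relIndex ⊥ (Subgroup.zpowers r')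
          (stabilizer G e) bot_le (Subgroup.zpowers_le.mpr hre), Subgroup.relIndex_bot_left, hPc, pow_two]
        exact Nat.mul_dvd_mul_left 5 hd
      obtain ⟨R, hR⟩ := Sylow.exists_subgroup_card_pow_prime 5 h1
      -- pick `z` in the support of `r`
      obtain ⟨z, hz⟩ : ∃ z, z ∈ r.support := by
        have : 0 < r.support.card := by rw [hrs, h10]; norm_num
        exact Finset.card_pos.mp this
      have h2 : Nat.card (orbit R z) * Nat.card (stabilizer R z) = 5 ^ 2 := by
        rw [← Nat.card_prod, Nat.card_congr (orbitProdStabilizerEquivGroup R z), hR]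
      have hRfix : ∀ (u : R) (i : Fin 3), (((u : stabilizer G e) : G) : Perm α) (e i) = e i := by
        intro u i
        have := u.1.2
        rw [mem_stabilizer_iff] at this
        exact congrArg (fun f : Fin 3 ↪ α => f i) this
      have h3 : Nat.card (orbit R z) ≤ 10 := by
        rw [← h10, ← hrs, ← Set.ncard_coe_finset, ← Nat.card_coe_set_eq]
        apply Nat.card_mono (Finset.finite_toSet _)
        rintro _ ⟨u, rfl⟩
        show (((u : stabilizer G e) : G) : Perm α) z ∈ (r.support : Set α)
        rw [Finset.mem_coe, hrs, Finset.mem_sdiff] at *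
        refine ⟨Finset.mem_univ _, ?_⟩
        intro hc
        apply hz.2
        rw [Finset.mem_insert, Finset.mem_insert, Finset.mem_singleton] at hc ⊢
        rcases hc with hc | hc | hc
        · left
          exact (((u : stabilizer G e) : G) : Perm α).injective (hc.trans (hRfix u 0).symm)
        · right; left
          exact (((u : stabilizer G e) : G) : Perm α).injective (hc.trans (hRfix u 1).symm)
        · right; right
          exact (((u : stabilizer G e) : G) : Perm α).injective (hc.trans (hRfix u 2).symm)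
      have h4 : 5 ∣ Nat.card (stabilizer R z) := by
        have h5 : Nat.card (stabilizer R z) ∣ 5 ^ 2 := ⟨_, by rw [← h2, mul_comm]⟩
        obtain ⟨j, hj, hj2⟩ := (Nat.dvd_prime_pow (by norm_num : Nat.Prime 5)).mp h5
        rw [hj2]
        rcases Nat.eq_zero_or_pos j with h0 | h0
        · rw [h0, pow_zero] at hj2
          rw [hj2] at h2
          omega
        · exact dvd_pow_self 5 (by omega)
      obtain ⟨u, hu⟩ := exists_prime_orderOf_dvd_card' 5 h4
      have huo : orderOf ((((u : R) : stabilizer G e) : G) : Perm α) = 5 := by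
        rw [Subgroup.orderOf_coe, Subgroup.orderOf_coe, Subgroup.orderOf_coe, Subgroup.orderOf_coe, hu]
      have h6 := hno' _ (((u : R) : stabilizer G e) : G).2 huo
      have h7 := hsub ((((u : R) : stabilizer G e) : G) : Perm α) (hRfix (u : R) 0) (hRfix (u : R) 1) (hRfix (u : R) 2)
      have h8 := Finset.eq_of_subset_of_card_le h7 (by rw [h10]; exact h6)
      rw [← hrs] at h8
      rw [← h8, mem_support] at hz
      exact hz u.2)
  have hna : (n : Perm α) a = b := congrArg (fun f : Fin 3 ↪ α => f 0) hne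
  have hnb : (n : Perm α) b = c := congrArg (fun f : Fin 3 ↪ α => f 1) hne
  have hnc : (n : Perm α) c = a := congrArg (fun f : Fin 3 ↪ α => f 2) hne
  have hconj : n * r' * n⁻¹ ∈ Subgroup.zpowers r' :=
    (Subgroup.mem_normalizer_iff.mp hn r').mp (Subgroup.mem_zpowers r')
  rw [← mem_powers_iff_mem_zpowers] at hconj
  obtain ⟨i, hi⟩ := hconj
  have hi' : n * r' * n⁻¹ = r' ^ i := hi.symm
  have h4 := conj_pow_pow hi' 4
  have hi4 : r' ^ (i ^ 4) = r' := by
    have hi0 : ¬ 5 ∣ i := by
      intro hd
      rw [← hr'o] at hd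
      rw [orderOf_dvd_iff_pow_eq_one.mp hd] at hi'
      have : r' = 1 := by
        have := conj_eq_one_iff.mp hi'
        exact this
      rw [this, orderOf_one] at hr'o
      omega
    have h5 : i ^ 4 ≡ 1 [MOD 5] := by
      have h6 : i % 5 = 1 ∨ i % 5 = 2 ∨ i % 5 = 3 ∨ i % 5 = 4 := by omega
      rw [Nat.ModEq, Nat.pow_mod]
      rcases h6 with h | h | h | h <;> rw [h]
    calc r' ^ (i ^ 4) = r' ^ 1 := pow_eq_pow_iff_modEq.mpr (by rw [hr'o]; exact h5)
      _ = r' := pow_one _
  rw [hi4] at h4
  set h : Perm α := ((n ^ 4 : G) : Perm α) with hh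
  have hhG : h ∈ G := (n ^ 4 : G).2
  have hcomm : h * r = r * h := by
    have := congrArg Subtype.val (mul_inv_eq_iff_eq_mul.mp h4)
    exact this
  have hn4 : ∀ z, h z = (n : Perm α) ((n : Perm α) ((n : Perm α) ((n : Perm α) z))) := by
    intro z
    rfl
  have hha : h a = b := by rw [hn4, hna, hnb, hnc, hna]
  have hhb : h b = c := by rw [hn4, hnb, hnc, hna, hnb]
  have hhc : h c = a := by rw [hn4, hnc, hna, hnb, hnc]
  have hcz : ∀ (i : ℤ) (z : α), h ((r ^ i) z) = (r ^ i) (h z) := by
    intro i z
    have h5 : Commute h (r ^ i) := (show Commute h r from hcomm).zpow_right i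
    exact congrArg (fun f : Perm α => f z) h5.eq
  have hmaps : ∀ z ∈ r.support, h z ∈ r.support := by
    intro z hz
    rw [mem_support] at hz ⊢
    intro hc
    apply hz
    apply h.injective
    have := hcz 1 z
    rw [zpow_one] at this
    rw [this, hc]
  have hone : ∀ z ∈ r.support, (∃ i : ℤ, (r ^ i) z = h z) → ∃ i : ℤ, h (h z) = (r ^ i) z := by
    rintro z hz ⟨i, hi⟩
    refine ⟨i + i, ?_⟩
    rw [← hi, hcz, ← hi, zpow_add, Perm.mul_apply]
  have hsq : ∀ z ∈ r.support, ∃ i : ℤ, h (h z) = (r ^ i) z := by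
    intro z hz
    by_cases h1 : Disjoint (r.cycleOf z).support (r.cycleOf (h z)).support
    swap
    · exact hone z hz (sameCycle_of_not_disjoint h1)
    by_cases h2 : Disjoint (r.cycleOf (h z)).support (r.cycleOf (h (h z))).support
    swap
    · obtain ⟨i, hi⟩ := sameCycle_of_not_disjoint h2
      refine hone z hz ⟨i, ?_⟩
      apply h.injective
      rw [hcz, hi]
    by_cases h3 : Disjoint (r.cycleOf z).support (r.cycleOf (h (h z))).support
    swap
    · obtain ⟨i, hi⟩ := sameCycle_of_not_disjoint h3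
      exact ⟨i, hi.symm⟩
    exfalso
    have hz1 := hmaps z hz
    have hz2 := hmaps _ hz1
    have e1 := cycleOf_card (by norm_num : Nat.Prime 5) hro hz
    have e2 := cycleOf_card (by norm_num : Nat.Prime 5) hro hz1
    have e3 := cycleOf_card (by norm_num : Nat.Prime 5) hro hz2
    have h4 : ((r.cycleOf z).support ∪ (r.cycleOf (h z)).support ∪ (r.cycleOf (h (h z))).support).card = 15 := by
      rw [Finset.card_union_of_disjoint, Finset.card_union_of_disjoint h1, e1, e2, e3]
      rw [Finset.disjoint_union_left]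
      exact ⟨h3, h2⟩
    have h5 : ((r.cycleOf z).support ∪ (r.cycleOf (h z)).support ∪ (r.cycleOf (h (h z))).support) ⊆ r.support := by
      refine Finset.union_subset (Finset.union_subset ?_ ?_) ?_ <;> exact support_cycleOf_le _ _
    have h6 := Finset.card_le_card h5
    rw [h4, hrs, h10] at h6
    omega
  have hten : ∀ z ∈ r.support, (h ^ 10) z = z := by
    intro z hz
    obtain ⟨i, hi⟩ := hsq z hz
    have h1 : ∀ k : ℕ, ((h ^ 2) ^ k) z = (r ^ (i * k)) z := by
      intro k
      induction k with
      | zero => simp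
      | succ k ih =>
        rw [pow_succ', Perm.mul_apply, ih]
        have h2 : (h ^ 2) ((r ^ (i * (k : ℤ))) z) = h (h ((r ^ (i * (k : ℤ))) z)) := rfl
        rw [h2, hcz, hcz, hi, ← Perm.mul_apply, ← zpow_add]
        congr 2
        push_cast
        ring
    have h2 := h1 5
    rw [← pow_mul] at h2
    rw [show (10 : ℕ) = 2 * 5 by norm_num, h2]
    have h3 : r ^ (i * ((5 : ℕ) : ℤ)) = 1 := by
      rw [mul_comm, zpow_mul, zpow_natCast, ← hro, pow_orderOf_eq_one, one_zpow]
    rw [h3, Perm.one_apply]
  have h10' : ∀ z, (h ^ 10) z = h (h (h (h (h (h (h (h (h (h z))))))))) := fun z => rfl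
  refine ⟨h ^ 10, G.pow_mem hhG 10, ?_⟩
  rw [← card_support_eq_three_iff]
  have hsupp : (h ^ 10).support = {a, b, c} := by
    ext z
    rw [mem_support, Finset.mem_insert, Finset.mem_insert, Finset.mem_singleton]
    constructor
    · intro h1
      by_contra hc
      apply h1
      apply hten
      rw [hrs, Finset.mem_sdiff, Finset.mem_insert, Finset.mem_insert, Finset.mem_singleton]
      exact ⟨Finset.mem_univ _, hc⟩
    · rintro (rfl | rfl | rfl)
      · rw [h10']
        simp only [hha, hhb, hhc]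
        exact hab.symm
      · rw [h10']
        simp only [hha, hhb, hhc]
        exact hbc.symm
      · rw [h10']
        simp only [hha, hhb, hhc]
        exact hac
  rw [hsupp, h3c]

end Cfsg.Agent.H24
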