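import Cfsg.Agent.H24.AltGen4

set_option autoImplicit false

/-!
# H24.AltGen5: degree 13, continued
-/

namespace Cfsg.Agent.H24

open Equiv Equiv.Perm MulAction

universe u

theorem mem_zpowers_of_comm_cycle {α : Type*} [Fintype α] [DecidableEq α] {x u : Perm α} (hxc : x.IsCycle)
    (hcomm : u * x = x * u) (hu : ∀ z, z ∉ x.support → u z = z) : u ∈ Subgroup.zpowers x := by
  obtain ⟨z, hz, -⟩ := id hxc
  have hz' : z ∈ x.support := mem_support.mpr hz
  have hcz : ∀ (i : ℤ) (z : α), u ((x ^ i) z) = (x ^ i) (u z) := by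
    intro i z
    have h5 : Commute u (x ^ i) := (show Commute u x from hcomm).zpow_right i
    exact congrArg (fun f : Perm α => f z) h5.eq
  have huz : u z ∈ x.support := by
    by_contra hc
    have h1 := hu _ hc
    have h2 := u.injective h1
    rw [h2] at hc
    exact hc hz'
  obtain ⟨i, hi⟩ := cycle_zpow hxc hz' huz
  refine Subgroup.mem_zpowers_iff.mpr ⟨i, ?_⟩
  ext w
  by_cases hw : w ∈ x.support
  · obtain ⟨k, rfl⟩ := cycle_zpow hxc hz' hw
    rw [hcz, ← hi, ← Perm.mul_apply, ← Perm.mul_apply, ← zpow_add, ← zpow_add, add_comm]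
  · rw [hu w hw]
    exact zpow_apply_eq_self_of_apply_eq_self (notMem_support.mp hw) i

theorem deg13 {α : Type u} [Fintype α] [DecidableEq α] (hα : Fintype.card α = 13) {G : Subgroup (Perm α)}
    (hGe : G ≤ alternatingGroup α) (hprim : IsPreprimitive G α) (hG3 : IsMultiplyPretransitive G α 3)
    {x : Perm α} (hx : x ∈ G)
    (hxc : x.IsCycle) (hxp : x.support.card = 11) : G = alternatingGroup α := by
  classical
  have : Nontrivial α := Fintype.one_lt_card_iff_nontrivial.mp (by rw [hα]; norm_num)
  have hd : 2 * Nat.card G ∣ Nat.factorial 13 := by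
    have := dvd_fact_half hGe
    rwa [hα] at this
  have hp2 : ¬ 11 ^ 2 ∣ Nat.card G := by
    intro h
    have h1 : 11 ^ 2 ∣ Nat.factorial 13 := (h.mul_left 2).trans hd
    have h2 : Nat.factorial 13 = 6227020800 := rfl
    rw [h2] at h1
    omega
  have hG2 : IsMultiplyPretransitive G α 2 :=
    isMultiplyPretransitive_of_le' (by norm_num : 2 ≤ 3) (by
        rw [ENat.card_eq_coe_natCard, Nat.card_eq_fintype_card, hα]
        exact_mod_cast (by norm_num : 3 ≤ 13))
  obtain ⟨a, b, hab, hxab, Y, hY, hxY, -, h, hhY, hh1, hh2⟩ := two_points (by norm_num) (by rw [hα]) hG2 hx hxc hxp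
    (by norm_num) hp2
  have hxo : orderOf x = 11 := orderOf_cycle hxc hxp
  have hYG : Y ≤ G := by rw [hY]; exact inf_le_left.trans inf_le_left
  have hYa : ∀ u ∈ Y, u a = a := by
    intro u hu
    rw [hY] at hu
    exact hu.1.2
  have hYb : ∀ u ∈ Y, u b = b := by
    intro u hu
    rw [hY] at hu
    exact hu.2
  have hout : ∀ z, z ∉ x.support → z = a ∨ z = b := by
    intro z hz
    have : z ∈ x.supportᶜ := Finset.mem_compl.mpr hz
    rwa [hxab, Finset.mem_insert, Finset.mem_singleton] at this
  have hYout : ∀ u ∈ Y, ∀ z, z ∉ x.support → u z = z := by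
    intro u hu z hz
    rcases hout z hz with rfl | rfl
    · exact hYa u hu
    · exact hYb u hu
  have hab' : ∀ u ∈ Y, u.support ⊆ x.support := by
    intro u hu z hz
    by_contra hc
    exact (mem_support.mp hz) (hYout u hu z hc)
  have hcent : ∀ u ∈ Y, u * x = x * u → u ∈ Subgroup.zpowers x := fun u hu hc =>
    mem_zpowers_of_comm_cycle hxc hc (hYout u hu)
  have hx1 : x ≠ 1 := by rintro rfl; rw [orderOf_one] at hxo; omega
  -- elements of Y normalizing `⟨x⟩`
  have hnorm : ∀ u ∈ Y, u * x * u⁻¹ ∈ Subgroup.zpowers x → ∃ i : ℕ, ¬ 11 ∣ i ∧ u * x * u⁻¹ = x ^ i := by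
    intro u hu hux
    rw [← mem_powers_iff_mem_zpowers] at hux
    obtain ⟨i, hi⟩ := hux
    refine ⟨i, ?_, hi.symm⟩
    intro hd
    rw [← hxo] at hd
    have h1 : x ^ i = 1 := orderOf_dvd_iff_pow_eq_one.mp hd
    have h2 : u * x * u⁻¹ = 1 := hi.symm.trans h1
    exact hx1 (conj_eq_one_iff.mp h2)
  obtain ⟨i, hi0, hi⟩ := hnorm h hhY hh1
  have h10 : h ^ 10 ∈ Subgroup.zpowers x := by
    apply hcent _ (Y.pow_mem hhY 10)
    have h1 := conj_pow_pow hi 10
    have h2 : x ^ (i ^ 10) = x := by
      have h5 : i ^ 10 ≡ 1 [MOD 11] := by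
        have h6 : i % 11 = 1 ∨ i % 11 = 2 ∨ i % 11 = 3 ∨ i % 11 = 4 ∨ i % 11 = 5 ∨ i % 11 = 6 ∨ i % 11 = 7 ∨
          i % 11 = 8 ∨ i % 11 = 9 ∨ i % 11 = 10 := by omega
        rw [Nat.ModEq, Nat.pow_mod]
        rcases h6 with h | h | h | h | h | h | h | h | h | h <;> rw [h]
      calc x ^ (i ^ 10) = x ^ 1 := pow_eq_pow_iff_modEq.mpr (by rw [hxo]; exact h5)
        _ = x := pow_one _
    rw [h2] at h1
    exact mul_inv_eq_iff_eq_mul.mp h1
  have h110 : (h ^ 11) ^ 10 = 1 := by
    obtain ⟨j, hj⟩ := Subgroup.mem_zpowers_iff.mp h10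
    rw [← pow_mul, mul_comm, pow_mul, ← hj, ← zpow_natCast, ← zpow_mul, mul_comm, zpow_mul, zpow_natCast,
      ← hxo, pow_orderOf_eq_one, one_zpow]
  have h11 : h ^ 11 ≠ 1 := by
    intro hc
    apply hh2
    have : h⁻¹ = h ^ 10 := by
      rw [inv_eq_iff_mul_eq_one, ← pow_succ']
      exact hc
    rw [← Subgroup.inv_mem_iff, this]
    exact h10
  set n := h ^ 11 with hn
  have hnY : n ∈ Y := Y.pow_mem hhY 11
  have hnx : ∀ k : ℕ, n ^ k * x * (n ^ k)⁻¹ ∈ Subgroup.zpowers x := by
    intro k
    rw [hn, ← pow_mul, conj_pow_pow hi]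
    exact Subgroup.pow_mem _ (Subgroup.mem_zpowers x) _
  have hnd : orderOf n ∣ 10 := orderOf_dvd_iff_pow_eq_one.mpr h110
  have hn1 : orderOf n ≠ 1 := fun hc => h11 (orderOf_eq_one_iff.mp hc)
  have hcases : 2 ∣ orderOf n ∨ 5 ∣ orderOf n := by
    have h1 : orderOf n ∈ Nat.divisors 10 := Nat.mem_divisors.mpr ⟨hnd, by norm_num⟩
    have h2 : Nat.divisors 10 = {1, 2, 5, 10} := by decide
    rw [h2] at h1
    simp only [Finset.mem_insert, Finset.mem_singleton] at h1
    rcases h1 with h | h | h | h
    · exact absurd h hn1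
    · left; rw [h]
    · right; rw [h]
    · left; rw [h]; norm_num
  have key : (∃ g ∈ G, g.IsCycle ∧ g.support.card = 5) ∨ (∃ g ∈ G, g.IsThreeCycle) := by
    rcases hcases with h2 | h5
    · -- an involution inverting `x`
      exfalso
      obtain ⟨m, hm⟩ := h2
      have hm0 : m ≠ 0 := by
        rintro rfl
        exact (orderOf_pos n).ne' hm
      set t := n ^ m with ht
      have hto : orderOf t = 2 := by
        rw [ht, orderOf_pow' n hm0, hm, Nat.gcd_eq_right (dvd_mul_left m 2)]
        exact Nat.mul_div_cancel _ (Nat.pos_of_ne_zero hm0)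
      have htY : t ∈ Y := Y.pow_mem hnY m
      obtain ⟨j, hj0, hj⟩ := hnorm t htY (hnx m)
      have ht2 : t ^ 2 = 1 := by rw [← hto, pow_orderOf_eq_one]
      have h1 := conj_pow_pow hj 2
      rw [ht2, one_mul, inv_one, mul_one] at h1
      have h2 : j ^ 2 ≡ 1 [MOD 11] := by
        have : x ^ (j ^ 2) = x ^ 1 := by rw [← h1, pow_one]
        rw [pow_eq_pow_iff_modEq, hxo] at this
        exact this
      have h3 : j % 11 = 1 ∨ j % 11 = 10 := by
        have h6 : j % 11 = 1 ∨ j % 11 = 2 ∨ j % 11 = 3 ∨ j % 11 = 4 ∨ j % 11 = 5 ∨ j % 11 = 6 ∨ j % 11 = 7 ∨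
          j % 11 = 8 ∨ j % 11 = 9 ∨ j % 11 = 10 := by omega
        rw [Nat.ModEq, Nat.pow_mod] at h2
        rcases h6 with h | h | h | h | h | h | h | h | h | h <;> rw [h] at h2 <;> omega
      have hxj : ∀ k : ℕ, j % 11 = k → t * x * t⁻¹ = x ^ k := by
        intro k hk
        rw [hj, ← hk, ← hxo, pow_mod_orderOf]
      rcases h3 with h3 | h3
      · have h4 := hxj 1 h3
        rw [pow_one] at h4
        have h5 := hcent t htY (mul_inv_eq_iff_eq_mul.mp h4)
        have h6 : orderOf t ∣ 11 := by
          rw [← hxo, ← Nat.card_zpowers x]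
          exact Subgroup.orderOf_dvd_natCard _ h5
        rw [hto] at h6
        omega
      · have h4 : t * x * t⁻¹ = x⁻¹ := by
          rw [hxj 10 h3]
          rw [eq_inv_iff_mul_eq_one, ← pow_succ]
          have h5 := pow_orderOf_eq_one x
          rw [hxo] at h5
          exact h5
        have htinv : ∀ k : ℤ, ∀ z, t ((x ^ k) z) = (x ^ (-k)) (t z) := by
          intro k z
          have h5 : t * x ^ k = x ^ (-k) * t := by
            have h6 := conj_zpow (a := t) (b := x) (i := k)
            rw [h4, inv_zpow, ← zpow_neg] at h6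
            exact (mul_inv_eq_iff_eq_mul.mp h6.symm)
          exact congrArg (fun f : Perm α => f z) h5
        -- at most one fixed point in the support
        have hfix1 : ∀ z ∈ x.support, ∀ w ∈ x.support, t z = z → t w = w → z = w := by
          intro z hz w hw htz htw
          obtain ⟨k, rfl⟩ := cycle_zpow hxc hz hw
          rw [htinv, htz] at htw
          have h5 : (x ^ (2 * k)) z = z := by
            rw [two_mul, zpow_add, Perm.mul_apply, ← htw, ← Perm.mul_apply, ← zpow_add, add_neg_cancel,
              zpow_zero, Perm.one_apply]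
          have h6 : x ^ (2 * k) = 1 := by
            ext w
            rw [Perm.one_apply]
            by_cases hw : w ∈ x.support
            · obtain ⟨l, rfl⟩ := cycle_zpow hxc hz hw
              rw [← Perm.mul_apply, ← zpow_add, add_comm, zpow_add, Perm.mul_apply, h5]
            · exact zpow_apply_eq_self_of_apply_eq_self (notMem_support.mp hw) _
          have h8 : x ^ k = 1 := by
            have h9 : (11 : ℤ) ∣ 2 * k := by
              have := orderOf_dvd_iff_zpow_eq_one.mpr h6
              rwa [hxo] at this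
            have h10 : (11 : ℤ) ∣ k := by omega
            rw [← orderOf_dvd_iff_zpow_eq_one, hxo]
            exact h10
          rw [h8, Perm.one_apply]
        obtain ⟨m', hm'⟩ := cycleType_prime_order (σ := t) (by rw [hto]; norm_num)
        rw [hto] at hm'
        have hs : t.support.card = (m' + 1) * 2 := by
          rw [← sum_cycleType, hm', Multiset.sum_replicate, smul_eq_mul]
        have hsign : sign t = 1 := by
          have := hGe (hYG htY)
          rwa [mem_alternatingGroup] at this
        rw [sign_of_cycleType, hm', Multiset.sum_replicate, Multiset.card_replicate, smul_eq_mul] at hsign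
        have hev : Even ((m' + 1) * 2 + (m' + 1)) := by
          by_contra hodd
          rw [Nat.not_even_iff_odd] at hodd
          rw [hodd.neg_one_pow] at hsign
          exact absurd hsign (by decide)
        have hle : t.support.card ≤ 11 := by
          rw [← hxp]
          exact Finset.card_le_card (hab' t htY)
        have h8 : t.support.card ≤ 8 := by
          rw [hs] at hle ⊢
          obtain ⟨c, hc⟩ := hev
          omega
        have h9 : 2 < (x.support \ t.support).card := by
          rw [Finset.card_sdiff_of_subset (hab' t htY), hxp]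
          omega
        obtain ⟨z, w, hz, hw, hzw⟩ := Finset.one_lt_card_iff.mp (by omega : 1 < (x.support \ t.support).card)
        rw [Finset.mem_sdiff, notMem_support] at hz hw
        exact hzw (hfix1 z hz.1 w hw.1 hz.2 hw.2)
    · obtain ⟨m, hm⟩ := h5
      have hm0 : m ≠ 0 := by
        rintro rfl
        exact (orderOf_pos n).ne' hm
      set r := n ^ m with hr
      have hro : orderOf r = 5 := by
        rw [hr, orderOf_pow' n hm0, hm, Nat.gcd_eq_right (dvd_mul_left m 5)]
        exact Nat.mul_div_cancel _ (Nat.pos_of_ne_zero hm0)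
      have hrY : r ∈ Y := Y.pow_mem hnY m
      have h1 : ∃ c ∈ x.support, r c = c := by
        by_contra hc
        push Not at hc
        have h2 : r.support = x.support := by
          apply Finset.Subset.antisymm (hab' r hrY)
          intro z hz
          exact mem_support.mpr (hc z hz)
        obtain ⟨m', hm'⟩ := cycleType_prime_order (σ := r) (by rw [hro]; norm_num)
        rw [hro] at hm'
        have hs : r.support.card = (m' + 1) * 5 := by
          rw [← sum_cycleType, hm', Multiset.sum_replicate, smul_eq_mul]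
        rw [h2, hxp] at hs
        omega
      obtain ⟨c, hc, hrc⟩ := h1
      have hac : a ≠ c := by
        rintro rfl
        have : a ∈ x.supportᶜ := by rw [hxab]; exact Finset.mem_insert_self _ _
        exact (Finset.mem_compl.mp this) hc
      have hbc : b ≠ c := by
        rintro rfl
        have : b ∈ x.supportᶜ := by rw [hxab]; exact Finset.mem_insert_of_mem (Finset.mem_singleton_self _)
        exact (Finset.mem_compl.mp this) hc
      exact three_cycle_of_five hα hG3 (hYG hrY) hro hab hac hbc (hYa r hrY) (hYb r hrY) hrc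
  refine le_antisymm hGe ?_
  rcases key with ⟨g, hg, hgc, hg5⟩ | ⟨g, hg, hg3⟩
  · exact H10.jordan_cycle G hprim (by norm_num : Nat.Prime 5) (by rw [hα]; norm_num) hgc hg5 hg
  · exact Equiv.Perm.alternatingGroup_le_of_isPreprimitive_of_isThreeCycle_mem hprim hg3 hg

end Cfsg.Agent.H24
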