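import Cfsg.Agent.H24.AltGen5

set_option autoImplicit false

/-!
# H24.AltGen6: degree 6 and the general statement
-/

namespace Cfsg.Agent.H24

open Equiv Equiv.Perm MulAction

universe u

theorem nat_card_alt {α : Type*} [Fintype α] [DecidableEq α] [Nontrivial α] {n : ℕ} (hα : Fintype.card α = n) :
    2 * Nat.card (alternatingGroup α) = n.factorial := by
  have h1 := two_mul_card_alternatingGroup (α := α)
  rwa [Fintype.card_perm, hα, ← Nat.card_eq_fintype_card] at h1

/-- A group acting faithfully by even permutations fixing a point, of the right order, is alternating. -/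
theorem equiv_alt_of_fix {X : Type*} [Group X] [Finite X] {β : Type*} [Fintype β] [DecidableEq β]
    (ψ : X →* Perm β) (hinj : Function.Injective ψ) (heven : ∀ x, sign (ψ x) = 1) {c : β}
    (hc : ∀ x, ψ x c = c) (hcard : Nat.card (alternatingGroup {z : β // z ≠ c}) ≤ Nat.card X) :
    Nonempty (X ≃* alternatingGroup {z : β // z ≠ c}) := by
  classical
  have h1 : ∀ x z, ψ x z ≠ c ↔ z ≠ c := by
    intro x z
    rw [not_iff_not]
    constructor
    · intro h
      apply (ψ x).injective
      rw [h, hc]
    · rintro rfl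
      exact hc x
  let φ : X →* alternatingGroup {z : β // z ≠ c} :=
    { toFun := fun x => ⟨(ψ x).subtypePerm (h1 x), by
        rw [mem_alternatingGroup, sign_subtypePerm _ _ (fun z hz => by
          rintro rfl
          exact hz (hc x)), heven]⟩
      map_one' := by
        apply Subtype.ext
        ext z
        simp
      map_mul' := by
        intro x y
        apply Subtype.ext
        ext z
        show (ψ (x * y)) (z : β) = (ψ x) ((ψ y) (z : β))
        rw [map_mul]
        rfl }
  have hφ : Function.Injective φ := by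
    rw [injective_iff_map_eq_one]
    intro x hx
    apply hinj
    rw [map_one]
    ext z
    rw [Perm.one_apply]
    by_cases hz : z = c
    · rw [hz, hc]
    · have h2 := congrArg (fun f : alternatingGroup {z : β // z ≠ c} => ((f : Perm {z : β // z ≠ c}) ⟨z, hz⟩ : β)) hx
      exact h2
  have hbij : Function.Bijective φ := by
    rw [Nat.bijective_iff_injective_and_card]
    exact ⟨hφ, le_antisymm (Nat.card_le_card_of_injective φ hφ) hcard⟩
  exact ⟨MulEquiv.ofBijective φ hbij⟩

theorem sign_eq_one_of_simple {K : Type*} [Group K] [IsSimpleGroup K] (hK : 2 < Nat.card K) [Finite K]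
    (χ : K →* ℤˣ) (k : K) : χ k = 1 := by
  rcases (inferInstance : χ.ker.Normal).eq_bot_or_eq_top with h | h
  · exfalso
    rw [MonoidHom.ker_eq_bot_iff] at h
    have h1 := Nat.card_le_card_of_injective χ h
    have h2 : Nat.card ℤˣ = 2 := by rw [Nat.card_eq_fintype_card]; rfl
    omega
  · have : k ∈ χ.ker := by rw [h]; exact Subgroup.mem_top _
    exact this

theorem deg6 {α : Type u} [Fintype α] [DecidableEq α] (hα : Fintype.card α = 6) {G : Subgroup (Perm α)}
    (hGe : G ≤ alternatingGroup α) (hG1 : IsPretransitive G α) {x : Perm α} (hx : x ∈ G)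
    (hxc : x.IsCycle) (hxp : x.support.card = 5) :
    ∃ d, 5 ≤ d ∧ Nonempty (G ≃* alternatingGroup (Fin d)) := by
  classical
  have : Nontrivial α := Fintype.one_lt_card_iff_nontrivial.mp (by rw [hα]; norm_num)
  have h1 : (x.supportᶜ).card = 1 := by rw [Finset.card_compl, hxp, hα]
  obtain ⟨b, hxb'⟩ := Finset.card_eq_one.mp h1
  have hsup : ∀ z, z ∈ x.support ↔ z ≠ b := by
    intro z
    have : z ∈ x.supportᶜ ↔ z = b := by rw [hxb', Finset.mem_singleton]
    rw [Finset.mem_compl] at this
    rw [← not_iff_not, not_ne_iff]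
    exact this
  have hxb : x b = b := by
    by_contra hc
    exact ((hsup b).mp (mem_support.mpr hc)) rfl
  set Y : Subgroup (Perm α) := G ⊓ stabilizer (Perm α) b with hY
  have hxY : x ∈ Y := ⟨hx, hxb⟩
  have h1t : ∀ z ∈ (Finset.univ : Finset α), ∀ w ∈ (Finset.univ : Finset α), ∃ h ∈ G, h z = w := by
    intro z _ w _
    obtain ⟨g, hg⟩ := hG1.exists_smul_eq z w
    exact ⟨g, g.2, hg⟩
  have hc1 : Nat.card G = 6 * Nat.card Y := by
    rw [card_eq_mul_stab Finset.univ (fun _ _ _ _ => Finset.mem_univ _) h1t (Finset.mem_univ b),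
      Finset.card_univ, hα]
  have hA : Nat.card (alternatingGroup α) = 360 := by
    have h1 := nat_card_alt hα
    have : Nat.factorial 6 = 720 := rfl
    omega
  have hd : Nat.card G ∣ 360 := by
    rw [← hA]
    exact Subgroup.card_dvd_of_le hGe
  have hp2 : ¬ 5 ^ 2 ∣ Nat.card G := by
    intro h
    have h1 : 5 ^ 2 ∣ 360 := h.trans hd
    omega
  have hzY : Subgroup.zpowers x ≤ Y := (Subgroup.zpowers_le).mpr hxY
  have hzc : Nat.card (Subgroup.zpowers x) = 5 := by rw [Nat.card_zpowers, orderOf_cycle hxc hxp]
  have h5d : 5 ∣ Nat.card Y := by rw [← hzc]; exact Subgroup.card_dvd_of_le hzY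
  have hY5 : Nat.card Y ≠ 5 := by
    intro hY5
    have hYx : Subgroup.zpowers x = Y := Subgroup.eq_of_le_of_card_ge hzY (by rw [hY5, hzc])
    refine not_self_norm (H := G) Finset.univ ?_ h1t hx (Finset.mem_univ b) ?_ hxb (by norm_num : Nat.Prime 5)
      (orderOf_cycle hxc hxp) (by rw [Finset.card_univ, hα]) (by norm_num) hp2 ?_
    · intro h _ z hz
      exact absurd (Finset.mem_univ z) hz
    · intro z _ w _ hzb hwb
      exact cycle_zpow hxc ((hsup z).mpr hzb) ((hsup w).mpr hwb)
    · intro h hh hhx
      rw [hYx]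
      refine ⟨hh, ?_⟩
      obtain ⟨i, hi⟩ := Subgroup.mem_zpowers_iff.mp hhx
      have h4 : (h * x * h⁻¹) b = b := by
        rw [← hi]
        exact zpow_apply_eq_self_of_apply_eq_self hxb i
      rw [Perm.mul_apply, Perm.mul_apply] at h4
      have h5 : x (h⁻¹ b) = h⁻¹ b := by
        apply h.injective
        rw [h4]
        exact (h.apply_symm_apply b).symm
      have h7 : h⁻¹ b = b := by
        by_contra hc
        exact (mem_support.mp ((hsup _).mpr hc)) h5
      show h b = b
      rw [Perm.inv_eq_iff_eq] at h7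
      exact h7.symm
  obtain ⟨k, hk⟩ := h5d
  have hYpos : 0 < Nat.card Y := Nat.card_pos
  have hk2 : 2 ≤ k := by
    rcases Nat.lt_or_ge k 2 with h | h
    · interval_cases k
      · omega
      · exact absurd hk hY5
    · exact h
  rcases Nat.lt_or_ge 2 k with hk3 | hk3
  · -- `G` is the alternating group
    have hGA : G = alternatingGroup α := by
      refine eq_alt_of_card (k := 5) (by rw [Nat.card_eq_fintype_card, hα]; norm_num) hGe ?_ ?_
      · rw [hA, hc1, hk]
        omega
      · rw [hA]
        decide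
    refine ⟨6, by norm_num, ?_⟩
    rw [hGA]
    exact ⟨Equiv.altCongrHom (Fintype.equivFinOfCardEq hα)⟩
  · -- index `6`
    have hk4 : k = 2 := by omega
    have hG60 : Nat.card G = 60 := by rw [hc1, hk, hk4]
    have hsimple := alternatingGroup.isSimpleGroup (α := α) (by rw [Nat.card_eq_fintype_card, hα]; norm_num)
    set G' := G.subgroupOf (alternatingGroup α) with hG'
    have hcard : Nat.card G' = 60 := by
      rw [← hG60]
      exact Nat.card_congr (Subgroup.subgroupOfEquivOfLe hGe).toEquiv
    have hind : G'.index = 6 := by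
      have h1 := G'.index_mul_card
      rw [hcard, hA] at h1
      omega
    have hG't : G' ≠ ⊤ := by
      intro hc
      rw [hc, Subgroup.card_top, hA] at hcard
      omega
    have : Fintype (alternatingGroup α ⧸ G') := Fintype.ofFinite _
    have hβ : Fintype.card (alternatingGroup α ⧸ G') = 6 := by
      rw [← Nat.card_eq_fintype_card]
      exact hind
    set c : alternatingGroup α ⧸ G' := ((1 : alternatingGroup α) : alternatingGroup α ⧸ G') with hc
    have hcc : Fintype.card {z : alternatingGroup α ⧸ G' // z ≠ c} = 5 := by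
      rw [Fintype.card_subtype_compl, hβ, Fintype.card_subtype_eq]
    have : Nontrivial {z : alternatingGroup α ⧸ G' // z ≠ c} :=
      Fintype.one_lt_card_iff_nontrivial.mp (by rw [hcc]; norm_num)
    have hA5 := nat_card_alt hcc
    have h120 : Nat.factorial 5 = 120 := rfl
    obtain ⟨e⟩ := equiv_alt_of_fix ((MulAction.toPermHom (alternatingGroup α) (alternatingGroup α ⧸ G')).comp G'.subtype)
      (c := c)
      (by
        rw [MonoidHom.coe_comp]
        exact (H5.toPermHom_injective_of_simple G' hG't).comp G'.subtype_injective)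
      (fun g => sign_eq_one_of_simple (K := alternatingGroup α) (by rw [hA]; norm_num)
        ((sign).comp (MulAction.toPermHom (alternatingGroup α) (alternatingGroup α ⧸ G'))) (g : alternatingGroup α))
      (by
        intro g
        show (((g : alternatingGroup α) * 1 : alternatingGroup α) : alternatingGroup α ⧸ G') = c
        rw [hc, QuotientGroup.eq]
        simp)
      (by rw [hcard]; omega)
    refine ⟨5, le_rfl, ⟨(Subgroup.subgroupOfEquivOfLe hGe).symm.trans (e.trans
      (Equiv.altCongrHom (Fintype.equivFinOfCardEq hcc)))⟩⟩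

theorem core {α : Type u} [Fintype α] [DecidableEq α] {p q : ℕ} (hp : p.Prime) (hq : q.Prime) (hpq : p < q)
    (hp3 : 3 ≤ p) {x y : Perm α} (hxe : x ∈ alternatingGroup α) (hye : y ∈ alternatingGroup α)
    (hxo : orderOf x = p) (hyo : orderOf y = q) (hcov : ∀ z, z ∈ x.support ∨ z ∈ y.support)
    (hα : Fintype.card α ≤ 2 * p) (h1 : p + 4 ≤ q ∨ p = 3 ∨ p = 5 ∨ p = 11)
    (h2 : q + 3 ≤ 2 * p ∨ Fintype.card α < 2 * p ∨ p = 3) :
    ∃ d, 5 ≤ d ∧ Nonempty (Subgroup.closure {x, y} ≃* alternatingGroup (Fin d)) := by
  classical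
  set G := Subgroup.closure {x, y} with hG
  have hx : x ∈ G := Subgroup.subset_closure (Set.mem_insert _ _)
  have hy : y ∈ G := Subgroup.subset_closure (Set.mem_insert_of_mem _ rfl)
  have hGe : G ≤ alternatingGroup α := by
    rw [hG, Subgroup.closure_le]
    rintro z (rfl | rfl)
    · exact hxe
    · exact hye
  have hyc : y.IsCycle := isCycle_of_prime_order' (by rw [hyo]; exact hq) (by rw [hyo]; omega)
  have hyq : y.support.card = q := by rw [← hyo, hyc.orderOf]
  have hqα : q ≤ Fintype.card α := by rw [← hyq]; exact Finset.card_le_univ _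
  have htr : IsPretransitive G α := trans_of_two hx hy hp hxo hyc hyq hcov (by omega)
  have hprim : IsPreprimitive G α := prim_of_cycle htr hq hy hyc hyq (by omega)
  have hq2 : q % 2 = 1 := hq.eq_two_or_odd.resolve_left (by omega)
  have hpo : p % 2 = 1 := hp.eq_two_or_odd.resolve_left (by omega)
  have hfin : alternatingGroup α ≤ G → ∃ d, 5 ≤ d ∧ Nonempty (G ≃* alternatingGroup (Fin d)) := by
    intro h
    have : G = alternatingGroup α := le_antisymm hGe h
    refine ⟨Fintype.card α, by omega, ?_⟩
    rw [this]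
    exact ⟨Equiv.altCongrHom (Fintype.equivFin α)⟩
  by_cases hxc : x.IsCycle
  · have hxp : x.support.card = p := by rw [← hxo, hxc.orderOf]
    rcases Nat.lt_or_ge (Fintype.card α) (p + 3) with hd | hd
    · have hqp : q = p + 2 := by omega
      have hαp : Fintype.card α = p + 2 := by omega
      rcases h1 with h | rfl | rfl | rfl
      · omega
      · exact hfin (Equiv.Perm.alternatingGroup_le_of_isPreprimitive_of_isThreeCycle_mem hprim
          (card_support_eq_three_iff.mp hxp) hx)
      · have h3 := H23.multiply_transitive_of_cycle hprim hp (m := 1) (by rw [Nat.card_eq_fintype_card, hαp]) hxc hxp hx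
          (by rw [Nat.card_eq_fintype_card, hαp]; norm_num)
        have h22 : IsMultiplyPretransitive G α 2 :=
          isMultiplyPretransitive_of_le' (by norm_num : 2 ≤ 3) (by
            rw [ENat.card_eq_coe_natCard, Nat.card_eq_fintype_card, hαp]
            exact_mod_cast (by norm_num : 3 ≤ 7))
        exact hfin (deg7 hαp hGe h22 hx hxc hxp).ge
      · have h3 := H23.multiply_transitive_of_cycle hprim hp (m := 1) (by rw [Nat.card_eq_fintype_card, hαp]) hxc hxp hx
          (by rw [Nat.card_eq_fintype_card, hαp]; norm_num)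
        exact hfin (deg13 hαp hGe hprim h3 hx hxc hxp).ge
    · exact hfin (H10.jordan_cycle G hprim hp hd hxc hxp hx)
  · have hd : Fintype.card α = 2 * p := by
      by_contra hc
      apply hxc
      exact isCycle_of_prime_order' (by rw [hxo]; exact hp) (by rw [hxo]; omega)
    rcases h2 with h | h | rfl
    · exact hfin (H10.jordan_cycle G hprim hq (by omega) hyc hyq hy)
    · omega
    · have hq5 : q = 5 := by omega
      exact deg6 (by omega) hGe htr hy hyc (by rw [hyq, hq5])

theorem two_generated {m p q : ℕ} (hp : p.Prime) (hq : q.Prime) (hpq : p < q)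
    (hp3 : 3 ≤ p) (hm : m ≤ 2 * p) (h1 : p + 4 ≤ q ∨ p = 3 ∨ p = 5 ∨ p = 11)
    (h2 : q + 3 ≤ 2 * p ∨ m < 2 * p ∨ p = 3) (x y : alternatingGroup (Fin m)) (hxo : orderOf x = p)
    (hyo : orderOf y = q) :
    ∃ d : ℕ, 5 ≤ d ∧
      Nonempty (Subgroup.closure ({x, y} : Set (alternatingGroup (Fin m))) ≃* alternatingGroup (Fin d)) := by
  classical
  obtain ⟨x0, hx0⟩ : ∃ x0 : Perm (Fin m), x0 = (x : Perm (Fin m)) := ⟨_, rfl⟩
  obtain ⟨y0, hy0⟩ : ∃ y0 : Perm (Fin m), y0 = (y : Perm (Fin m)) := ⟨_, rfl⟩
  let P : Fin m → Prop := fun z => z ∈ x0.support ∨ z ∈ y0.support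
  have hPx : ∀ z, P (x0 z) ↔ P z := by
    intro z
    by_cases hz : z ∈ x0.support
    · exact ⟨fun _ => Or.inl hz, fun _ => Or.inl (apply_mem_support.mpr hz)⟩
    · rw [notMem_support.mp hz]
  have hPy : ∀ z, P (y0 z) ↔ P z := by
    intro z
    by_cases hz : z ∈ y0.support
    · exact ⟨fun _ => Or.inr hz, fun _ => Or.inr (apply_mem_support.mpr hz)⟩
    · rw [notMem_support.mp hz]
  set x1 : Perm {z // P z} := x0.subtypePerm hPx with hx1
  set y1 : Perm {z // P z} := y0.subtypePerm hPy with hy1
  have ex : ofSubtype x1 = x0 := ofSubtype_subtypePerm hPx (fun z hz => Or.inl (mem_support.mpr hz))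
  have ey : ofSubtype y1 = y0 := ofSubtype_subtypePerm hPy (fun z hz => Or.inr (mem_support.mpr hz))
  have hx1o : orderOf x1 = p := by
    rw [← orderOf_injective (ofSubtype : Perm {z // P z} →* Perm (Fin m)) ofSubtype_injective x1, ex, hx0,
      Subgroup.orderOf_coe, hxo]
  have hy1o : orderOf y1 = q := by
    rw [← orderOf_injective (ofSubtype : Perm {z // P z} →* Perm (Fin m)) ofSubtype_injective y1, ey, hy0,
      Subgroup.orderOf_coe, hyo]
  have hx1e : x1 ∈ alternatingGroup {z // P z} := by
    rw [mem_alternatingGroup, ← sign_ofSubtype, ex, hx0]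
    exact mem_alternatingGroup.mp x.2
  have hy1e : y1 ∈ alternatingGroup {z // P z} := by
    rw [mem_alternatingGroup, ← sign_ofSubtype, ey, hy0]
    exact mem_alternatingGroup.mp y.2
  have hcov : ∀ z, z ∈ x1.support ∨ z ∈ y1.support := by
    intro z
    rcases z.2 with h | h
    · left
      rw [mem_support] at h ⊢
      intro hc
      exact h (congrArg Subtype.val hc)
    · right
      rw [mem_support] at h ⊢
      intro hc
      exact h (congrArg Subtype.val hc)
  have hcard : Fintype.card {z // P z} ≤ m := by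
    have := Fintype.card_subtype_le P
    rwa [Fintype.card_fin] at this
  obtain ⟨d, hd, ⟨e⟩⟩ := core hp hq hpq hp3 hx1e hy1e hx1o hy1o hcov (by omega) h1 (by omega)
  refine ⟨d, hd, ⟨?_⟩⟩
  have e1 := (Subgroup.closure ({x, y} : Set (alternatingGroup (Fin m)))).equivMapOfInjective
    (alternatingGroup (Fin m)).subtype (alternatingGroup (Fin m)).subtype_injective
  have e2 := (Subgroup.closure {x1, y1}).equivMapOfInjective
    (ofSubtype : Perm {z // P z} →* Perm (Fin m)) ofSubtype_injective
  have h3 : (Subgroup.closure ({x, y} : Set (alternatingGroup (Fin m)))).map (alternatingGroup (Fin m)).subtype =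
      (Subgroup.closure {x1, y1}).map (ofSubtype : Perm {z // P z} →* Perm (Fin m)) := by
    rw [MonoidHom.map_closure, MonoidHom.map_closure, Set.image_pair, Set.image_pair, ex, ey, hx0, hy0]
    rfl
  exact e1.trans ((MulEquiv.subgroupCongr h3).trans (e2.symm.trans e))

end Cfsg.Agent.H24
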