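import Mathlib
import Cfsg.Agent.H24.SylowInf
import Cfsg.Agent.H24.Decomp
import Cfsg.Agent.H24.ClassSize3

/-!
# A group with the class sizes of a nilpotent group (Cossey–Hawkes–Mann) (helper24)
-/

set_option autoImplicit false

open Subgroup

namespace Cfsg.Agent.H24.CHM

/-- elements with class size prime to `q` -/
def Sq (q : ℕ) (G : Type*) [Group G] : Set G := {x | ¬ q ∣ (centralizer ({x} : Set G)).index}

theorem orbits_dvd {A α : Type*} [Group A] [MulAction A α] [Finite α] (d : ℕ)
    (h : ∀ a : α, d ∣ Nat.card (MulAction.orbit A a)) : d ∣ Nat.card α := by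
  classical
  have e := MulAction.selfEquivSigmaOrbits A α
  haveI : Finite (MulAction.orbitRel.Quotient A α) := Quotient.finite _
  haveI := Fintype.ofFinite (MulAction.orbitRel.Quotient A α)
  rw [Nat.card_congr e, Nat.card_sigma]
  exact Finset.dvd_sum fun i _ => h _

variable {G : Type*} [Group G] [Finite G] {q : ℕ} [Fact q.Prime]

theorem mem_Sq_iff (x : G) : x ∈ Sq q G ↔ ∃ P : Sylow q G, x ∈ centralizer ((P : Subgroup G) : Set G) := by
  constructor
  · intro hx
    obtain ⟨P, hP, -⟩ := exists_sylow_le_of_not_dvd_index (centralizer ({x} : Set G)) hx ⊥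
      (IsPGroup.of_bot) bot_le
    refine ⟨P, ?_⟩
    rw [mem_centralizer_iff]
    intro g hg
    exact mem_centralizer_singleton_iff.1 (hP hg)
  · rintro ⟨P, hP⟩ hd
    have h1 : (P : Subgroup G) ≤ centralizer ({x} : Set G) := by
      intro g hg
      rw [mem_centralizer_singleton_iff]
      exact mem_centralizer_iff.1 hP g hg
    exact P.not_dvd_index (hd.trans (Subgroup.index_dvd_of_le h1))

theorem centralizer_sub_Sq (Q : Sylow q G) {x : G} (hx : x ∈ centralizer ((Q : Subgroup G) : Set G)) :
    x ∈ Sq q G := (mem_Sq_iff x).2 ⟨Q, hx⟩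

/-- if `x` has class size prime to `q` and commutes with `Q` modulo a central `q`-subgroup, then
`x` centralizes `Q`. -/
theorem mem_centralizer_of_comm_mod (Z : Subgroup G) (hZ : Z ≤ center G) (hZq : IsPGroup q Z)
    (Q : Subgroup G) {x : G} (hx : x ∈ Sq q G) (h : ∀ g ∈ Q, g * x * g⁻¹ * x⁻¹ ∈ Z) :
    x ∈ centralizer (Q : Set G) := by
  have hc : ∀ z ∈ Z, ∀ g : G, z * g = g * z := fun z hz g => ((mem_center_iff.1 (hZ hz)) g).symm
  let N : Subgroup G :=
    { carrier := {g | g * x * g⁻¹ * x⁻¹ ∈ Z}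
      mul_mem' := by
        intro a b ha hb
        have : a * b * x * (a * b)⁻¹ * x⁻¹ = (b * x * b⁻¹ * x⁻¹) * (a * x * a⁻¹ * x⁻¹) := by
          have h1 := hc _ hb (a)
          calc a * b * x * (a * b)⁻¹ * x⁻¹ = a * (b * x * b⁻¹ * x⁻¹) * x * a⁻¹ * x⁻¹ := by group
            _ = (b * x * b⁻¹ * x⁻¹) * a * x * a⁻¹ * x⁻¹ := by rw [h1]
            _ = _ := by group
        show a * b * x * (a * b)⁻¹ * x⁻¹ ∈ Z
        rw [this]
        exact Z.mul_mem hb ha
      one_mem' := by
        show 1 * x * 1⁻¹ * x⁻¹ ∈ Z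
        simp
      inv_mem' := by
        intro a ha
        have h1 := hc _ (Z.inv_mem ha) (a⁻¹)
        have : a⁻¹ * x * a⁻¹⁻¹ * x⁻¹ = (a * x * a⁻¹ * x⁻¹)⁻¹ := by
          calc a⁻¹ * x * a⁻¹⁻¹ * x⁻¹ = a⁻¹ * (a * x * a⁻¹ * x⁻¹)⁻¹ * a := by group
            _ = (a * x * a⁻¹ * x⁻¹)⁻¹ * a⁻¹ * a := by rw [h1]
            _ = _ := by group
        show a⁻¹ * x * a⁻¹⁻¹ * x⁻¹ ∈ Z
        rw [this]
        exact Z.inv_mem ha }
  let φ : N →* Z :=
    { toFun := fun a => ⟨(a : G) * x * (a : G)⁻¹ * x⁻¹, a.2⟩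
      map_one' := by ext; simp
      map_mul' := by
        intro a b
        ext
        show (a : G) * b * x * ((a : G) * b)⁻¹ * x⁻¹ =
          ((a : G) * x * (a : G)⁻¹ * x⁻¹) * ((b : G) * x * (b : G)⁻¹ * x⁻¹)
        have h1 := hc _ b.2 (a : G)
        have h2 := hc _ b.2 ((a : G) * x * (a : G)⁻¹ * x⁻¹)
        calc (a : G) * b * x * ((a : G) * b)⁻¹ * x⁻¹
            = a * (b * x * (b : G)⁻¹ * x⁻¹) * x * (a : G)⁻¹ * x⁻¹ := by group
          _ = (b * x * (b : G)⁻¹ * x⁻¹) * a * x * (a : G)⁻¹ * x⁻¹ := by rw [h1]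
          _ = (b * x * (b : G)⁻¹ * x⁻¹) * ((a : G) * x * (a : G)⁻¹ * x⁻¹) := by group
          _ = _ := h2 }
  have hker : φ.ker = (centralizer ({x} : Set G)).subgroupOf N := by
    ext a
    rw [MonoidHom.mem_ker, mem_subgroupOf, mem_centralizer_singleton_iff]
    constructor
    · intro h1
      have h2 : (a : G) * x * (a : G)⁻¹ * x⁻¹ = 1 := congrArg Subtype.val h1
      have h3 : (a : G) * x = x * a := by
        calc (a : G) * x = ((a : G) * x * (a : G)⁻¹ * x⁻¹) * x * a := by group
          _ = x * a := by rw [h2]; group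
      first | exact h3 | exact h3.symm
    · intro h1
      have h3 : (a : G) * x = x * a := by first | exact h1 | exact h1.symm
      apply Subtype.ext
      show (a : G) * x * (a : G)⁻¹ * x⁻¹ = 1
      rw [h3]; group
  have hCN : centralizer ({x} : Set G) ≤ N := by
    intro a ha
    have h1 := mem_centralizer_singleton_iff.1 ha
    have h3 : (a : G) * x = x * a := by first | exact h1 | exact h1.symm
    show (a : G) * x * (a : G)⁻¹ * x⁻¹ ∈ Z
    rw [h3]
    have : x * a * a⁻¹ * x⁻¹ = 1 := by group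
    rw [this]; exact Z.one_mem
  have hrel : (centralizer ({x} : Set G)).relIndex N ∣ Nat.card Z := by
    have h1 : (centralizer ({x} : Set G)).relIndex N = φ.ker.index := by rw [hker]; rfl
    rw [h1, Subgroup.index_ker]
    exact Subgroup.card_subgroup_dvd_card _
  have hrel2 : (centralizer ({x} : Set G)).relIndex N ∣ (centralizer ({x} : Set G)).index :=
    Subgroup.relIndex_dvd_index_of_le hCN
  have hone : (centralizer ({x} : Set G)).relIndex N = 1 := by
    obtain ⟨n, hn⟩ := IsPGroup.iff_card.1 hZq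
    rw [hn] at hrel
    obtain ⟨j, -, hj⟩ := (Nat.dvd_prime_pow (Fact.out : q.Prime)).1 hrel
    rcases Nat.eq_zero_or_pos j with h0 | h0
    · rw [hj, h0, pow_zero]
    · exact absurd ((dvd_pow_self q h0.ne').trans (hj ▸ hrel2)) hx
  have hNC : N ≤ centralizer ({x} : Set G) := Subgroup.relIndex_eq_one.1 hone
  rw [mem_centralizer_iff]
  intro g hg
  have h1 := mem_centralizer_singleton_iff.1 (hNC (h g hg))
  first | exact h1 | exact h1.symm

/-- the action of `Q × Z` -/
def act (Z Q : Subgroup G) (hZ : Z ≤ center G) : MulAction (Q × Z) G where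
  smul a x := (a.1 : G) * x * (a.1 : G)⁻¹ * (a.2 : G)
  one_smul x := by
    show ((1 : Q × Z).1 : G) * x * ((1 : Q × Z).1 : G)⁻¹ * ((1 : Q × Z).2 : G) = x
    simp
  mul_smul a b x := by
    show (((a * b).1 : Q) : G) * x * (((a * b).1 : Q) : G)⁻¹ * (((a * b).2 : Z) : G) =
      (a.1 : G) * ((b.1 : G) * x * (b.1 : G)⁻¹ * (b.2 : G)) * (a.1 : G)⁻¹ * (a.2 : G)
    have h1 : (b.2 : G) * (a.1 : G)⁻¹ = (a.1 : G)⁻¹ * b.2 :=
      ((mem_center_iff.1 (hZ b.2.2)) _).symm
    have h2 : (b.2 : G) * (a.2 : G) = a.2 * b.2 := ((mem_center_iff.1 (hZ b.2.2)) _).symm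
    simp only [Prod.fst_mul, Prod.snd_mul, Subgroup.coe_mul, mul_inv_rev]
    calc (a.1 : G) * b.1 * x * ((b.1 : G)⁻¹ * (a.1 : G)⁻¹) * (a.2 * b.2)
        = (a.1 : G) * b.1 * x * (b.1 : G)⁻¹ * ((a.1 : G)⁻¹ * (a.2 * b.2)) := by group
      _ = (a.1 : G) * b.1 * x * (b.1 : G)⁻¹ * ((a.1 : G)⁻¹ * (b.2 * a.2)) := by rw [h2]
      _ = (a.1 : G) * b.1 * x * (b.1 : G)⁻¹ * (((a.1 : G)⁻¹ * b.2) * a.2) := by group
      _ = (a.1 : G) * b.1 * x * (b.1 : G)⁻¹ * ((b.2 * (a.1 : G)⁻¹) * a.2) := by rw [h1]
      _ = _ := by group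

theorem centralizer_singleton_mul_central (x z : G) (hz : z ∈ center G) :
    centralizer ({x * z} : Set G) = centralizer ({x} : Set G) := by
  ext g
  rw [mem_centralizer_singleton_iff, mem_centralizer_singleton_iff]
  have h1 : g * z = z * g := mem_center_iff.1 hz g
  constructor
  · intro h
    have h2 : (g * x) * z = (x * g) * z := by
      first
        | (calc (g * x) * z = g * (x * z) := by group
            _ = x * z * g := h
            _ = x * (z * g) := by group
            _ = x * (g * z) := by rw [h1]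
            _ = _ := by group)
        | (calc (g * x) * z = g * (x * z) := by group
            _ = x * z * g := h.symm
            _ = x * (z * g) := by group
            _ = x * (g * z) := by rw [h1]
            _ = _ := by group)
    have h3 := mul_right_cancel h2
    first | exact h3 | exact h3.symm
  · intro h
    have h3 : g * x = x * g := by first | exact h | exact h.symm
    have h4 : g * (x * z) = x * z * g := by
      calc g * (x * z) = (g * x) * z := by group
        _ = x * g * z := by rw [h3]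
        _ = x * (g * z) := by group
        _ = x * (z * g) := by rw [h1]
        _ = _ := by group
    first | exact h4 | exact h4.symm

theorem mul_mem_Sq {x : G} (hx : x ∈ Sq q G) {z : G} (hz : z ∈ center G) : x * z ∈ Sq q G := by
  show ¬ q ∣ (centralizer ({x * z} : Set G)).index
  rw [centralizer_singleton_mul_central x z hz]; exact hx

theorem conj_mem_Sq {x : G} (hx : x ∈ Sq q G) (g : G) : g * x * g⁻¹ ∈ Sq q G := by
  rw [mem_Sq_iff] at hx ⊢
  obtain ⟨P, hP⟩ := hx
  refine ⟨g • P, ?_⟩
  rw [mem_centralizer_iff]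
  intro h hh
  have h1 : g⁻¹ * h * g ∈ (P : Subgroup G) := by
    have h2 : h ∈ ((g • P : Sylow q G) : Subgroup G) := hh
    rw [Sylow.coe_subgroup_smul, Subgroup.mem_pointwise_smul_iff_inv_smul_mem] at h2
    simpa [MulAut.smul_def] using h2
  have h2 := mem_centralizer_iff.1 hP _ h1
  calc h * (g * x * g⁻¹) = g * ((g⁻¹ * h * g) * x) * g⁻¹ := by group
    _ = g * (x * (g⁻¹ * h * g)) * g⁻¹ := by rw [h2]
    _ = _ := by group

/-- the set of elements of `Sq` outside the centralizer -/
def SC (q : ℕ) {G : Type*} [Group G] (Q : Subgroup G) : Set G :=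
  {x | x ∈ Sq q G ∧ x ∉ centralizer (Q : Set G)}

theorem act_mem_SC (Z Q : Subgroup G) (hZ : Z ≤ center G) {x : G} (hx : x ∈ SC q Q) (a : Q × Z) :
    (a.1 : G) * x * (a.1 : G)⁻¹ * (a.2 : G) ∈ SC q Q := by
  refine ⟨mul_mem_Sq (conj_mem_Sq hx.1 _) (hZ a.2.2), ?_⟩
  intro h
  apply hx.2
  rw [mem_centralizer_iff] at h ⊢
  intro g hg
  have h1 := h ((a.1 : G) * g * (a.1 : G)⁻¹) (Q.mul_mem (Q.mul_mem a.1.2 hg) (Q.inv_mem a.1.2))
  have h2 : ∀ y : G, y * (a.2 : G) = a.2 * y := mem_center_iff.1 (hZ a.2.2)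
  have h3 : ((a.1 : G) * (g * x) * (a.1 : G)⁻¹) * a.2 = ((a.1 : G) * (x * g) * (a.1 : G)⁻¹) * a.2 := by
    calc ((a.1 : G) * (g * x) * (a.1 : G)⁻¹) * a.2
        = ((a.1 : G) * g * (a.1 : G)⁻¹) * ((a.1 : G) * x * (a.1 : G)⁻¹ * (a.2 : G)) := by group
      _ = ((a.1 : G) * x * (a.1 : G)⁻¹ * (a.2 : G)) * ((a.1 : G) * g * (a.1 : G)⁻¹) := h1
      _ = ((a.1 : G) * x * (a.1 : G)⁻¹) * ((a.2 : G) * ((a.1 : G) * g * (a.1 : G)⁻¹)) := by group
      _ = ((a.1 : G) * x * (a.1 : G)⁻¹) * (((a.1 : G) * g * (a.1 : G)⁻¹) * a.2) := by rw [h2]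
      _ = _ := by group
  exact mul_left_cancel (mul_right_cancel (mul_right_cancel h3))

theorem dvd_card_SC (Z Q : Subgroup G) (hZ : Z ≤ center G) (hZq : IsPGroup q Z)
    (hQ : IsPGroup q Q) : q * Nat.card Z ∣ Nat.card (SC q Q) := by
  classical
  letI : MulAction (Q × Z) (SC q Q) :=
    { smul := fun a x => ⟨(a.1 : G) * x * (a.1 : G)⁻¹ * (a.2 : G), act_mem_SC Z Q hZ x.2 a⟩
      one_smul := fun x => Subtype.ext ((act Z Q hZ).one_smul (x : G))
      mul_smul := fun a b x => Subtype.ext ((act Z Q hZ).mul_smul a b (x : G)) }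
  apply orbits_dvd (A := Q × Z)
  intro x
  have hst : ∀ a : Q × Z, a ∈ MulAction.stabilizer (Q × Z) x ↔
      (a.1 : G) * x * (a.1 : G)⁻¹ * (a.2 : G) = x := by
    intro a
    rw [MulAction.mem_stabilizer_iff]
    exact ⟨fun h => congrArg Subtype.val h, fun h => Subtype.ext h⟩
  -- the projection of the stabilizer to `Q`
  let S := MulAction.stabilizer (Q × Z) x
  let T := S.map (MonoidHom.fst Q Z)
  have hcard : Nat.card T = Nat.card S := by
    apply Nat.card_congr
    symm
    refine Equiv.ofBijective (fun a : S => (⟨(a : Q × Z).1, ⟨a, a.2, rfl⟩⟩ : T)) ⟨?_, ?_⟩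
    · intro a b hab
      have h1 : (a : Q × Z).1 = (b : Q × Z).1 := congrArg Subtype.val hab
      have ha := (hst a).1 a.2
      have hb := (hst b).1 b.2
      rw [h1] at ha
      have h2 : ((a : Q × Z).2 : G) = ((b : Q × Z).2 : G) := by
        have := ha.trans hb.symm
        exact mul_left_cancel this
      apply Subtype.ext
      exact Prod.ext h1 (Subtype.ext h2)
    · rintro ⟨_, a, ha, rfl⟩
      exact ⟨⟨a, ha⟩, rfl⟩
  have hT : T ≠ ⊤ := by
    intro htop
    apply x.2.2
    apply mem_centralizer_of_comm_mod Z hZ hZq Q x.2.1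
    intro g hg
    have h1 : (⟨g, hg⟩ : Q) ∈ T := by rw [htop]; exact mem_top _
    obtain ⟨a, ha, hag⟩ := h1
    have h2 := (hst a).1 ha
    have h3 : (a.1 : G) = g := congrArg Subtype.val hag
    rw [h3] at h2
    have h4 : g * x * g⁻¹ = x * (a.2 : G)⁻¹ := by
      rw [eq_mul_inv_iff_mul_eq]; exact h2
    rw [h4]
    have h5 : (x : G) * (a.2 : G)⁻¹ = (a.2 : G)⁻¹ * x := mem_center_iff.1 (hZ (Z.inv_mem a.2.2)) x
    rw [h5]
    have h6 : (a.2 : G)⁻¹ * x * (x : G)⁻¹ = (a.2 : G)⁻¹ := by group
    rw [h6]; exact Z.inv_mem a.2.2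
  have hqT : q ∣ T.index := by
    have h1 : T.index ∣ Nat.card Q := T.index_dvd_card
    obtain ⟨n, hn⟩ := IsPGroup.iff_card.1 hQ
    rw [hn] at h1
    obtain ⟨j, -, hj⟩ := (Nat.dvd_prime_pow (Fact.out : q.Prime)).1 h1
    rcases Nat.eq_zero_or_pos j with h0 | h0
    · rw [h0, pow_zero] at hj
      exact absurd (Subgroup.index_eq_one.1 hj) hT
    · rw [hj]; exact dvd_pow_self q h0.ne'
  have horb : Nat.card (MulAction.orbit (Q × Z) x) * Nat.card S = Nat.card Q * Nat.card Z := by
    have e1 : Nat.card (MulAction.orbit (Q × Z) x) = S.index := by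
      rw [Nat.card_coe_set_eq]; exact (MulAction.index_stabilizer (Q × Z) x).symm
    rw [e1, mul_comm, Subgroup.card_mul_index, Nat.card_prod]
  have h1 : Nat.card (MulAction.orbit (Q × Z) x) = T.index * Nat.card Z := by
    have h2 : Nat.card Q = Nat.card T * T.index := (Subgroup.card_mul_index T).symm
    rw [h2, hcard] at horb
    have h3 : 0 < Nat.card S := Nat.card_pos
    apply Nat.eq_of_mul_eq_mul_right h3
    rw [horb]; ring
  rw [h1]
  exact Nat.mul_dvd_mul hqT dvd_rfl

theorem card_Sq_eq (Q : Sylow q G) :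
    Nat.card (Sq q G) = Nat.card (centralizer ((Q : Subgroup G) : Set G)) +
      Nat.card (SC q (Q : Subgroup G)) := by
  have h1 : Sq q G = ((centralizer ((Q : Subgroup G) : Set G) : Subgroup G) : Set G) ∪
      SC q (Q : Subgroup G) := by
    ext x
    constructor
    · intro hx
      by_cases h : x ∈ centralizer ((Q : Subgroup G) : Set G)
      · exact Or.inl h
      · exact Or.inr ⟨hx, h⟩
    · rintro (h | h)
      · exact centralizer_sub_Sq Q h
      · exact h.1
  rw [Nat.card_coe_set_eq, Nat.card_coe_set_eq, h1, Set.ncard_union_eq]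
  · rfl
  · rw [Set.disjoint_left]
    intro x hx hx2
    exact hx2.2 hx

theorem card_mul_relIndex' (A B : Subgroup G) (h : A ≤ B) :
    Nat.card A * A.relIndex B = Nat.card B := by
  have := Subgroup.relIndex_mul_relIndex ⊥ A B bot_le h
  rwa [Subgroup.relIndex_bot_left, Subgroup.relIndex_bot_left] at this

theorem inf_centralizer_le_center (Q : Sylow q G)
    (hcard : Nat.card (Sq q G) * Nat.card Q =
      Nat.card ↥((Q : Subgroup G) ⊓ center G) * Nat.card G) :
    (Q : Subgroup G) ⊓ centralizer ((Q : Subgroup G) : Set G) ≤ center G := by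
  have hp := (Fact.out : q.Prime)
  set Z := (Q : Subgroup G) ⊓ center G with hZdef
  set C := centralizer ((Q : Subgroup G) : Set G) with hC
  by_contra hne
  have hZle : Z ≤ (Q : Subgroup G) ⊓ C :=
    le_inf inf_le_left (inf_le_right.trans (Subgroup.center_le_centralizer _))
  have hcQ := card_mul_relIndex' Z _ hZle
  have h1 : q ∣ Z.relIndex ((Q : Subgroup G) ⊓ C) := by
    have h1 : Z.relIndex ((Q : Subgroup G) ⊓ C) ∣ Nat.card ↥((Q : Subgroup G) ⊓ C) :=
      ⟨Nat.card Z, by rw [← hcQ]; ring⟩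
    obtain ⟨n, hn⟩ := IsPGroup.iff_card.1 (Q.isPGroup'.to_le
      (inf_le_left : (Q : Subgroup G) ⊓ C ≤ (Q : Subgroup G)))
    rw [hn] at h1
    obtain ⟨j, -, hj⟩ := (Nat.dvd_prime_pow hp).1 h1
    rcases Nat.eq_zero_or_pos j with h0 | h0
    · rw [h0, pow_zero] at hj
      exact absurd ((Subgroup.relIndex_eq_one.1 hj).trans inf_le_right) hne
    · rw [hj]; exact dvd_pow_self q h0.ne'
  have h2 : q * Nat.card Z ∣ Nat.card ↥((Q : Subgroup G) ⊓ C) := by
    rw [← hcQ, mul_comm q]
    exact Nat.mul_dvd_mul dvd_rfl h1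
  have h3 : q * Nat.card Z ∣ Nat.card C := h2.trans (Subgroup.card_dvd_of_le inf_le_right)
  have h4 := dvd_card_SC Z (Q : Subgroup G) (inf_le_right)
    (Q.isPGroup'.to_le (inf_le_left : Z ≤ (Q : Subgroup G))) Q.isPGroup'
  have h5 : q * Nat.card Z ∣ Nat.card (Sq q G) := by
    rw [card_Sq_eq Q]; exact dvd_add h3 h4
  obtain ⟨k, hk⟩ := h5
  rw [hk] at hcard
  have hZ0 : 0 < Nat.card Z := Nat.card_pos
  have h6 : q * k * Nat.card Q = Nat.card G := by
    apply Nat.eq_of_mul_eq_mul_left hZ0
    rw [← hcard]; ring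
  have h7 : q ∣ (Q : Subgroup G).index := by
    have hQ0 : 0 < Nat.card Q := Nat.card_pos
    have h8 : (Q : Subgroup G).index = q * k := by
      apply Nat.eq_of_mul_eq_mul_left hQ0
      have h9 := (Q : Subgroup G).card_mul_index
      rw [h9, ← h6]; ring
    rw [h8]; exact dvd_mul_right _ _
  exact Q.not_dvd_index h7

theorem sylow_normal (Q : Sylow q G)
    (hcard : Nat.card (Sq q G) * Nat.card Q =
      Nat.card ↥((Q : Subgroup G) ⊓ center G) * Nat.card G) :
    (Q : Subgroup G).Normal := by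
  have hZC := inf_centralizer_le_center Q hcard
  set Z := (Q : Subgroup G) ⊓ center G with hZdef
  set C := centralizer ((Q : Subgroup G) : Set G) with hC
  have heq : (Q : Subgroup G) ⊓ C = Z :=
    le_antisymm (le_inf inf_le_left hZC)
      (le_inf inf_le_left (inf_le_right.trans (Subgroup.center_le_centralizer _)))
  have h1 : Nat.card Z * (Q : Subgroup G).relIndex C = Nat.card C := by
    have := card_mul_relIndex' ((Q : Subgroup G) ⊓ C) C inf_le_right
    rwa [Subgroup.inf_relIndex_right, heq] at this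
  have hCN : C ≤ normalizer ((Q : Subgroup G) : Set G) := Subgroup.centralizer_le_normalizer _
  have h2 : (Q : Subgroup G).relIndex C ≤
      (Q : Subgroup G).relIndex (normalizer ((Q : Subgroup G) : Set G)) :=
    Subgroup.relIndex_le_of_le_right hCN (by
      have : (Q : Subgroup G).relIndex (normalizer ((Q : Subgroup G) : Set G)) ≠ 0 :=
        Subgroup.index_ne_zero_of_finite
      exact this)
  have h3 : Nat.card Q * (Q : Subgroup G).relIndex (normalizer ((Q : Subgroup G) : Set G)) =
      Nat.card (normalizer ((Q : Subgroup G) : Set G)) :=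
    card_mul_relIndex' (Q : Subgroup G) _ Subgroup.le_normalizer
  have h4 : Nat.card (Sylow q G) = (normalizer ((Q : Subgroup G) : Set G)).index :=
    Q.card_eq_index_normalizer
  have h5 := (normalizer ((Q : Subgroup G) : Set G)).card_mul_index
  have hQ0 : 0 < Nat.card Q := Nat.card_pos
  have h6 : Nat.card (Sylow q G × C) ≤ Nat.card (Sq q G) := by
    rw [Nat.card_prod]
    apply Nat.le_of_mul_le_mul_right _ hQ0
    rw [hcard, ← h5, h4, ← h1, ← h3]
    calc (normalizer ((Q : Subgroup G) : Set G)).index *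
          (Nat.card Z * (Q : Subgroup G).relIndex C) * Nat.card Q
        ≤ (normalizer ((Q : Subgroup G) : Set G)).index *
          (Nat.card Z * (Q : Subgroup G).relIndex (normalizer ((Q : Subgroup G) : Set G))) *
            Nat.card Q := by gcongr
      _ = _ := by ring
  choose f hf using fun P : Sylow q G => MulAction.exists_smul_eq G Q P
  let F : Sylow q G × C → Sq q G := fun a =>
    ⟨f a.1 * a.2 * (f a.1)⁻¹, conj_mem_Sq (centralizer_sub_Sq Q a.2.2) _⟩
  have hF : Function.Surjective F := by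
    rintro ⟨x, hx⟩
    obtain ⟨P, hP⟩ := (mem_Sq_iff x).1 hx
    have h7 : (f P)⁻¹ * x * f P ∈ C := by
      rw [hC, mem_centralizer_iff]
      intro g hg
      have h8 : f P * g * (f P)⁻¹ ∈ (P : Subgroup G) := by
        have h9 : P = f P • Q := (hf P).symm
        rw [h9, Sylow.coe_subgroup_smul, Subgroup.mem_pointwise_smul_iff_inv_smul_mem]
        rw [← h9]
        have h10 : (MulAut.conj (f P))⁻¹ • (f P * g * (f P)⁻¹) = g := by
          rw [MulAut.smul_def, ← map_inv, MulAut.conj_apply]; group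
        rw [h10]; exact hg
      have h9 := mem_centralizer_iff.1 hP _ h8
      calc g * ((f P)⁻¹ * x * f P) = (f P)⁻¹ * ((f P * g * (f P)⁻¹) * x) * f P := by group
        _ = (f P)⁻¹ * (x * (f P * g * (f P)⁻¹)) * f P := by rw [h9]
        _ = _ := by group
    refine ⟨(P, ⟨_, h7⟩), Subtype.ext ?_⟩
    show f P * ((f P)⁻¹ * x * f P) * (f P)⁻¹ = x
    group
  have hbij := hF.bijective_of_nat_card_le h6
  haveI : Subsingleton (Sylow q G) := by
    constructor
    intro P R
    have h7 : F (P, 1) = F (R, 1) := by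
      apply Subtype.ext
      show f P * ((1 : C) : G) * (f P)⁻¹ = f R * ((1 : C) : G) * (f R)⁻¹
      simp
    exact congrArg Prod.fst (hbij.1 h7)
  exact Sylow.normal_of_subsingleton Q

/-- the nilpotent side -/
theorem nilpotent_side [Group.IsNilpotent G] (Q : Sylow q G) :
    Nat.card (Sq q G) * Nat.card Q =
      Nat.card ↥((Q : Subgroup G) ⊓ center G) * Nat.card G := by
  haveI : (Q : Subgroup G).Normal := inferInstance
  set C := centralizer ((Q : Subgroup G) : Set G) with hC
  have htop : (Q : Subgroup G) ⊔ C = ⊤ := by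
    rw [← Subgroup.index_eq_one]
    by_contra hne
    obtain ⟨r, hr, hrd⟩ := Nat.exists_prime_and_dvd hne
    haveI : Fact r.Prime := ⟨hr⟩
    obtain ⟨R⟩ : Nonempty (Sylow r G) := inferInstance
    haveI : (R : Subgroup G).Normal := inferInstance
    have hle : (R : Subgroup G) ≤ (Q : Subgroup G) ⊔ C := by
      by_cases hrq : r = q
      · subst hrq
        haveI : Subsingleton (Sylow r G) := (Sylow.unique_of_normal Q inferInstance).instSubsingleton
        rw [Subsingleton.elim R Q]; exact le_sup_left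
      · refine le_trans ?_ le_sup_right
        intro x hx
        rw [hC, mem_centralizer_iff]
        intro g hg
        have hdis : Disjoint (Q : Subgroup G) (R : Subgroup G) :=
          IsPGroup.disjoint_of_ne q r (Ne.symm hrq) _ _ Q.isPGroup' R.isPGroup'
        exact (Subgroup.commute_of_normal_of_disjoint _ _ inferInstance inferInstance hdis g x hg hx)
    exact R.not_dvd_index (hrd.trans (Subgroup.index_dvd_of_le hle))
  have hQC : (Q : Subgroup G) ⊓ C = (Q : Subgroup G) ⊓ center G := by
    apply le_antisymm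
    · refine le_inf inf_le_left ?_
      intro x hx
      have h1 : (Q : Subgroup G) ⊔ C ≤ centralizer ({x} : Set G) := by
        apply sup_le
        · intro g hg
          rw [mem_centralizer_singleton_iff]
          have := mem_centralizer_iff.1 hx.2 g hg
          first | exact this | exact this.symm
        · intro g hg
          rw [mem_centralizer_singleton_iff]
          have := mem_centralizer_iff.1 hg x hx.1
          first | exact this | exact this.symm
      rw [htop] at h1
      rw [mem_center_iff]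
      intro g
      have := mem_centralizer_singleton_iff.1 (h1 (mem_top g))
      first | exact this | exact this.symm
    · exact le_inf inf_le_left (inf_le_right.trans (Subgroup.center_le_centralizer _))
  have hSq : Sq q G = ((C : Subgroup G) : Set G) := by
    ext x
    constructor
    · intro hx
      obtain ⟨P, hP⟩ := (mem_Sq_iff x).1 hx
      haveI : Subsingleton (Sylow q G) := (Sylow.unique_of_normal Q inferInstance).instSubsingleton
      rw [Subsingleton.elim P Q] at hP
      exact hP
    · intro hx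
      exact centralizer_sub_Sq Q hx
  have h1 := card_sup_mul_card_inf (Q : Subgroup G) C
  rw [htop, Subgroup.card_top, hQC] at h1
  have h2 : Nat.card (Sq q G) = Nat.card C := by rw [hSq]; rfl
  rw [h2, mul_comm, ← h1, mul_comm]

theorem mem_center_iff_index {K : Type*} [Group K] (x : K) : x ∈ center K ↔
    (centralizer ({x} : Set K)).index = 1 := by
  rw [Subgroup.index_eq_one, Subgroup.eq_top_iff', mem_center_iff]
  refine forall_congr' fun g => ?_
  rw [mem_centralizer_singleton_iff]

theorem ncard_carrier' {K : Type*} [Group K] [Finite K] (x : K) :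
    Nat.card (ConjClasses.mk x).carrier = (centralizer ({x} : Set K)).index := by
  rw [← natCard_isConj]
  rfl

/-- equal class-size multisets give a bijection preserving class sizes. -/
theorem exists_equiv {H : Type*} [Group H] [Finite H]
    (h : ∀ k : ℕ, Nat.card {C : ConjClasses G // Nat.card C.carrier = k} =
      Nat.card {C : ConjClasses H // Nat.card C.carrier = k}) :
    ∃ e : G ≃ H, ∀ x, (centralizer ({x} : Set G)).index = (centralizer ({e x} : Set H)).index := by
  classical
  haveI : Finite (ConjClasses G) := Quotient.finite _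
  haveI : Finite (ConjClasses H) := Quotient.finite _
  have e1' : ∀ k : ℕ, Nonempty ({C : ConjClasses G // Nat.card C.carrier = k} ≃
      {C : ConjClasses H // Nat.card C.carrier = k}) := fun k => Finite.card_eq.1 (h k)
  let e1 := fun k => Classical.choice (e1' k)
  let E : ConjClasses G ≃ ConjClasses H :=
    ((Equiv.sigmaFiberEquiv (fun C : ConjClasses G => Nat.card C.carrier)).symm.trans
      (Equiv.sigmaCongrRight fun k => (e1 k))).trans
      (Equiv.sigmaFiberEquiv (fun C : ConjClasses H => Nat.card C.carrier))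
  have hE : ∀ C, Nat.card (E C).carrier = Nat.card C.carrier := by
    intro C
    exact (e1 (Nat.card C.carrier) ⟨C, rfl⟩).2
  have e2' : ∀ C : ConjClasses G, Nonempty ({x : G // ConjClasses.mk x = C} ≃
      {x : H // ConjClasses.mk x = E C}) := by
    intro C
    apply Finite.card_eq.1
    have hG : Nat.card {x : G // ConjClasses.mk x = C} = Nat.card C.carrier :=
      Nat.card_congr (Equiv.subtypeEquivRight fun x => ConjClasses.mem_carrier_iff_mk_eq.symm)
    have hH : Nat.card {x : H // ConjClasses.mk x = E C} = Nat.card (E C).carrier :=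
      Nat.card_congr (Equiv.subtypeEquivRight fun x => ConjClasses.mem_carrier_iff_mk_eq.symm)
    rw [hG, hH, hE]
  let e2 := fun C => Classical.choice (e2' C)
  let F : G ≃ H :=
    ((Equiv.sigmaFiberEquiv (fun x : G => ConjClasses.mk x)).symm.trans
      (Equiv.sigmaCongr E (fun C => e2 C))).trans
      (Equiv.sigmaFiberEquiv (fun x : H => ConjClasses.mk x))
  refine ⟨F, fun x => ?_⟩
  have h1 : ConjClasses.mk (F x) = E (ConjClasses.mk x) := (e2 (ConjClasses.mk x) ⟨x, rfl⟩).2
  rw [← ncard_carrier', ← ncard_carrier', h1, hE]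

/-- The counting criterion. -/
theorem normal_of_equiv {H : Type*} [Group H] [Finite H] [Group.IsNilpotent H] (e : G ≃ H)
    (he : ∀ x, (centralizer ({x} : Set G)).index = (centralizer ({e x} : Set H)).index)
    (Q : Sylow q G) : (Q : Subgroup G).Normal := by
  obtain ⟨R⟩ : Nonempty (Sylow q H) := inferInstance
  apply sylow_normal Q
  have hc : Nat.card G = Nat.card H := Nat.card_congr e
  have hS : Nat.card (Sq q G) = Nat.card (Sq q H) := by
    apply Nat.card_congr
    refine e.subtypeEquiv (fun x => ?_)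
    show ¬ q ∣ _ ↔ ¬ q ∣ _
    rw [he]
  have hZ : Nat.card (center G) = Nat.card (center H) := by
    apply Nat.card_congr
    refine e.subtypeEquiv (fun x => ?_)
    rw [mem_center_iff_index, he, mem_center_iff_index]
  have hQ : Nat.card Q = Nat.card R := by
    rw [Q.card_eq_multiplicity, R.card_eq_multiplicity, hc]
  have hZ2 : Nat.card ↥((Q : Subgroup G) ⊓ center G) = Nat.card ↥((R : Subgroup H) ⊓ center H) := by
    rw [inf_comm, card_inf_sylow, hZ, ← card_inf_sylow (center H) R, inf_comm]
  rw [hS, hQ, hZ2, hc]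
  exact nilpotent_side R

end Cfsg.Agent.H24.CHM
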