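import Cfsg.Agent.H20.Fpf2

set_option autoImplicit false

/-!
A subgroup central in every solvable subgroup containing it is central (helper24).
-/

namespace Cfsg.Agent.H24

open Cfsg Subgroup
open scoped Pointwise

universe u

/-- `A` is central in every solvable subgroup which contains it. -/
def CenSolv {G : Type u} [Group G] (A : Subgroup G) : Prop :=
  ∀ S : Subgroup G, A ≤ S → Group.IsSolvable S → ∀ a ∈ A, ∀ s ∈ S, a * s = s * a

variable {G : Type u} [Group G]

theorem CenSolv.subgroupOf {A : Subgroup G} (h : CenSolv A) (H : Subgroup G) :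
    A ≤ H → CenSolv (A.subgroupOf H) := by
  intro hAH S hAS hS a ha s hs
  have h1 : Group.IsSolvable (S.map H.subtype) :=
    Group.isSolvable_of_surjective (f := (H.subtype.subgroupMap S))
      (MonoidHom.subgroupMap_surjective _ _)
  have h2 : A ≤ S.map H.subtype := by
    intro x hx
    exact Subgroup.mem_map.2 ⟨⟨x, hAH hx⟩, hAS (Subgroup.mem_subgroupOf.2 hx), rfl⟩
  have h3 := h _ h2 h1 a (Subgroup.mem_subgroupOf.1 ha) s (Subgroup.mem_map.2 ⟨s, hs, rfl⟩)
  exact Subtype.ext h3

theorem CenSolv.quotient {A : Subgroup G} (h : CenSolv A) (N : Subgroup G) [N.Normal]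
    (hN : Group.IsSolvable N) : CenSolv (A.map (QuotientGroup.mk' N)) := by
  intro S hAS hS a ha s hs
  obtain ⟨b, hb, rfl⟩ := Subgroup.mem_map.1 ha
  obtain ⟨t, rfl⟩ := QuotientGroup.mk'_surjective N s
  have h1 : Group.IsSolvable (S.comap (QuotientGroup.mk' N)) := by
    haveI := hN
    haveI := hS
    have hle : N ≤ S.comap (QuotientGroup.mk' N) := by
      intro x hx
      rw [Subgroup.mem_comap, (QuotientGroup.eq_one_iff x).2 hx |> fun h => (h : QuotientGroup.mk' N x = 1)]
      exact S.one_mem
    refine Group.isSolvable_of_ker_le_range (Subgroup.inclusion hle)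
      (((QuotientGroup.mk' N).subgroupComap S)) ?_
    intro x hx
    rw [MonoidHom.mem_ker] at hx
    have h2 : QuotientGroup.mk' N (x : G) = 1 := congrArg Subtype.val hx
    have h3 : (x : G) ∈ N := (QuotientGroup.eq_one_iff _).1 h2
    exact ⟨⟨x, h3⟩, Subtype.ext rfl⟩
  have h2 : A ≤ S.comap (QuotientGroup.mk' N) := by
    intro x hx
    exact hAS (Subgroup.mem_map.2 ⟨x, hx, rfl⟩)
  have h3 := h _ h2 h1 b hb t hs
  rw [← map_mul, h3, map_mul]

theorem CenSolv.le_center (n : ℕ) : ∀ (G : Type u) [Group G] [Finite G], Nat.card G = n →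
    ∀ A : Subgroup G, Group.IsSolvable A → CenSolv A → A ≤ center G := by
  induction n using Nat.strong_induction_on with
  | _ n ih =>
  intro G _ _ hn A hAs hA
  by_contra hcon
  have hAc : ∀ a ∈ A, ∀ b ∈ A, a * b = b * a := hA A le_rfl hAs
  set C := centralizer (A : Set G) with hC
  have hAC : A ≤ C := by
    intro a ha
    rw [hC, mem_centralizer_iff]
    intro b hb
    exact hAc b hb a ha
  have hCtop : C ≠ ⊤ := by
    intro h
    apply hcon
    intro a ha
    rw [mem_center_iff]
    intro g
    have h1 : g ∈ C := by rw [h]; exact mem_top g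
    exact ((mem_centralizer_iff.1 h1) a ha).symm
  -- proper subgroups
  have hprop : ∀ H : Subgroup G, A ≤ H → H ≠ ⊤ → H ≤ C := by
    intro H hAH hH
    have h1 : Nat.card H < n := by
      rw [← hn]
      exact H20.Fpf.card_lt_of_ne_top hH
    have h2 : Group.IsSolvable (A.subgroupOf H) := by
      haveI := hAs
      exact Group.isSolvable_of_isSolvable_injective (Subgroup.subgroupOfEquivOfLe hAH).injective
        (f := (Subgroup.subgroupOfEquivOfLe hAH).toMonoidHom)
    have h3 := ih _ h1 H rfl (A.subgroupOf H) h2 (hA.subgroupOf H hAH)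
    intro x hx
    rw [hC, mem_centralizer_iff]
    intro a ha
    have h4 : (⟨a, hAH ha⟩ : H) ∈ center H := h3 (Subgroup.mem_subgroupOf.2 ha)
    have h5 := mem_center_iff.1 h4 ⟨x, hx⟩
    exact (congrArg Subtype.val h5).symm
  -- no solvable normal subgroup
  have hrad : ∀ N : Subgroup G, N.Normal → Group.IsSolvable N → N = ⊥ := by
    intro N hNn hNs
    by_contra hNb
    haveI := hNn
    have h1 : Nat.card (G ⧸ N) < n := by
      rw [← hn, ← Subgroup.index_eq_card]
      have h2 := Subgroup.card_mul_index N
      have h3 : 1 < Nat.card N := (Subgroup.one_lt_card_iff_ne_bot N).2 hNb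
      have h4 : 0 < N.index := Nat.pos_of_ne_zero Subgroup.index_ne_zero_of_finite
      nlinarith
    have h2 : Group.IsSolvable (A.map (QuotientGroup.mk' N)) := by
      haveI := hAs
      exact Group.isSolvable_of_surjective
        (MonoidHom.subgroupMap_surjective (QuotientGroup.mk' N) A)
    have h3 := ih _ h1 (G ⧸ N) rfl _ h2 (hA.quotient N hNs)
    apply hcon
    intro a ha
    rw [mem_center_iff]
    intro g
    -- the subgroup generated by `N`, `A`, `g`
    have hab : ∀ x ∈ ({QuotientGroup.mk' N g} ∪ (A.map (QuotientGroup.mk' N) : Set (G ⧸ N))),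
        ∀ y ∈ ({QuotientGroup.mk' N g} ∪ (A.map (QuotientGroup.mk' N) : Set (G ⧸ N))),
        x * y = y * x := by
      rintro x (hx | hx) y (hy | hy)
      · rw [Set.mem_singleton_iff] at hx hy; rw [hx, hy]
      · exact mem_center_iff.1 (h3 hy) x
      · exact (mem_center_iff.1 (h3 hx) y).symm
      · exact mem_center_iff.1 (h3 hy) x
    set W := closure ({QuotientGroup.mk' N g} ∪ (A.map (QuotientGroup.mk' N) : Set (G ⧸ N)))
      with hW
    have hWs : Group.IsSolvable W := by
      apply Group.isSolvable_of_comm
      intro x y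
      have h4 : ∀ x ∈ W, ∀ y ∈ W, x * y = y * x := by
        intro x hx y hy
        induction hx using closure_induction with
        | mem x hx =>
          induction hy using closure_induction with
          | mem y hy => exact hab x hx y hy
          | one => rw [mul_one, one_mul]
          | mul y z _ _ h5 h6 => rw [← mul_assoc, h5, mul_assoc, h6, mul_assoc]
          | inv y _ h5 =>
            have h7 : Commute x y := h5
            exact h7.inv_right.eq
        | one => rw [mul_one, one_mul]
        | mul x z _ _ h5 h6 => rw [mul_assoc, h6, ← mul_assoc, h5, mul_assoc]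
        | inv x _ h5 =>
          have h7 : Commute x y := h5
          exact h7.inv_left.eq
      exact Subtype.ext (h4 x x.2 y y.2)
    have h4 : A ≤ W.comap (QuotientGroup.mk' N) := by
      intro x hx
      exact subset_closure (Or.inr (Subgroup.mem_map.2 ⟨x, hx, rfl⟩))
    have h5 : Group.IsSolvable (W.comap (QuotientGroup.mk' N)) := by
      haveI := hNs
      haveI := hWs
      have hle : N ≤ W.comap (QuotientGroup.mk' N) := by
        intro x hx
        rw [Subgroup.mem_comap, (QuotientGroup.eq_one_iff x).2 hx |> fun h => (h : QuotientGroup.mk' N x = 1)]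
        exact W.one_mem
      refine Group.isSolvable_of_ker_le_range (Subgroup.inclusion hle)
        (((QuotientGroup.mk' N).subgroupComap W)) ?_
      intro x hx
      rw [MonoidHom.mem_ker] at hx
      have h2 : QuotientGroup.mk' N (x : G) = 1 := congrArg Subtype.val hx
      have h3 : (x : G) ∈ N := (QuotientGroup.eq_one_iff _).1 h2
      exact ⟨⟨x, h3⟩, Subtype.ext rfl⟩
    exact (hA _ h4 h5 a ha g (subset_closure (Or.inl rfl))).symm
  have hAbot : A ≠ ⊥ := by
    intro h
    apply hcon
    rw [h]
    exact bot_le
  have hZ : center G = ⊥ := hrad _ inferInstance (Group.isSolvable_of_comm (fun a b => by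
    exact Subtype.ext (mem_center_iff.1 b.2 a)))
  -- centralizers of nontrivial elements of `C`
  have hcent : ∀ y ∈ C, y ≠ 1 → centralizer ({y} : Set G) ≤ C := by
    intro y hy hy1
    apply hprop
    · intro a ha
      rw [mem_centralizer_singleton_iff]
      exact (mem_centralizer_iff.1 hy) a ha
    · intro h
      apply hy1
      rw [← Subgroup.mem_bot, ← hZ, mem_center_iff]
      intro g
      have h1 : g ∈ centralizer ({y} : Set G) := by rw [h]; exact mem_top g
      exact mem_centralizer_singleton_iff.1 h1
  -- `C` is a Frobenius complement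
  have hfrob : IsFrobeniusComplement C := by
    refine ⟨fun h => hAbot (le_bot_iff.1 (h ▸ hAC)), hCtop, ?_⟩
    intro g hg
    rw [Subgroup.eq_bot_iff_forall]
    intro y hy
    by_contra hy1
    rw [Subgroup.mem_inf] at hy
    obtain ⟨hyC, hyg⟩ := hy
    rw [Subgroup.mem_pointwise_smul_iff_inv_smul_mem, ← map_inv, MulAut.smul_def,
      MulAut.conj_apply, inv_inv] at hyg
    -- `g A g⁻¹ ≤ C`
    have h1 : ∀ a ∈ A, g * a * g⁻¹ ∈ C := by
      intro a ha
      apply hcent y hyC hy1
      rw [mem_centralizer_singleton_iff]
      have h2 := (mem_centralizer_iff.1 hyg) a ha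
      calc g * a * g⁻¹ * y = g * (a * (g⁻¹ * y * g)) * g⁻¹ := by group
        _ = g * ((g⁻¹ * y * g) * a) * g⁻¹ := by rw [h2]
        _ = y * (g * a * g⁻¹) := by group
    -- `A ≤ g C g⁻¹`
    have h2 : A ≤ C.map (MulAut.conj g).toMonoidHom := by
      intro b hb
      refine Subgroup.mem_map.2 ⟨g⁻¹ * b * g, ?_, ?_⟩
      · rw [hC, mem_centralizer_iff]
        intro a ha
        have h3 := (mem_centralizer_iff.1 (h1 a ha)) b hb
        calc a * (g⁻¹ * b * g) = g⁻¹ * ((g * a * g⁻¹) * b) * g := by group
          _ = g⁻¹ * (b * (g * a * g⁻¹)) * g := by rw [h3]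
          _ = g⁻¹ * b * g * a := by group
      · show g * (g⁻¹ * b * g) * g⁻¹ = b
        group
    have h3 : Nat.card (C.map (MulAut.conj g).toMonoidHom) = Nat.card C :=
      Nat.card_congr (C.equivMapOfInjective _ (MulAut.conj g).injective).symm.toEquiv
    have h4 : C.map (MulAut.conj g).toMonoidHom ≠ ⊤ := by
      intro h
      apply hCtop
      rw [← Subgroup.card_eq_iff_eq_top, ← h3, h, Subgroup.card_top]
    have h5 : C.map (MulAut.conj g).toMonoidHom ≤ C := hprop _ h2 h4
    have h6 : g ∈ normalizer (C : Set G) := by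
      have h7 : C.map (MulAut.conj g).toMonoidHom = C := by
        apply SetLike.coe_injective
        apply Set.eq_of_subset_of_ncard_le h5
        rw [← Nat.card_coe_set_eq, ← Nat.card_coe_set_eq]
        exact h3.ge
      rw [Subgroup.mem_normalizer_iff]
      intro x
      constructor
      · intro hx
        rw [← h7]
        exact Subgroup.mem_map.2 ⟨x, hx, rfl⟩
      · intro hx
        rw [← h7] at hx
        obtain ⟨z, hz, hzx⟩ := Subgroup.mem_map.1 hx
        have hzx' : g * z * g⁻¹ = g * x * g⁻¹ := hzx
        have : z = x := by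
          have h8 := mul_right_cancel hzx'
          exact mul_left_cancel h8
        rw [← this]
        exact hz
    by_cases hN : normalizer (C : Set G) = ⊤
    · -- `C` is normal, so `A` lies in its centre
      haveI hCn : C.Normal := Subgroup.normalizer_eq_top_iff.1 hN
      have h7 : (center C).map C.subtype = ⊥ := by
        apply hrad
        · infer_instance
        · haveI : Group.IsSolvable (center C) := Group.isSolvable_of_comm (fun a b =>
            Subtype.ext (mem_center_iff.1 b.2 a))
          exact Group.isSolvable_of_surjective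
            (MonoidHom.subgroupMap_surjective C.subtype (center C))
      apply hAbot
      rw [eq_bot_iff, ← h7]
      intro a ha
      refine Subgroup.mem_map.2 ⟨⟨a, hAC ha⟩, ?_, rfl⟩
      rw [mem_center_iff]
      intro c
      exact Subtype.ext ((mem_centralizer_iff.1 c.2) a ha).symm
    · exact hg (hprop _ (hAC.trans le_normalizer) hN h6)
  obtain ⟨K, hK1, hK2, hK3⟩ := H20.Fpf.frobenius_nilpotent hfrob
  obtain ⟨K', hK1', _, hK3'⟩ := H25.frobenius_kernel hfrob
  have hKK : K = K' := SetLike.coe_injective (hK1.trans hK1'.symm)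
  subst hKK
  have hKb : K ≠ ⊥ := by
    intro h
    apply hCtop
    have h1 := hK3'.sup_eq_top
    rw [h, bot_sup_eq] at h1
    exact h1
  haveI := hK3
  exact hKb (hrad K hK2 inferInstance)

end Cfsg.Agent.H24
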