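import Mathlib
import Cfsg.Agent.H18.CharP
import Cfsg.Agent.H10.CharP
import Cfsg.Agent.H10.PCons
import Cfsg.Agent.H10.PLoc
import Cfsg.Agent.H2.PCon
import Cfsg.Agent.H23.Coprime4
import Cfsg.Agent.H23.PGroup4
import Cfsg.Prelude.Def_CaseTheorems

set_option autoImplicit false
set_option linter.all false

/-! # H24/CharLoc: local characteristic p -/

namespace Cfsg.Agent.H24.CharLoc

open Subgroup Cfsg Cfsg.Agent.H18

variable {G : Type*} [Group G] [Finite G] {p : ℕ} [Fact p.Prime]

/-- `H` has characteristic `p`, relative version -/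
def ChP (p : ℕ) (H : Subgroup G) : Prop :=
  H ⊓ centralizer ((pCoreOf p H : Subgroup G) : Set G) ≤ pCoreOf p H

theorem chP_inf_normalizer {H R : Subgroup G} (hR : IsPGroup p R) (hRH : R ≤ H) (hH : ChP p H) :
    ChP p (H ⊓ normalizer (R : Set G)) := by
  apply charPOf_of_forall
  intro x hxN hx hxp
  refine eq_one_of_mem_centralizer_pCoreOf hH (mem_inf.mp hxN).1 ?_ hxp
  have hRle : R ≤ pCoreOf p (H ⊓ normalizer (R : Set G)) :=
    le_pCoreOf (le_inf hRH Subgroup.le_normalizer) inf_le_right hR
  have hxR : x ∈ centralizer (R : Set G) := Subgroup.centralizer_le hRle hx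
  have hHR : R ≤ normalizer ((pCoreOf p H : Subgroup G) : Set G) := hRH.trans (le_normalizer_pCoreOf H)
  have hC : pCoreOf p H ⊓ centralizer (R : Set G) ≤ pCoreOf p (H ⊓ normalizer (R : Set G)) := by
    refine le_pCoreOf ?_ ?_ ((isPGroup_pCoreOf H).to_le inf_le_left)
    · exact le_inf (inf_le_left.trans (pCoreOf_le H)) (inf_le_right.trans (centralizer_le_normalizer _))
    · exact le_normalizer_inf (inf_le_left.trans (le_normalizer_pCoreOf H))
        (le_normalizer_centralizer inf_le_right)
  refine axb_elem (isPGroup_pCoreOf H) hR hxp ?_ hHR hxR ?_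
  · exact le_normalizer_pCoreOf H (mem_inf.mp hxN).1
  · intro u hu hu2
    exact ((mem_centralizer_iff.1 hx) u (hC (mem_inf.mpr ⟨hu, hu2⟩))).symm

theorem chP_of_centralizer {T : Subgroup G} (hT : IsPGroup p T) {t : G} (ht : t ∈ T)
    (htZ : T ≤ centralizer ({t} : Set G)) (hC : ChP p (centralizer ({t} : Set G))) :
    ChP p (normalizer (T : Set G)) := by
  set N := normalizer (T : Set G) with hN
  set K : Subgroup G := N ⊓ centralizer ((pCoreOf p N : Subgroup G) : Set G) with hK
  have hL := chP_inf_normalizer hT htZ hC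
  have hTN : T ≤ pCoreOf p N := le_pCoreOf le_normalizer le_rfl hT
  have hKN : K ≤ N := inf_le_left
  have hKL : K ≤ centralizer ({t} : Set G) ⊓ normalizer (T : Set G) := by
    refine le_inf ?_ hKN
    refine (inf_le_right : K ≤ _).trans (centralizer_le ?_)
    rw [Set.singleton_subset_iff]
    exact hTN ht
  have hNK : N ≤ normalizer (K : Set G) :=
    le_normalizer_inf le_normalizer (le_normalizer_centralizer (le_normalizer_pCoreOf N))
  have hKc := charP_normal hKL (inf_le_right.trans hNK) hL
  have hle : pCoreOf p K ≤ pCoreOf p N := pCoreOf_mono_of_normalizes hKN hNK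
  have h1 : K ≤ pCoreOf p K := by
    refine le_trans (le_inf le_rfl ?_) hKc
    exact (inf_le_right : K ≤ _).trans (centralizer_le hle)
  exact h1.trans hle

theorem chP_of_constrained {M : Subgroup G} (h : IsPConstrained p M) (h1 : pPrimeCore p M = ⊥) :
    ChP p M := by
  rw [H10.isPConstrained_iff] at h
  let e : M ⧸ pPrimeCore p M ≃* M :=
    (QuotientGroup.quotientMulEquivOfEq h1).trans QuotientGroup.quotientBot
  exact charP_iff_pCoreOf.1 (H10.charP_equiv e h)

theorem constrained_of_chP {M : Subgroup G} (h : ChP p M) : IsPConstrained p M :=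
  H2.isPConstrained_of_surjective (MonoidHom.id M) Function.surjective_id (by
    rw [MonoidHom.ker_id, card_bot]; exact Nat.coprime_one_left p) (charP_iff_pCoreOf.2 h)

/-- an odd order group `X` normalized by a Sylow `2`-subgroup `S` and an involution `u` with
`|S : C_S(u)| ≤ 2`, with `C_G(u)` of characteristic `2`: `C_X(u) = 1`. -/
theorem centralizer_inf_eq_bot (S : Sylow 2 G) {X : Subgroup G} (hX : Odd (Nat.card X))
    (hSX : (S : Subgroup G) ≤ normalizer (X : Set G)) {u : G} 
    (hidx : (centralizer ({u} : Set G)).relIndex (S : Subgroup G) ≤ 2)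
    (hC : ChP 2 (centralizer ({u} : Set G))) : X ⊓ centralizer ({u} : Set G) = ⊥ := by
  set H := centralizer ({u} : Set G) with hH
  set O := pCoreOf 2 H with hO
  have hOp : IsPGroup 2 O := isPGroup_pCoreOf H
  have hOH : O ≤ H := pCoreOf_le H
  set C : Subgroup G := (S : Subgroup G) ⊓ H with hCd
  -- a Sylow subgroup of H containing C
  obtain ⟨T, hT, hCT⟩ := H23.exists_isSylowOf_ge (p := 2) (Q := C) (G := H) inf_le_right (S.2.to_le inf_le_left)
  have hOT : O ≤ T := by
    obtain ⟨R, rfl⟩ := hT
    have h1 : pCore 2 H ≤ R := pCore_le_sylow R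
    exact map_mono h1
  have hTS : Nat.card T ≤ Nat.card (S : Subgroup G) := by
    obtain ⟨Q, hQ⟩ := hT.isPGroup.exists_le_sylow
    calc Nat.card T ≤ Nat.card (Q : Subgroup G) := Subgroup.card_le_of_le hQ
      _ = Nat.card (S : Subgroup G) := Nat.card_congr (Sylow.equiv Q S).toEquiv
  have hCS : (Nat.card (S : Subgroup G)) ≤ 2 * Nat.card C := by
    have h1 := H2.card_relIndex_mul_card (inf_le_left : C ≤ (S : Subgroup G))
    have h2 : C.relIndex (S : Subgroup G) = H.relIndex (S : Subgroup G) := inf_relIndex_left _ _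
    rw [h2] at h1
    rw [← h1]
    exact Nat.mul_le_mul_right _ hidx
  have hCTi : C.relIndex T ≤ 2 := by
    have h1 := H2.card_relIndex_mul_card hCT
    have h2 : C.relIndex T * Nat.card C ≤ 2 * Nat.card C := by
      rw [h1]; exact hTS.trans hCS
    exact Nat.le_of_mul_le_mul_right h2 Nat.card_pos
  have hCO : C.relIndex O ≤ 2 := by
    refine le_trans (relIndex_le_of_le_right hOT ?_) hCTi
    intro h
    have h1 := H2.card_relIndex_mul_card hCT
    rw [h, zero_mul] at h1
    exact Nat.card_pos.ne h1
  -- elements of O ∩ C commute with elements of Y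
  rw [eq_bot_iff]
  intro y hy
  obtain ⟨hyX, hyH⟩ := mem_inf.mp hy
  have hyodd : (orderOf y).Coprime 2 := by
    have h1 : orderOf y ∣ Nat.card X := by
      have := orderOf_dvd_natCard (⟨y, hyX⟩ : X)
      rwa [Subgroup.orderOf_mk] at this
    exact (Nat.coprime_two_right.mpr (hX.of_dvd_nat h1))
  have hcomm : ∀ o ∈ O, o ∈ C → y * o * y⁻¹ = o := by
    intro o ho hoC
    have h1 : y * o * y⁻¹ * o⁻¹ ∈ O ⊓ X := by
      refine mem_inf.mpr ⟨?_, ?_⟩
      · exact O.mul_mem ((mem_normalizer_iff.mp (le_normalizer_pCoreOf H hyH) o).mp ho) (O.inv_mem ho)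
      · have h2 := X.mul_mem hyX ((mem_normalizer_iff.mp (hSX (mem_inf.mp hoC).1) y⁻¹).mp (X.inv_mem hyX))
        have e : y * (o * y⁻¹ * o⁻¹) = y * o * y⁻¹ * o⁻¹ := by group
        rwa [e] at h2
    have h3 : O ⊓ X = ⊥ := by
      apply Subgroup.inf_eq_bot_of_coprime
      obtain ⟨k, hk⟩ := IsPGroup.iff_card.mp hOp
      rw [hk]
      exact Nat.Coprime.pow_left k (Nat.coprime_two_left.mpr hX)
    rw [h3, mem_bot] at h1
    exact mul_inv_eq_one.mp h1
  have hyC : y ∈ centralizer (O : Set G) := by
    rw [mem_centralizer_iff]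
    intro o ho
    by_cases hoC : o ∈ C
    · have h := hcomm o ho hoC
      calc o * y = (y * o * y⁻¹) * y := by rw [h]
        _ = y * o := by group
    · -- index exactly 2
      have hidx2 : (C.subgroupOf O).index = 2 := by
        have h1 : (C.subgroupOf O).index ≤ 2 := hCO
        have h2 : (C.subgroupOf O).index ≠ 0 := index_ne_zero_of_finite
        have h3 : (C.subgroupOf O).index ≠ 1 := by
          intro h3
          rw [index_eq_one] at h3
          apply hoC
          have : (⟨o, ho⟩ : O) ∈ C.subgroupOf O := by rw [h3]; trivial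
          exact this
        omega
      have hyo : y * o * y⁻¹ ∈ O := (mem_normalizer_iff.mp (le_normalizer_pCoreOf H hyH) o).mp ho
      have hyoC : y * o * y⁻¹ ∉ C := by
        intro h
        have h1 := hcomm _ hyo h
        have h2 : y * o * y⁻¹ = o := by
          have h3 := congrArg (fun t => y⁻¹ * t * y) h1
          have e1 : y⁻¹ * (y * (y * o * y⁻¹) * y⁻¹) * y = y * o * y⁻¹ := by group
          have e2 : y⁻¹ * (y * o * y⁻¹) * y = o := by group
          simp only [e1, e2] at h3
          exact h3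
        rw [h2] at h
        exact hoC h
      have hc : o⁻¹ * (y * o * y⁻¹) ∈ C := by
        have h1 := (Subgroup.mul_mem_iff_of_index_two hidx2 (a := (⟨o, ho⟩ : O)⁻¹) (b := ⟨y * o * y⁻¹, hyo⟩)).mpr
          (by
            constructor
            · intro h
              exact absurd ((C.subgroupOf O).inv_mem_iff.mp h) hoC
            · intro h
              exact absurd h hyoC)
        exact h1
      set c := o⁻¹ * (y * o * y⁻¹) with hcd
      have hcO : c ∈ O := O.mul_mem (O.inv_mem ho) hyo
      have hyc : y * c * y⁻¹ = c := hcomm c hcO hc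
      have hpow : ∀ k : ℕ, y ^ k * o * (y ^ k)⁻¹ = o * c ^ k := by
        intro k
        induction k with
        | zero => simp
        | succ k ih =>
          have e : y ^ (k + 1) * o * (y ^ (k + 1))⁻¹ = y * (y ^ k * o * (y ^ k)⁻¹) * y⁻¹ := by
            rw [pow_succ']; group
          rw [e, ih]
          have e2 : y * (o * c ^ k) * y⁻¹ = (y * o * y⁻¹) * (y * c * y⁻¹) ^ k := by
            rw [conj_pow]; group
          rw [e2, hyc]
          have e3 : y * o * y⁻¹ = o * c := by rw [hcd]; group
          rw [e3, pow_succ']; group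
      have h5 := hpow (orderOf y)
      rw [pow_orderOf_eq_one] at h5
      have h6 : c ^ orderOf y = 1 := by
        have : o * c ^ orderOf y = o := by rw [← h5]; group
        exact mul_eq_left.mp this
      have h7 : c = 1 := by
        obtain ⟨k, hk⟩ := hOp ⟨c, hcO⟩
        have hk' : c ^ 2 ^ k = 1 := congrArg Subtype.val hk
        have h8 : orderOf c ∣ Nat.gcd (orderOf y) (2 ^ k) :=
          Nat.dvd_gcd (orderOf_dvd_of_pow_eq_one h6) (orderOf_dvd_of_pow_eq_one hk')
        rw [Nat.Coprime.pow_right k hyodd] at h8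
        exact orderOf_eq_one_iff.mp (Nat.dvd_one.mp h8)
      have h8 : y * o * y⁻¹ = o := by
        have e3 : y * o * y⁻¹ = o * c := by rw [hcd]; group
        rw [e3, h7, mul_one]
      calc o * y = (y * o * y⁻¹) * y := by rw [h8]
        _ = y * o := by group
  rw [mem_bot]
  exact eq_one_of_mem_centralizer_pCoreOf hC hyH hyC hyodd

end Cfsg.Agent.H24.CharLoc
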