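import Cfsg.Agent.H3.FrobSchur
import Cfsg.Agent.H3.Counting
import Cfsg.Agent.H3.Perm
import Cfsg.Agent.H3.Integral
import Cfsg.Agent.H3.Ind
import Cfsg.Agent.H27.Util
import Mathlib

/-!
# Linear characters acting on irreducible characters (helper24)
-/

set_option autoImplicit false

open Cfsg Cfsg.Agent.H3
open scoped ComplexConjugate

universe u

namespace Cfsg.Agent.H24

variable {G : Type u} [Group G]

theorem sum_norm_sq_eq [Finite G] [Fintype G] {χ : G → ℂ} (hχ : IsIrrCharacter G χ) :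
    ∑ g : G, ‖χ g‖ ^ 2 = (Nat.card G : ℝ) := by
  have h1 := classInner_self_of_irr hχ
  have h0 : (Nat.card G : ℂ) ≠ 0 := by exact_mod_cast Nat.card_pos.ne'
  rw [classInner, inv_mul_eq_iff_eq_mul₀ h0, mul_one] at h1
  have h2 : ((∑ g : G, ‖χ g‖ ^ 2 : ℝ) : ℂ) = ((Nat.card G : ℝ) : ℂ) := by
    push_cast
    rw [← h1]
    refine Finset.sum_congr rfl fun g _ => ?_
    rw [Complex.mul_conj, Complex.normSq_eq_norm_sq]
    push_cast; rfl
  exact_mod_cast h2

/-- The stabilizer of `χ` in the group of linear characters has order at most `χ(1)^2`. -/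
theorem card_stab_le [Finite G] {χ : G → ℂ} (hχ : IsIrrCharacter G χ) {d : ℕ} (hd : χ 1 = d)
    (S : Subgroup (G →* ℂˣ)) (hS : ∀ l ∈ S, ∀ g : G, (l g : ℂ) * χ g = χ g) :
    Nat.card S ≤ d ^ 2 := by
  classical
  haveI := Fintype.ofFinite G
  let K : Subgroup G := ⨅ l : S, (l : G →* ℂˣ).ker
  haveI hKn : K.Normal := Subgroup.normal_iInf_normal fun l => inferInstance
  have hKmem : ∀ g : G, g ∈ K ↔ ∀ l ∈ S, l g = 1 := by
    intro g
    rw [Subgroup.mem_iInf]
    constructor
    · intro h l hl; exact (MonoidHom.mem_ker).1 (h ⟨l, hl⟩)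
    · intro h l; exact (MonoidHom.mem_ker).2 (h l l.2)
  have hvan : ∀ g : G, g ∉ K → χ g = 0 := by
    intro g hg
    rw [hKmem] at hg
    push Not at hg
    obtain ⟨l, hl, hne⟩ := hg
    have h1 := hS l hl g
    have h2 : ((l g : ℂ) - 1) * χ g = 0 := by rw [sub_mul, h1, one_mul, sub_self]
    rcases mul_eq_zero.1 h2 with h3 | h3
    · exfalso; apply hne
      exact Units.ext (sub_eq_zero.1 h3)
    · exact h3
  have hdeg : (charDegree χ : ℂ) = d := by
    rw [← hd]; exact Cfsg.Agent.H27.charDegree_cast (irr_isChar hχ)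
  have hdeg' : charDegree χ = d := by exact_mod_cast hdeg
  have hnorm : ∀ g, ‖χ g‖ ≤ d := fun g => by
    have := Cfsg.Agent.H27.norm_char_le (irr_isChar hχ) g
    rwa [hdeg'] at this
  have hsum := sum_norm_sq_eq hχ
  have hle : (Nat.card G : ℝ) ≤ (Nat.card K : ℝ) * (d : ℝ) ^ 2 := by
    rw [← hsum, ← Finset.sum_filter_add_sum_filter_not Finset.univ (fun g => g ∈ K)]
    have h1 : ∑ g ∈ Finset.univ.filter (fun g => ¬ g ∈ K), ‖χ g‖ ^ 2 = 0 := by
      apply Finset.sum_eq_zero
      intro g hg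
      rw [hvan g (Finset.mem_filter.1 hg).2]; simp
    rw [h1, add_zero]
    have h2 : ∑ g ∈ Finset.univ.filter (fun g => g ∈ K), ‖χ g‖ ^ 2 ≤
        ∑ g ∈ Finset.univ.filter (fun g => g ∈ K), (d : ℝ) ^ 2 := by
      apply Finset.sum_le_sum
      intro g _
      exact pow_le_pow_left₀ (norm_nonneg _) (hnorm g) 2
    refine h2.trans ?_
    rw [Finset.sum_const, nsmul_eq_mul]
    have h3 : (Finset.univ.filter (fun g => g ∈ K)).card = Nat.card K := by
      rw [Nat.card_eq_fintype_card, Fintype.card_subtype]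
    rw [h3]
  have hle' : Nat.card G ≤ Nat.card K * d ^ 2 := by exact_mod_cast hle
  have hidx : K.index ≤ d ^ 2 := by
    rw [← Subgroup.card_mul_index K] at hle'
    exact Nat.le_of_mul_le_mul_left hle' Nat.card_pos
  refine le_trans ?_ hidx
  have hinj : Function.Injective (fun l : S =>
      (QuotientGroup.lift K (l : G →* ℂˣ) (fun g hg => (hKmem g).1 hg l l.2) : (G ⧸ K) →* ℂˣ)) := by
    intro l m hlm
    apply Subtype.ext
    apply MonoidHom.ext
    intro g
    have := DFunLike.congr_fun hlm (g : G ⧸ K)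
    exact this
  have hfin : Finite ((G ⧸ K) →* ℂˣ) := by
    have h1 := card_hom_units (G := G ⧸ K)
    apply Nat.finite_of_card_ne_zero
    rw [h1]
    exact Subgroup.index_ne_zero_of_finite
  refine (Nat.card_le_card_of_injective _ hinj).trans ?_
  rw [card_hom_units]
  exact Nat.le_of_dvd Nat.card_pos (Subgroup.index_dvd_card _)

/-- multiplication by linear characters -/
noncomputable def linMul [Finite G] (l : G →* ℂˣ) (χ : IrrCharacter G) : IrrCharacter G :=
  ⟨_, isIrr_mul_hom χ.2 l⟩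

theorem linMul_apply [Finite G] (l : G →* ℂˣ) (χ : IrrCharacter G) (g : G) :
    (linMul l χ : G → ℂ) g = (l g : ℂ) * (χ : G → ℂ) g := rfl

noncomputable instance linMulAction [Finite G] : MulAction (G →* ℂˣ) (IrrCharacter G) where
  smul := linMul
  one_smul χ := by
    apply Subtype.ext
    funext g
    show ((1 : G →* ℂˣ) g : ℂ) * (χ : G → ℂ) g = (χ : G → ℂ) g
    simp
  mul_smul l m χ := by
    apply Subtype.ext
    funext g
    show ((l * m) g : ℂ) * (χ : G → ℂ) g = (l g : ℂ) * ((m g : ℂ) * (χ : G → ℂ) g)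
    rw [MonoidHom.mul_apply, Units.val_mul, mul_assoc]

theorem lin_smul_apply [Finite G] (l : G →* ℂˣ) (χ : IrrCharacter G) (g : G) :
    ((l • χ : IrrCharacter G) : G → ℂ) g = (l g : ℂ) * (χ : G → ℂ) g := rfl

/-- Divisibility of invariant sums by orbit contributions. -/
theorem dvd_sum_of_orbits {L X : Type*} [Group L] [Finite L] [MulAction L X] [Fintype X] (f : X → ℤ)
    (hf : ∀ (l : L) (x : X), f (l • x) = f x) (m : ℤ)
    (h : ∀ x : X, m ∣ (Nat.card (MulAction.orbit L x) : ℤ) * f x) : m ∣ ∑ x, f x := by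
  classical
  haveI : Fintype (MulAction.orbitRel.Quotient L X) := Fintype.ofFinite _
  rw [← Finset.sum_fiberwise Finset.univ (fun x => (Quotient.mk _ x : MulAction.orbitRel.Quotient L X))]
  apply Finset.dvd_sum
  intro ω _
  obtain ⟨x, rfl⟩ := Quotient.exists_rep ω
  have h1 : ∀ y ∈ Finset.univ.filter (fun y => (Quotient.mk _ y : MulAction.orbitRel.Quotient L X) =
      Quotient.mk _ x), f y = f x := by
    intro y hy
    have h2 := Quotient.exact (Finset.mem_filter.1 hy).2
    obtain ⟨l, hl⟩ := h2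
    have hl' : l • x = y := hl
    rw [← hl', hf]
  have h1' : ∑ y ∈ Finset.univ.filter (fun y => (Quotient.mk _ y : MulAction.orbitRel.Quotient L X) =
      Quotient.mk _ x), f y = ∑ y ∈ Finset.univ.filter (fun y => (Quotient.mk _ y :
        MulAction.orbitRel.Quotient L X) = Quotient.mk _ x), f x := Finset.sum_congr rfl h1
  rw [h1', Finset.sum_const, nsmul_eq_mul]
  have h3 : (Finset.univ.filter (fun y => (Quotient.mk _ y : MulAction.orbitRel.Quotient L X) =
      Quotient.mk _ x)).card = Nat.card (MulAction.orbit L x) := by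
    rw [← Fintype.card_subtype, ← Nat.card_eq_fintype_card]
    refine Nat.card_congr (Equiv.subtypeEquivRight fun y => ?_)
    constructor
    · intro hy; exact Quotient.exact hy
    · intro hy; exact Quotient.sound hy
  rw [h3]
  exact h x

end Cfsg.Agent.H24
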