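import Mathlib
import Cfsg.Agent.H24.PBasic
import Cfsg.Agent.H24.ClassSize3

set_option autoImplicit false

/-! # H24/MinClass: elements whose class has the minimal non-trivial size -/

namespace Cfsg.Agent.H24

open Subgroup
open scoped commutatorElement

variable {G : Type*} [Group G]

/-- the set of commutators `[x, a]`, `a ∈ A` -/
def commSet (A : Subgroup G) (x : G) : Set G := {y | ∃ a ∈ A, y = x * a * x⁻¹ * a⁻¹}

theorem commSet_conj (A : Subgroup G) [A.Normal] (g x : G) :
    commSet A (g * x * g⁻¹) = (fun y => g * y * g⁻¹) '' commSet A x := by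
  ext y
  constructor
  · rintro ⟨a, ha, rfl⟩
    refine ⟨x * (g⁻¹ * a * g) * x⁻¹ * (g⁻¹ * a * g)⁻¹, ⟨g⁻¹ * a * g, ?_, rfl⟩, ?_⟩
    · have := (inferInstance : A.Normal).conj_mem a ha g⁻¹
      simpa using this
    · show g * (x * (g⁻¹ * a * g) * x⁻¹ * (g⁻¹ * a * g)⁻¹) * g⁻¹ = _
      group
  · rintro ⟨_, ⟨a, ha, rfl⟩, rfl⟩
    refine ⟨g * a * g⁻¹, (inferInstance : A.Normal).conj_mem a ha g, ?_⟩
    show g * (x * a * x⁻¹ * a⁻¹) * g⁻¹ = _
    group

theorem ncard_commSet_conj (A : Subgroup G) [A.Normal] (g x : G) :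
    (commSet A (g * x * g⁻¹)).ncard = (commSet A x).ncard := by
  rw [commSet_conj]
  apply Set.ncard_image_of_injective
  intro a b hab
  have : g * a * g⁻¹ = g * b * g⁻¹ := hab
  exact mul_left_cancel (mul_right_cancel this)

/-- If `x` has minimal non-trivial class size then commutators of `x` with an abelian normal
subgroup are central. -/
theorem comm_mem_center_of_min_class [Finite G] (A : Subgroup G) [A.Normal]
    (hA : IsMulCommutative A) (m : ℕ)
    (hmin : ∀ x : G, 1 < (centralizer ({x} : Set G)).index → m ≤ (centralizer ({x} : Set G)).index)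
    (x : G) (hx : (centralizer ({x} : Set G)).index = 1 ∨ (centralizer ({x} : Set G)).index = m)
    (a : G) (ha : a ∈ A) : x * a * x⁻¹ * a⁻¹ ∈ center G := by
  classical
  have := Fintype.ofFinite G
  rw [isMulCommutative_subgroup_iff] at hA
  have index_one : ∀ y : G, (centralizer ({y} : Set G)).index = 1 → y ∈ center G := by
    intro y hy
    rw [Subgroup.index_eq_one] at hy
    rw [mem_center_iff]
    intro g
    have : g ∈ centralizer ({y} : Set G) := by rw [hy]; trivial
    exact mem_centralizer_singleton_iff.1 this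
  rcases hx with hx | hx
  · have h1 := index_one x hx
    have h2 : x * a = a * x := (mem_center_iff.1 h1 a).symm
    rw [h2]
    have : a * x * x⁻¹ * a⁻¹ = 1 := by group
    rw [this]; exact one_mem _
  set y := x * a * x⁻¹ * a⁻¹ with hy
  by_cases hy1 : y = 1
  · rw [hy1]; exact one_mem _
  apply index_one
  by_contra hne
  have hidx : (centralizer ({y} : Set G)).index ≠ 0 := Subgroup.index_ne_zero_of_finite
  have h1 := hmin y (by omega)
  set k := (commSet A x).ncard with hk
  have hkpos : 0 < k := by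
    rw [hk, Set.ncard_pos (Set.toFinite _)]
    exact ⟨y, a, ha, rfl⟩
  set s : Finset G := Finset.univ.filter (fun z => IsConj y z) with hs
  set t : Finset G := Finset.univ.filter (fun z => IsConj x z) with ht
  have hsc : s.card = (centralizer ({y} : Set G)).index := by
    rw [← natCard_isConj y, Nat.card_eq_fintype_card, Fintype.card_subtype]
  have htc : t.card = (centralizer ({x} : Set G)).index := by
    rw [← natCard_isConj x, Nat.card_eq_fintype_card, Fintype.card_subtype]
  have key := Finset.card_mul_le_card_mul (s := s) (t := t) (m := k) (n := k - 1)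
    (fun y' x' => y' ∈ commSet A x') ?_ ?_
  · rw [hsc, htc, hx] at key
    obtain ⟨k', hk'⟩ : ∃ k', k = k' + 1 := ⟨k - 1, by omega⟩
    rw [hk'] at key
    simp only [Nat.add_sub_cancel] at key
    have h2 : m * (k' + 1) ≤ m * k' := le_trans (Nat.mul_le_mul_right _ h1) key
    have hm : 0 < m := by
      rw [← hx]; exact Nat.pos_of_ne_zero Subgroup.index_ne_zero_of_finite
    nlinarith
  · intro y' hy'
    rw [hs, Finset.mem_filter] at hy'
    obtain ⟨g, hg⟩ := isConj_iff.1 hy'.2
    set x0 := g * x * g⁻¹ with hx0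
    have hyx0 : y' ∈ commSet A x0 := by
      rw [hx0, commSet_conj]
      exact ⟨y, ⟨a, ha, rfl⟩, hg⟩
    have hkx0 : (commSet A x0).ncard = k := by rw [hx0, ncard_commSet_conj]
    rw [← hkx0, ← Set.ncard_image_of_injective (f := fun s => s⁻¹ * x0) (commSet A x0)
      (fun u v huv => by
        have : u⁻¹ * x0 = v⁻¹ * x0 := huv
        exact inv_injective (mul_right_cancel this))]
    rw [← Set.ncard_coe_finset]
    apply Set.ncard_le_ncard _ (Set.toFinite _)
    rintro _ ⟨_, ⟨b, hb, rfl⟩, rfl⟩
    show (x0 * b * x0⁻¹ * b⁻¹)⁻¹ * x0 ∈ _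
    have e : (x0 * b * x0⁻¹ * b⁻¹)⁻¹ * x0 = b * x0 * b⁻¹ := by group
    rw [e, Finset.mem_coe, Finset.mem_bipartiteAbove, ht, Finset.mem_filter]
    refine ⟨⟨Finset.mem_univ _, ?_⟩, ?_⟩
    · refine isConj_iff.2 ⟨b * g, ?_⟩
      rw [hx0]; group
    · rw [commSet_conj]
      refine ⟨y', hyx0, ?_⟩
      have hy'A : y' ∈ A := by
        obtain ⟨c, hc, rfl⟩ := hyx0
        exact A.mul_mem ((inferInstance : A.Normal).conj_mem c hc x0) (A.inv_mem hc)
      show b * y' * b⁻¹ = y'
      rw [hA b hb y' hy'A]; group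
  · intro x' hx'
    rw [ht, Finset.mem_filter] at hx'
    obtain ⟨g, hg⟩ := isConj_iff.1 hx'.2
    have hkx' : (commSet A x').ncard = k := by rw [← hg, ncard_commSet_conj]
    rw [← hkx', ← Set.ncard_sdiff_singleton_of_mem
      (show (1 : G) ∈ commSet A x' from ⟨1, A.one_mem, by group⟩), ← Set.ncard_coe_finset]
    apply Set.ncard_le_ncard _ (Set.toFinite _)
    intro y' hy'
    rw [Finset.mem_coe, Finset.mem_bipartiteBelow, hs, Finset.mem_filter] at hy'
    refine ⟨hy'.2, ?_⟩
    rw [Set.mem_singleton_iff]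
    rintro rfl
    obtain ⟨g', hg'⟩ := isConj_iff.1 hy'.1.2
    apply hy1
    calc y = g'⁻¹ * (g' * y * g'⁻¹) * g' := by group
      _ = 1 := by rw [hg']; group

/-- Mann's theorem: with a self-centralizing abelian normal subgroup, the elements in classes of
size `1` or `m` (the minimal non-trivial size) generate a nilpotent group of class `≤ 3`. -/
theorem upperCentralSeries_closure_min_class [Finite G] (A : Subgroup G) [A.Normal]
    (hA : IsMulCommutative A) (hCA : centralizer (A : Set G) = A) (m : ℕ)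
    (hmin : ∀ x : G, 1 < (centralizer ({x} : Set G)).index → m ≤ (centralizer ({x} : Set G)).index) :
    Subgroup.upperCentralSeries ↥(closure {x : G | (centralizer ({x} : Set G)).index = 1 ∨
      (centralizer ({x} : Set G)).index = m}) 3 = ⊤ := by
  set M := closure {x : G | (centralizer ({x} : Set G)).index = 1 ∨
      (centralizer ({x} : Set G)).index = m} with hM
  have h1 : ⁅M, A⁆ ≤ center G := by
    rw [commutator_le]
    intro x hx a ha
    rw [commutatorElement_def]
    induction hx using Subgroup.closure_induction generalizing a with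
    | mem x hx => exact comm_mem_center_of_min_class A hA m hmin x hx a ha
    | one => simp
    | mul x y _ _ hx hy =>
      have h2 : x * y * a * (x * y)⁻¹ * a⁻¹ =
          x * (y * a * y⁻¹ * a⁻¹) * x⁻¹ * (x * a * x⁻¹ * a⁻¹) := by group
      rw [h2]
      exact mul_mem ((inferInstance : (center G).Normal).conj_mem _ (hy a ha) x) (hx a ha)
    | inv x _ hx =>
      have h2 : x⁻¹ * a * x⁻¹⁻¹ * a⁻¹ = x⁻¹ * (x * a * x⁻¹ * a⁻¹)⁻¹ * x⁻¹⁻¹ := by group
      rw [h2]
      exact (inferInstance : (center G).Normal).conj_mem _ (inv_mem (hx a ha)) _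
  have hZ : ∀ H K : Subgroup G, H ≤ center G → ⁅H, K⁆ = ⊥ := by
    intro H K hH
    rw [eq_bot_iff, commutator_le]
    intro h hh k _
    rw [mem_bot, commutatorElement_eq_one_iff_mul_comm]
    exact (mem_center_iff.1 (hH hh) k).symm
  have h2 : ⁅⁅M, M⁆, A⁆ = ⊥ := by
    apply commutator_commutator_eq_bot_of_rotate
    · exact hZ _ _ h1
    · apply hZ; rw [commutator_comm]; exact h1
  have h3 : ⁅M, M⁆ ≤ A := by
    rw [commutator_eq_bot_iff_le_centralizer, hCA] at h2
    exact h2
  rw [eq_top_iff]
  intro x _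
  rw [Subgroup.mem_upperCentralSeries_succ_iff]
  intro y
  rw [Subgroup.mem_upperCentralSeries_succ_iff]
  intro z
  rw [Subgroup.mem_upperCentralSeries_succ_iff]
  intro w
  rw [Subgroup.upperCentralSeries_zero, mem_bot]
  have h4 : ⁅(x : G), (y : G)⁆ ∈ A := by
    apply h3
    exact commutator_mem_commutator x.2 y.2
  have h5 : ⁅⁅(x : G), (y : G)⁆, (z : G)⁆ ∈ center G := by
    apply h1
    rw [commutator_comm]
    exact commutator_mem_commutator h4 z.2
  rw [commutatorElement_eq_one_iff_mul_comm]
  apply Subtype.ext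
  exact (mem_center_iff.1 h5 w).symm

end Cfsg.Agent.H24
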