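import Mathlib
import Cfsg.Agent.H24.Frobenius

set_option autoImplicit false

/-!
# H24.OrderCount: numbers of elements of given order
-/

namespace Cfsg.Agent.H24

open Subgroup

/-- number of elements of order `m` -/
noncomputable def NO (G : Type*) [Group G] (m : ℕ) : ℕ := Nat.card {g : G // orderOf g = m}

variable {G : Type*} [Group G] [Finite G]

theorem sum_div_mul {m n : ℕ} (hmn : m.Coprime n) (f : ℕ → ℕ) :
    ∑ d ∈ (m * n).divisors, f d = ∑ a ∈ m.divisors, ∑ b ∈ n.divisors, f (a * b) := by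
  rw [Nat.divisors_mul, Finset.mul_def, Finset.sum_image hmn.mul_injOn_divisors, Finset.sum_product]

theorem card_pow_eq_one_eq_sum (n : ℕ) (hn : n ≠ 0) :
    Nat.card {g : G // g ^ n = 1} = ∑ d ∈ n.divisors, NO G d := by
  classical
  have := Fintype.ofFinite G
  have h1 : Nat.card {g : G // g ^ n = 1} = (Finset.univ.filter (fun g : G => g ^ n = 1)).card := by
    rw [Nat.card_eq_fintype_card, Fintype.card_subtype]
  have h2 : ∀ d, NO G d = (Finset.univ.filter (fun g : G => orderOf g = d)).card := by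
    intro d
    rw [NO, Nat.card_eq_fintype_card, Fintype.card_subtype]
  rw [h1, Finset.card_eq_sum_card_fiberwise (f := orderOf) (t := n.divisors)]
  · apply Finset.sum_congr rfl
    intro d hd
    rw [h2]
    congr 1
    ext g
    simp only [Finset.mem_filter, Finset.mem_univ, true_and]
    constructor
    · exact fun h => h.2
    · intro h
      refine ⟨?_, h⟩
      rw [← orderOf_dvd_iff_pow_eq_one, h]
      exact Nat.dvd_of_mem_divisors hd
  · intro g hg
    simp only [Finset.coe_filter, Finset.mem_univ, true_and, Set.mem_setOf_eq] at hg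
    exact Nat.mem_divisors.mpr ⟨orderOf_dvd_iff_pow_eq_one.mpr hg, hn⟩

theorem dvd_sum_NO {n : ℕ} (hn : n ∣ Nat.card G) : n ∣ ∑ d ∈ n.divisors, NO G d := by
  have hn0 : n ≠ 0 := fun h => Nat.card_pos.ne' (Nat.eq_zero_of_zero_dvd (h ▸ hn))
  rw [← card_pow_eq_one_eq_sum n hn0]
  exact frobenius_dvd n hn

theorem NO_ne_zero_iff (m : ℕ) : NO G m ≠ 0 ↔ ∃ g : G, orderOf g = m := by
  rw [NO, Ne, Finite.card_eq_zero_iff, not_isEmpty_iff]
  exact ⟨fun ⟨g⟩ => ⟨g.1, g.2⟩, fun ⟨g, hg⟩ => ⟨⟨g, hg⟩⟩⟩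

theorem NO_one : NO G 1 = 1 := by
  rw [NO, Nat.card_eq_one_iff_unique]
  refine ⟨⟨fun a b => Subtype.ext ?_⟩, ⟨⟨1, orderOf_one⟩⟩⟩
  rw [orderOf_eq_one_iff.mp a.2, orderOf_eq_one_iff.mp b.2]

theorem totient_dvd_NO (m : ℕ) : m.totient ∣ NO G m := totient_dvd_card_orderOf_eq m

/-- if no element has order `m * q` then `q` divides the number of elements of order `m`. -/
theorem prime_dvd_NO {m q : ℕ} (hq : q.Prime) (hqG : q ∣ Nat.card G) (hmq : m.Coprime q)
    (h : NO G (m * q) = 0) : q ∣ NO G m := by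
  classical
  have : Fact q.Prime := ⟨hq⟩
  obtain ⟨x, hx⟩ := exists_prime_orderOf_dvd_card' q hqG
  let Q : Subgroup G := zpowers x
  have hQ : IsPGroup q Q := IsPGroup.of_card (n := 1) (by rw [Nat.card_zpowers, hx, pow_one])
  let act : MulAction Q {g : G // orderOf g = m} :=
    { smul := fun u g => ⟨(u : G) * g * (u : G)⁻¹,
        (orderOf_injective (MulAut.conj (u : G)).toMonoidHom (MulAut.conj (u : G)).injective (g : G)).trans g.2⟩
      one_smul := by
        intro g
        apply Subtype.ext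
        show (1 : G) * g * (1 : G)⁻¹ = g
        simp
      mul_smul := by
        intro u v g
        apply Subtype.ext
        show ((u * v : Q) : G) * g * ((u * v : Q) : G)⁻¹ = (u : G) * ((v : G) * g * (v : G)⁻¹) * (u : G)⁻¹
        rw [Subgroup.coe_mul]
        group }
  have h1 := hQ.card_modEq_card_fixedPoints {g : G // orderOf g = m}
  have h2 : IsEmpty (MulAction.fixedPoints Q {g : G // orderOf g = m}) := by
    refine ⟨fun ⟨g, hg⟩ => ?_⟩
    have h3 : x * (g : G) * x⁻¹ = g := congrArg Subtype.val (hg ⟨x, mem_zpowers x⟩)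
    have h4 : Commute (g : G) x := by
      rw [mul_inv_eq_iff_eq_mul] at h3
      exact h3.symm
    have h5 : orderOf ((g : G) * x) = m * q := by
      rw [h4.orderOf_mul_eq_mul_orderOf_of_coprime (by rw [g.2, hx]; exact hmq), g.2, hx]
    exact (NO_ne_zero_iff (m * q)).mpr ⟨_, h5⟩ h
  have h3 : Nat.card (MulAction.fixedPoints Q {g : G // orderOf g = m}) = 0 := Nat.card_of_isEmpty
  rw [h3] at h1
  exact (Nat.modEq_zero_iff_dvd).mp h1

/-- with a unique involution, `N (m * 2) = N m` for `m` odd. -/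
theorem NO_mul_two (h2 : NO G 2 = 1) {m : ℕ} (hm : Odd m) : NO G (m * 2) = NO G m := by
  classical
  have hcop : m.Coprime 2 := Nat.coprime_two_right.mpr hm
  obtain ⟨hs, ⟨⟨z, hz⟩⟩⟩ := Nat.card_eq_one_iff_unique.mp h2
  have huniq : ∀ w : G, orderOf w = 2 → w = z := by
    intro w hw
    exact congrArg Subtype.val (Subsingleton.elim (⟨w, hw⟩ : {g : G // orderOf g = 2}) ⟨z, hz⟩)
  have hzc : ∀ g : G, Commute g z := by
    intro g
    have h3 : g * z * g⁻¹ = z := huniq _ (by
      rw [← hz]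
      exact orderOf_injective (MulAut.conj g).toMonoidHom (MulAut.conj g).injective z)
    exact mul_inv_eq_iff_eq_mul.mp h3
  have hzz : z * z = 1 := by rw [← pow_two, ← hz, pow_orderOf_eq_one]
  have hmul : ∀ g : G, orderOf g = m → orderOf (g * z) = m * 2 := by
    intro g hg
    rw [(hzc g).orderOf_mul_eq_mul_orderOf_of_coprime (by rw [hg, hz]; exact hcop), hg, hz]
  have hmul2 : ∀ g : G, orderOf g = m * 2 → orderOf (g * z) = m := by
    intro g hg
    have hm0 : 0 < m := hm.pos
    have h3 : g ^ m = z := by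
      apply huniq
      rw [orderOf_pow' g hm0.ne', hg, Nat.gcd_eq_right (dvd_mul_right m 2)]
      exact Nat.mul_div_cancel_left 2 hm0
    have h4 : (g * z) ^ m = 1 := by
      rw [(hzc g).mul_pow, h3]
      obtain ⟨k, hk⟩ := hm
      rw [hk, pow_succ, pow_mul, pow_two, hzz, one_pow, one_mul, hzz]
    have h5 : orderOf (g * z) ∣ m := orderOf_dvd_iff_pow_eq_one.mpr h4
    have h6 : orderOf (g * z * z) = orderOf (g * z) * 2 := by
      rw [(hzc (g * z)).orderOf_mul_eq_mul_orderOf_of_coprime, hz]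
      rw [hz]
      exact Nat.Coprime.coprime_dvd_left h5 hcop
    rw [mul_assoc, hzz, mul_one, hg] at h6
    omega
  refine (Nat.card_congr ?_).symm
  exact
    { toFun := fun g => ⟨g * z, hmul g g.2⟩
      invFun := fun g => ⟨g * z, hmul2 g g.2⟩
      left_inv := fun g => Subtype.ext (by
        show (g : G) * z * z = g
        rw [mul_assoc, hzz, mul_one])
      right_inv := fun g => Subtype.ext (by
        show (g : G) * z * z = g
        rw [mul_assoc, hzz, mul_one]) }

theorem eq_of_ncard_three {V : Set ℕ} (h : V.ncard = 3) {a b c : ℕ} (ha : a ∈ V) (hb : b ∈ V) (hc : c ∈ V)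
    (hab : a ≠ b) (hac : a ≠ c) (hbc : b ≠ c) {w : ℕ} (hw : w ∈ V) : w = a ∨ w = b ∨ w = c := by
  have hfin : V.Finite := Set.finite_of_ncard_ne_zero (by omega)
  have h1 : ({a, b, c} : Set ℕ) ⊆ V := by
    rintro x (rfl | rfl | rfl)
    · exact ha
    · exact hb
    · exact hc
  have h2 : ({a, b, c} : Set ℕ).ncard = 3 := Set.ncard_eq_three.mpr ⟨a, b, c, hab, hac, hbc, rfl⟩
  have h3 : ({a, b, c} : Set ℕ) = V := Set.eq_of_subset_of_ncard_le h1 (by omega) hfin
  rw [← h3] at hw
  exact hw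

end Cfsg.Agent.H24
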