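import Mathlib

set_option autoImplicit false

/-! # H24/OrderType: counting elements by order

`exists_equiv_orderOf`: same order type ⇒ an order-preserving bijection.
`LargeElts G c`: elements all of whose order-primes are `≥ c`;  `TowerCount G`.
-/

namespace Cfsg.Agent.H24

open Subgroup

/-- Groups with the same order type admit a bijection preserving element orders. -/
theorem exists_equiv_orderOf {G H : Type*} [Group G] [Finite G] [Group H] [Finite H]
    (hT : ∀ m : ℕ, Nat.card {g : G // orderOf g = m} = Nat.card {h : H // orderOf h = m}) :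
    ∃ f : G ≃ H, ∀ g, orderOf (f g) = orderOf g := by
  classical
  have h1 : ∀ m : ℕ, Nonempty ({g : G // orderOf g = m} ≃ {h : H // orderOf h = m}) := by
    intro m
    have : Finite {g : G // orderOf g = m} := inferInstance
    have : Finite {h : H // orderOf h = m} := inferInstance
    exact Finite.card_eq.1 (hT m)
  let e := fun m => (h1 m).some
  refine ⟨((Equiv.sigmaFiberEquiv (fun g : G => orderOf g)).symm.trans
    (Equiv.sigmaCongrRight e)).trans (Equiv.sigmaFiberEquiv (fun h : H => orderOf h)), ?_⟩
  intro g
  simp only [Equiv.trans_apply, Equiv.sigmaFiberEquiv, Equiv.coe_fn_symm_mk, Equiv.coe_fn_mk,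
    Equiv.sigmaCongrRight_apply, Sigma.map_mk, id]
  exact ((e _) ⟨g, rfl⟩).2

/-- Transport of counts along an order-preserving bijection. -/
theorem card_subtype_of_orderOf_equiv {G H : Type*} [Group G] [Group H]
    (f : G ≃ H) (hf : ∀ g, orderOf (f g) = orderOf g) (P : ℕ → Prop) :
    Nat.card {g : G // P (orderOf g)} = Nat.card {h : H // P (orderOf h)} := by
  refine Nat.card_congr (f.subtypeEquiv ?_)
  intro g; rw [hf]

/-- The cardinality of the preimage of a subset of a quotient group. -/
theorem card_preimage_quotient {G : Type*} [Group G] (N : Subgroup G) [N.Normal]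
    (P : G ⧸ N → Prop) :
    Nat.card {g : G // P (QuotientGroup.mk g)} = Nat.card N * Nat.card {x : G ⧸ N // P x} := by
  have := Nat.card_congr (QuotientGroup.preimageMkEquivSubgroupProdSet N {x | P x})
  rw [Nat.card_prod] at this
  exact this

/-- all primes dividing `n` are at least `c` -/
def AllGe (c n : ℕ) : Prop := ∀ q : ℕ, q.Prime → q ∣ n → c ≤ q

/-- all primes dividing `n` are less than `c` -/
def AllLt (c n : ℕ) : Prop := ∀ q : ℕ, q.Prime → q ∣ n → q < c

/-- For every `c`, the number of elements all of whose order-primes are `≥ c` is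
the `(≥ c)`-part of the group order. -/
def TowerCount (G : Type*) [Group G] : Prop :=
  ∀ c : ℕ, ∃ m m' : ℕ, m * m' = Nat.card G ∧ AllGe c m ∧ AllLt c m' ∧
    Nat.card {g : G // AllGe c (orderOf g)} = m

theorem TowerCount.of_equiv {G H : Type*} [Group G] [Group H] (f : G ≃ H)
    (hf : ∀ g, orderOf (f g) = orderOf g) (h : TowerCount G) : TowerCount H := by
  intro c
  obtain ⟨m, m', h1, h2, h3, h4⟩ := h c
  refine ⟨m, m', ?_, h2, h3, ?_⟩
  · rw [h1]; exact Nat.card_congr f
  · rw [← h4]; exact (card_subtype_of_orderOf_equiv f hf (AllGe c)).symm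

/-- if `N` is a normal `(≥ c)`-group then `g` is a `(≥ c)`-element iff its image is. -/
theorem allGe_orderOf_mk_iff {G : Type*} [Group G] [Finite G] (N : Subgroup G) [N.Normal] {c : ℕ}
    (hN : AllGe c (Nat.card N)) (g : G) :
    AllGe c (orderOf g) ↔ AllGe c (orderOf (QuotientGroup.mk g : G ⧸ N)) := by
  constructor
  · intro h q hq hd
    refine h q hq (hd.trans ?_)
    exact orderOf_map_dvd (QuotientGroup.mk' N) g
  · intro h q hq hd
    by_contra hlt
    have h1 : ¬ q ∣ orderOf (QuotientGroup.mk g : G ⧸ N) := fun hd' => hlt (h q hq hd')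
    have h2 : ¬ q ∣ Nat.card N := fun hd' => hlt (hN q hq hd')
    have h3 : g ^ (orderOf (QuotientGroup.mk g : G ⧸ N)) ∈ N := by
      rw [← QuotientGroup.eq_one_iff, QuotientGroup.mk_pow, pow_orderOf_eq_one]
    have h4 : g ^ (orderOf (QuotientGroup.mk g : G ⧸ N) * Nat.card N) = 1 := by
      rw [pow_mul]
      exact congrArg Subtype.val (pow_card_eq_one' (x := (⟨_, h3⟩ : N)))
    have h5 := hd.trans (orderOf_dvd_of_pow_eq_one h4)
    rcases (Nat.Prime.dvd_mul hq).1 h5 with h | h
    · exact h1 h
    · exact h2 h

/-- `TowerCount` for `G` from that of the quotient by a normal subgroup of prime order. -/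
theorem TowerCount.of_quotient_prime {G : Type*} [Group G] [Finite G] (N : Subgroup G) [N.Normal]
    {r : ℕ} (hr : r.Prime) (hN : Nat.card N = r) (h : TowerCount (G ⧸ N)) : TowerCount G := by
  classical
  have hfr : Fact r.Prime := ⟨hr⟩
  intro c
  obtain ⟨m, m', h1, h2, h3, h4⟩ := h c
  have hcard : Nat.card G = Nat.card (G ⧸ N) * Nat.card N := Subgroup.card_eq_card_quotient_mul_card_subgroup N
  by_cases hc : c ≤ r
  · refine ⟨r * m, m', ?_, ?_, h3, ?_⟩
    · rw [hcard, hN, ← h1]; ring
    · intro q hq hd
      rcases (Nat.Prime.dvd_mul hq).1 hd with h | h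
      · rw [(Nat.prime_dvd_prime_iff_eq hq hr).1 h]; exact hc
      · exact h2 q hq h
    · have hNge : AllGe c (Nat.card N) := by
        intro q hq hd
        rw [hN] at hd
        rw [(Nat.prime_dvd_prime_iff_eq hq hr).1 hd]; exact hc
      have := card_preimage_quotient N (fun x => AllGe c (orderOf x))
      rw [h4, hN] at this
      rw [← this]
      exact Nat.card_congr (Equiv.subtypeEquivRight (fun g => allGe_orderOf_mk_iff N hNge g))
  · push Not at hc
    refine ⟨m, r * m', ?_, h2, ?_, ?_⟩
    · rw [hcard, hN, ← h1]; ring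
    · intro q hq hd
      rcases (Nat.Prime.dvd_mul hq).1 hd with h | h
      · rw [(Nat.prime_dvd_prime_iff_eq hq hr).1 h]; exact hc
      · exact h3 q hq h
    · rw [← h4]
      have hcyc : IsCyclic N := isCyclic_of_prime_card hN
      -- `(≥ c)`-elements centralize `N`
      have hcent : ∀ g : G, AllGe c (orderOf g) → ∀ n ∈ N, g * n = n * g := by
        intro g hg n hn
        have h5 : orderOf (MulAut.conjNormal (H := N) g) = 1 := by
          by_contra hne
          obtain ⟨q, hq, hqd⟩ := Nat.exists_prime_and_dvd hne
          have h6 : q ∣ orderOf g := hqd.trans (orderOf_map_dvd (MulAut.conjNormal (H := N)) g)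
          have h7 : q ∣ Nat.card (MulAut N) := hqd.trans (orderOf_dvd_natCard _)
          rw [IsCyclic.card_mulAut, hN, Nat.totient_prime hr] at h7
          have h8 := Nat.le_of_dvd (Nat.sub_pos_of_lt hr.one_lt) h7
          have h9 := hg q hq h6
          omega
        rw [orderOf_eq_one_iff] at h5
        have h6 : MulAut.conjNormal (H := N) g ⟨n, hn⟩ = ⟨n, hn⟩ := by rw [h5]; rfl
        have h7 : g * n * g⁻¹ = n := by simpa using congrArg Subtype.val h6
        calc g * n = g * n * g⁻¹ * g := by group
          _ = n * g := by rw [h7]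
      have hrm : ∀ g : G, AllGe c (orderOf g) → ¬ r ∣ orderOf g := by
        intro g hg hd
        have := hg r hr hd
        omega
      refine Nat.card_congr (Equiv.ofBijective
        (fun g : {g : G // AllGe c (orderOf g)} =>
          (⟨(QuotientGroup.mk g.1 : G ⧸ N), fun q hq hd =>
            g.2 q hq (hd.trans (orderOf_map_dvd (QuotientGroup.mk' N) g.1))⟩ :
            {x : G ⧸ N // AllGe c (orderOf x)})) ⟨?_, ?_⟩)
      · rintro ⟨g, hg⟩ ⟨g', hg'⟩ heq
        have h5 : (QuotientGroup.mk g : G ⧸ N) = QuotientGroup.mk g' := congrArg Subtype.val heq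
        rw [QuotientGroup.eq] at h5
        set n := g⁻¹ * g' with hn
        have h6 : g' = g * n := by rw [hn]; group
        have hcomm : Commute g n := hcent g hg n h5
        have h7 : n ^ (orderOf g * orderOf g') = 1 := by
          have h8 : g' ^ (orderOf g * orderOf g') = 1 := by
            rw [mul_comm, pow_mul, pow_orderOf_eq_one, one_pow]
          rw [h6, hcomm.mul_pow, ← h6, pow_mul, pow_orderOf_eq_one, one_pow, one_mul] at h8
          exact h8
        have h8 : orderOf n ∣ orderOf g * orderOf g' := orderOf_dvd_of_pow_eq_one h7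
        have h9 : orderOf n ∣ r := by
          have := Subgroup.orderOf_dvd_natCard N h5
          rwa [hN] at this
        rcases (Nat.dvd_prime hr).1 h9 with h10 | h10
        · rw [orderOf_eq_one_iff] at h10
          apply Subtype.ext
          show g = g'
          rw [h6, h10, mul_one]
        · exfalso
          rw [h10] at h8
          rcases (Nat.Prime.dvd_mul hr).1 h8 with h | h
          · exact hrm g hg h
          · exact hrm g' hg' h
      · rintro ⟨x, hx⟩
        obtain ⟨g, rfl⟩ := QuotientGroup.mk_surjective x
        set k := orderOf (QuotientGroup.mk g : G ⧸ N) with hk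
        have hrk : Nat.Coprime k r := by
          rw [Nat.coprime_comm, Nat.Prime.coprime_iff_not_dvd hr]
          intro hd
          have := hx r hr hd
          omega
        obtain ⟨j, hj1, hj2⟩ := Nat.chineseRemainder hrk 1 0
        have h5 : g ^ k ∈ N := by
          rw [← QuotientGroup.eq_one_iff, QuotientGroup.mk_pow, hk, pow_orderOf_eq_one]
        have h6 : g ^ (k * r) = 1 := by
          rw [pow_mul, ← hN]
          exact congrArg Subtype.val (pow_card_eq_one' (x := (⟨_, h5⟩ : N)))
        have h7 : (g ^ j) ^ k = 1 := by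
          obtain ⟨i, hi⟩ := (Nat.modEq_zero_iff_dvd).1 hj2
          rw [← pow_mul, hi, show r * i * k = (k * r) * i by ring, pow_mul, h6, one_pow]
        refine ⟨⟨g ^ j, fun q hq hd => hx q hq (hd.trans (orderOf_dvd_of_pow_eq_one h7))⟩, ?_⟩
        apply Subtype.ext
        show (QuotientGroup.mk (g ^ j) : G ⧸ N) = QuotientGroup.mk g
        rw [QuotientGroup.mk_pow]
        have h8 : (QuotientGroup.mk g : G ⧸ N) ^ j = (QuotientGroup.mk g : G ⧸ N) ^ 1 := by
          rw [pow_eq_pow_iff_modEq]
          exact hj1
        rw [h8, pow_one]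

theorem TowerCount.of_card_eq_one {G : Type*} [Group G] (h : Nat.card G = 1) : TowerCount G := by
  have : Subsingleton G := (Nat.card_eq_one_iff_unique.1 h).1
  intro c
  refine ⟨1, 1, by rw [h], ?_, ?_, ?_⟩
  · intro q hq hd; exact absurd (Nat.dvd_one.1 hd) hq.ne_one
  · intro q hq hd; exact absurd (Nat.dvd_one.1 hd) hq.ne_one
  · rw [Nat.card_eq_one_iff_unique]
    refine ⟨inferInstance, ⟨⟨1, ?_⟩⟩⟩
    intro q hq hd
    rw [orderOf_one] at hd
    exact absurd (Nat.dvd_one.1 hd) hq.ne_one

/-- Two naturals with the same product structure: the `(≥ c)`-part is unique. -/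
theorem part_unique {c m m' n n' : ℕ} (h : m * m' = n * n') (hm : AllGe c m)
    (hm' : AllLt c m') (hn : AllGe c n) (hn' : AllLt c n') : m = n := by
  have h1 : Nat.Coprime m n' := Nat.coprime_of_dvd (fun q hq hd hd' => by
    have := hm q hq hd; have := hn' q hq hd'; omega)
  have h2 : Nat.Coprime n m' := Nat.coprime_of_dvd (fun q hq hd hd' => by
    have := hn q hq hd; have := hm' q hq hd'; omega)
  apply Nat.dvd_antisymm
  · exact h1.dvd_of_dvd_mul_right (h ▸ Dvd.intro _ rfl)
  · exact h2.dvd_of_dvd_mul_right (h.symm ▸ Dvd.intro _ rfl)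

/-- A finite group with `TowerCount` is solvable. -/
theorem isSolvable_of_towerCount {G : Type*} [Group G] [Finite G] (h : TowerCount G) :
    Group.IsSolvable G := by
  classical
  suffices H : ∀ (n : ℕ) (G : Type _) [Group G] [Finite G], Nat.card G = n → TowerCount G →
      Group.IsSolvable G from H _ G rfl h
  intro n
  induction n using Nat.strong_induction_on with
  | _ n ih =>
    intro G _ _ hn hT
    by_cases h1 : Nat.card G = 1
    · have : Subsingleton G := (Nat.card_eq_one_iff_unique.1 h1).1
      infer_instance
    -- the largest prime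
    have hne : (Nat.card G).primeFactors.Nonempty := by
      rw [Nat.nonempty_primeFactors]
      have := Nat.card_pos (α := G)
      omega
    set p := (Nat.card G).primeFactors.max' hne with hp_def
    have hpmem : p ∈ (Nat.card G).primeFactors := Finset.max'_mem _ hne
    have hp : p.Prime := Nat.prime_of_mem_primeFactors hpmem
    have hfp : Fact p.Prime := ⟨hp⟩
    have hpd : p ∣ Nat.card G := Nat.dvd_of_mem_primeFactors hpmem
    have hmax : ∀ q : ℕ, q.Prime → q ∣ Nat.card G → q ≤ p := by
      intro q hq hd
      exact Finset.le_max' _ _ (Nat.mem_primeFactors.2 ⟨hq, hd, Nat.card_pos.ne'⟩)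
    obtain ⟨m, m', e1, e2, e3, e4⟩ := hT p
    let P : Sylow p G := default
    -- card P = m
    have hPcard : Nat.card P = m := by
      have h5 := Subgroup.card_mul_index (P : Subgroup G)
      refine part_unique (c := p) (m' := (P : Subgroup G).index) (n' := m') ?_ ?_ ?_ e2 e3
      · rw [h5, e1]
      · intro q hq hd
        obtain ⟨k, hk⟩ := P.isPGroup'.exists_card_eq
        rw [hk] at hd
        exact ((Nat.prime_dvd_prime_iff_eq hq hp).1 (hq.dvd_of_dvd_pow hd)).ge
      · intro q hq hd
        have h6 := hmax q hq (hd.trans (Subgroup.index_dvd_card _))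
        refine lt_of_le_of_ne h6 ?_
        rintro rfl
        exact P.not_dvd_index hd
    have hPsub : ∀ g ∈ P, AllGe p (orderOf g) := by
      intro g hg q hq hd
      have h6 := hd.trans (Subgroup.orderOf_dvd_natCard (P : Subgroup G) hg)
      obtain ⟨k, hk⟩ := P.isPGroup'.exists_card_eq
      rw [hk] at h6
      exact ((Nat.prime_dvd_prime_iff_eq hq hp).1 (hq.dvd_of_dvd_pow h6)).ge
    have hPeq : ∀ g : G, AllGe p (orderOf g) → g ∈ P := by
      have hsub : (P : Set G) ⊆ {g : G | AllGe p (orderOf g)} := hPsub
      have h6 : (P : Set G) = {g : G | AllGe p (orderOf g)} := by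
        apply Set.eq_of_subset_of_ncard_le hsub _ (Set.toFinite _)
        have h7 : ({g : G | AllGe p (orderOf g)} : Set G).ncard = m := by
          rw [← Nat.card_coe_set_eq]; exact e4
        have h8 : (P : Set G).ncard = m := by
          rw [← Nat.card_coe_set_eq]; exact hPcard
        rw [h7, h8]
      intro g hg
      have : g ∈ (P : Set G) := by rw [h6]; exact hg
      exact this
    have hPn : (P : Subgroup G).Normal := by
      constructor
      intro n hn g
      apply hPeq
      have h7 : orderOf (g * n * g⁻¹) = orderOf n := by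
        have := MulEquiv.orderOf_eq (MulAut.conj g) n
        simpa using this
      rw [h7]
      exact hPsub n hn
    have hPgt : 1 < Nat.card P := by
      have h8 : p ∣ Nat.card P := by
        rw [hPcard]
        rcases (Nat.Prime.dvd_mul hp).1 (e1 ▸ hpd) with h | h
        · exact h
        · exact absurd (e3 p hp h) (lt_irrefl _)
      exact lt_of_lt_of_le hp.one_lt (Nat.le_of_dvd Nat.card_pos h8)
    have hTq : TowerCount (G ⧸ (P : Subgroup G)) := by
      intro c
      have hcard : Nat.card G = Nat.card (G ⧸ (P : Subgroup G)) * Nat.card P :=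
        Subgroup.card_eq_card_quotient_mul_card_subgroup _
      by_cases hc : c ≤ p
      · obtain ⟨a, a', f1, f2, f3, f4⟩ := hT c
        have hNge : AllGe c (Nat.card P) := by
          intro q hq hd
          obtain ⟨k, hk⟩ := P.isPGroup'.exists_card_eq
          rw [hk] at hd
          rw [((Nat.prime_dvd_prime_iff_eq hq hp).1 (hq.dvd_of_dvd_pow hd))]
          exact hc
        have h9 := card_preimage_quotient (P : Subgroup G) (fun x => AllGe c (orderOf x))
        have h10 : Nat.card {g : G // AllGe c (orderOf g)} =
            Nat.card P * Nat.card {x : G ⧸ (P : Subgroup G) // AllGe c (orderOf x)} := by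
          have h10 := Nat.card_congr (Equiv.subtypeEquivRight
            (fun g => allGe_orderOf_mk_iff (P : Subgroup G) hNge g))
          rw [h10]
          exact h9
        refine ⟨Nat.card {x : G ⧸ (P : Subgroup G) // AllGe c (orderOf x)}, a', ?_, ?_, f3, rfl⟩
        · have h11 : Nat.card P * (Nat.card {x : G ⧸ (P : Subgroup G) // AllGe c (orderOf x)} * a')
              = Nat.card P * Nat.card (G ⧸ (P : Subgroup G)) := by
            rw [← mul_assoc, ← h10, f4, f1, hcard]; ring
          exact Nat.eq_of_mul_eq_mul_left (by omega) h11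
        · intro q hq hd
          refine f2 q hq ?_
          rw [← f4, h10]
          exact hd.mul_left _
      · push Not at hc
        refine ⟨1, Nat.card (G ⧸ (P : Subgroup G)), one_mul _, ?_, ?_, ?_⟩
        · intro q hq hd; exact absurd (Nat.dvd_one.1 hd) hq.ne_one
        · intro q hq hd
          exact lt_of_le_of_lt (hmax q hq (hd.trans (Subgroup.card_quotient_dvd_card _))) hc
        · rw [Nat.card_eq_one_iff_unique]
          refine ⟨⟨?_⟩, ⟨⟨1, ?_⟩⟩⟩
          · have key : ∀ x : G ⧸ (P : Subgroup G), AllGe c (orderOf x) → x = 1 := by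
              intro x hx
              by_contra hx1
              obtain ⟨q, hq, hd⟩ := Nat.exists_prime_and_dvd
                (fun h => hx1 (orderOf_eq_one_iff.1 h) : orderOf x ≠ 1)
              have h12 := hx q hq hd
              have h13 := hmax q hq ((hd.trans (orderOf_dvd_natCard x)).trans
                (Subgroup.card_quotient_dvd_card _))
              omega
            rintro ⟨x, hx⟩ ⟨y, hy⟩
            apply Subtype.ext
            show x = y
            rw [key x hx, key y hy]
          · intro q hq hd
            rw [orderOf_one] at hd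
            exact absurd (Nat.dvd_one.1 hd) hq.ne_one
    have hlt : Nat.card (G ⧸ (P : Subgroup G)) < n := by
      rw [← hn, Subgroup.card_eq_card_quotient_mul_card_subgroup (P : Subgroup G)]
      have h12 : 0 < Nat.card (G ⧸ (P : Subgroup G)) := Nat.card_pos
      change _ < _ * Nat.card P
      nlinarith
    have hs1 : Group.IsSolvable (G ⧸ (P : Subgroup G)) := ih _ hlt _ rfl hTq
    have hs2 : Group.IsSolvable (P : Subgroup G) := by
      have : Group.IsNilpotent (P : Subgroup G) := P.isPGroup'.isNilpotent
      infer_instance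
    exact Group.isSolvable_of_ker_le_range (P : Subgroup G).subtype (QuotientGroup.mk' (P : Subgroup G))
      (by rw [QuotientGroup.ker_mk', Subgroup.range_subtype])

end Cfsg.Agent.H24
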