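import Cfsg.Agent.S0864
import Cfsg.Agent.H7.ItoP
import Cfsg.Agent.H27.Clif

set_option autoImplicit false

/-!
# Characters of degree prime to `p` over a linear character of a normal `p`-subgroup (helper24)
-/

namespace Cfsg.Agent.H24.PDeg

open Cfsg Cfsg.Agent.H3 Cfsg.Agent.H27 Subgroup
open scoped ComplexConjugate

universe u

/-- A character of `p'`-degree of a `p`-group has a linear constituent. -/
theorem exists_linear_const {P : Type u} [Group P] [Fintype P] {p : ℕ} (hp : p.Prime)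
    (hP : IsPGroup p P) {χ : P → ℂ} (hχ : IsCharacter P χ) {n : ℕ} (hn : χ 1 = n)
    (hpn : ¬ p ∣ n) : ∃ μ : IrrCharacter P, (μ : P → ℂ) 1 = 1 ∧ classInner χ (μ : P → ℂ) ≠ 0 := by
  classical
  haveI := Fintype.ofFinite (IrrCharacter P)
  haveI : Fact p.Prime := ⟨hp⟩
  by_contra hcon
  push Not at hcon
  obtain ⟨m, hm, hexp⟩ := char_expand hχ
  apply hpn
  have h1 := congrFun hexp 1
  simp only [Finset.sum_apply, Pi.smul_apply, smul_eq_mul] at h1
  rw [hn] at h1
  have h2 : (n : ℂ) = ((∑ ψ : IrrCharacter P, m ψ * charDegree (ψ : P → ℂ) : ℕ) : ℂ) := by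
    rw [h1]; push_cast
    exact Finset.sum_congr rfl fun ψ _ => by rw [charDegree_cast (irr_isChar ψ.2)]
  have h3 : n = ∑ ψ : IrrCharacter P, m ψ * charDegree (ψ : P → ℂ) := by exact_mod_cast h2
  rw [h3]
  refine Finset.dvd_sum fun ψ _ => ?_
  by_cases h4 : (ψ : P → ℂ) 1 = 1
  · have h5 := hcon ψ h4
    rw [hm ψ] at h5
    have h6 : m ψ = 0 := by exact_mod_cast h5
    rw [h6, zero_mul]; exact dvd_zero _
  · apply Dvd.dvd.mul_left
    obtain ⟨k, hk⟩ := IsPGroup.iff_card.1 hP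
    have h5 : charDegree (ψ : P → ℂ) ∣ p ^ k := by
      rw [← hk]; exact charDegree_dvd_card ψ.2
    obtain ⟨j, -, hj⟩ := (Nat.dvd_prime_pow hp).1 h5
    rcases Nat.eq_zero_or_pos j with rfl | hj0
    · exfalso
      apply h4
      rw [← charDegree_cast (irr_isChar ψ.2), hj, pow_zero, Nat.cast_one]
    · rw [hj]; exact dvd_pow_self p hj0.ne'

variable {G : Type u} [Group G] [Fintype G] {p : ℕ} [hp : Fact p.Prime]

/-- The invariant case. -/
theorem inv_case (hsolv : IsPSolvable p G) {N : Subgroup G} [Fintype N] (hN : N.Normal)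
    (hNp : IsPGroup p N) {lam : N → ℂ} (hl : IsIrrCharacter N lam) (hl1 : lam 1 = 1)
    (hinv : ∀ x, cj hN x lam = lam)
    (hdeg : ∀ χ : IrrCharacter G, classInner (fun n : N => (χ : G → ℂ) n) lam ≠ 0 →
      ¬ p ∣ charDegree (χ : G → ℂ)) (P : Sylow p G) :
    ∀ a ∈ (P : Subgroup G), ∀ b ∈ (P : Subgroup G), a * b * a⁻¹ * b⁻¹ ∈ N := by
  classical
  haveI := Fintype.ofFinite (P : Subgroup G)
  have hNP : N ≤ (P : Subgroup G) := by
    obtain ⟨Q, hQ⟩ := hNp.exists_le_sylow
    obtain ⟨g, hg⟩ := MulAction.exists_smul_eq G Q P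
    intro x hx
    have h1 : g⁻¹ * x * g ∈ N := by simpa using hN.conj_mem x hx g⁻¹
    have h2 : g * (g⁻¹ * x * g) * g⁻¹ ∈ (P : Subgroup G) := by
      rw [← hg]
      exact Subgroup.smul_mem_pointwise_smul _ _ _ (hQ h1)
    have h3 : g * (g⁻¹ * x * g) * g⁻¹ = x := by group
    rwa [h3] at h2
  -- extension to `G`
  have hext : ∃ μ : G → ℂ, IsCharacter G μ ∧ μ 1 = 1 ∧ ∀ n : N, μ n = lam n := by
    refine S0864.result N lam ⟨irr_isChar hl, hl1⟩ (fun g n => congrFun (hinv g) n) ?_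
    intro r hr hrd
    have hrp : r = p := by
      obtain ⟨k, hk⟩ := IsPGroup.iff_card.1 hNp
      obtain ⟨l, rfl⟩ := exists_hf (irr_isChar hl) hl1
      rw [orderOf_hf] at hrd
      have h1 := (hrd.trans (orderOf_hom_dvd_card l))
      rw [hk] at h1
      exact (Nat.prime_dvd_prime_iff_eq hr hp.out).mp (hr.dvd_of_dvd_pow h1)
    subst hrp
    -- `χ` over `lam`
    obtain ⟨χ, hχ, hne, -, -⟩ := exists_over hN hl
    have hd := hdeg ⟨χ, hχ⟩ hne
    obtain ⟨μ, hμ1, hμ⟩ := exists_linear_const hr P.2 (isChar_restrict (P : Subgroup G) (irr_isChar hχ))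
      (charDegree_cast (irr_isChar hχ)).symm hd
    refine ⟨P, hNP, μ, ?_, ?_, irr_isChar μ.2, hμ1, ?_⟩
    · exact ((Nat.Prime.coprime_iff_not_dvd hr).mpr P.not_dvd_index).symm
    · obtain ⟨k, hk⟩ := IsPGroup.iff_card.1 P.2
      have h1 : N.relIndex (P : Subgroup G) ∣ r ^ k := by
        rw [← hk]; exact Subgroup.relIndex_dvd_card _ _
      obtain ⟨j, -, hj⟩ := (Nat.dvd_prime_pow hr).1 h1
      exact ⟨j, hj⟩
    · have h2 := isChar_sub_irr (isChar_restrict (P : Subgroup G) (irr_isChar hχ)) μ.2 hμ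
      let ν : N → ℂ := fun n => μ.1 ⟨(n : G), hNP n.2⟩
      have hνc : IsCharacter N ν := isChar_comp (irr_isChar μ.2) (Subgroup.inclusion hNP)
      have hν1 : ν 1 = 1 := hμ1
      obtain ⟨l, hl'⟩ := exists_hom_of_char_one hνc hν1
      have hνi : IsIrrCharacter N ν := by rw [hl']; exact isIrr_of_hom l
      have hrest : IsCharacter N (fun n : N => ((fun x : (P : Subgroup G) => χ x) - μ.1)
        ⟨(n : G), hNP n.2⟩) := isChar_comp h2 (Subgroup.inclusion hNP)
      obtain ⟨k, hk⟩ := classInner_char_nat hrest (irr_isChar hνi)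
      have h3 : (fun n : N => ((fun x : (P : Subgroup G) => χ x) - μ.1)
        ⟨(n : G), hNP n.2⟩) = (fun n : N => χ n) - ν := rfl
      rw [h3, classInner_sub_left, classInner_self_of_irr hνi] at hk
      have h4 : classInner (fun n : N => χ n) ν ≠ 0 := by
        intro h0
        rw [h0] at hk
        have : ((k + 1 : ℕ) : ℂ) = 0 := by push_cast; linear_combination -hk
        have h5 : k + 1 = 0 := by exact_mod_cast this
        omega
      obtain ⟨x, hx⟩ := clifford_inner hN hχ hl hne hνi h4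
      rw [hinv x] at hx
      intro n
      exact (congrFun hx n).symm
  obtain ⟨μ, hμ, hμ1, hμN⟩ := hext
  obtain ⟨l, rfl⟩ := exists_hom_of_char_one hμ hμ1
  haveI := hN
  have hq : ∀ β : IrrCharacter (G ⧸ N), ¬ p ∣ charDegree (β : G ⧸ N → ℂ) := by
    intro β
    set β' : IrrCharacter G := (irrQuotEquiv N β).1 with hβ'
    have h1 := isIrr_mul_hom β'.2 l
    have h2 : (fun n : N => (fun g : G => (l g : ℂ) * (β' : G → ℂ) g) n) =
        (charDegree (β : G ⧸ N → ℂ) : ℂ) • lam := by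
      ext n
      have h3 : (β' : G → ℂ) n = (β : G ⧸ N → ℂ) 1 := by
        have := irrQuotEquiv_apply N β (n : G)
        rw [(QuotientGroup.eq_one_iff (n : G)).mpr n.2] at this
        exact this
      simp only [Pi.smul_apply, smul_eq_mul]
      rw [h3, charDegree_cast (irr_isChar β.2), ← hμN n]
      ring
    have h4 := hdeg ⟨_, h1⟩ (by
      change classInner (fun n : N => (fun g : G => (l g : ℂ) * (β' : G → ℂ) g) n) lam ≠ 0
      rw [h2, classInner_smul_left, classInner_self_of_irr hl, mul_one]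
      exact_mod_cast (charDegree_pos β.2).ne')
    have h5 : charDegree (fun g : G => (l g : ℂ) * (β' : G → ℂ) g) = charDegree (β : G ⧸ N → ℂ) := by
      have e1 := charDegree_cast (irr_isChar h1)
      have e2 := charDegree_cast (irr_isChar β.2)
      have e3 : (β' : G → ℂ) 1 = (β : G ⧸ N → ℂ) 1 := irrQuotEquiv_apply N β 1
      rw [map_one, Units.val_one, one_mul, e3, ← e2] at e1
      exact_mod_cast e1
    rw [← h5]; exact h4
  have hf : Function.Surjective (QuotientGroup.mk' N) := QuotientGroup.mk'_surjective N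
  have h2 : IsPSolvable p (G ⧸ N) := Cfsg.Agent.H23.isPSolvable_quotient N hsolv
  have h3 := H7.ItoP.sylow_normal _ (G ⧸ N) rfl h2 hq (P.mapSurjective hf)
  have h4 := H7.ItoP.sylow_comm (P.mapSurjective hf) h3 hq
  intro a ha b hb
  have h5 := congrArg Subtype.val (h4 ⟨(a : G ⧸ N), Subgroup.mem_map_of_mem (QuotientGroup.mk' N) ha⟩
    ⟨(b : G ⧸ N), Subgroup.mem_map_of_mem (QuotientGroup.mk' N) hb⟩)
  have h6 : (a : G ⧸ N) * b = b * a := h5
  rw [← QuotientGroup.eq_one_iff]
  change ((a : G ⧸ N) * (b : G ⧸ N)) * (a : G ⧸ N)⁻¹ * (b : G ⧸ N)⁻¹ = 1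
  rw [h6]; group

/-- The general case. -/
theorem gen_case (hsolv : IsPSolvable p G) {N : Subgroup G} [Fintype N] (hN : N.Normal)
    (hNp : IsPGroup p N) {lam : N → ℂ} (hl : IsIrrCharacter N lam) (hl1 : lam 1 = 1)
    (hdeg : ∀ χ : IrrCharacter G, classInner (fun n : N => (χ : G → ℂ) n) lam ≠ 0 →
      ¬ p ∣ charDegree (χ : G → ℂ)) (P : Sylow p G) :
    ∀ a ∈ (P : Subgroup G), ∀ b ∈ (P : Subgroup G), a * b * a⁻¹ * b⁻¹ ∈ N := by
  classical
  set T := inertia hN lam with hT
  haveI := Fintype.ofFinite T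
  have hNT : N ≤ T := le_inertia hN (irr_classFun hl)
  -- the index of `T`
  have h3 : ¬ p ∣ T.index := by
    intro hdvd
    obtain ⟨χ, hχ, hne, -, -⟩ := exists_over hN hl
    have h2 := clifford_degree hN hχ hl hne
    obtain ⟨m, hm⟩ := classInner_char_nat (isChar_restrict N (irr_isChar hχ)) (irr_isChar hl)
    rw [hm, ← charDegree_cast (irr_isChar hχ), hl1, mul_one] at h2
    have h4 : charDegree χ = m * T.index := by exact_mod_cast h2
    exact hdeg ⟨χ, hχ⟩ hne (h4 ▸ hdvd.mul_left m)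
  obtain ⟨Q⟩ : Nonempty (Sylow p T) := inferInstance
  have hi : ¬ p ∣ ((Q : Subgroup T).map T.subtype).index := by
    rw [Subgroup.index_map_subtype]
    intro hd
    rcases (hp.out.dvd_mul).1 hd with hd | hd
    · exact Q.not_dvd_index hd
    · exact h3 hd
  obtain ⟨R, hR⟩ := Cfsg.Agent.H2.exists_sylow_eq_of_isPGroup_of_not_dvd_index
    (Q.2.map T.subtype) hi
  -- transport to `T`
  haveI : Fintype (N.subgroupOf T) := Fintype.ofFinite _
  let e : N.subgroupOf T ≃* N := Subgroup.subgroupOfEquivOfLe hNT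
  let lamT : N.subgroupOf T → ℂ := fun n => lam (e n)
  have hlT : IsIrrCharacter (N.subgroupOf T) lamT := (isIrr_comp_equiv_iff e).mpr hl
  have hNTn : (N.subgroupOf T).Normal := hN.subgroupOf T
  have key := inv_case (G := T) (p := p) (Cfsg.Agent.H23.isPSolvable_subgroup T hsolv) hNTn
    (hNp.of_equiv e.symm) hlT (by change lam (e 1) = 1; rw [map_one, hl1]) (by
      intro x
      funext n
      have := (mem_inertia' hN lam (x : G)).mp x.2 (e n)
      exact this) (by
      intro ψ hψ hdvd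
      have h5 : classInner (fun n : N => (ψ : T → ℂ) ⟨(n : G), hNT n.2⟩) lam ≠ 0 := by
        have h6 := classInner_comp_equiv e (fun n : N => (ψ : T → ℂ) ⟨(n : G), hNT n.2⟩) lam
        intro h0
        apply hψ
        rw [← h6] at h0
        exact h0
      obtain ⟨h7, h8⟩ := clif_irr hN hl T hT hNT ψ.2 h5
      apply hdeg ⟨_, h7⟩ h8
      have e1 := charDegree_cast (irr_isChar h7)
      have e2 := charDegree_cast (irr_isChar ψ.2)
      rw [indFun_one_apply, ← e2] at e1
      have e3 : charDegree (indFun T (ψ : T → ℂ)) = T.index * charDegree (ψ : T → ℂ) := by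
        exact_mod_cast e1
      change p ∣ charDegree (indFun T (ψ : T → ℂ))
      rw [e3]
      exact hdvd.mul_left _) Q
  have key2 : ∀ a ∈ (R : Subgroup G), ∀ b ∈ (R : Subgroup G), a * b * a⁻¹ * b⁻¹ ∈ N := by
    intro a ha b hb
    rw [hR] at ha hb
    obtain ⟨a', ha', rfl⟩ := ha
    obtain ⟨b', hb', rfl⟩ := hb
    exact key a' ha' b' hb'
  obtain ⟨g, hg⟩ := MulAction.exists_smul_eq G P R
  intro a ha b hb
  have h6 : ∀ x ∈ (P : Subgroup G), g * x * g⁻¹ ∈ (R : Subgroup G) := by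
    intro x hx
    rw [← hg]
    exact Subgroup.smul_mem_pointwise_smul _ _ _ hx
  have h7 := key2 _ (h6 a ha) _ (h6 b hb)
  have h8 := hN.conj_mem _ h7 g⁻¹
  have h9 : g⁻¹ * (g * a * g⁻¹ * (g * b * g⁻¹) * (g * a * g⁻¹)⁻¹ * (g * b * g⁻¹)⁻¹) * g⁻¹⁻¹ =
      a * b * a⁻¹ * b⁻¹ := by group
  rwa [h9] at h8

omit [Fintype G] in
theorem derived_quot [Finite G] (K : Subgroup G) [K.Normal] (P : Subgroup G) (m : ℕ)
    (h : derivedSeries ↥(P.map (QuotientGroup.mk' K)) m = ⊥) :
    derivedSeries ↥P m ≤ K.subgroupOf P := by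
  intro x hx
  have h1 := map_derivedSeries_eq ((QuotientGroup.mk' K).subgroupMap_surjective P) m
  rw [h] at h1
  have h2 : (QuotientGroup.mk' K).subgroupMap P x ∈
      (derivedSeries ↥P m).map ((QuotientGroup.mk' K).subgroupMap P) := Subgroup.mem_map_of_mem _ hx
  rw [h1, Subgroup.mem_bot] at h2
  have h3 := congrArg Subtype.val h2
  exact (QuotientGroup.eq_one_iff (x : G)).mp h3

omit [Fintype G] in
theorem card_quot_le [Finite G] (K : Subgroup G) [K.Normal] :
    Nat.card {χ : IrrCharacter (G ⧸ K) // p ∣ charDegree (χ : G ⧸ K → ℂ)} ≤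
      Nat.card {χ : IrrCharacter G // p ∣ charDegree (χ : G → ℂ) ∧ ∀ n ∈ K, (χ : G → ℂ) n = (χ : G → ℂ) 1} := by
  have hd : ∀ χ : IrrCharacter (G ⧸ K), charDegree (χ : G ⧸ K → ℂ) =
      charDegree ((irrQuotEquiv K χ).1 : G → ℂ) := by
    intro χ
    have h1 := charDegree_cast (irr_isChar χ.2)
    have h2 := charDegree_cast (irr_isChar (irrQuotEquiv K χ).1.2)
    have h3 := irrQuotEquiv_apply K χ 1
    have h4 : (charDegree (χ : G ⧸ K → ℂ) : ℂ) =
        (charDegree ((irrQuotEquiv K χ).1 : G → ℂ) : ℂ) := by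
      rw [h1, h2]
      exact h3.symm
    exact_mod_cast h4
  apply Nat.card_le_card_of_injective (fun χ => ⟨(irrQuotEquiv K χ.1).1, by
    rw [← hd]; exact χ.2, (irrQuotEquiv K χ.1).2⟩)
  intro a b hab
  have h1 := congrArg Subtype.val hab
  simp only at h1
  exact Subtype.ext ((irrQuotEquiv K).injective (Subtype.ext h1))

end Cfsg.Agent.H24.PDeg
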