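import Mathlib
import Cfsg.Agent.H1.Coprime2

/-!
# Counting `p`-elements: average fixed points of a `p`-group on a `p'`-group (helper24)
-/

set_option autoImplicit false
set_option linter.unusedSectionVars false
set_option linter.unusedVariables false
open Subgroup

namespace Cfsg.Agent.H24

section ext

variable {V : Type*} [CommGroup V]

/-- fixed points of an automorphism -/
def fx (y : MulAut V) : Subgroup V where
  carrier := {v | y v = v}
  mul_mem' := by
    intro a b ha hb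
    show y (a * b) = a * b
    rw [map_mul]
    rw [show y a = a from ha, show y b = b from hb]
  one_mem' := map_one y
  inv_mem' := by
    intro a ha
    show y a⁻¹ = a⁻¹
    rw [map_inv, show y a = a from ha]

theorem mem_fx {y : MulAut V} {v : V} : v ∈ fx y ↔ y v = v := Iff.rfl

/-- norm -/
def nm (m : ℕ) (y : MulAut V) : V →* V := ∏ j ∈ Finset.range m, (y ^ j : V ≃* V).toMonoidHom

theorem nm_apply (m : ℕ) (y : MulAut V) (v : V) :
    nm m y v = ∏ j ∈ Finset.range m, (y ^ j) v := by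
  unfold nm
  rw [MonoidHom.finset_prod_apply]
  rfl

theorem nm_mem_fx {m : ℕ} {y : MulAut V} (hy : y ^ m = 1) (v : V) : nm m y v ∈ fx y := by
  rw [mem_fx, nm_apply, map_prod]
  have h1 := Finset.prod_range_succ (fun j => (y ^ j) v) m
  rw [Finset.prod_range_succ', hy, pow_zero] at h1
  have h2 := mul_right_cancel h1
  rw [← h2]
  refine Finset.prod_congr rfl fun j _ => ?_
  rw [pow_succ']
  rfl

theorem nm_of_fx {m : ℕ} {y : MulAut V} {v : V} (hv : v ∈ fx y) : nm m y v = v ^ m := by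
  rw [nm_apply]
  have : ∀ j : ℕ, (y ^ j) v = v := by
    intro j
    induction j with
    | zero => rfl
    | succ j ih => rw [pow_succ', MulAut.mul_apply, ih]; exact hv
  rw [Finset.prod_congr rfl fun j _ => this j]
  simp

theorem pow_mem_of {y : MulAut V} {W : Subgroup V} (hW : ∀ v ∈ W, y v ∈ W) (j : ℕ) {v : V}
    (hv : v ∈ W) : (y ^ j) v ∈ W := by
  induction j with
  | zero => exact hv
  | succ j ih => rw [pow_succ', MulAut.mul_apply]; exact hW _ ih

theorem nm_mem {m : ℕ} {y : MulAut V} {W : Subgroup V} (hW : ∀ v ∈ W, y v ∈ W) {v : V}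
    (hv : v ∈ W) : nm m y v ∈ W := by
  rw [nm_apply]
  exact Subgroup.prod_mem _ fun j _ => pow_mem_of hW j hv

theorem nm_fix_of_comm {m : ℕ} {y y' : MulAut V} {W : Subgroup V} (hW : ∀ v ∈ W, y v ∈ W)
    (hc : ∀ v ∈ W, y (y' v) = y' (y v)) (hW' : ∀ v ∈ W, y' v ∈ W) {v : V} (hv : v ∈ W)
    (hf : v ∈ fx y') : nm m y v ∈ fx y' := by
  have h1 : ∀ j : ℕ, y' ((y ^ j) v) = (y ^ j) v := by
    intro j
    induction j with
    | zero => exact hf
    | succ j ih =>
      rw [pow_succ', MulAut.mul_apply, ← hc _ (pow_mem_of hW j hv), ih]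
  rw [mem_fx, nm_apply, map_prod]
  exact Finset.prod_congr rfl fun j _ => h1 j

theorem local_ineq [Finite V] (p m : ℕ) (W W1 D : Subgroup V) (y : Fin p → MulAut V)
    (hcomm : ∀ i j, ∀ v ∈ W, y i (y j v) = y j (y i v)) (hm : ∀ i, (y i) ^ m = 1)
    (hcop : (Nat.card V).Coprime m) (hW : ∀ i, ∀ v ∈ W, y i v ∈ W)
    (hW1 : W1 ≤ W) (hW1y : ∀ i, ∀ v ∈ W1, y i v ∈ W1)
    (hD : ∀ i j, i ≠ j → ∀ v ∈ W, v ∈ fx (y i) → v ∈ fx (y j) → v ∈ D)
    (hD1 : ∀ i, ∀ v ∈ W1, v ∈ fx (y i) → v ∈ D) (hDle : ∀ i, D ≤ W ⊓ fx (y i)) :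
    ∏ i, (D.relIndex (W ⊓ fx (y i))) ≤ W1.relIndex W := by
  classical
  let g : ∀ i, W →* (W ⊓ fx (y i) : Subgroup V) := fun i =>
    ((nm m (y i)).comp W.subtype).codRestrict _ (fun w =>
      ⟨nm_mem (hW i) w.2, nm_mem_fx (hm i) _⟩)
  let f : W →* (∀ i, (W ⊓ fx (y i) : Subgroup V) ⧸ D.subgroupOf (W ⊓ fx (y i))) :=
    MonoidHom.pi (fun i => (QuotientGroup.mk' _).comp (g i))
  have hker : W1.subgroupOf W ≤ f.ker := by
    intro w hw
    rw [Subgroup.mem_subgroupOf] at hw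
    rw [MonoidHom.mem_ker]
    funext i
    show QuotientGroup.mk' _ (g i w) = 1
    rw [QuotientGroup.mk'_apply, QuotientGroup.eq_one_iff, Subgroup.mem_subgroupOf]
    exact hD1 i _ (nm_mem (hW1y i) hw) (nm_mem_fx (hm i) _)
  have hsurj : Function.Surjective f := by
    intro c
    have h1 : ∀ i, ∃ a : (W ⊓ fx (y i) : Subgroup V),
        (QuotientGroup.mk' (D.subgroupOf (W ⊓ fx (y i))) (a ^ m)) = c i := by
      intro i
      obtain ⟨b, hb⟩ := QuotientGroup.mk'_surjective _ (c i)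
      have h2 : (Nat.card (W ⊓ fx (y i) : Subgroup V)).Coprime m :=
        Nat.Coprime.coprime_dvd_left (Subgroup.card_subgroup_dvd_card _) hcop
      obtain ⟨a, ha⟩ := (powCoprime h2).surjective b
      refine ⟨a, ?_⟩
      rw [← hb, ← ha]
      rfl
    choose a ha using h1
    refine ⟨⟨∏ j, (a j : V), Subgroup.prod_mem _ fun j _ => (a j).2.1⟩, ?_⟩
    funext i
    rw [← ha i]
    show QuotientGroup.mk' _ (g i _) = _
    rw [QuotientGroup.mk'_apply, QuotientGroup.mk'_apply, QuotientGroup.eq,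
      Subgroup.mem_subgroupOf]
    show (nm m (y i) (∏ j, (a j : V)))⁻¹ * ((a i : V) ^ m) ∈ D
    rw [map_prod, ← Finset.mul_prod_erase _ _ (Finset.mem_univ i), nm_of_fx (a i).2.2,
      mul_inv_rev, mul_assoc, inv_mul_cancel, mul_one]
    refine inv_mem (Subgroup.prod_mem _ fun j hj => ?_)
    have hji : i ≠ j := fun h => (Finset.mem_erase.1 hj).1 h.symm
    refine hD i j hji _ (nm_mem (hW i) (a j).2.1) (nm_mem_fx (hm i) _) ?_
    exact nm_fix_of_comm (hW i) (hcomm i j) (hW j) (a j).2.1 (a j).2.2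
  have h3 : f.ker.index = ∏ i, (D.relIndex (W ⊓ fx (y i))) := by
    rw [Subgroup.index_ker, MonoidHom.range_eq_top.2 hsurj, Subgroup.card_top, Nat.card_pi]
    rfl
  rw [← h3]
  have h4 : (W1.subgroupOf W).index ≠ 0 := Subgroup.index_ne_zero_of_finite
  exact Nat.le_of_dvd (Nat.pos_of_ne_zero h4) (Subgroup.index_dvd_of_le hker)

end ext

end Cfsg.Agent.H24
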