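import Cfsg.Agent.H24.PElem

/-!
# Counting `p`-elements II: the external average (helper24)
-/

set_option autoImplicit false
set_option linter.unusedSectionVars false
set_option linter.unusedVariables false
open Subgroup

namespace Cfsg.Agent.H24

theorem log_relIndex {G : Type*} [Group G] [Finite G] {A B : Subgroup G} (h : A ≤ B) :
    Real.log (A.relIndex B) = Real.log (Nat.card B) - Real.log (Nat.card A) := by
  have h1 := Subgroup.relIndex_mul_relIndex ⊥ A B bot_le h
  rw [Subgroup.relIndex_bot_left, Subgroup.relIndex_bot_left] at h1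
  have hA : (Nat.card A : ℝ) ≠ 0 := by exact_mod_cast Nat.card_pos.ne'
  have hr : (A.relIndex B : ℝ) ≠ 0 := by
    have : A.relIndex B ≠ 0 := fun h0 => by
      rw [h0, mul_zero] at h1
      exact Nat.card_pos.ne' h1.symm
    exact_mod_cast this
  have h2 : (Nat.card B : ℝ) = Nat.card A * A.relIndex B := by exact_mod_cast h1.symm
  rw [h2, Real.log_mul hA hr]
  ring

theorem relIndex_ne_zero' {G : Type*} [Group G] [Finite G] {A B : Subgroup G} :
    A.relIndex B ≠ 0 := by
  unfold Subgroup.relIndex
  exact Subgroup.index_ne_zero_of_finite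

section ext

variable {V : Type*} [CommGroup V]

theorem ext_main [Finite V] (p : ℕ) [hp : Fact p.Prime] {P : Type*} [Group P] [Fintype P]
    (hP : IsPGroup p P) (φ : P →* MulAut V) (hcop : (Nat.card V).Coprime p) (n : ℕ) :
    ∀ W : Subgroup V, Nat.card W = n → (∀ x, ∀ v ∈ W, φ x v ∈ W) →
    (p : ℝ) * ∑ x : P, Real.log (Nat.card (W ⊓ fx (φ x) : Subgroup V)) ≤
      (Nat.card P : ℝ) * Real.log (Nat.card W) +
      (Nat.card P : ℝ) * (p - 1) * Real.log (Nat.card (W ⊓ ⨅ x, fx (φ x) : Subgroup V)) := by
  classical
  induction n using Nat.strong_induction_on with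
  | _ n ih =>
  intro W hn hW
  by_cases hle : ∀ x, W ≤ fx (φ x)
  · have h1 : ∀ x, W ⊓ fx (φ x) = W := fun x => inf_eq_left.2 (hle x)
    have h2 : W ⊓ ⨅ x, fx (φ x) = W := inf_eq_left.2 (le_iInf hle)
    simp only [h1, h2]
    rw [Finset.sum_const, Finset.card_univ, nsmul_eq_mul, ← Nat.card_eq_fintype_card]
    apply le_of_eq; ring
  · -- the kernel on `W`
    let C : Subgroup P :=
      { carrier := {x | ∀ v ∈ W, φ x v = v}
        mul_mem' := by
          intro a b ha hb v hv
          rw [map_mul, MulAut.mul_apply, hb v hv, ha v hv]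
        one_mem' := by intro v hv; rw [map_one]; rfl
        inv_mem' := by
          intro a ha v hv
          have h1 := ha v hv
          conv_lhs => rw [← h1]
          rw [← MulAut.mul_apply, ← map_mul, inv_mul_cancel, map_one]
          rfl }
    have hCmem : ∀ x, x ∈ C ↔ ∀ v ∈ W, φ x v = v := fun x => Iff.rfl
    haveI hCn : C.Normal := by
      refine ⟨fun c hc g v hv => ?_⟩
      rw [map_mul, map_mul, MulAut.mul_apply, MulAut.mul_apply, hc _ (hW g⁻¹ v hv),
        ← MulAut.mul_apply, ← map_mul, mul_inv_cancel, map_one]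
      rfl
    have hCt : C ≠ ⊤ := by
      intro h
      apply hle
      intro x v hv
      have : x ∈ C := h ▸ Subgroup.mem_top x
      exact this v hv
    haveI : Nontrivial (P ⧸ C) := by
      rw [← not_subsingleton_iff_nontrivial, QuotientGroup.subsingleton_iff]
      exact hCt
    have hPC := hP.to_quotient C
    haveI := hPC.center_nontrivial
    obtain ⟨zb, hzb⟩ : ∃ zb : Subgroup.center (P ⧸ C), orderOf zb = p := by
      obtain ⟨k, hk⟩ := IsPGroup.iff_card.1 (hPC.to_subgroup (Subgroup.center (P ⧸ C)))
      have hk0 : k ≠ 0 := by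
        rintro rfl
        rw [pow_zero] at hk
        have := Finite.one_lt_card (α := Subgroup.center (P ⧸ C))
        omega
      exact exists_prime_orderOf_dvd_card' p (hk ▸ dvd_pow_self p hk0)
    obtain ⟨z, hz⟩ := QuotientGroup.mk_surjective (zb : P ⧸ C)
    have hzC : z ∉ C := by
      intro h
      rw [← QuotientGroup.eq_one_iff, hz] at h
      have : zb = 1 := Subtype.ext h
      rw [this, orderOf_one] at hzb
      exact hp.out.one_lt.ne hzb
    have hzp : z ^ p ∈ C := by
      rw [← QuotientGroup.eq_one_iff, QuotientGroup.mk_pow, hz, ← Subgroup.coe_pow, ← hzb,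
        pow_orderOf_eq_one]
      rfl
    have hzc : ∀ x : P, (QuotientGroup.mk (x * z) : P ⧸ C) = QuotientGroup.mk (z * x) := by
      intro x
      rw [QuotientGroup.mk_mul, QuotientGroup.mk_mul, hz]
      exact (Subgroup.mem_center_iff.1 zb.2 _)
    have hmk : ∀ a b : P, (QuotientGroup.mk a : P ⧸ C) = QuotientGroup.mk b →
        ∀ v ∈ W, φ a v = φ b v := by
      intro a b h v hv
      rw [QuotientGroup.eq] at h
      have h1 : b = a * (a⁻¹ * b) := by group
      rw [h1, map_mul, MulAut.mul_apply, h v hv]
    have hzi : ∀ (i : ℕ) (x : P), (QuotientGroup.mk (x * z ^ i) : P ⧸ C) =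
        QuotientGroup.mk (z ^ i * x) := by
      intro i x
      have h1 : Commute (QuotientGroup.mk x : P ⧸ C) (QuotientGroup.mk z) := by
        have := hzc x
        rwa [QuotientGroup.mk_mul, QuotientGroup.mk_mul] at this
      rw [QuotientGroup.mk_mul, QuotientGroup.mk_mul, QuotientGroup.mk_pow]
      exact (h1.pow_right i)
    set W1 : Subgroup V := W ⊓ fx (φ z) with hW1
    have hW1W : W1 ≤ W := inf_le_left
    have hW1inv : ∀ x, ∀ v ∈ W1, φ x v ∈ W1 := by
      intro x v hv
      refine ⟨hW x v hv.1, ?_⟩
      show φ z (φ x v) = φ x v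
      rw [← MulAut.mul_apply, ← map_mul, ← hmk _ _ (hzc x) v hv.1, map_mul,
        MulAut.mul_apply, mem_fx.1 hv.2]
    have hlt : Nat.card W1 < n := by
      rw [← hn]
      refine lt_of_le_of_ne (Subgroup.card_le_of_le hW1W) fun h => hzC ?_
      have h1 : W1 = W := Subgroup.eq_of_le_of_card_ge hW1W h.ge
      intro v hv
      rw [← h1] at hv
      exact hv.2
    have h1 := ih _ hlt W1 rfl hW1inv
    have hfixz : ∀ v ∈ W, ∀ i j : Fin p, i ≠ j → φ (z ^ (i : ℕ)) v = φ (z ^ (j : ℕ)) v →
        φ z v = v := by
      intro v hv i j hij h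
      let St : Subgroup P :=
        { carrier := {x | φ x v = v}
          mul_mem' := by
            intro a b ha hb
            show φ (a * b) v = v
            rw [map_mul, MulAut.mul_apply, show φ b v = v from hb, show φ a v = v from ha]
          one_mem' := by show φ 1 v = v; rw [map_one]; rfl
          inv_mem' := by
            intro a ha
            show φ a⁻¹ v = v
            conv_lhs => rw [← (show φ a v = v from ha)]
            rw [← MulAut.mul_apply, ← map_mul, inv_mul_cancel, map_one]
            rfl }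
      have h2 : z ^ ((i : ℤ) - (j : ℤ)) ∈ St := by
        show φ _ v = v
        have h3 : z ^ ((i : ℤ) - (j : ℤ)) = (z ^ (j : ℕ))⁻¹ * z ^ (i : ℕ) := by
          rw [← zpow_natCast, ← zpow_natCast, ← zpow_neg, ← zpow_add]
          congr 1; ring
        rw [h3, map_mul, MulAut.mul_apply, h, ← MulAut.mul_apply, ← map_mul, inv_mul_cancel,
          map_one]
        rfl
      have h3 : z ^ p ∈ St := hzp v hv
      have h4 : IsCoprime (p : ℤ) ((i : ℤ) - (j : ℤ)) := by
        rw [(Nat.prime_iff_prime_int.1 hp.out).coprime_iff_not_dvd]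
        intro hd
        have h5 := Int.eq_zero_of_abs_lt_dvd hd (by
          rw [abs_lt]
          have := i.2
          have := j.2
          constructor <;> omega)
        apply hij
        apply Fin.ext
        omega
      obtain ⟨u, w, huw⟩ := h4
      have h5 : z = (z ^ p) ^ u * (z ^ ((i : ℤ) - (j : ℤ))) ^ w := by
        rw [← zpow_natCast z p, ← zpow_mul, ← zpow_mul, ← zpow_add, mul_comm (p : ℤ) u,
          mul_comm _ w, huw, zpow_one]
      have h6 : z ∈ St := by
        rw [h5]
        exact mul_mem (zpow_mem h3 _) (zpow_mem h2 _)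
      exact h6
    -- the local inequality
    have hloc : ∀ x : P, ∑ i : Fin p,
        Real.log (Nat.card (W ⊓ fx (φ (x * z ^ (i : ℕ))) : Subgroup V)) ≤
        p * Real.log (Nat.card (W1 ⊓ fx (φ x) : Subgroup V)) + Real.log (Nat.card W)
          - Real.log (Nat.card W1) := by
      intro x
      have hDle : ∀ i : Fin p, W1 ⊓ fx (φ x) ≤ W ⊓ fx (φ (x * z ^ (i : ℕ))) := by
        intro i v hv
        refine ⟨hv.1.1, ?_⟩
        have h2 : ∀ k : ℕ, φ (z ^ k) v = v := by
          intro k
          induction k with
          | zero => rw [pow_zero, map_one]; rfl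
          | succ k ihk => rw [pow_succ, map_mul, MulAut.mul_apply, mem_fx.1 hv.1.2, ihk]
        show φ (x * z ^ (i : ℕ)) v = v
        rw [map_mul, MulAut.mul_apply, h2]
        exact hv.2
      have h2 := local_ineq p (Nat.card P) W W1 (W1 ⊓ fx (φ x))
        (fun i => φ (x * z ^ (i : ℕ))) (by
          intro i j v hv
          rw [← MulAut.mul_apply, ← MulAut.mul_apply, ← map_mul, ← map_mul]
          refine hmk _ _ ?_ v hv
          have e1 := hzi i x
          have e2 := hzi j x
          have e3 : Commute (QuotientGroup.mk x : P ⧸ C) (QuotientGroup.mk (z ^ (i : ℕ))) := by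
            rwa [QuotientGroup.mk_mul, QuotientGroup.mk_mul] at e1
          have e4 : Commute (QuotientGroup.mk x : P ⧸ C) (QuotientGroup.mk (z ^ (j : ℕ))) := by
            rwa [QuotientGroup.mk_mul, QuotientGroup.mk_mul] at e2
          have e5 : Commute (QuotientGroup.mk (z ^ (i : ℕ)) : P ⧸ C)
              (QuotientGroup.mk (z ^ (j : ℕ))) := by
            rw [QuotientGroup.mk_pow, QuotientGroup.mk_pow]
            exact Commute.pow_pow_self _ _ _
          have e6 : Commute (QuotientGroup.mk (x * z ^ (i : ℕ)) : P ⧸ C)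
              (QuotientGroup.mk (x * z ^ (j : ℕ))) := by
            rw [QuotientGroup.mk_mul, QuotientGroup.mk_mul]
            exact ((Commute.refl _).mul_right e4).mul_left (e3.symm.mul_right e5)
          exact e6) (by
          intro i
          rw [← map_pow, pow_card_eq_one', map_one]) (by
          obtain ⟨k, hk⟩ := IsPGroup.iff_card.1 hP
          rw [hk]
          exact hcop.pow_right k) (fun i => hW _) hW1W (fun i => hW1inv _) (by
          intro i j hij v hv hi hj
          have h3 : φ (z ^ (i : ℕ)) v = φ (z ^ (j : ℕ)) v := by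
            rw [mem_fx, map_mul, MulAut.mul_apply] at hi hj
            exact (φ x).injective (hi.trans hj.symm)
          have h4 := hfixz v hv i j hij h3
          refine ⟨⟨hv, h4⟩, ?_⟩
          show φ x v = v
          have h5 : ∀ k : ℕ, φ (z ^ k) v = v := by
            intro k
            induction k with
            | zero => rw [pow_zero, map_one]; rfl
            | succ k ihk => rw [pow_succ, map_mul, MulAut.mul_apply, h4, ihk]
          rw [mem_fx, map_mul, MulAut.mul_apply, h5] at hi
          exact hi) (by
          intro i v hv hi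
          refine ⟨hv, ?_⟩
          show φ x v = v
          have h5 : ∀ k : ℕ, φ (z ^ k) v = v := by
            intro k
            induction k with
            | zero => rw [pow_zero, map_one]; rfl
            | succ k ihk => rw [pow_succ, map_mul, MulAut.mul_apply, mem_fx.1 hv.2, ihk]
          rw [mem_fx, map_mul, MulAut.mul_apply, h5] at hi
          exact hi) hDle
      have h3 : Real.log ((∏ i : Fin p, ((W1 ⊓ fx (φ x)).relIndex
          (W ⊓ fx (φ (x * z ^ (i : ℕ))))) : ℕ) : ℝ) ≤ Real.log (W1.relIndex W : ℝ) := by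
        refine Real.log_le_log ?_ (by exact_mod_cast h2)
        have : 0 < (∏ i : Fin p, ((W1 ⊓ fx (φ x)).relIndex
          (W ⊓ fx (φ (x * z ^ (i : ℕ)))))) :=
          Finset.prod_pos fun i _ => Nat.pos_of_ne_zero relIndex_ne_zero'
        exact_mod_cast this
      push_cast at h3
      rw [Real.log_prod (fun i _ => by
        exact_mod_cast relIndex_ne_zero'), log_relIndex hW1W,
        Finset.sum_congr rfl (fun i _ => log_relIndex (hDle i)), Finset.sum_sub_distrib,
        Finset.sum_const, Finset.card_univ, Fintype.card_fin, nsmul_eq_mul] at h3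
      linarith
    have hsum := Finset.sum_le_sum (fun (x : P) (_ : x ∈ Finset.univ) => hloc x)
    rw [Finset.sum_comm] at hsum
    have h5 : ∀ i : Fin p, ∑ x : P,
        Real.log (Nat.card (W ⊓ fx (φ (x * z ^ (i : ℕ))) : Subgroup V)) =
        ∑ x : P, Real.log (Nat.card (W ⊓ fx (φ x) : Subgroup V)) := fun i =>
      Fintype.sum_equiv (Equiv.mulRight (z ^ (i : ℕ))) _ _ fun x => rfl
    rw [Finset.sum_congr rfl (fun i _ => h5 i), Finset.sum_const, Finset.card_univ,
      Fintype.card_fin, nsmul_eq_mul, Finset.sum_sub_distrib, Finset.sum_add_distrib,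
      ← Finset.mul_sum, Finset.sum_const, Finset.sum_const, Finset.card_univ, nsmul_eq_mul,
      nsmul_eq_mul, ← Nat.card_eq_fintype_card] at hsum
    have h6 : W1 ⊓ ⨅ x, fx (φ x) = W ⊓ ⨅ x, fx (φ x) := by
      rw [hW1, inf_assoc, inf_eq_right.2 (iInf_le (fun x => fx (φ x)) z)]
    rw [h6] at h1
    linarith

end ext

end Cfsg.Agent.H24
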