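import Cfsg.Agent.H24.PElem2
import Cfsg.Agent.H2.PCon
import Cfsg.Agent.H1.Basic

/-!
# Counting `p`-elements III: internal versions (helper24)
-/

set_option autoImplicit false
set_option linter.unusedSectionVars false
set_option linter.unusedVariables false
open Subgroup

namespace Cfsg.Agent.H24

universe u

/-- logarithm of the number of elements of `K` centralizing `X` -/
noncomputable def lc {G : Type*} [Group G] (K X : Subgroup G) : ℝ :=
  Real.log (Nat.card (K ⊓ Subgroup.centralizer (X : Set G) : Subgroup G))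

/-- the average inequality -/
def AvIneq {G : Type*} [Group G] (p : ℕ) (K P : Subgroup G) : Prop :=
  (p : ℝ) * ∑ᶠ x : P, lc K (zpowers (x : G)) ≤
    (Nat.card P : ℝ) * Real.log (Nat.card K) + (Nat.card P : ℝ) * (p - 1) * lc K P

theorem mem_centralizer_zpowers {G : Type*} [Group G] {x g : G} :
    g ∈ Subgroup.centralizer (zpowers x : Set G) ↔ x * g = g * x := by
  rw [zpowers_eq_closure, Subgroup.centralizer_closure, Subgroup.mem_centralizer_singleton_iff]
  exact eq_comm

theorem card_map_subtype'' {G : Type*} [Group G] {H : Subgroup G} (A : Subgroup H) :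
    Nat.card (A.map H.subtype) = Nat.card A :=
  (Nat.card_congr (A.equivMapOfInjective H.subtype H.subtype_injective).toEquiv).symm

/-- transfer from a subgroup -/
theorem lc_map {G : Type*} [Group G] {H : Subgroup G} (K X : Subgroup H) :
    lc (K.map H.subtype) (X.map H.subtype) = lc K X := by
  unfold lc
  rw [← card_map_subtype'' (K ⊓ Subgroup.centralizer (X : Set H))]
  refine congrArg (fun A : Subgroup G => Real.log (Nat.card A)) ?_
  ext y
  constructor
  · intro hy
    obtain ⟨⟨k, hk, rfl⟩, h2⟩ := Subgroup.mem_inf.1 hy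
    refine ⟨k, Subgroup.mem_inf.2 ⟨hk, ?_⟩, rfl⟩
    rw [Subgroup.mem_centralizer_iff] at h2 ⊢
    intro x hx
    apply Subtype.ext
    exact h2 _ ⟨x, hx, rfl⟩
  · rintro ⟨k, hk', rfl⟩
    obtain ⟨hk, h2⟩ := Subgroup.mem_inf.1 hk'
    refine Subgroup.mem_inf.2 ⟨⟨k, hk, rfl⟩, ?_⟩
    rw [Subgroup.mem_centralizer_iff] at h2 ⊢
    rintro _ ⟨x, hx, rfl⟩
    exact congrArg Subtype.val (h2 x hx)

theorem avIneq_map {G : Type*} [Group G] {p : ℕ} {H : Subgroup G} {K P : Subgroup H}
    (h : AvIneq p K P) : AvIneq p (K.map H.subtype) (P.map H.subtype) := by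
  unfold AvIneq at h ⊢
  have e : ∑ᶠ x : P.map H.subtype, lc (K.map H.subtype) (zpowers (x : G)) =
      ∑ᶠ x : P, lc K (zpowers (x : H)) := by
    refine (finsum_eq_of_bijective (P.equivMapOfInjective H.subtype H.subtype_injective)
      (MulEquiv.bijective _) fun x => ?_).symm
    rw [← lc_map, MonoidHom.map_zpowers]
    rfl
  rw [e, lc_map, card_map_subtype'', card_map_subtype'']
  exact h

/-- the abelian case -/
theorem avIneq_abelian {G : Type*} [Group G] [Finite G] {p : ℕ} [hp : Fact p.Prime]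
    {V P : Subgroup G} (hV : ∀ a ∈ V, ∀ b ∈ V, a * b = b * a)
    (hPV : P ≤ Subgroup.normalizer (V : Set G))
    (hP : IsPGroup p P) (hcop : (Nat.card V).Coprime p) : AvIneq p V P := by
  classical
  haveI := Fintype.ofFinite P
  letI : CommGroup V := { (inferInstance : Group V) with
    mul_comm := fun a b => Subtype.ext (hV a a.2 b b.2) }
  let φ : P →* MulAut V := V.normalizerMonoidHom.comp (Subgroup.inclusion hPV)
  have hφ : ∀ (x : P) (v : V), ((φ x v : V) : G) = x * v * (x : G)⁻¹ := fun x v => rfl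
  have h := ext_main p hP φ hcop _ ⊤ rfl (fun _ _ _ => Subgroup.mem_top _)
  unfold AvIneq
  rw [finsum_eq_sum_of_fintype]
  have h1 : ∀ x : P, Real.log (Nat.card (⊤ ⊓ fx (φ x) : Subgroup V)) = lc V (zpowers (x : G)) := by
    intro x
    unfold lc
    rw [← card_map_subtype'' (⊤ ⊓ fx (φ x))]
    refine congrArg (fun A : Subgroup G => Real.log (Nat.card A)) ?_
    ext y
    constructor
    · rintro ⟨v, hv', rfl⟩
      have hv := (Subgroup.mem_inf.1 hv').2
      refine Subgroup.mem_inf.2 ⟨v.2, ?_⟩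
      rw [mem_centralizer_zpowers]
      have := congrArg Subtype.val (show φ x v = v from hv)
      rw [hφ, mul_inv_eq_iff_eq_mul] at this
      exact this
    · intro hy'
      obtain ⟨hy, h2⟩ := Subgroup.mem_inf.1 hy'
      rw [mem_centralizer_zpowers] at h2
      refine ⟨⟨y, hy⟩, Subgroup.mem_inf.2 ⟨Subgroup.mem_top _, ?_⟩, rfl⟩
      show φ x _ = _
      apply Subtype.ext
      rw [hφ, mul_inv_eq_iff_eq_mul]
      exact h2
  have h2 : Real.log (Nat.card (⊤ ⊓ ⨅ x, fx (φ x) : Subgroup V)) = lc V P := by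
    unfold lc
    rw [← card_map_subtype'' (⊤ ⊓ ⨅ x, fx (φ x))]
    refine congrArg (fun A : Subgroup G => Real.log (Nat.card A)) ?_
    ext y
    constructor
    · rintro ⟨v, hv', rfl⟩
      have hv := (Subgroup.mem_inf.1 hv').2
      refine Subgroup.mem_inf.2 ⟨v.2, ?_⟩
      rw [Subgroup.mem_centralizer_iff]
      intro x hx
      rw [Subgroup.mem_iInf] at hv
      have := congrArg Subtype.val (show φ ⟨x, hx⟩ v = v from hv ⟨x, hx⟩)
      rw [hφ, mul_inv_eq_iff_eq_mul] at this
      exact this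
    · intro hy'
      obtain ⟨hy, h2⟩ := Subgroup.mem_inf.1 hy'
      rw [Subgroup.mem_centralizer_iff] at h2
      refine ⟨⟨y, hy⟩, Subgroup.mem_inf.2 ⟨Subgroup.mem_top _, ?_⟩, rfl⟩
      rw [Subgroup.mem_iInf]
      intro x
      show φ x _ = _
      apply Subtype.ext
      rw [hφ, mul_inv_eq_iff_eq_mul]
      exact h2 x x.2
  rw [Finset.sum_congr rfl (fun x _ => h1 x), h2, Subgroup.card_top] at h
  exact h

theorem map_inf_mk {G : Type*} [Group G] {N K C : Subgroup G} [N.Normal] (hNK : N ≤ K) :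
    (K ⊓ C).map (QuotientGroup.mk' N) = K.map (QuotientGroup.mk' N) ⊓
      C.map (QuotientGroup.mk' N) := by
  apply le_antisymm
  · exact Subgroup.map_inf_le _ _ _
  · intro y hy
    obtain ⟨⟨k, hk, rfl⟩, ⟨c, hc, h⟩⟩ := Subgroup.mem_inf.1 hy
    refine ⟨c, Subgroup.mem_inf.2 ⟨?_, hc⟩, h⟩
    rw [QuotientGroup.mk'_apply, QuotientGroup.mk'_apply, QuotientGroup.eq] at h
    have h1 : c = k * (c⁻¹ * k)⁻¹ := by group
    rw [h1]
    exact mul_mem hk (inv_mem (hNK h))

theorem lc_quot {G : Type*} [Group G] [Finite G] {p : ℕ} [hp : Fact p.Prime]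
    {N K X : Subgroup G} [N.Normal] (hNK : N ≤ K) (hX : IsPGroup p X)
    (hcop : (Nat.card N).Coprime p) :
    lc K X = lc N X + lc (K.map (QuotientGroup.mk' N)) (X.map (QuotientGroup.mk' N)) := by
  unfold lc
  rw [← H2.centralizer_map_mk hX hcop, ← map_inf_mk hNK,
    ← H1.card_map_mk'_mul N (K ⊓ Subgroup.centralizer (X : Set G))]
  have h1 : K ⊓ Subgroup.centralizer (X : Set G) ⊓ N = N ⊓ Subgroup.centralizer (X : Set G) := by
    rw [inf_comm K, inf_assoc, inf_eq_right.2 hNK, inf_comm]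
  rw [h1, Nat.cast_mul, Real.log_mul]
  · exact_mod_cast Nat.card_pos.ne'
  · exact_mod_cast Nat.card_pos.ne'

theorem inf_eq_bot_of_coprime' {G : Type*} [Group G] [Finite G] {p : ℕ} [hp : Fact p.Prime]
    {N P : Subgroup G} (hP : IsPGroup p P) (hcop : (Nat.card N).Coprime p) : P ⊓ N = ⊥ := by
  obtain ⟨k, hk⟩ := IsPGroup.iff_card.1 hP
  refine Subgroup.inf_eq_bot_of_coprime ?_
  rw [hk]
  exact (hcop.pow_right k).symm

theorem bij_quot {G : Type*} [Group G] {N P : Subgroup G} [N.Normal] (h : P ⊓ N = ⊥) :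
    Function.Bijective (fun x : P => (⟨QuotientGroup.mk' N x,
      Subgroup.mem_map_of_mem _ x.2⟩ : P.map (QuotientGroup.mk' N))) := by
  constructor
  · intro x y hxy
    have h1 := congrArg Subtype.val hxy
    simp only [QuotientGroup.mk'_apply] at h1
    rw [QuotientGroup.eq] at h1
    have h2 : (x : G)⁻¹ * y ∈ P ⊓ N := Subgroup.mem_inf.2 ⟨P.mul_mem (P.inv_mem x.2) y.2, h1⟩
    rw [h, Subgroup.mem_bot, inv_mul_eq_one] at h2
    exact Subtype.ext h2
  · rintro ⟨_, ⟨x, hx, rfl⟩⟩
    exact ⟨⟨x, hx⟩, rfl⟩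

theorem avIneq_comb {G : Type*} [Group G] [Finite G] {p : ℕ} [hp : Fact p.Prime]
    {N K P : Subgroup G} [N.Normal] (hNK : N ≤ K) (hP : IsPGroup p P)
    (hcop : (Nat.card N).Coprime p) (h1 : AvIneq p N P)
    (h2 : AvIneq p (K.map (QuotientGroup.mk' N)) (P.map (QuotientGroup.mk' N))) :
    AvIneq p K P := by
  classical
  haveI := Fintype.ofFinite P
  haveI := Fintype.ofFinite (P.map (QuotientGroup.mk' N))
  have hb := bij_quot (inf_eq_bot_of_coprime' hP hcop)
  have hcard : Nat.card (P.map (QuotientGroup.mk' N)) = Nat.card P :=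
    (Nat.card_congr (Equiv.ofBijective _ hb)).symm
  have hK := H1.card_map_mk'_mul N K
  rw [inf_eq_right.2 hNK] at hK
  have hlog : Real.log (Nat.card K) = Real.log (Nat.card N) +
      Real.log (Nat.card (K.map (QuotientGroup.mk' N))) := by
    rw [← hK, Nat.cast_mul, Real.log_mul]
    · exact_mod_cast Nat.card_pos.ne'
    · exact_mod_cast Nat.card_pos.ne'
  have hsum : ∑ x : P, lc K (zpowers (x : G)) = ∑ x : P, lc N (zpowers (x : G)) +
      ∑ y : P.map (QuotientGroup.mk' N), lc (K.map (QuotientGroup.mk' N))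
        (zpowers (y : G ⧸ N)) := by
    rw [← Fintype.sum_bijective _ hb (fun x : P => lc (K.map (QuotientGroup.mk' N))
        (zpowers (QuotientGroup.mk' N (x : G)))) _ (fun x => rfl), ← Finset.sum_add_distrib]
    refine Finset.sum_congr rfl fun x _ => ?_
    rw [lc_quot hNK (hP.to_le (zpowers_le.2 x.2)) hcop, MonoidHom.map_zpowers]
  unfold AvIneq at h1 h2 ⊢
  rw [finsum_eq_sum_of_fintype] at h1 h2 ⊢
  rw [hcard] at h2
  rw [hsum, hlog, lc_quot hNK hP hcop]
  linarith

/-- nilpotent normal subgroups -/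
theorem avIneq_nilpotent {p : ℕ} [hp : Fact p.Prime] (n : ℕ) : ∀ (G : Type u) [Group G] [Finite G]
    (K P : Subgroup G), Nat.card K = n → K.Normal → Group.IsNilpotent K → IsPGroup p P →
    (Nat.card K).Coprime p → AvIneq p K P := by
  induction n using Nat.strong_induction_on with
  | _ n ih =>
  intro G _ _ K P hn hKn hKnil hP hcop
  by_cases hab : ∀ a ∈ K, ∀ b ∈ K, a * b = b * a
  · exact avIneq_abelian hab (by rw [Subgroup.normalizer_eq_top]; exact le_top) hP hcop
  set N : Subgroup G := (Subgroup.center K).map K.subtype with hN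
  have hNK : N ≤ K := Subgroup.map_subtype_le _
  haveI : N.Normal := by
    haveI := hKn
    exact ConjAct.normal_of_characteristic_of_normal
  haveI : Nontrivial K := by
    by_contra h
    rw [not_nontrivial_iff_subsingleton] at h
    apply hab
    intro a ha b hb
    have := congrArg Subtype.val (Subsingleton.elim (⟨a, ha⟩ : K) ⟨b, hb⟩)
    simp only at this
    rw [this]
  have hNb : 1 < Nat.card N := by
    rw [hN, card_map_subtype'']
    haveI : Nontrivial (Subgroup.center K) :=
      (Subgroup.nontrivial_iff_ne_bot _).2 (Group.IsNilpotent.center_ne_bot _)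
    exact Finite.one_lt_card
  have hcN : (Nat.card N).Coprime p :=
    Nat.Coprime.coprime_dvd_left (Subgroup.card_dvd_of_le hNK) hcop
  have hK := H1.card_map_mk'_mul N K
  rw [inf_eq_right.2 hNK] at hK
  refine avIneq_comb hNK hP hcN ?_ ?_
  · refine avIneq_abelian ?_ (by rw [Subgroup.normalizer_eq_top]; exact le_top) hP hcN
    rintro _ ⟨a, ha, rfl⟩ _ ⟨b, hb, rfl⟩
    exact congrArg Subtype.val (Subgroup.mem_center_iff.1 hb a)
  · haveI := hKn
    refine ih (Nat.card (K.map (QuotientGroup.mk' N))) ?_ (G ⧸ N) _ _ rfl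
      (Subgroup.Normal.map hKn _ (QuotientGroup.mk'_surjective N)) ?_ (hP.map _) ?_
    · rw [← hn, ← hK]
      have : 0 < Nat.card (K.map (QuotientGroup.mk' N)) := Nat.card_pos
      nlinarith
    · exact Group.nilpotent_of_surjective _ ((QuotientGroup.mk' N).subgroupMap_surjective K)
    · exact Nat.Coprime.coprime_dvd_left (hK ▸ Dvd.intro_left _ rfl) hcop

/-- nilpotent subgroups normalized by `P` -/
theorem avIneq_nilpotent' {p : ℕ} [hp : Fact p.Prime] {G : Type u} [Group G] [Finite G]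
    {K P : Subgroup G} (hPK : P ≤ Subgroup.normalizer (K : Set G)) (hKnil : Group.IsNilpotent K)
    (hP : IsPGroup p P) (hcop : (Nat.card K).Coprime p) : AvIneq p K P := by
  have h1 : (K.subgroupOf (P ⊔ K)).Normal := Subgroup.normal_subgroupOf_sup_of_le_normalizer hPK
  have hKle : K ≤ P ⊔ K := le_sup_right
  have hPle : P ≤ P ⊔ K := le_sup_left
  have h2 := avIneq_nilpotent (p := p) _ ↥(P ⊔ K) (K.subgroupOf (P ⊔ K))
    (P.subgroupOf (P ⊔ K)) rfl h1
    (Group.nilpotent_of_mulEquiv (Subgroup.subgroupOfEquivOfLe hKle).symm) hP.comap_subtype (by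
      rw [Nat.card_congr (Subgroup.subgroupOfEquivOfLe hKle).toEquiv]; exact hcop)
  have h3 := avIneq_map h2
  rwa [Subgroup.map_subgroupOf_eq_of_le hKle, Subgroup.map_subgroupOf_eq_of_le hPle] at h3

end Cfsg.Agent.H24
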