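import Cfsg.Agent.H24.PElem3

/-!
# Counting `p`-elements IV: general `p'`-groups (helper24)
-/

set_option autoImplicit false
set_option linter.unusedSectionVars false
set_option linter.unusedVariables false
open Subgroup

namespace Cfsg.Agent.H24

universe u

theorem log_eq_sum {n N : ℕ} (h : n ∣ N) (hN : N ≠ 0) :
    Real.log n = ∑ q ∈ N.primeFactors, (n.factorization q : ℝ) * Real.log q := by
  have hn : n ≠ 0 := fun h0 => hN (by rw [h0] at h; exact zero_dvd_iff.1 h)
  rw [Real.log_nat_eq_sum_factorization, Finsupp.sum_of_support_subset]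
  · rw [Nat.support_factorization]
    exact Nat.primeFactors_mono h hN
  · intro i _
    simp

theorem sylow_part {G : Type u} [Group G] [Finite G] {p : ℕ} [hp : Fact p.Prime]
    {K P : Subgroup G} (hPK : P ≤ Subgroup.normalizer (K : Set G)) (hP : IsPGroup p P)
    (hcop : (Nat.card K).Coprime p) (q : ℕ) (hq : q.Prime) :
    ∃ Kq : Subgroup G, IsPGroup q Kq ∧ Kq ≤ K ∧ P ≤ Subgroup.normalizer (Kq : Set G) ∧
      ∀ X ≤ P, Nat.card (Kq ⊓ Subgroup.centralizer (X : Set G) : Subgroup G) =
        q ^ (Nat.card (K ⊓ Subgroup.centralizer (X : Set G) : Subgroup G)).factorization q := by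
  haveI : Fact q.Prime := ⟨hq⟩
  have hcop' : ∀ X ≤ P, (Nat.card X).Coprime (Nat.card K) := by
    intro X hX
    obtain ⟨k, hk⟩ := IsPGroup.iff_card.1 (hP.to_le hX)
    rw [hk]
    exact (hcop.pow_right k).symm
  have hsol : ∀ X ≤ P, Group.IsSolvable X := by
    intro X hX
    haveI := (hP.to_le hX).isNilpotent
    infer_instance
  obtain ⟨S, hS⟩ := H1.exists_invariant_sylow P K hPK (hcop' P le_rfl) (Or.inl (hsol P le_rfl)) q
  refine ⟨(S : Subgroup K).map K.subtype, S.isPGroup'.map _, Subgroup.map_subtype_le _, hS, ?_⟩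
  intro X hX
  set T : Subgroup G := K ⊓ Subgroup.centralizer (X : Set G) with hT
  have hTK : T ≤ K := inf_le_left
  have hTX : T ≤ Subgroup.centralizer (X : Set G) := inf_le_right
  obtain ⟨U0⟩ : Nonempty (Sylow q T) := inferInstance
  set U : Subgroup G := (U0 : Subgroup T).map T.subtype with hU
  have hUT : U ≤ T := Subgroup.map_subtype_le _
  have hUcard : Nat.card U = q ^ (Nat.card T).factorization q := by
    rw [hU, card_map_subtype'']
    exact U0.card_eq_multiplicity
  have hXK : X ≤ Subgroup.normalizer (K : Set G) := hX.trans hPK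
  have hXU : X ≤ Subgroup.normalizer (U : Set G) := by
    refine le_trans ?_ (Subgroup.centralizer_le_normalizer (U : Set G))
    rw [Subgroup.le_centralizer_iff]
    exact hUT.trans hTX
  obtain ⟨S', hUS', hXS'⟩ := H1.exists_invariant_sylow_ge X K hXK (hcop' X hX)
    (Or.inl (hsol X hX)) q U (hUT.trans hTK) (U0.isPGroup'.map _) hXU
  obtain ⟨c, hc, hcS⟩ := H1.invariant_sylow_conj X K hXK (hcop' X hX) (Or.inl (hsol X hX)) q S' S
    hXS' (hX.trans hS)
  apply le_antisymm
  · have h1 : IsPGroup q ((S : Subgroup K).map K.subtype ⊓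
        Subgroup.centralizer (X : Set G) : Subgroup G) :=
      (S.isPGroup'.map K.subtype).to_le inf_le_left
    obtain ⟨k, hk⟩ := IsPGroup.iff_card.1 h1
    have h2 : (S : Subgroup K).map K.subtype ⊓ Subgroup.centralizer (X : Set G) ≤ T :=
      inf_le_inf_right _ (Subgroup.map_subtype_le _)
    have h3 := Subgroup.card_dvd_of_le h2
    rw [hk] at h3 ⊢
    exact Nat.pow_le_pow_right hq.pos
      ((hq.pow_dvd_iff_le_factorization Nat.card_pos.ne').1 h3)
  · rw [← hUcard]
    have hmem : ∀ u ∈ U, (c : G) * u * (c : G)⁻¹ ∈ ((S : Subgroup K).map K.subtype ⊓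
        Subgroup.centralizer (X : Set G) : Subgroup G) := by
      intro u hu
      refine Subgroup.mem_inf.2 ⟨?_, ?_⟩
      · obtain ⟨s, hs, rfl⟩ := hUS' hu
        refine ⟨c * s * c⁻¹, ?_, by simp⟩
        rw [← hcS]
        exact ⟨s, hs, by simp [MulAut.smul_def]⟩
      · exact mul_mem (mul_mem hc (hTX (hUT hu))) (inv_mem hc)
    refine Nat.card_le_card_of_injective (fun u : U => (⟨_, hmem u u.2⟩ :
      ((S : Subgroup K).map K.subtype ⊓ Subgroup.centralizer (X : Set G) : Subgroup G))) ?_
    intro u v huv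
    have h1 := congrArg Subtype.val huv
    simp only [mul_left_inj, mul_right_inj] at h1
    exact Subtype.ext h1

/-- the average inequality for arbitrary `p'`-groups -/
theorem avIneq_all {G : Type u} [Group G] [Finite G] {p : ℕ} [hp : Fact p.Prime]
    {K P : Subgroup G} (hPK : P ≤ Subgroup.normalizer (K : Set G)) (hP : IsPGroup p P)
    (hcop : (Nat.card K).Coprime p) : AvIneq p K P := by
  classical
  haveI := Fintype.ofFinite P
  have h0 : ∀ q : ℕ, ∃ Kq : Subgroup G, q.Prime → (IsPGroup q Kq ∧ Kq ≤ K ∧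
      P ≤ Subgroup.normalizer (Kq : Set G) ∧
      ∀ X ≤ P, Nat.card (Kq ⊓ Subgroup.centralizer (X : Set G) : Subgroup G) =
        q ^ (Nat.card (K ⊓ Subgroup.centralizer (X : Set G) : Subgroup G)).factorization q) := by
    intro q
    by_cases hq : q.Prime
    · obtain ⟨Kq, h⟩ := sylow_part hPK hP hcop q hq
      exact ⟨Kq, fun _ => h⟩
    · exact ⟨⊥, fun h => absurd h hq⟩
  choose Kq hKq using h0
  have hlc : ∀ X ≤ P, lc K X = ∑ q ∈ (Nat.card K).primeFactors, lc (Kq q) X := by
    intro X hX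
    unfold lc
    rw [log_eq_sum (Subgroup.card_dvd_of_le inf_le_left) Nat.card_pos.ne']
    refine Finset.sum_congr rfl fun q hq => ?_
    rw [(hKq q (Nat.prime_of_mem_primeFactors hq)).2.2.2 X hX]
    push_cast
    rw [Real.log_pow]
  have hbot : ∀ A : Subgroup G, lc A ⊥ = Real.log (Nat.card A) := by
    intro A
    unfold lc
    have : Subgroup.centralizer ((⊥ : Subgroup G) : Set G) = ⊤ := by
      rw [Subgroup.eq_top_iff']
      intro g
      rw [Subgroup.mem_centralizer_iff]
      intro x hx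
      rw [Subgroup.mem_bot.1 hx, one_mul, mul_one]
    rw [this, inf_top_eq]
  have hlog : Real.log (Nat.card K) = ∑ q ∈ (Nat.card K).primeFactors,
      Real.log (Nat.card (Kq q)) := by
    rw [← hbot, hlc ⊥ bot_le]
    exact Finset.sum_congr rfl fun q _ => hbot _
  have hq : ∀ q ∈ (Nat.card K).primeFactors, AvIneq p (Kq q) P := by
    intro q hq
    have hqp := Nat.prime_of_mem_primeFactors hq
    haveI : Fact q.Prime := ⟨hqp⟩
    obtain ⟨h1, h2, h3, -⟩ := hKq q hqp
    exact avIneq_nilpotent' h3 h1.isNilpotent hP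
      (Nat.Coprime.coprime_dvd_left (Subgroup.card_dvd_of_le h2) hcop)
  unfold AvIneq at hq ⊢
  rw [finsum_eq_sum_of_fintype, hlog, hlc P le_rfl,
    Finset.sum_congr rfl (fun (x : P) (_ : x ∈ Finset.univ) =>
      hlc (zpowers (x : G)) (zpowers_le.2 x.2)),
    Finset.sum_comm, Finset.mul_sum, Finset.mul_sum, Finset.mul_sum, ← Finset.sum_add_distrib]
  refine Finset.sum_le_sum fun q hqm => ?_
  have := hq q hqm
  rwa [finsum_eq_sum_of_fintype] at this

end Cfsg.Agent.H24
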