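import Cfsg.Agent.H24.PElem4
import Cfsg.Agent.H23.PSolvable
import Cfsg.Agent.H1.Cores
import Cfsg.Agent.H27.Kernel

/-!
# Counting `p`-elements V: conjugating elements into a Sylow subgroup (helper24)
-/

set_option autoImplicit false
set_option linter.unusedSectionVars false
set_option linter.unusedVariables false
open Subgroup

namespace Cfsg.Agent.H24

universe u

/-- number of elements conjugating `X` into `P` -/
noncomputable def mc {G : Type*} [Group G] (P X : Subgroup G) : ℕ :=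
  Nat.card {g : G // ∀ x ∈ X, g * x * g⁻¹ ∈ P}

theorem mc_quot_p {G : Type*} [Group G] [Finite G] {N P : Subgroup G} [N.Normal] (hNP : N ≤ P)
    (X : Subgroup G) : mc P X =
      Nat.card N * mc (P.map (QuotientGroup.mk' N)) (X.map (QuotientGroup.mk' N)) := by
  unfold mc
  rw [← Nat.card_prod]
  let t : Set (G ⧸ N) := {g | ∀ x ∈ X.map (QuotientGroup.mk' N), g * x * g⁻¹ ∈
    P.map (QuotientGroup.mk' N)}
  have h := Nat.card_congr (QuotientGroup.preimageMkEquivSubgroupProdSet N t)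
  refine Eq.trans ?_ h
  refine Nat.card_congr (Equiv.subtypeEquivRight fun g => ?_)
  constructor
  · rintro hg _ ⟨x, hx, rfl⟩
    exact ⟨_, hg x hx, by simp⟩
  · intro hg x hx
    obtain ⟨y, hy, hyx⟩ := hg _ ⟨x, hx, rfl⟩
    have h1 : (QuotientGroup.mk y : G ⧸ N) = QuotientGroup.mk (g * x * g⁻¹) := by
      rw [QuotientGroup.mk'_apply] at hyx
      rw [hyx]
      simp
    rw [QuotientGroup.eq] at h1
    have h2 : g * x * g⁻¹ = y * (y⁻¹ * (g * x * g⁻¹)) := by group
    rw [h2]
    exact P.mul_mem hy (hNP h1)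

theorem exists_conj_le {G : Type*} [Group G] [Finite G] {p : ℕ} [hp : Fact p.Prime]
    {N P Q : Subgroup G} [N.Normal] (hN : (Nat.card N).Coprime p) (hP : IsPGroup p P)
    (hQ : IsPGroup p Q) (hQP : Q ≤ P ⊔ N) : ∃ n ∈ N, ∀ x ∈ Q, n * x * n⁻¹ ∈ P := by
  set M : Subgroup G := P ⊔ N with hM
  have hidx : ¬ p ∣ (P.subgroupOf M).index := H10.not_dvd_relIndex_sup P N hN
  let PM : Sylow p M := (hP.comap_subtype (H := P) : IsPGroup p (P.subgroupOf M)).toSylow hidx
  obtain ⟨S, hS⟩ := (hQ.comap_subtype : IsPGroup p (Q.subgroupOf M)).exists_le_sylow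
  obtain ⟨m, hm⟩ := MulAction.exists_smul_eq M S PM
  have hmM : (m : G) ∈ P ⊔ N := m.2
  rw [Subgroup.mem_sup_of_normal_right] at hmM
  obtain ⟨y, hy, n, hn, hyn⟩ := hmM
  refine ⟨n, hn, fun x hx => ?_⟩
  have h1 : m * ⟨x, hQP hx⟩ * m⁻¹ ∈ (PM : Subgroup M) := by
    rw [← hm]
    exact ⟨⟨x, hQP hx⟩, hS hx, by simp [MulAut.smul_def]⟩
  have h2 : (m : G) * x * (m : G)⁻¹ ∈ P := h1
  rw [← hyn] at h2
  have h3 : n * x * n⁻¹ = y⁻¹ * (y * n * x * (y * n)⁻¹) * y := by group
  rw [h3]
  exact P.mul_mem (P.mul_mem (P.inv_mem hy) h2) hy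

theorem mc_quot_p' {G : Type*} [Group G] [Finite G] {p : ℕ} [hp : Fact p.Prime]
    {N P X : Subgroup G} [N.Normal] (hN : (Nat.card N).Coprime p) (hP : IsPGroup p P)
    (hXP : X ≤ P) : mc P X = Nat.card (N ⊓ Subgroup.centralizer (X : Set G) : Subgroup G) *
      mc (P.map (QuotientGroup.mk' N)) (X.map (QuotientGroup.mk' N)) := by
  classical
  have hinf := inf_eq_bot_of_coprime' hP hN
  have hX : IsPGroup p X := hP.to_le hXP
  have hs : ∀ gb : {g : G ⧸ N // ∀ x ∈ X.map (QuotientGroup.mk' N), g * x * g⁻¹ ∈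
      P.map (QuotientGroup.mk' N)}, ∃ g : G, QuotientGroup.mk g = gb.1 ∧
      ∀ x ∈ X, g * x * g⁻¹ ∈ P := by
    rintro ⟨gb, hgb⟩
    obtain ⟨h, rfl⟩ := QuotientGroup.mk'_surjective N gb
    have h1 : X.map (MulAut.conj h).toMonoidHom ≤ P ⊔ N := by
      rintro _ ⟨x, hx, rfl⟩
      obtain ⟨y, hy, hyx⟩ := hgb _ ⟨x, hx, rfl⟩
      have h1 : (QuotientGroup.mk y : G ⧸ N) = QuotientGroup.mk (h * x * h⁻¹) := by
        rw [QuotientGroup.mk'_apply] at hyx
        rw [hyx]
        simp
      rw [QuotientGroup.eq] at h1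
      have h2 : (MulAut.conj h).toMonoidHom x = y * (y⁻¹ * (h * x * h⁻¹)) := by
        simp
      rw [h2]
      exact mul_mem (Subgroup.mem_sup_left hy) (Subgroup.mem_sup_right h1)
    obtain ⟨n, hn, h2⟩ := exists_conj_le hN hP (hX.map _) h1
    refine ⟨n * h, ?_, ?_⟩
    · rw [QuotientGroup.mk_mul, (QuotientGroup.eq_one_iff n).2 hn, one_mul]
      rfl
    · intro x hx
      have := h2 _ ⟨x, hx, rfl⟩
      have e : n * (MulAut.conj h).toMonoidHom x * n⁻¹ = n * h * x * (n * h)⁻¹ := by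
        simp [mul_assoc]
      rwa [e] at this
  choose s hs1 hs2 using hs
  unfold mc
  rw [← Nat.card_prod]
  symm
  refine Nat.card_congr (Equiv.ofBijective (fun a : (N ⊓ Subgroup.centralizer (X : Set G) :
      Subgroup G) × {g : G ⧸ N // ∀ x ∈ X.map (QuotientGroup.mk' N), g * x * g⁻¹ ∈
      P.map (QuotientGroup.mk' N)} => (⟨s a.2 * a.1, ?_⟩ :
      {g : G // ∀ x ∈ X, g * x * g⁻¹ ∈ P})) ⟨?_, ?_⟩)
  · intro x hx
    have h1 := (Subgroup.mem_inf.1 a.1.2).2
    rw [Subgroup.mem_centralizer_iff] at h1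
    have h2 := h1 x hx
    have e : s a.2 * (a.1 : G) * x * (s a.2 * (a.1 : G))⁻¹ = s a.2 * x * (s a.2)⁻¹ := by
      rw [mul_assoc (s a.2), ← h2]
      group
    rw [e]
    exact hs2 _ x hx
  · rintro ⟨c, gb⟩ ⟨c', gb'⟩ h
    have h1 := congrArg Subtype.val h
    simp only at h1
    have hg : gb = gb' := by
      apply Subtype.ext
      rw [← hs1 gb, ← hs1 gb']
      have h2 := congrArg (QuotientGroup.mk : G → G ⧸ N) h1
      rw [QuotientGroup.mk_mul, QuotientGroup.mk_mul,
        (QuotientGroup.eq_one_iff _).2 (Subgroup.mem_inf.1 c.2).1,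
        (QuotientGroup.eq_one_iff _).2 (Subgroup.mem_inf.1 c'.2).1, mul_one, mul_one] at h2
      exact h2
    subst hg
    rw [mul_right_inj] at h1
    exact Prod.ext (Subtype.ext h1) rfl
  · rintro ⟨g, hg⟩
    have hgb : ∀ x ∈ X.map (QuotientGroup.mk' N), (QuotientGroup.mk g : G ⧸ N) * x *
        (QuotientGroup.mk g : G ⧸ N)⁻¹ ∈ P.map (QuotientGroup.mk' N) := by
      rintro _ ⟨x, hx, rfl⟩
      exact ⟨_, hg x hx, by simp⟩
    have h1 : (QuotientGroup.mk (s ⟨_, hgb⟩) : G ⧸ N) = QuotientGroup.mk g := hs1 ⟨_, hgb⟩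
    rw [QuotientGroup.eq] at h1
    refine ⟨(⟨(s ⟨_, hgb⟩)⁻¹ * g, Subgroup.mem_inf.2 ⟨h1, ?_⟩⟩, ⟨_, hgb⟩), ?_⟩
    · rw [Subgroup.mem_centralizer_iff]
      intro x hx
      set t := s ⟨_, hgb⟩ with ht
      set n := t⁻¹ * g with hn
      have hgn : g = t * n := by rw [hn]; group
      have h2 : t * (n * x * n⁻¹ * x⁻¹) * t⁻¹ ∈ P := by
        have e : t * (n * x * n⁻¹ * x⁻¹) * t⁻¹ = (g * x * g⁻¹) * (t * x * t⁻¹)⁻¹ := by
          rw [hgn]; group
        rw [e]
        exact P.mul_mem (hg x hx) (P.inv_mem (hs2 _ x hx))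
      have h3 : t * (n * x * n⁻¹ * x⁻¹) * t⁻¹ ∈ N := by
        refine Subgroup.Normal.conj_mem inferInstance _ ?_ _
        have e : n * x * n⁻¹ * x⁻¹ = n * (x * n⁻¹ * x⁻¹) := by group
        rw [e]
        exact N.mul_mem h1 (Subgroup.Normal.conj_mem inferInstance _ (N.inv_mem h1) _)
      have h4 : t * (n * x * n⁻¹ * x⁻¹) * t⁻¹ ∈ P ⊓ N := Subgroup.mem_inf.2 ⟨h2, h3⟩
      rw [hinf, Subgroup.mem_bot] at h4
      have h5 : n * x * n⁻¹ * x⁻¹ = 1 := by
        have : n * x * n⁻¹ * x⁻¹ = t⁻¹ * (t * (n * x * n⁻¹ * x⁻¹) * t⁻¹) * t := by group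
        rw [this, h4]; group
      rw [mul_inv_eq_one, mul_inv_eq_iff_eq_mul] at h5
      exact h5.symm
    · apply Subtype.ext
      simp

theorem mc_pos {G : Type*} [Group G] [Finite G] {P X : Subgroup G} (h : X ≤ P) : 0 < mc P X := by
  unfold mc
  haveI : Nonempty {g : G // ∀ x ∈ X, g * x * g⁻¹ ∈ P} := ⟨⟨1, fun x hx => by simpa using h hx⟩⟩
  exact Nat.card_pos

/-- the main logarithmic inequality -/
theorem main_log {p : ℕ} [hp : Fact p.Prime] (n : ℕ) : ∀ (G : Type u) [Group G] [Finite G]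
    (P : Subgroup G), Nat.card G = n → Cfsg.IsPSolvable p G → IsPGroup p P → ¬ p ∣ P.index →
    (p : ℝ) * ∑ᶠ x : P, Real.log (mc P (zpowers (x : G))) ≤
      (Nat.card P : ℝ) * Real.log (Nat.card G) + (Nat.card P : ℝ) * (p - 1) *
        Real.log (mc P P) := by
  classical
  induction n using Nat.strong_induction_on with
  | _ n ih =>
  intro G _ _ P hn hG hP hidx
  haveI := Fintype.ofFinite P
  rcases subsingleton_or_nontrivial G with hsub | hnt
  · have h1 : ∀ X : Subgroup G, mc P X = 1 := by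
      intro X
      unfold mc
      haveI : Unique {g : G // ∀ x ∈ X, g * x * g⁻¹ ∈ P} :=
        ⟨⟨⟨1, fun x _ => by rw [Subsingleton.elim (1 * x * 1⁻¹) 1]; exact P.one_mem⟩⟩,
          fun a => Subsingleton.elim _ _⟩
      exact Nat.card_unique
    have h2 : Nat.card G = 1 := Nat.card_of_subsingleton (1 : G)
    rw [finsum_eq_sum_of_fintype, h2]
    simp [h1]
  have hcG : ∀ N : Subgroup G, Nat.card N * Nat.card (G ⧸ N) = Nat.card G := by
    intro N
    rw [mul_comm, ← Subgroup.card_eq_card_quotient_mul_card_subgroup]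
  have hlogG : ∀ N : Subgroup G, Real.log (Nat.card G) = Real.log (Nat.card N) +
      Real.log (Nat.card (G ⧸ N)) := by
    intro N
    rw [← hcG N, Nat.cast_mul, Real.log_mul]
    · exact_mod_cast Nat.card_pos.ne'
    · exact_mod_cast Nat.card_pos.ne'
  have hlt : ∀ N : Subgroup G, N ≠ ⊥ → Nat.card (G ⧸ N) < n := by
    intro N hN
    have h1 := hcG N
    have h2 : 1 < Nat.card N := (Subgroup.one_lt_card_iff_ne_bot N).2 hN
    have h3 : 0 < Nat.card (G ⧸ N) := Nat.card_pos
    rw [← hn, ← h1]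
    nlinarith
  have hidx' : ∀ (N : Subgroup G) [N.Normal], ¬ p ∣ (P.map (QuotientGroup.mk' N)).index :=
    fun N _ hd => hidx (hd.trans (Subgroup.index_map_dvd _ (QuotientGroup.mk'_surjective N)))
  rcases H23.pCore_ne_bot_or hG with hne | hne
  · set N := Cfsg.pCore p G with hNdef
    haveI : N.Normal := H1.pCore_normal p G
    have hNP : N ≤ P := H1.pCore_le_sylow (hP.toSylow hidx)
    have h1 := ih _ (hlt N hne) (G ⧸ N) (P.map (QuotientGroup.mk' N)) rfl
      (H23.isPSolvable_quotient N hG) (hP.map _) (hidx' N)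
    haveI := Fintype.ofFinite (P.map (QuotientGroup.mk' N))
    rw [finsum_eq_sum_of_fintype] at h1 ⊢
    have hcP : (Nat.card P : ℝ) = Nat.card N * Nat.card (P.map (QuotientGroup.mk' N)) := by
      have := H1.card_map_mk'_mul N P
      rw [inf_eq_right.2 hNP] at this
      exact_mod_cast this.symm
    have hN0 : (Nat.card N : ℝ) ≠ 0 := by exact_mod_cast Nat.card_pos.ne'
    have hlogmc : ∀ X ≤ P, Real.log (mc P X) = Real.log (Nat.card N) +
        Real.log (mc (P.map (QuotientGroup.mk' N)) (X.map (QuotientGroup.mk' N))) := by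
      intro X hX
      rw [mc_quot_p hNP X, Nat.cast_mul, Real.log_mul hN0]
      exact_mod_cast (mc_pos (Subgroup.map_mono hX)).ne'
    -- fibre sum
    have hfib : ∑ x : P, Real.log (mc (P.map (QuotientGroup.mk' N))
        (zpowers (QuotientGroup.mk' N (x : G)))) = (Nat.card N : ℝ) *
        ∑ y : P.map (QuotientGroup.mk' N), Real.log (mc (P.map (QuotientGroup.mk' N))
          (zpowers (y : G ⧸ N))) := by
      let f : P →* P.map (QuotientGroup.mk' N) := (QuotientGroup.mk' N).subgroupMap P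
      have hf : Function.Surjective f := (QuotientGroup.mk' N).subgroupMap_surjective P
      have h2 := H27.sum_comp_surjective f hf
        (fun y : P.map (QuotientGroup.mk' N) => Real.log (mc (P.map (QuotientGroup.mk' N))
          (zpowers (y : G ⧸ N))))
      have h3 : Nat.card f.ker = Nat.card N := by
        have e1 := Subgroup.card_mul_index f.ker
        rw [Subgroup.index_ker, MonoidHom.range_eq_top.2 hf, Subgroup.card_top] at e1
        have e2 := H1.card_map_mk'_mul N P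
        rw [inf_eq_right.2 hNP, ← e1] at e2
        exact (Nat.eq_of_mul_eq_mul_right Nat.card_pos e2).symm
      rw [h3, nsmul_eq_mul] at h2
      exact h2
    have hsum : ∑ x : P, Real.log (mc P (zpowers (x : G))) =
        (Nat.card P : ℝ) * Real.log (Nat.card N) + (Nat.card N : ℝ) *
        ∑ y : P.map (QuotientGroup.mk' N), Real.log (mc (P.map (QuotientGroup.mk' N))
          (zpowers (y : G ⧸ N))) := by
      rw [← hfib, Finset.sum_congr rfl (fun (x : P) (_ : x ∈ Finset.univ) =>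
        hlogmc _ (zpowers_le.2 x.2)), Finset.sum_add_distrib, Finset.sum_const,
        Finset.card_univ, nsmul_eq_mul, ← Nat.card_eq_fintype_card]
      congr 1
      refine Finset.sum_congr rfl fun x _ => ?_
      rw [MonoidHom.map_zpowers]
    have h3 := mul_le_mul_of_nonneg_left h1 (Nat.cast_nonneg (α := ℝ) (Nat.card N))
    rw [hsum, hlogmc P le_rfl, hlogG N, hcP]
    linarith
  · set N := Cfsg.pPrimeCore p G with hNdef
    haveI : N.Normal := H1.pPrimeCore_normal p G
    have hNc : (Nat.card N).Coprime p := H1.pPrimeCore_coprime p G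
    have h1 := ih _ (hlt N hne) (G ⧸ N) (P.map (QuotientGroup.mk' N)) rfl
      (H23.isPSolvable_quotient N hG) (hP.map _) (hidx' N)
    haveI := Fintype.ofFinite (P.map (QuotientGroup.mk' N))
    have h2 := avIneq_all (K := N) (P := P) (by rw [Subgroup.normalizer_eq_top]; exact le_top)
      hP hNc
    have hb := bij_quot (inf_eq_bot_of_coprime' hP hNc)
    have hcard : Nat.card (P.map (QuotientGroup.mk' N)) = Nat.card P :=
      (Nat.card_congr (Equiv.ofBijective _ hb)).symm
    unfold AvIneq at h2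
    rw [finsum_eq_sum_of_fintype] at h1 h2 ⊢
    rw [hcard] at h1
    have hlogmc : ∀ X ≤ P, Real.log (mc P X) = lc N X +
        Real.log (mc (P.map (QuotientGroup.mk' N)) (X.map (QuotientGroup.mk' N))) := by
      intro X hX
      rw [mc_quot_p' hNc hP hX, Nat.cast_mul, Real.log_mul]
      · rfl
      · exact_mod_cast Nat.card_pos.ne'
      · exact_mod_cast (mc_pos (Subgroup.map_mono hX)).ne'
    have hsum : ∑ x : P, Real.log (mc P (zpowers (x : G))) = ∑ x : P, lc N (zpowers (x : G)) +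
        ∑ y : P.map (QuotientGroup.mk' N), Real.log (mc (P.map (QuotientGroup.mk' N))
          (zpowers (y : G ⧸ N))) := by
      rw [← Fintype.sum_bijective _ hb (fun x : P => Real.log (mc (P.map (QuotientGroup.mk' N))
          (zpowers (QuotientGroup.mk' N (x : G))))) _ (fun x => rfl), ← Finset.sum_add_distrib]
      refine Finset.sum_congr rfl fun x _ => ?_
      rw [hlogmc _ (zpowers_le.2 x.2), MonoidHom.map_zpowers]
    rw [hsum, hlogmc P le_rfl, hlogG N]
    linarith

end Cfsg.Agent.H24
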