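import Cfsg.Agent.H24.BurnsidePrime2
import Cfsg.Agent.H1.Sylow
import Cfsg.Agent.H1.SysNorm
import Cfsg.Agent.H23.RankOne2

set_option autoImplicit false

/-!
Coprime actions on abelian groups all of whose orbits have `p`-power size (helper24).
-/

namespace Cfsg.Agent.H24

open MulAction

/-- coprime action with all orbits of `p`-power size. -/
structure PowOrb (p : ℕ) (A V : Type*) [Group A] [CommGroup V] [MulDistribMulAction A V] : Prop where
  cop : (Nat.card A).Coprime (Nat.card V)
  pow : ∀ v : V, ∃ k : ℕ, (stabilizer A v).index = p ^ k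

variable {A V : Type*} [Group A] [CommGroup V] [MulDistribMulAction A V] {p : ℕ}

/-- the fixed points of an element. -/
def fixOf (V : Type*) [CommGroup V] [MulDistribMulAction A V] (c : A) : Subgroup V where
  carrier := {v | c • v = v}
  one_mem' := smul_one c
  mul_mem' := by
    intro a b ha hb
    show c • (a * b) = a * b
    rw [smul_mul', show c • a = a from ha, show c • b = b from hb]
  inv_mem' := by
    intro a ha
    show c • a⁻¹ = a⁻¹
    rw [smul_inv', show c • a = a from ha]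

theorem mem_fixOf {c : A} {v : V} : v ∈ fixOf V c ↔ c • v = v := Iff.rfl

theorem PowOrb.exists_sylow_smul [Finite A] [hp : Fact p.Prime] (h : PowOrb p A V)
    (P : Sylow p A) (a : A) (v : V) : ∃ x ∈ (P : Subgroup A), a • v = x • v := by
  obtain ⟨k, hk⟩ := h.pow v
  have hcop : (P : Subgroup A).index.Coprime (stabilizer A v).index := by
    rw [hk]
    exact Nat.Coprime.pow_right k ((hp.out.coprime_iff_not_dvd.2 P.not_dvd_index).symm)
  obtain ⟨x, hx, y, hy, hxy⟩ := H1.factor_of_coprime_index hcop a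
  exact ⟨x, hx, by rw [hxy, mul_smul, show y • v = v from hy]⟩

theorem PowOrb.inv_of_sylow [Finite A] [hp : Fact p.Prime] (h : PowOrb p A V)
    (P : Sylow p A) (S : Set V) (hS : ∀ x ∈ (P : Subgroup A), ∀ v ∈ S, x • v ∈ S) (a : A) {v : V}
    (hv : v ∈ S) : a • v ∈ S := by
  obtain ⟨x, hx, hxa⟩ := h.exists_sylow_smul P a v
  rw [hxa]; exact hS x hx v hv

/-- normal subgroups inherit the hypothesis. -/
theorem PowOrb.normal [Finite A] [hp : Fact p.Prime] (h : PowOrb p A V) (N : Subgroup A)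
    [N.Normal] : PowOrb p N V := by
  refine ⟨Nat.Coprime.coprime_dvd_left (Subgroup.card_subgroup_dvd_card N) h.cop, fun v => ?_⟩
  obtain ⟨k, hk⟩ := h.pow v
  have h1 : (stabilizer N v).index = (stabilizer A v).relIndex N := by
    rw [Subgroup.relIndex]
    congr 1
  have h2 := H1.relIndex_dvd_index_of_normal_right (stabilizer A v) N
  rw [hk, ← h1] at h2
  obtain ⟨j, -, hj⟩ := (Nat.dvd_prime_pow hp.out).1 h2
  exact ⟨j, hj⟩

theorem PowOrb.eq_bot_of_coprime [Finite A] [hp : Fact p.Prime] [FaithfulSMul A V]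
    (h : PowOrb p A V) (N : Subgroup A) [N.Normal] (hN : ¬ p ∣ Nat.card N) : N = ⊥ := by
  rw [Subgroup.eq_bot_iff_forall]
  intro x hx
  apply FaithfulSMul.eq_of_smul_eq_smul (M := A) (α := V)
  intro v
  obtain ⟨k, hk⟩ := (h.normal N).pow v
  have h1 : (stabilizer N v).index ∣ Nat.card N := Subgroup.index_dvd_card _
  have h2 : k = 0 := by
    by_contra h0
    exact hN ((dvd_pow_self p h0).trans (hk ▸ h1))
  rw [h2, pow_zero, Subgroup.index_eq_one] at hk
  have : (⟨x, hx⟩ : N) ∈ stabilizer N v := by rw [hk]; trivial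
  rw [one_smul]
  exact this

/-- irreducibility. -/
def IrrAct (A V : Type*) [Group A] [CommGroup V] [MulDistribMulAction A V] : Prop :=
  ∀ W : Subgroup V, (∀ a : A, ∀ w ∈ W, a • w ∈ W) → W = ⊥ ∨ W = ⊤

theorem PowOrb.fixOf_eq_bot [Finite A] [hp : Fact p.Prime] [FaithfulSMul A V]
    (h : PowOrb p A V) (hirr : IrrAct A V) (P : Sylow p A) {c : A}
    (hc : ∀ x ∈ (P : Subgroup A), x * c = c * x) (hc1 : c ≠ 1) : fixOf V c = ⊥ := by
  rcases hirr (fixOf V c) (fun a w hw => h.inv_of_sylow P (fixOf V c : Set V)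
    (fun x hx v hv => by
      show c • x • v = x • v
      rw [← mul_smul, ← hc x hx, mul_smul, show c • v = v from hv]) a hw) with h1 | h1
  · exact h1
  · exfalso
    apply hc1
    apply FaithfulSMul.eq_of_smul_eq_smul (M := A) (α := V)
    intro v
    rw [one_smul]
    have : v ∈ fixOf V c := by rw [h1]; trivial
    exact this

section norm

variable [hp : Fact p.Prime]

/-- the norm map of an element of order dividing `p`. -/
def nrm (p : ℕ) [Fact p.Prime] (c : A) (v : V) : V := ∏ j : ZMod p, c ^ j.val • v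

theorem smul_nrm {c : A} (hc : c ^ p = 1) (v : V) : c • nrm p c v = nrm p c v := by
  rw [nrm, Finset.smul_prod']
  rw [← Equiv.prod_comp (Equiv.addRight (1 : ZMod p)) (fun j : ZMod p => c ^ j.val • v)]
  refine Finset.prod_congr rfl fun j _ => ?_
  rw [← mul_smul, Equiv.coe_addRight, ZMod.val_add, ← pow_succ']
  congr 1
  rw [pow_eq_pow_mod _ hc, ZMod.val_one_eq_one_mod, Nat.add_mod_mod]

theorem nrm_of_fixed {c : A} {v : V} (h : c • v = v) : nrm p c v = v ^ p := by
  rw [nrm]
  have : ∀ j : ZMod p, c ^ j.val • v = v := by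
    intro j
    have h1 : c ∈ stabilizer A v := h
    exact (pow_mem h1 j.val : c ^ j.val ∈ stabilizer A v)
  rw [Finset.prod_congr rfl (fun j _ => this j), Finset.prod_const, Finset.card_univ, ZMod.card]

theorem smul_nrm_of_commute {c d : A} (hcd : Commute c d) {v : V} (h : d • v = v) :
    d • nrm p c v = nrm p c v := by
  rw [nrm, Finset.smul_prod']
  refine Finset.prod_congr rfl fun j _ => ?_
  rw [← mul_smul, ← (hcd.pow_left j.val).eq, mul_smul, h]

theorem nrm_mul (c : A) (v w : V) : nrm p c (v * w) = nrm p c v * nrm p c w := by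
  rw [nrm, nrm, nrm, ← Finset.prod_mul_distrib]
  exact Finset.prod_congr rfl fun j _ => smul_mul' _ _ _

/-- the subgroup generated by `z`, parametrised. -/
def zpar {z : A} (hz : z ^ p = 1) (i : ZMod p) : A := zmodHom z hz (Multiplicative.ofAdd i)

theorem zpar_add {z : A} (hz : z ^ p = 1) (i j : ZMod p) :
    zpar hz (i + j) = zpar hz i * zpar hz j := by
  rw [zpar, ofAdd_add, map_mul]; rfl

theorem zpar_one {z : A} (hz : z ^ p = 1) : zpar hz (1 : ZMod p) = z := by
  show z ^ (1 : ZMod p).val = z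
  rw [ZMod.val_one, pow_one]

theorem zpar_zero {z : A} (hz : z ^ p = 1) : zpar hz (0 : ZMod p) = 1 := by
  show z ^ (0 : ZMod p).val = 1
  rw [ZMod.val_zero, pow_zero]

theorem zpar_mul {z : A} (hz : z ^ p = 1) (i j : ZMod p) :
    zpar hz (i * j) = (zpar hz i) ^ j.val := by
  have h : i * j = j.val • i := by
    rw [nsmul_eq_mul, ZMod.natCast_zmod_val, mul_comm]
  rw [zpar, h, ofAdd_nsmul, map_pow]; rfl

theorem zpar_pow {z : A} (hz : z ^ p = 1) (i : ZMod p) (n : ℕ) :
    (zpar hz i) ^ n = zpar hz (n * i) := by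
  have h : (n : ZMod p) * i = n • i := by rw [nsmul_eq_mul]
  rw [zpar, zpar, h, ofAdd_nsmul, map_pow]

theorem zpar_commute {z : A} (hz : z ^ p = 1) {x : A} (hx : Commute x z) (i : ZMod p) :
    Commute x (zpar hz i) := hx.pow_right _

theorem mem_zpar {z : A} (hz : z ^ p = 1) {w : A} (hw : w ∈ Subgroup.zpowers z) :
    ∃ i, w = zpar hz i := by
  obtain ⟨k, hk⟩ := Subgroup.mem_zpowers_iff.1 hw
  refine ⟨(k : ZMod p), ?_⟩
  have h1 : ∃ n : ℕ, z ^ k = z ^ n := by
    refine ⟨(k % p).toNat, ?_⟩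
    have hp0 : (0 : ℤ) < p := by exact_mod_cast hp.out.pos
    have h2 : z ^ k = z ^ (k % p) := by
      conv_lhs => rw [← Int.mul_ediv_add_emod k p, zpow_add, zpow_mul]
      rw [zpow_natCast, hz, one_zpow, one_mul]
    rw [h2, ← zpow_natCast, Int.toNat_of_nonneg (Int.emod_nonneg _ hp0.ne')]
  show w = z ^ (k : ZMod p).val
  rw [← hk, ← zpow_natCast, ZMod.val_intCast]
  conv_lhs => rw [← Int.mul_ediv_add_emod k p, zpow_add, zpow_mul]
  rw [zpow_natCast, hz, one_zpow, one_mul]

/-- the decomposition formula. -/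
theorem prod_nrm {b z : A} (hb : b ^ p = 1) (hz : z ^ p = 1) (hbz : Commute b z)
    (hfix : ∀ v : V, z • v = v → v = 1) (v : V) :
    ∏ i : ZMod p, nrm p (b * zpar hz i) v = v ^ p := by
  have h1 : ∀ i j : ZMod p, (b * zpar hz i) ^ j.val = b ^ j.val * zpar hz (i * j) := by
    intro i j
    rw [(zpar_commute hz hbz i).mul_pow, ← zpar_mul]
  simp only [nrm, h1]
  rw [Finset.prod_comm, ← Finset.mul_prod_erase _ _ (Finset.mem_univ (0 : ZMod p))]
  have h2 : ∏ i : ZMod p, (b ^ (0 : ZMod p).val * zpar hz (i * 0)) • v = v ^ p := by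
    have : ∀ i : ZMod p, (b ^ (0 : ZMod p).val * zpar hz (i * 0)) • v = v := by
      intro i
      rw [ZMod.val_zero, pow_zero, mul_zero, zpar_zero, mul_one, one_smul]
    rw [Finset.prod_congr rfl (fun i _ => this i), Finset.prod_const, Finset.card_univ, ZMod.card]
  rw [h2]
  have h3 : ∏ j ∈ Finset.univ.erase (0 : ZMod p),
      ∏ i : ZMod p, (b ^ j.val * zpar hz (i * j)) • v = 1 := by
    refine Finset.prod_eq_one fun j hj => ?_
    have hj0 : j ≠ 0 := Finset.ne_of_mem_erase hj
    have h4 : ∏ i : ZMod p, (b ^ j.val * zpar hz (i * j)) • v = b ^ j.val • nrm p z v := by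
      rw [nrm, Finset.smul_prod']
      rw [← Equiv.prod_comp (Equiv.mulRight₀ j hj0)
        (fun i : ZMod p => b ^ j.val • z ^ i.val • v)]
      refine Finset.prod_congr rfl fun i _ => ?_
      rw [mul_smul]; rfl
    rw [h4, hfix _ (smul_nrm hz v), smul_one]
  rw [h3, mul_one]

end norm

end Cfsg.Agent.H24
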