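import Cfsg.Agent.H24.PowOrb
import Cfsg.Agent.H3.BurnsidePQ

set_option autoImplicit false

/-!
The imprimitive decomposition (helper24).
-/

namespace Cfsg.Agent.H24

open MulAction
open scoped Pointwise

section generic

variable {G X : Type*} [Group G] [MulAction G X]

theorem index_two_point [Finite G] [Finite X] [h2 : IsMultiplyPretransitive G X 2] {s t : X}
    (hst : s ≠ t) :
    (stabilizer G s ⊓ stabilizer G t).index = (Nat.card X - 1) * Nat.card X := by
  haveI : IsPretransitive G X := isPretransitive_of_is_two_pretransitive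
  have h1 : (stabilizer G s).index = Nat.card X := index_stabilizer_of_transitive G s
  have h3 : (stabilizer G t).relIndex (stabilizer G s) = Nat.card X - 1 := by
    have h4 : (stabilizer G t).relIndex (stabilizer G s) = (stabilizer (stabilizer G s) t).index := by
      rw [Subgroup.relIndex]; congr 1
    rw [h4, index_stabilizer]
    have h5 : orbit (stabilizer G s) t = {s}ᶜ := by
      ext y
      rw [Set.mem_compl_iff, Set.mem_singleton_iff]
      constructor
      · rintro ⟨g, rfl⟩ hy
        apply hst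
        have h6 : (g : G) • t = s := hy
        have h7 : (g : G) • s = s := g.2
        exact smul_left_cancel (g : G) (h7.trans h6.symm)
      · intro hy
        obtain ⟨g, hg1, hg2⟩ := (is_two_pretransitive_iff.1 h2) hst (Ne.symm hy)
        exact ⟨⟨g, hg1⟩, hg2⟩
    rw [h5, Set.ncard_compl, Set.ncard_singleton]
  have h4 : (stabilizer G s ⊓ stabilizer G t).relIndex (stabilizer G s) *
      (stabilizer G s).index = (stabilizer G s ⊓ stabilizer G t).index :=
    Subgroup.relIndex_mul_index inf_le_left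
  rw [← h4, Subgroup.inf_relIndex_left, h3, h1]

/-- a solvable perfect group is trivial. -/
theorem eq_bot_of_perfect_solvable {R : Type*} [Group R] (hp : _root_.commutator R = ⊤)
    (hs : Group.IsSolvable R) (x : R) : x = 1 := by
  obtain ⟨n, hn⟩ := (Group.isSolvable_def R).1 hs
  have h : ∀ n, derivedSeries R n = ⊤ := by
    intro n
    induction n with
    | zero => exact derivedSeries_zero R
    | succ n ih => rw [derivedSeries_succ, ih]; exact hp
  have : x ∈ derivedSeries R n := by rw [h n]; trivial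
  rw [hn] at this
  exact this

theorem commutator_range_eq_top {R : Type*} [Group R] (f : G →* R)
    (hp : _root_.commutator G = ⊤) : _root_.commutator f.range = ⊤ := by
  have h1 : f.rangeRestrict.range = ⊤ := MonoidHom.range_eq_top.2 f.rangeRestrict_surjective
  have h2 := congrArg (Subgroup.map f.rangeRestrict) hp
  rw [_root_.commutator_def, Subgroup.map_commutator, ← MonoidHom.range_eq_map, h1] at h2
  exact h2

/-- a perfect group acting transitively on a set of prime cardinality acts doubly transitively. -/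
theorem two_transitive_of_perfect_prime [Finite X] [IsPretransitive G X]
    (hp : (Nat.card X).Prime) (hperf : _root_.commutator G = ⊤) :
    IsMultiplyPretransitive G X 2 := by
  set R := (MulAction.toPermHom G X).range with hR
  haveI : FaithfulSMul R X := ⟨fun {a b} h => Subtype.ext (Equiv.ext h)⟩
  haveI : IsPretransitive R X := by
    constructor
    intro x y
    obtain ⟨g, hg⟩ := exists_smul_eq G x y
    exact ⟨⟨MulAction.toPermHom G X g, ⟨g, rfl⟩⟩, hg⟩
  rcases burnside_prime_degree (G := R) (X := X) hp with h | h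
  · exfalso
    have h1 := eq_bot_of_perfect_solvable (commutator_range_eq_top (MulAction.toPermHom G X) hperf) h
    have h2 : Nat.card X ≤ 1 := by
      rw [Finite.card_le_one_iff_subsingleton]
      refine ⟨fun x y => ?_⟩
      obtain ⟨g, hg⟩ := exists_smul_eq R x y
      rw [h1 g, one_smul] at hg
      exact hg
    exact absurd hp.one_lt (not_lt.2 h2)
  · rw [is_two_pretransitive_iff] at h ⊢
    intro a b c d hab hcd
    obtain ⟨⟨_, g, rfl⟩, h1, h2⟩ := h hab hcd
    exact ⟨g, h1, h2⟩

/-- a perfect group cannot act transitively on two or three points. -/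
theorem not_transitive_small [Finite X] [IsPretransitive G X]
    (hp : Nat.card X = 2 ∨ Nat.card X = 3) (hperf : _root_.commutator G = ⊤) : False := by
  classical
  haveI := Fintype.ofFinite X
  set R := (MulAction.toPermHom G X).range with hR
  have hcard : Nat.card R ∣ 6 := by
    have h1 : Nat.card R ∣ Nat.card (Equiv.Perm X) := Subgroup.card_subgroup_dvd_card _
    rw [Nat.card_eq_fintype_card (α := Equiv.Perm X), Fintype.card_perm,
      ← Nat.card_eq_fintype_card] at h1
    rcases hp with h | h <;> rw [h] at h1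
    · exact h1.trans (by decide)
    · exact h1
  have hsol : Group.IsSolvable R := by
    refine H3.burnside_paqb 2 3 Nat.prime_two Nat.prime_three _ R rfl fun r hr hrd => ?_
    have h1 : r ∣ 2 * 3 := hrd.trans hcard
    rcases hr.dvd_mul.1 h1 with h | h
    · exact Or.inl ((Nat.prime_dvd_prime_iff_eq hr Nat.prime_two).1 h)
    · exact Or.inr ((Nat.prime_dvd_prime_iff_eq hr Nat.prime_three).1 h)
  have h1 := eq_bot_of_perfect_solvable (commutator_range_eq_top (MulAction.toPermHom G X) hperf) hsol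
  have h2 : Nat.card X ≤ 1 := by
    rw [Finite.card_le_one_iff_subsingleton]
    refine ⟨fun x y => ?_⟩
    obtain ⟨g, hg⟩ := exists_smul_eq G x y
    have := h1 ⟨MulAction.toPermHom G X g, ⟨g, rfl⟩⟩
    have h3 := congrArg Subtype.val this
    have h4 : g • x = x := by
      have := congrArg (fun σ : Equiv.Perm X => σ x) h3
      exact this
    rw [← hg, h4]
  omega

end generic

variable {A V : Type*} [Group A] [CommGroup V] [MulDistribMulAction A V] {p : ℕ}

/-- the data of a noncentral normal subgroup of type `(p, p)` of a Sylow subgroup. -/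
structure Dec (p : ℕ) [Fact p.Prime] (A V : Type*) [Group A] [CommGroup V]
    [MulDistribMulAction A V] (P : Subgroup A) (b z : A) : Prop where
  hb : b ^ p = 1
  hz : z ^ p = 1
  hbz : Commute b z
  hfix : ∀ v : V, z • v = v → v = 1
  hzP : ∀ x ∈ P, Commute x z
  hconj : ∀ x ∈ P, ∃ l : ZMod p, x * b * x⁻¹ = b * zpar hz l
  htor : ∀ v : V, v ^ p = 1 → v = 1

namespace Dec

variable [hp : Fact p.Prime] {P : Subgroup A} {b z : A}

/-- the components. -/
def U (D : Dec p A V P b z) (i : ZMod p) : Subgroup V := fixOf V (b * zpar D.hz i)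

theorem mem_U (D : Dec p A V P b z) {i : ZMod p} {v : V} :
    v ∈ D.U i ↔ (b * zpar D.hz i) • v = v := Iff.rfl

theorem pow_eq (D : Dec p A V P b z) (i : ZMod p) : (b * zpar D.hz i) ^ p = 1 := by
  rw [(zpar_commute D.hz D.hbz i).mul_pow, D.hb, one_mul, zpar_pow]
  simp [zpar_zero]

theorem commute (D : Dec p A V P b z) (i j : ZMod p) :
    Commute (b * zpar D.hz i) (b * zpar D.hz j) := by
  have h1 := zpar_commute D.hz D.hbz i
  have h2 := zpar_commute D.hz D.hbz j
  have h3 : Commute (zpar D.hz i) (zpar D.hz j) :=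
    zpar_commute D.hz (zpar_commute D.hz (Commute.refl z) i).symm j
  exact Commute.mul_left (Commute.mul_right (Commute.refl b) h2) (Commute.mul_right h1.symm h3)

theorem eq_one_of_mem (D : Dec p A V P b z) {i j : ZMod p} (hij : i ≠ j) {v : V}
    (hi : v ∈ D.U i) (hj : v ∈ D.U j) : v = 1 := by
  rw [mem_U, mul_smul] at hi hj
  have h1 : zpar D.hz i • v = zpar D.hz j • v := smul_left_cancel b (hi.trans hj.symm)
  have h2 : zpar D.hz (i - j) • (zpar D.hz j • v) = zpar D.hz j • v := by
    rw [← mul_smul, ← zpar_add, sub_add_cancel, h1]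
  have h3 : z • (zpar D.hz j • v) = zpar D.hz j • v := by
    have h4 : (zpar D.hz (i - j)) ^ ((i - j)⁻¹).val = z := by
      rw [← zpar_mul, mul_inv_cancel₀ (sub_ne_zero.2 hij), zpar_one]
    have h5 : zpar D.hz (i - j) ∈ stabilizer A (zpar D.hz j • v) := h2
    have h6 := pow_mem h5 ((i - j)⁻¹).val
    rw [h4] at h6
    exact h6
  have h4 := D.hfix _ h3
  rwa [smul_eq_iff_eq_inv_smul, smul_one] at h4

theorem nrm_mem (D : Dec p A V P b z) (i : ZMod p) (v : V) :
    nrm p (b * zpar D.hz i) v ∈ D.U i := smul_nrm (D.pow_eq i) v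

theorem nrm_eq_one (D : Dec p A V P b z) {i j : ZMod p} (hij : i ≠ j) {v : V} (hj : v ∈ D.U j) :
    nrm p (b * zpar D.hz i) v = 1 :=
  D.eq_one_of_mem hij (D.nrm_mem i v) (smul_nrm_of_commute (D.commute i j) hj)

theorem exists_le (D : Dec p A V P b z) (W : Subgroup V) (hW : ∀ w ∈ W, ∃ i, w ∈ D.U i) :
    ∃ i, W ≤ D.U i := by
  by_cases h : W = ⊥
  · exact ⟨0, by rw [h]; exact bot_le⟩
  obtain ⟨w, hw, hw1⟩ : ∃ w ∈ W, w ≠ 1 := by
    obtain ⟨w, hw⟩ := W.ne_bot_iff_exists_ne_one.1 h
    exact ⟨w, w.2, fun h => hw (Subtype.ext h)⟩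
  obtain ⟨i, hi⟩ := hW w hw
  refine ⟨i, fun w' hw' => ?_⟩
  obtain ⟨j, hj⟩ := hW w' hw'
  by_cases hij : i = j
  · rw [hij]; exact hj
  obtain ⟨k, hk⟩ := hW _ (W.mul_mem hw hw')
  have h1 : nrm p (b * zpar D.hz i) (w * w') = w ^ p := by
    rw [nrm_mul, nrm_of_fixed hi, D.nrm_eq_one hij hj, mul_one]
  have h2 : i = k := by
    by_contra hik
    rw [D.nrm_eq_one hik hk] at h1
    exact hw1 (D.htor _ h1.symm)
  rw [← h2] at hk
  have := (D.U i).mul_mem ((D.U i).inv_mem hi) hk
  rwa [inv_mul_cancel_left] at this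

theorem smul_mem_U (D : Dec p A V P b z) {x : A} (hx : x ∈ P) {l : ZMod p}
    (hl : x * b * x⁻¹ = b * zpar D.hz l) {i : ZMod p} {v : V} (hv : v ∈ D.U i) :
    x • v ∈ D.U (i + l) := by
  rw [mem_U] at hv ⊢
  have h1 : b * zpar D.hz (i + l) = x * (b * zpar D.hz i) * x⁻¹ := by
    have h2 : x * (b * zpar D.hz i) * x⁻¹ = (x * b * x⁻¹) * (x * zpar D.hz i * x⁻¹) := by group
    rw [h2, hl, (zpar_commute D.hz (D.hzP x hx) i).eq, mul_inv_cancel_right, mul_assoc, ← zpar_add,
      add_comm]
  rw [h1, mul_smul, inv_smul_smul, mul_smul, hv]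

end Dec

/-- The decomposition is impossible for perfect groups. -/
theorem Dec.false [Finite A] [Finite V] [hp : Fact p.Prime] [FaithfulSMul A V] [Nontrivial V]
    (h : PowOrb p A V) (P : Sylow p A) {b z : A} (D : Dec p A V P b z)
    (hnc : ∃ x ∈ (P : Subgroup A), x * b ≠ b * x) (hperf : _root_.commutator A = ⊤) : False := by
  classical
  -- some component is nontrivial
  obtain ⟨i₀, hi₀⟩ : ∃ i, D.U i ≠ ⊥ := by
    by_contra hno
    push Not at hno
    obtain ⟨v, hv⟩ := exists_ne (1 : V)
    have h1 := prod_nrm D.hb D.hz D.hbz D.hfix v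
    have h2 : ∀ i : ZMod p, nrm p (b * zpar D.hz i) v = 1 := by
      intro i
      have := D.nrm_mem i v
      rwa [hno i, Subgroup.mem_bot] at this
    rw [Finset.prod_congr rfl (fun i _ => h2 i), Finset.prod_const_one] at h1
    exact hv (D.htor v h1.symm)
  -- a shift
  obtain ⟨x, hx, hxb⟩ := hnc
  obtain ⟨l, hl⟩ := D.hconj x hx
  have hl0 : l ≠ 0 := by
    rintro rfl
    rw [zpar_zero, mul_one, mul_inv_eq_iff_eq_mul] at hl
    exact hxb hl
  have hshift : ∀ n : ℕ, ∀ i v, v ∈ D.U i → x ^ n • v ∈ D.U (i + n * l) := by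
    intro n
    induction n with
    | zero => intro i v hv; simpa using hv
    | succ n ih =>
      intro i v hv
      have h1 := D.smul_mem_U hx hl (ih i v hv)
      rw [← mul_smul, ← pow_succ'] at h1
      have h2 : i + ((n + 1 : ℕ) : ZMod p) * l = i + (n : ZMod p) * l + l := by push_cast; ring
      rw [h2]; exact h1
  have hshift' : ∀ i j : ZMod p, ∃ y : A, ∀ v ∈ D.U i, y • v ∈ D.U j := by
    intro i j
    refine ⟨x ^ ((j - i) * l⁻¹).val, fun v hv => ?_⟩
    have h1 := hshift ((j - i) * l⁻¹).val i v hv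
    have h2 : i + ((((j - i) * l⁻¹).val : ℕ) : ZMod p) * l = j := by
      rw [ZMod.natCast_zmod_val, mul_assoc, inv_mul_cancel₀ hl0]; ring
    rwa [h2] at h1
  have hne : ∀ i, D.U i ≠ ⊥ := by
    intro j hj
    obtain ⟨y, hy⟩ := hshift' i₀ j
    apply hi₀
    rw [Subgroup.eq_bot_iff_forall]
    intro v hv
    have h1 := hy v hv
    rw [hj, Subgroup.mem_bot, smul_eq_iff_eq_inv_smul, smul_one] at h1
    exact h1
  -- the whole group permutes the components
  have hX : ∀ (a : A) (v : V), (∃ i, v ∈ D.U i) → ∃ j, a • v ∈ D.U j := by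
    intro a v hv
    refine h.inv_of_sylow P {v | ∃ i, v ∈ D.U i} (fun y hy w hw => ?_) a hv
    obtain ⟨i, hi⟩ := hw
    obtain ⟨l', hl'⟩ := D.hconj y hy
    exact ⟨i + l', D.smul_mem_U hy hl' hi⟩
  have hXle : ∀ (a : A) (i : ZMod p), ∃ j, a • D.U i ≤ D.U j := by
    intro a i
    refine D.exists_le _ fun w hw => ?_
    rw [Subgroup.mem_smul_pointwise_iff_exists] at hw
    obtain ⟨v, hv, rfl⟩ := hw
    exact hX a v ⟨i, hv⟩
  have hU : ∀ i j, D.U i ≤ D.U j → i = j := by
    intro i j hij
    by_contra hne'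
    apply hne i
    rw [Subgroup.eq_bot_iff_forall]
    exact fun v hv => D.eq_one_of_mem hne' hv (hij hv)
  have hXeq : ∀ (a : A) (i : ZMod p), ∃ j, a • D.U i = D.U j := by
    intro a i
    obtain ⟨j, hj⟩ := hXle a i
    obtain ⟨k, hk⟩ := hXle a⁻¹ j
    refine ⟨j, le_antisymm hj ?_⟩
    have h1 : D.U i ≤ D.U k := by
      have h2 : D.U i ≤ a⁻¹ • D.U j := by
        rw [Subgroup.subset_pointwise_smul_iff, inv_inv]; exact hj
      exact h2.trans hk
    have h2 := hU i k h1
    rw [← h2] at hk
    rwa [Subgroup.pointwise_smul_subset_iff, inv_inv] at hk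
  let S : SubMulAction A (Subgroup V) :=
    { carrier := Set.range D.U
      smul_mem' := by
        rintro a _ ⟨i, rfl⟩
        obtain ⟨j, hj⟩ := hXeq a i
        exact ⟨j, hj.symm⟩ }
  have hUinj : Function.Injective D.U := fun i j hij => hU i j hij.le
  have hS : Nat.card S = p := by
    have h1 : Nat.card S = Nat.card (Set.range D.U) := rfl
    rw [h1, ← Nat.card_congr (Equiv.ofInjective _ hUinj), Nat.card_zmod]
  let s : ZMod p → S := fun i => ⟨D.U i, ⟨i, rfl⟩⟩
  have hsne : ∀ i j, i ≠ j → s i ≠ s j := by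
    intro i j hij h1
    exact hij (hUinj (congrArg Subtype.val h1))
  haveI : Finite S := by
    have : Finite (Set.range D.U) := inferInstance
    exact this
  haveI htrans : IsPretransitive A S := by
    constructor
    rintro ⟨_, i, rfl⟩ ⟨_, j, rfl⟩
    obtain ⟨y, hy⟩ := hshift' i j
    refine ⟨y, Subtype.ext ?_⟩
    show y • D.U i = D.U j
    obtain ⟨k, hk⟩ := hXeq y i
    have h1 : D.U k ≤ D.U j := by
      rw [← hk]
      intro w hw
      rw [Subgroup.mem_smul_pointwise_iff_exists] at hw
      obtain ⟨v, hv, rfl⟩ := hw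
      exact hy v hv
    rw [hk, hU k j h1]
  haveI h2t : IsMultiplyPretransitive A S 2 :=
    two_transitive_of_perfect_prime (by rw [hS]; exact hp.out) hperf
  -- a vector supported on two components
  have h01 : (0 : ZMod p) ≠ 1 := zero_ne_one
  obtain ⟨u₁, hu₁, hu₁1⟩ : ∃ u ∈ D.U 0, u ≠ 1 := by
    obtain ⟨w, hw⟩ := (D.U 0).ne_bot_iff_exists_ne_one.1 (hne 0)
    exact ⟨w, w.2, fun h => hw (Subtype.ext h)⟩
  obtain ⟨u₂, hu₂, hu₂1⟩ : ∃ u ∈ D.U 1, u ≠ 1 := by
    obtain ⟨w, hw⟩ := (D.U 1).ne_bot_iff_exists_ne_one.1 (hne 1)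
    exact ⟨w, w.2, fun h => hw (Subtype.ext h)⟩
  set L := stabilizer A (u₁ * u₂) with hL
  have hLs : ∀ g ∈ L, (g • s 0 = s 0 ∧ g • s 1 = s 1) ∨ (g • s 0 = s 1 ∧ g • s 1 = s 0) := by
    intro g hg
    obtain ⟨i, hi⟩ := hXeq g 0
    obtain ⟨j, hj⟩ := hXeq g 1
    have hij : i ≠ j := by
      rintro rfl
      have := hi.trans hj.symm
      exact h01 (hUinj (smul_left_cancel g this))
    have hgu₁ : g • u₁ ∈ D.U i := by rw [← hi]; exact Subgroup.smul_mem_pointwise_smul _ _ _ hu₁
    have hgu₂ : g • u₂ ∈ D.U j := by rw [← hj]; exact Subgroup.smul_mem_pointwise_smul _ _ _ hu₂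
    have hg' : (g • u₁) * (g • u₂) = u₁ * u₂ := by
      rw [← smul_mul']; exact hg
    have key : ∀ m : ZMod p, m ≠ i → m ≠ j → nrm p (b * zpar D.hz m) (u₁ * u₂) = 1 := by
      intro m hmi hmj
      rw [← hg', nrm_mul, D.nrm_eq_one hmi hgu₁, D.nrm_eq_one hmj hgu₂, mul_one]
    have h0 : 0 = i ∨ 0 = j := by
      by_contra hno
      rw [not_or] at hno
      have := key 0 hno.1 hno.2
      rw [nrm_mul, nrm_of_fixed hu₁, D.nrm_eq_one h01 hu₂, mul_one] at this
      exact hu₁1 (D.htor _ this)
    have h1 : 1 = i ∨ 1 = j := by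
      by_contra hno
      rw [not_or] at hno
      have := key 1 hno.1 hno.2
      rw [nrm_mul, nrm_of_fixed hu₂, D.nrm_eq_one h01.symm hu₁, one_mul] at this
      exact hu₂1 (D.htor _ this)
    rcases h0 with h0 | h0
    · have h1' : 1 = j := by
        rcases h1 with h1 | h1
        · exact absurd (h0.trans h1.symm) h01
        · exact h1
      left
      exact ⟨Subtype.ext (by rw [← h0] at hi; exact hi), Subtype.ext (by rw [← h1'] at hj; exact hj)⟩
    · have h1' : 1 = i := by
        rcases h1 with h1 | h1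
        · exact h1
        · exact absurd (h0.trans h1.symm) h01
      right
      exact ⟨Subtype.ext (by rw [← h1'] at hi; exact hi), Subtype.ext (by rw [← h0] at hj; exact hj)⟩
  -- indices
  obtain ⟨k, hk⟩ := h.pow (u₁ * u₂)
  have hrel : (stabilizer A (s 0)).relIndex L ∣ 2 := by
    have h4 : (stabilizer A (s 0)).relIndex L = (stabilizer L (s 0)).index := by
      rw [Subgroup.relIndex]; congr 1
    rw [h4, index_stabilizer]
    have h5 : orbit L (s 0) ⊆ {s 0, s 1} := by
      rintro _ ⟨g, rfl⟩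
      rcases hLs g g.2 with h6 | h6
      · left; exact h6.1
      · right; exact h6.1
    have h6 : (orbit L (s 0)).ncard ≤ 2 := by
      refine (Set.ncard_le_ncard h5 (Set.toFinite _)).trans ?_
      exact Set.ncard_insert_le _ _ |>.trans (by rw [Set.ncard_singleton])
    have h7 : 0 < (orbit L (s 0)).ncard := by
      rw [Set.ncard_pos (Set.toFinite _)]
      exact ⟨_, mem_orbit_self _⟩
    interval_cases (orbit L (s 0)).ncard
    · exact one_dvd 2
    · exact dvd_rfl
  have hle : stabilizer A (s 0) ⊓ L ≤ stabilizer A (s 0) ⊓ stabilizer A (s 1) := by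
    intro g hg
    refine ⟨hg.1, ?_⟩
    rcases hLs g hg.2 with h6 | h6
    · exact h6.2
    · exfalso
      have h7 : g • s 0 = s 0 := hg.1
      rw [h6.1] at h7
      exact hsne 0 1 h01 h7.symm
  have h5 := Subgroup.index_dvd_of_le hle
  rw [index_two_point (hsne 0 1 h01), hS] at h5
  have h6 : (stabilizer A (s 0) ⊓ L).relIndex L * L.index = (stabilizer A (s 0) ⊓ L).index :=
    Subgroup.relIndex_mul_index inf_le_right
  rw [Subgroup.inf_relIndex_right, hk] at h6
  rw [← h6] at h5
  have h7 : (p - 1) * p ∣ 2 * p ^ k := h5.trans (Nat.mul_dvd_mul_right hrel _)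
  have h8 : p - 1 ∣ 2 := by
    have h9 : p - 1 ∣ 2 * p ^ k := (dvd_mul_right _ _).trans h7
    refine Nat.Coprime.dvd_of_dvd_mul_right ?_ h9
    apply Nat.Coprime.pow_right
    have := (Nat.coprime_self_sub_right (m := 1) (n := p) hp.out.one_lt.le)
    rw [Nat.coprime_comm]
    exact this.2 (by simp)
  have h9 : p - 1 ≤ 2 := Nat.le_of_dvd (by norm_num) h8
  have h10 := hp.out.two_le
  refine not_transitive_small (G := A) (X := S) ?_ hperf
  rw [hS]; omega

end Cfsg.Agent.H24
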