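import Cfsg.Agent.H24.PowOrb2

set_option autoImplicit false

/-!
The two endgames (helper24).
-/

namespace Cfsg.Agent.H24

open MulAction

variable {A V : Type*} [Group A] [CommGroup V] [MulDistribMulAction A V]

/-- the product over an invariant set is fixed. -/
theorem prod_eq_one_of_invariant [Finite V] (hfix : ∀ w : V, (∀ a : A, a • w = w) → w = 1)
    (S : Finset V) (hS : ∀ (a : A), ∀ x ∈ S, a • x ∈ S) : ∏ x ∈ S, x = 1 := by
  apply hfix
  intro a
  rw [Finset.smul_prod']
  refine Finset.prod_bij (fun x _ => a • x) (fun x hx => hS a x hx)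
    (fun x _ y _ h => smul_left_cancel a h) (fun y hy => ?_) (fun _ _ => rfl)
  exact ⟨a⁻¹ • y, hS a⁻¹ y hy, smul_inv_smul a y⟩

theorem eq_one_of_pow_of_dvd [Finite A] [Finite V] (cop : (Nat.card A).Coprime (Nat.card V))
    {w : V} {n : ℕ} (hn : n ∣ Nat.card A) (hw : w ^ n = 1) : w = 1 := by
  have h1 : orderOf w ∣ n := orderOf_dvd_of_pow_eq_one hw
  have h2 : orderOf w ∣ Nat.card V := orderOf_dvd_natCard w
  have h3 : orderOf w ∣ 1 := by
    have := Nat.dvd_gcd (h1.trans hn) h2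
    rwa [cop.gcd_eq_one] at this
  exact orderOf_eq_one_iff.1 (Nat.dvd_one.1 h3)

/-- no coprime action with all orbits of the same size, doubly transitive on one of them. -/
theorem endgame_odd [Finite A] [Finite V] (cop : (Nat.card A).Coprime (Nat.card V)) (v : V)
    (hfix : ∀ w : V, (∀ a : A, a • w = w) → w = 1) {N : ℕ}
    (hN : ∀ w : V, w ≠ 1 → (stabilizer A w).index = N) (hv : v ≠ 1)
    (h2 : IsMultiplyPretransitive A (orbit A v) 2) (h3 : 3 ≤ N) : False := by
  classical
  haveI := Fintype.ofFinite V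
  have hcard : Nat.card (orbit A v) = N := by
    rw [← hN v hv, index_stabilizer]; rfl
  let Ω : Finset V := (orbit A v).toFinset
  have hΩ : ∀ x, x ∈ Ω ↔ x ∈ orbit A v := fun x => by simp [Ω]
  have hΩcard : Ω.card = N := by
    rw [← hcard, Nat.card_eq_fintype_card, Set.toFinset_card]
  have hΩinv : ∀ (a : A), ∀ x ∈ Ω, a • x ∈ Ω := by
    intro a x hx
    rw [hΩ] at hx ⊢
    obtain ⟨b, rfl⟩ := hx
    exact ⟨a * b, mul_smul _ _ _⟩
  have hΩ1 : (1 : V) ∉ Ω := by
    intro h
    rw [hΩ] at h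
    obtain ⟨b, hb⟩ := h
    apply hv
    have hb' : b • v = 1 := hb
    rwa [smul_eq_iff_eq_inv_smul, smul_one] at hb'
  -- double transitivity on `Ω`
  have htt : ∀ a b c d : V, a ∈ Ω → b ∈ Ω → c ∈ Ω → d ∈ Ω → a ≠ b → c ≠ d →
      ∃ g : A, g • a = c ∧ g • b = d := by
    intro a b c d ha hb hc hd hab hcd
    rw [hΩ] at ha hb hc hd
    obtain ⟨g, hg1, hg2⟩ := (is_two_pretransitive_iff (G := A) (α := orbit A v)).1 h2
      (show (⟨a, ha⟩ : orbit A v) ≠ ⟨b, hb⟩ from fun h => hab (congrArg Subtype.val h))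
      (show (⟨c, hc⟩ : orbit A v) ≠ ⟨d, hd⟩ from fun h => hcd (congrArg Subtype.val h))
    exact ⟨g, congrArg Subtype.val hg1, congrArg Subtype.val hg2⟩
  obtain ⟨α, hα, β, hβ, hαβ⟩ : ∃ α ∈ Ω, ∃ β ∈ Ω, α ≠ β :=
    Finset.one_lt_card.1 (by rw [hΩcard]; omega)
  set w := α * β⁻¹ with hw
  have hw1 : w ≠ 1 := by rw [hw, Ne, mul_inv_eq_one]; exact hαβ
  -- general fact: the sets of translates
  have key : ∀ α β : V, α ∈ Ω → β ∈ Ω → α ≠ β → ∃ γ ∈ Ω,
      (Ω.filter (fun x => (α * β⁻¹)⁻¹ * x ∈ Ω)) = Ω.erase γ ∧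
        stabilizer A (α * β⁻¹) = stabilizer A γ := by
    intro α β hα hβ hαβ
    set w := α * β⁻¹ with hw
    have hw1 : w ≠ 1 := by rw [hw, Ne, mul_inv_eq_one]; exact hαβ
    set X₁ := Ω.filter (fun x => w⁻¹ * x ∈ Ω) with hX₁
    have hβ' : β = w⁻¹ * α := by rw [hw]; group
    have hX₁orb : (X₁ : Set V) = orbit (stabilizer A w) α := by
      ext x
      rw [Finset.mem_coe, hX₁, Finset.mem_filter]
      constructor
      · rintro ⟨hx, hx'⟩
        have hne : x ≠ w⁻¹ * x := by
          intro h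
          apply hw1
          have : w⁻¹ * x = 1 * x := by rw [one_mul]; exact h.symm
          rw [mul_right_cancel_iff] at this
          exact inv_eq_one.1 this
        obtain ⟨g, hg1, hg2⟩ := htt α β x (w⁻¹ * x) hα hβ hx hx' hαβ hne
        refine ⟨⟨g, ?_⟩, hg1⟩
        rw [mem_stabilizer_iff, hw, smul_mul', smul_inv', hg1, hg2, ← hw]
        group
      · rintro ⟨g, rfl⟩
        have hg : (g : A) • w = w := g.2
        refine ⟨hΩinv g α hα, ?_⟩
        have : w⁻¹ * (g • α) = (g : A) • β := by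
          rw [hβ', smul_mul', smul_inv', hg]; rfl
        rw [this]
        exact hΩinv g β hβ
    have hcardX₁ : X₁.card = N - 1 := by
      have h4 : X₁.card = (stabilizer A α).relIndex (stabilizer A w) := by
        rw [← Set.ncard_coe_finset, hX₁orb, ← index_stabilizer, Subgroup.relIndex]
        congr 1
      have h5 : (stabilizer A α ⊓ stabilizer A w).relIndex (stabilizer A w) *
          (stabilizer A w).index = (stabilizer A α ⊓ stabilizer A w).index :=
        Subgroup.relIndex_mul_index inf_le_right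
      rw [Subgroup.inf_relIndex_right, ← h4, hN w hw1] at h5
      have h6 : stabilizer A α ⊓ stabilizer A w = stabilizer A (⟨α, (hΩ α).1 hα⟩ : orbit A v) ⊓
          stabilizer A (⟨β, (hΩ β).1 hβ⟩ : orbit A v) := by
        ext g
        rw [Subgroup.mem_inf, Subgroup.mem_inf, mem_stabilizer_iff, mem_stabilizer_iff,
          mem_stabilizer_iff, mem_stabilizer_iff, Subtype.ext_iff, Subtype.ext_iff]
        show (g • α = α ∧ g • w = w) ↔ (g • α = α ∧ g • β = β)
        constructor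
        · rintro ⟨h7, h8⟩
          exact ⟨h7, by rw [hβ', smul_mul', smul_inv', h7, h8]⟩
        · rintro ⟨h7, h8⟩
          exact ⟨h7, by rw [hw, smul_mul', smul_inv', h7, h8]⟩
      rw [h6, index_two_point (fun h => hαβ (congrArg Subtype.val h)), hcard] at h5
      exact Nat.eq_of_mul_eq_mul_right (by omega) h5
    have hsub : X₁ ⊆ Ω := Finset.filter_subset _ _
    have h7 : (Ω \ X₁).card = 1 := by
      rw [Finset.card_sdiff_of_subset hsub, hΩcard, hcardX₁]; omega
    obtain ⟨γ, hγ⟩ := Finset.card_eq_one.1 h7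
    have hγΩ : γ ∈ Ω := by
      have : γ ∈ Ω \ X₁ := by rw [hγ]; exact Finset.mem_singleton_self _
      exact (Finset.mem_sdiff.1 this).1
    have hγX : γ ∉ X₁ := by
      have : γ ∈ Ω \ X₁ := by rw [hγ]; exact Finset.mem_singleton_self _
      exact (Finset.mem_sdiff.1 this).2
    have hXe : X₁ = Ω.erase γ := by
      ext x
      rw [Finset.mem_erase]
      constructor
      · intro hx
        exact ⟨fun h => hγX (h ▸ hx), hsub hx⟩
      · rintro ⟨hx1, hx2⟩
        by_contra hx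
        have : x ∈ Ω \ X₁ := Finset.mem_sdiff.2 ⟨hx2, hx⟩
        rw [hγ, Finset.mem_singleton] at this
        exact hx1 this
    refine ⟨γ, hγΩ, hXe, ?_⟩
    have hle : stabilizer A w ≤ stabilizer A γ := by
      intro g hg
      by_contra hgγ
      have h8 : g • γ ∈ X₁ := by
        rw [hXe, Finset.mem_erase]
        exact ⟨hgγ, hΩinv g γ hγΩ⟩
      have h9 : γ ∈ (X₁ : Set V) := by
        rw [← Finset.mem_coe, hX₁orb] at h8
        rw [hX₁orb]
        obtain ⟨k, hk⟩ := h8
        refine ⟨(⟨g, hg⟩ : stabilizer A w)⁻¹ * k, ?_⟩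
        show ((⟨g, hg⟩ : stabilizer A w)⁻¹ * k) • α = γ
        rw [mul_smul]
        have hk' : k • α = g • γ := hk
        rw [hk']
        exact inv_smul_smul (⟨g, hg⟩ : stabilizer A w) γ
      exact hγX (Finset.mem_coe.1 h9)
    have hγ1 : γ ≠ 1 := fun h => hΩ1 (h ▸ hγΩ)
    apply le_antisymm hle
    have h8 := Subgroup.relIndex_mul_index hle
    rw [hN w hw1, hN γ hγ1] at h8
    have h9 : (stabilizer A w).relIndex (stabilizer A γ) = 1 :=
      Nat.eq_of_mul_eq_mul_right (by omega : 0 < N) (by rw [h8, one_mul])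
    exact Subgroup.relIndex_eq_one.1 h9
  obtain ⟨γ, hγ, hγX, hγs⟩ := key α β hα hβ hαβ
  obtain ⟨δ, hδ, hδX, hδs⟩ := key β α hβ hα hαβ.symm
  -- stabilizers of `w` and its inverse agree
  have hs : stabilizer A γ = stabilizer A δ := by
    rw [← hγs, ← hδs]
    have : β * α⁻¹ = (α * β⁻¹)⁻¹ := by group
    rw [this]
    ext g
    rw [mem_stabilizer_iff, mem_stabilizer_iff, smul_inv', inv_inj]
  have hγδ : γ = δ := by
    by_contra hne
    obtain ⟨ε, hε, hε1⟩ : ∃ ε ∈ Ω, ε ∉ ({γ, δ} : Finset V) := by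
      by_contra hno
      push Not at hno
      have h4 : Ω ⊆ {γ, δ} := hno
      have h5 := Finset.card_le_card h4
      have h6 := Finset.card_insert_le γ ({δ} : Finset V)
      rw [Finset.card_singleton] at h6
      omega
    rw [Finset.mem_insert, Finset.mem_singleton, not_or] at hε1
    obtain ⟨g, hg1, hg2⟩ := htt γ δ γ ε hγ hδ hγ hε hne (Ne.symm hε1.1)
    have h4 : g ∈ stabilizer A δ := by rw [← hs]; exact hg1
    have h5 : g • δ = δ := h4
    rw [hg2] at h5
    exact hε1.2 h5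
  -- the products
  have hprod : ∏ x ∈ Ω, x = 1 := prod_eq_one_of_invariant hfix Ω hΩinv
  have h4 : ∏ x ∈ Ω.erase γ, x = γ⁻¹ := by
    have := Finset.mul_prod_erase Ω (fun x => x) hγ
    rw [hprod] at this
    exact (inv_eq_of_mul_eq_one_right this).symm
  have h5 : ∏ x ∈ Ω.erase γ, (w⁻¹ * x) = ∏ y ∈ Ω.erase γ, y := by
    refine Finset.prod_bij (fun x _ => w⁻¹ * x) ?_ ?_ ?_ ?_
    · intro x hx
      rw [hγδ, ← hδX, Finset.mem_filter]
      rw [← hγX, Finset.mem_filter] at hx
      refine ⟨hx.2, ?_⟩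
      have : (β * α⁻¹)⁻¹ * (w⁻¹ * x) = x := by rw [hw]; group
      rw [this]; exact hx.1
    · intro a _ b _ hab
      exact mul_left_cancel hab
    · intro y hy
      rw [hγδ, ← hδX, Finset.mem_filter] at hy
      refine ⟨w * y, ?_, by group⟩
      rw [← hγX, Finset.mem_filter]
      have h6 : (β * α⁻¹)⁻¹ * y = w * y := by rw [hw]; group
      rw [h6] at hy
      refine ⟨hy.2, ?_⟩
      have : (α * β⁻¹)⁻¹ * (w * y) = y := by rw [hw]; group
      rw [this]; exact hy.1
    · intro _ _; rfl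
  rw [Finset.prod_mul_distrib, Finset.prod_const, h4, Finset.card_erase_of_mem hγ, hΩcard] at h5
  have h6 : w ^ (N - 1) = 1 := by
    have : (w⁻¹) ^ (N - 1) = 1 := by
      have := mul_right_cancel (h5.trans (one_mul γ⁻¹).symm)
      exact this
    rwa [inv_pow, inv_eq_one] at this
  refine hw1 (eq_one_of_pow_of_dvd cop (n := N - 1) ?_ h6)
  have h7 := index_two_point (G := A) (X := orbit A v) (s := ⟨α, (hΩ α).1 hα⟩)
    (t := ⟨β, (hΩ β).1 hβ⟩) (fun h => hαβ (congrArg Subtype.val h))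
  rw [hcard] at h7
  have h8 := Subgroup.index_dvd_card (stabilizer A (⟨α, (hΩ α).1 hα⟩ : orbit A v) ⊓
    stabilizer A (⟨β, (hΩ β).1 hβ⟩ : orbit A v))
  rw [h7] at h8
  exact (dvd_mul_right _ _).trans h8

end Cfsg.Agent.H24
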