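import Cfsg.Agent.H24.PowOrb3
import Cfsg.Agent.H1.Chief
import Cfsg.Agent.H1.Cores

set_option autoImplicit false

/-!
The case of a cyclic Sylow subgroup (helper24).
-/

namespace Cfsg.Agent.H24

open MulAction

/-- a central `p`-element of a perfect group with abelian Sylow `p`-subgroups is trivial. -/
theorem central_eq_one_of_perfect {A : Type*} [Group A] [Finite A] {p : ℕ} [hp : Fact p.Prime]
    (P : Sylow p A) (hcomm : ∀ x ∈ (P : Subgroup A), ∀ y ∈ (P : Subgroup A), x * y = y * x)
    (hperf : _root_.commutator A = ⊤) {n : A} (hn : n ∈ (P : Subgroup A))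
    (hc : n ∈ Subgroup.center A) : n = 1 := by
  letI : CommGroup (P : Subgroup A) :=
    { (inferInstance : Group (P : Subgroup A)) with
      mul_comm := fun a b => Subtype.ext (hcomm a a.2 b b.2) }
  let τ : A →* (P : Subgroup A) := MonoidHom.transfer (MonoidHom.id (P : Subgroup A))
  have h1 : τ n = 1 := by
    have h2 : _root_.commutator A ≤ τ.ker := Abelianization.commutator_subset_ker τ
    rw [hperf] at h2
    exact h2 (Subgroup.mem_top n)
  have hcen : ∀ (k : ℕ) (g₀ : A), g₀⁻¹ * n ^ k * g₀ = n ^ k := by
    intro k g₀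
    have h2 : n ^ k ∈ Subgroup.center A := pow_mem hc k
    rw [mul_assoc, ← Subgroup.mem_center_iff.1 h2 g₀, inv_mul_cancel_left]
  have h2 := MonoidHom.transfer_eq_pow (MonoidHom.id (P : Subgroup A)) n
    (fun k g₀ _ => hcen k g₀)
  have h3 : n ^ (P : Subgroup A).index = 1 := by
    have h4 : τ n = ⟨n ^ (P : Subgroup A).index, _⟩ := h2
    rw [h1] at h4
    exact (congrArg Subtype.val h4).symm
  obtain ⟨k, hk⟩ := (IsPGroup.iff_orderOf.1 P.isPGroup') ⟨n, hn⟩
  rw [Subgroup.orderOf_mk] at hk
  have h4 : orderOf n ∣ (P : Subgroup A).index := orderOf_dvd_of_pow_eq_one h3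
  have hk0 : k = 0 := by
    by_contra h0
    rw [hk] at h4
    exact P.not_dvd_index ((dvd_pow_self p h0).trans h4)
  rw [hk0, pow_zero, orderOf_eq_one_iff] at hk
  exact hk

variable {A V : Type*} [Group A] [CommGroup V] [MulDistribMulAction A V] {p : ℕ}

theorem fixed_eq_one [FaithfulSMul A V] (hirr : IrrAct A V) (hA : ¬ Group.IsSolvable A) (w : V)
    (hw : ∀ a : A, a • w = w) : w = 1 := by
  let F : Subgroup V :=
    { carrier := {v | ∀ a : A, a • v = v}
      one_mem' := fun a => smul_one a
      mul_mem' := fun {x y} hx hy a => by rw [smul_mul', hx a, hy a]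
      inv_mem' := fun {x} hx a => by rw [smul_inv', hx a] }
  rcases hirr F (fun a v hv b => by rw [hv a]; exact hv b) with h | h
  · have : w ∈ F := hw
    rw [h, Subgroup.mem_bot] at this
    exact this
  · exfalso
    apply hA
    have h1 : ∀ a : A, a = 1 := by
      intro a
      apply FaithfulSMul.eq_of_smul_eq_smul (M := A) (α := V)
      intro v
      have : v ∈ F := by rw [h]; trivial
      rw [this a, one_smul]
    exact Group.isSolvable_of_comm fun a b => by rw [h1 a, h1 b]

theorem dvd_card_of_not_solvable [Finite A] [hp : Fact p.Prime] [FaithfulSMul A V]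
    (h : PowOrb p A V) (hA : ¬ Group.IsSolvable A) : p ∣ Nat.card A := by
  by_contra hd
  have h1 := h.eq_bot_of_coprime (⊤ : Subgroup A)
    (by rwa [Nat.card_congr Subgroup.topEquiv.toEquiv])
  apply hA
  have h2 : ∀ a : A, a = 1 := fun a => by
    have : a ∈ (⊤ : Subgroup A) := Subgroup.mem_top a
    rwa [h1, Subgroup.mem_bot] at this
  exact Group.isSolvable_of_comm fun a b => by rw [h2 a, h2 b]

/-- when the Sylow subgroup is semiregular, the stabilizers have index its order. -/
theorem index_stabilizer_of_semiregular [Finite A] [hp : Fact p.Prime] (h : PowOrb p A V)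
    (P : Sylow p A) {w : V} (hw : ∀ x ∈ (P : Subgroup A), x • w = w → x = 1) :
    (stabilizer A w).index = Nat.card (P : Subgroup A) := by
  obtain ⟨k, hk⟩ := h.pow w
  have h1 : (stabilizer A w).relIndex (P : Subgroup A) = Nat.card (P : Subgroup A) := by
    rw [← Subgroup.inf_relIndex_right]
    have : stabilizer A w ⊓ (P : Subgroup A) = ⊥ := by
      rw [Subgroup.eq_bot_iff_forall]
      intro x hx
      exact hw x hx.2 hx.1
    rw [this, Subgroup.relIndex_bot_left]
  apply le_antisymm
  · have h2 : p ^ k ∣ Nat.card A := by rw [← hk]; exact Subgroup.index_dvd_card _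
    rw [hk]
    refine Nat.le_of_dvd Nat.card_pos ?_
    rw [P.card_eq_multiplicity]
    exact pow_dvd_pow p ((hp.out.pow_dvd_iff_le_factorization Nat.card_pos.ne').1 h2)
  · rw [← h1]
    rw [← Subgroup.relIndex_top_right]
    exact Subgroup.relIndex_le_of_le_right le_top
      (by rw [Subgroup.relIndex_top_right]; exact Subgroup.index_ne_zero_of_finite)

theorem cyclic_case [Finite A] [Finite V] [hp : Fact p.Prime] [FaithfulSMul A V] [Nontrivial V]
    (hp2 : p ≠ 2) (h : PowOrb p A V) (hirr : IrrAct A V) (P : Sylow p A)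
    (hcyc : IsCyclic (P : Subgroup A)) (hperf : _root_.commutator A = ⊤)
    (hA : ¬ Group.IsSolvable A)
    (hsol : ∀ N : Subgroup A, N.Normal → N ≠ ⊤ → Group.IsSolvable N) : False := by
  classical
  have hcomm : ∀ x ∈ (P : Subgroup A), ∀ y ∈ (P : Subgroup A), x * y = y * x := by
    intro x hx y hy
    have := hcyc.commutative.is_comm.comm (⟨x, hx⟩ : (P : Subgroup A)) ⟨y, hy⟩
    exact congrArg Subtype.val this
  have hdvd := dvd_card_of_not_solvable h hA
  have hPcard : p ∣ Nat.card (P : Subgroup A) := P.dvd_card_of_dvd_card hdvd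
  have hPp : p ≤ Nat.card (P : Subgroup A) := Nat.le_of_dvd Nat.card_pos hPcard
  -- semiregularity
  have hsemi : ∀ w : V, w ≠ 1 → ∀ x ∈ (P : Subgroup A), x • w = w → x = 1 := by
    intro w hw x hx hxw
    by_contra hx1
    have h1 := h.fixOf_eq_bot hirr P (c := x) (fun y hy => hcomm y hy x hx) hx1
    have h2 : w ∈ fixOf V x := hxw
    rw [h1, Subgroup.mem_bot] at h2
    exact hw h2
  have hidx : ∀ w : V, w ≠ 1 → (stabilizer A w).index = Nat.card (P : Subgroup A) :=
    fun w hw => index_stabilizer_of_semiregular h P (hsemi w hw)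
  obtain ⟨v, hv⟩ := exists_ne (1 : V)
  have hne : stabilizer A v ≠ ⊤ := by
    intro htop
    have := hidx v hv
    rw [htop, Subgroup.index_top] at this
    have := hp.out.one_lt
    omega
  obtain ⟨M, hM, hHM⟩ := (eq_top_or_exists_le_coatom (stabilizer A v)).resolve_left hne
  -- `M` has `p`-power index
  obtain ⟨k, hk⟩ := h.pow v
  obtain ⟨j, -, hj⟩ := (Nat.dvd_prime_pow hp.out).1 (hk ▸ Subgroup.index_dvd_of_le hHM)
  have hcop : M.index.Coprime (P : Subgroup A).index := by
    rw [hj]
    exact Nat.Coprime.pow_left j (hp.out.coprime_iff_not_dvd.2 P.not_dvd_index)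
  have hfac := H1.factor_of_coprime_index hcop
  -- the core
  have hcore : M.normalCore = ⊥ := by
    by_contra hK
    have hKtop : M.normalCore ≠ ⊤ := fun h1 => hM.1 (top_le_iff.1 (h1 ▸ M.normalCore_le))
    have hKs := hsol M.normalCore inferInstance hKtop
    obtain ⟨N, hN, hN1, hNK, hNmin⟩ := H1.exists_minimal_normal_le
      (N := M.normalCore) inferInstance hK
    have hNs : Group.IsSolvable N := H1.isSolvable_of_le hNK hKs
    obtain ⟨hNc, r, hr, hNr, hNexp⟩ := H1.minimal_normal_solvable hN hN1 hNmin hNs
    by_cases hrp : r = p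
    · subst hrp
      have hNP : N ≤ (P : Subgroup A) := (H1.le_pCore hN hNr).trans (H1.pCore_le_sylow P)
      obtain ⟨n, hn, hn1⟩ : ∃ n ∈ N, n ≠ 1 := by
        obtain ⟨w, hw⟩ := N.ne_bot_iff_exists_ne_one.1 hN1
        exact ⟨w, w.2, fun h => hw (Subtype.ext h)⟩
      -- `N = ⟨n⟩`
      haveI : IsCyclic N := Subgroup.isCyclic_of_le hNP
      have hNcard : Nat.card N ≤ r := by
        obtain ⟨g, hg⟩ := IsCyclic.exists_ofOrder_eq_natCard (α := N)
        rw [← hg]
        exact orderOf_le_of_pow_eq_one hr.pos (Subtype.ext (hNexp g g.2))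
      have hzn : Subgroup.zpowers n = N := by
        apply Subgroup.eq_of_le_of_card_ge
        · rwa [Subgroup.zpowers_le]
        · rw [Nat.card_zpowers, orderOf_eq_prime (hNexp n hn) hn1]
          exact hNcard
      have hconj : ∀ a : A, ∃ i : ℤ, a * n * a⁻¹ = n ^ i := by
        intro a
        have h1 := hN.conj_mem n hn a
        rw [← hzn] at h1
        obtain ⟨i, hi⟩ := Subgroup.mem_zpowers_iff.1 h1
        exact ⟨i, hi.symm⟩
      have hcen : _root_.commutator A ≤ Subgroup.centralizer ({n} : Set A) := by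
        rw [_root_.commutator_def, Subgroup.commutator_le]
        intro a _ b _
        obtain ⟨i, hi⟩ := hconj a
        obtain ⟨j, hj⟩ := hconj b
        have h1 : ∀ (c : A) (m : ℤ), c * n ^ m * c⁻¹ = (c * n * c⁻¹) ^ m := fun c m =>
          (conj_zpow).symm
        have h2 : a * (b * n * b⁻¹) * a⁻¹ = b * (a * n * a⁻¹) * b⁻¹ := by
          rw [hj, hi, h1, h1, hi, hj, ← zpow_mul, ← zpow_mul, mul_comm]
        rw [Subgroup.mem_centralizer_singleton_iff, commutatorElement_def]
        have h3 : (a * b) * n * (a * b)⁻¹ = (b * a) * n * (b * a)⁻¹ := by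
          calc (a * b) * n * (a * b)⁻¹ = a * (b * n * b⁻¹) * a⁻¹ := by group
            _ = b * (a * n * a⁻¹) * b⁻¹ := h2
            _ = _ := by group
        have h4 : a * b * a⁻¹ * b⁻¹ = (a * b) * (b * a)⁻¹ := by group
        have h5 : (b * a)⁻¹ * ((a * b) * n * (a * b)⁻¹) * (b * a) = n := by
          rw [h3]; group
        have h6 : (a * b)⁻¹ * ((b * a) * n * (b * a)⁻¹) * (a * b) = n := by
          rw [← h3]; group
        rw [h4]
        calc a * b * (b * a)⁻¹ * n = (a * b) * ((b * a)⁻¹ * n * (b * a)) * (b * a)⁻¹ := by group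
          _ = (a * b) * ((a * b)⁻¹ * n * (a * b)) * (b * a)⁻¹ := by
            congr 2
            have h7 : (a * b) * ((b * a)⁻¹ * n * (b * a)) * (a * b)⁻¹ = n := by
              have h8 : (b * a) * n * (b * a)⁻¹ = (a * b) * n * (a * b)⁻¹ := h3.symm
              obtain ⟨i', hi'⟩ := hconj (a * b)
              obtain ⟨j', hj'⟩ := hconj (b * a)⁻¹
              rw [inv_inv] at hj'
              rw [hj', h1, hi', ← zpow_mul, mul_comm, zpow_mul, ← hj', ]
              have h9 : ((b * a)⁻¹ * n * (b * a)) ^ i' = (b * a)⁻¹ * n ^ i' * (b * a) := by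
                have := conj_zpow (a := (b * a)⁻¹) (b := n) (i := i')
                rw [inv_inv] at this
                exact this
              rw [h9, ← hi', h3]; group
            calc (b * a)⁻¹ * n * (b * a) = (a * b)⁻¹ * ((a * b) * ((b * a)⁻¹ * n * (b * a)) * (a * b)⁻¹) * (a * b) := by group
              _ = _ := by rw [h7]
          _ = n * (a * b * (b * a)⁻¹) := by group
      rw [hperf] at hcen
      have hnc : n ∈ Subgroup.center A := by
        rw [Subgroup.mem_center_iff]
        intro g
        exact Subgroup.mem_centralizer_singleton_iff.1 (hcen (Subgroup.mem_top g))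
      exact hn1 (central_eq_one_of_perfect P hcomm hperf (hNP hn) hnc)
    · apply hN1
      apply h.eq_bot_of_coprime N
      intro hpd
      haveI : Fact r.Prime := ⟨hr⟩
      obtain ⟨m, hm⟩ := (IsPGroup.iff_card (p := r)).1 hNr
      rw [hm] at hpd
      exact hrp ((Nat.prime_dvd_prime_iff_eq hp.out hr).1 (hp.out.dvd_of_dvd_pow hpd)).symm
  -- `M` is the stabilizer
  have hPM : M ⊓ (P : Subgroup A) = ⊥ := by
    rw [Subgroup.eq_bot_iff_forall]
    intro y hy
    have h1 : y ∈ M.normalCore := by
      intro a
      obtain ⟨m, hm, x, hx, rfl⟩ := hfac a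
      have h2 : m * x * y * (m * x)⁻¹ = m * y * m⁻¹ := by
        have := hcomm x hx y hy.2
        calc m * x * y * (m * x)⁻¹ = m * (x * y) * x⁻¹ * m⁻¹ := by group
          _ = m * (y * x) * x⁻¹ * m⁻¹ := by rw [this]
          _ = _ := by group
      rw [h2]
      exact mul_mem (mul_mem hm hy.1) (inv_mem hm)
    rw [hcore, Subgroup.mem_bot] at h1
    exact h1
  have hMidx : M.index = Nat.card (P : Subgroup A) := by
    have h1 : M.relIndex (P : Subgroup A) = Nat.card (P : Subgroup A) := by
      rw [← Subgroup.inf_relIndex_right, hPM, Subgroup.relIndex_bot_left]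
    apply le_antisymm
    · rw [← hidx v hv]
      exact Nat.le_of_dvd (Nat.pos_of_ne_zero Subgroup.index_ne_zero_of_finite)
        (Subgroup.index_dvd_of_le hHM)
    · rw [← h1, ← Subgroup.relIndex_top_right (H := M)]
      exact Subgroup.relIndex_le_of_le_right le_top
        (by rw [Subgroup.relIndex_top_right]; exact Subgroup.index_ne_zero_of_finite)
  have hMeq : stabilizer A v = M := by
    apply le_antisymm hHM
    have h1 := Subgroup.relIndex_mul_index hHM
    rw [hidx v hv, hMidx] at h1
    have h2 : (stabilizer A v).relIndex M = 1 :=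
      Nat.eq_of_mul_eq_mul_right (Nat.card_pos (α := (P : Subgroup A))) (by rw [h1, one_mul])
    exact Subgroup.relIndex_eq_one.1 h2
  -- the action on the orbit
  let α : orbit A v := ⟨v, mem_orbit_self v⟩
  have hst : stabilizer A α = stabilizer A v := by
    ext g
    rw [mem_stabilizer_iff, mem_stabilizer_iff, Subtype.ext_iff]
    rfl
  have hXcard : Nat.card (orbit A v) = Nat.card (P : Subgroup A) := by
    rw [← hidx v hv, index_stabilizer]; rfl
  haveI : Finite (orbit A v) := inferInstance
  haveI hnt : Nontrivial (orbit A v) := by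
    rw [← Finite.one_lt_card_iff_nontrivial, hXcard]
    have := hp.out.one_lt
    omega
  have hprim : IsPreprimitive A (orbit A v) := by
    rw [← isCoatom_stabilizer_iff_preprimitive A α, hst, hMeq]
    exact hM
  have h2t : IsMultiplyPretransitive A (orbit A v) 2 := by
    by_cases hpr : (Nat.card (P : Subgroup A)).Prime
    · exact two_transitive_of_perfect_prime (by rw [hXcard]; exact hpr) hperf
    · letI : CommGroup (P : Subgroup A) :=
        { (inferInstance : Group (P : Subgroup A)) with
          mul_comm := fun a b => Subtype.ext (hcomm a a.2 b b.2) }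
      refine two_transitive_of_regular_cyclic (Q := (P : Subgroup A))
        (ι := (P : Subgroup A).subtype) (α := α) ?_ hprim ?_ hpr
      · haveI := Fintype.ofFinite (P : Subgroup A)
        haveI := Fintype.ofFinite (orbit A v)
        rw [Fintype.bijective_iff_injective_and_card]
        constructor
        · intro x y hxy
          have h1 : (x : A) • v = (y : A) • v := congrArg Subtype.val hxy
          have h2 := hsemi v hv ((y : A)⁻¹ * x) (mul_mem (inv_mem y.2) x.2) (by
            rw [mul_smul, h1, inv_smul_smul])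
          rw [inv_mul_eq_one] at h2
          exact Subtype.ext h2.symm
        · rw [← Nat.card_eq_fintype_card, ← Nat.card_eq_fintype_card, hXcard]
      · have := hp.out.one_lt
        omega
  refine endgame_odd h.cop v (fun w hw => fixed_eq_one hirr hA w hw) (hidx) hv h2t ?_
  have := hp.out.two_le
  omega

end Cfsg.Agent.H24
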