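import Cfsg.Agent.H24.PowOrb4

set_option autoImplicit false

/-!
The second endgame (helper24).
-/

namespace Cfsg.Agent.H24

open MulAction

variable {A V : Type*} [Group A] [CommGroup V] [MulDistribMulAction A V]

theorem smul_eq_of_sq {X : Type*} [MulAction A X] [Finite A] {H : Subgroup A}
    (hH : Odd (Nat.card H)) {g : A} (hg : g ∈ H) {x : X} (h : g • g • x = x) : g • x = x := by
  have h1 : orderOf g ∣ Nat.card H := by
    rw [← Subgroup.orderOf_mk g hg]; exact orderOf_dvd_natCard _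
  obtain ⟨m, hm⟩ := hH.of_dvd_nat h1
  have h2 : g ^ 2 ∈ stabilizer A x := by rw [pow_two]; exact (mul_smul g g x).trans h
  have h3 : g ^ (2 * m) ∈ stabilizer A x := by rw [pow_mul]; exact pow_mem h2 m
  have h4 : g ^ (2 * m + 1) = 1 := by rw [← hm]; exact pow_orderOf_eq_one g
  rw [pow_succ] at h4
  have h5 : g = (g ^ (2 * m))⁻¹ := (inv_eq_of_mul_eq_one_right h4).symm
  rw [h5]
  exact (inv_mem h3 : (g ^ (2 * m))⁻¹ ∈ stabilizer A x)

theorem eq_one_of_sq_eq [Finite V] (hV : Odd (Nat.card V)) {x y : V} (h : x ^ 2 = y ^ 2) :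
    x = y := by
  have h1 : (x * y⁻¹) ^ 2 = 1 := by rw [mul_pow, inv_pow, h, mul_inv_cancel]
  have h2 : orderOf (x * y⁻¹) ∣ 2 := orderOf_dvd_of_pow_eq_one h1
  have h3 : Odd (orderOf (x * y⁻¹)) := hV.of_dvd_nat (orderOf_dvd_natCard _)
  have h4 : orderOf (x * y⁻¹) = 1 := by
    rcases (Nat.dvd_prime Nat.prime_two).1 h2 with h5 | h5
    · exact h5
    · rw [h5] at h3; exact absurd h3 (by decide)
  rw [orderOf_eq_one_iff, mul_inv_eq_one] at h4
  exact h4

theorem endgame_even [Finite A] [Finite V] (cop : (Nat.card A).Coprime (Nat.card V)) (v : V)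
    (hVodd : Odd (Nat.card V)) {N : ℕ}
    (hN : ∀ w : V, w ≠ 1 → (stabilizer A w).index = N) (hv : v ≠ 1)
    (hodd : ∀ w : V, w ≠ 1 → Odd (Nat.card (stabilizer A w)))
    (hinv : ∃ z : A, ∀ w : V, z • w = w⁻¹) (hN8 : 8 ≤ N) (y : V) (hy : y ∈ orbit A v)
    (hyv : y ≠ v) (hyv' : y ≠ v⁻¹)
    (hΩ : ∀ x ∈ orbit A v, x = v ∨ x = v⁻¹ ∨ x ∈ orbit (stabilizer A v) y ∨
      x⁻¹ ∈ orbit (stabilizer A v) y) : False := by
  classical
  haveI := Fintype.ofFinite V
  obtain ⟨z, hz⟩ := hinv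
  -- no element is its own inverse
  have hself : ∀ x : V, x = x⁻¹ → x = 1 := by
    intro x hx
    apply eq_one_of_sq_eq hVodd
    rw [one_pow, pow_two]
    nth_rewrite 2 [hx]
    exact mul_inv_cancel x
  have hcardΩ : (orbit A v).ncard = N := by rw [← hN v hv, index_stabilizer]
  have hΩinv : ∀ x ∈ orbit A v, x⁻¹ ∈ orbit A v := by
    rintro _ ⟨a, rfl⟩
    refine ⟨z * a, ?_⟩
    show (z * a) • v = (a • v)⁻¹
    rw [mul_smul, hz]
  have hΩ1 : ∀ x ∈ orbit A v, x ≠ 1 := by
    rintro _ ⟨b, rfl⟩ hb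
    apply hv
    have hb' : b • v = 1 := hb
    rwa [smul_eq_iff_eq_inv_smul, smul_one] at hb'
  -- orbits of subgroups of odd order are disjoint from their inverses
  have hdis : ∀ (H : Subgroup A), Odd (Nat.card H) → ∀ y : V, y ≠ 1 →
      ∀ x ∈ orbit H y, x⁻¹ ∉ orbit H y := by
    intro H hH y hy1 x hx hx'
    obtain ⟨a, rfl⟩ := hx
    obtain ⟨b, hb⟩ := hx'
    have hb' : (b : A) • y = ((a : A) • y)⁻¹ := hb
    set g : A := (b : A) * (a : A)⁻¹ with hg
    have hgH : g ∈ H := mul_mem b.2 (inv_mem a.2)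
    have h1 : g • ((a : A) • y) = ((a : A) • y)⁻¹ := by
      rw [hg, mul_smul, inv_smul_smul, hb']
    have h2 := smul_eq_of_sq hH hgH (x := (a : A) • y) (by rw [h1, smul_inv', h1, inv_inv])
    rw [h1] at h2
    have h3 := hself _ h2.symm
    rw [smul_eq_iff_eq_inv_smul, smul_one] at h3
    exact hy1 h3
  set H := stabilizer A v with hH
  set O : Set V := orbit H y with hO
  have hy1 : y ≠ 1 := hΩ1 y hy
  have hOΩ : O ⊆ orbit A v := by
    rintro _ ⟨h, rfl⟩
    obtain ⟨b, rfl⟩ := hy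
    exact ⟨(h : A) * b, mul_smul _ _ _⟩
  -- fixed points of `H`
  have hOne : ∀ x ∈ O, x ≠ v ∧ x ≠ v⁻¹ := by
    rintro _ ⟨h, rfl⟩
    have h1 : (h : A) • v = v := h.2
    constructor
    · intro h2
      apply hyv
      have h3 : (h : A) • y = (h : A) • v := by rw [h1]; exact h2
      exact smul_left_cancel _ h3
    · intro h2
      apply hyv'
      have h3 : (h : A) • y = (h : A) • v⁻¹ := by rw [smul_inv', h1]; exact h2
      exact smul_left_cancel _ h3
  set m := O.ncard with hm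
  have hinvcard : ∀ S : Set V, (S⁻¹).ncard = S.ncard := fun S => by
    rw [← Set.image_inv_eq_inv]; exact Set.ncard_image_of_injective S inv_injective
  have hNm : N = 2 + 2 * m := by
    have h1 : orbit A v = {v, v⁻¹} ∪ (O ∪ O⁻¹) := by
      apply Set.Subset.antisymm
      · intro x hx
        rcases hΩ x hx with h2 | h2 | h2 | h2
        · left; left; exact h2
        · left; right; exact h2
        · right; left; exact h2
        · right; right; exact h2
      · rintro x ((rfl | rfl) | (hx | hx))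
        · exact mem_orbit_self _
        · exact hΩinv _ (mem_orbit_self _)
        · exact hOΩ hx
        · have := hΩinv _ (hOΩ hx)
          rwa [inv_inv] at this
    rw [← hcardΩ, h1, Set.ncard_union_eq, Set.ncard_pair (fun h2 => hv (hself v h2)),
      Set.ncard_union_eq, hinvcard]
    · omega
    · rw [Set.disjoint_left]
      intro x hx hx'
      exact hdis H (hodd v hv) y hy1 x hx hx'
    · rw [Set.disjoint_left]
      rintro x (rfl | rfl) (hx | hx)
      · exact (hOne _ hx).1 rfl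
      · exact (hOne _ hx).2 rfl
      · exact (hOne _ hx).2 rfl
      · have hx' : (v⁻¹)⁻¹ ∈ O := hx
        exact (hOne _ hx').1 (inv_inv v)
  have hm3 : 3 ≤ m := by omega
  -- the product
  set w := v * y with hw
  have hw1 : w ≠ 1 := by
    intro h1
    exact hyv' (eq_inv_of_mul_eq_one_right h1)
  have hyw : y = v⁻¹ * w := by rw [hw, inv_mul_cancel_left]
  set H₀ := stabilizer A w with hH₀
  have hH₀odd := hodd w hw1
  set X₁ : Set V := orbit H₀ v with hX₁
  set X₂ : Set V := orbit H₀ y with hX₂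
  have hX₂e : ∀ x, x ∈ X₂ ↔ w * x⁻¹ ∈ X₁ := by
    intro x
    constructor
    · rintro ⟨g, rfl⟩
      refine ⟨g, ?_⟩
      have h1 : (g : A) • w = w := g.2
      show (g : A) • v = w * ((g : A) • y)⁻¹
      rw [hyw, smul_mul', smul_inv', h1]
      group
    · rintro ⟨g, hg⟩
      refine ⟨g, ?_⟩
      have h1 : (g : A) • w = w := g.2
      have h2 : (g : A) • v = w * x⁻¹ := hg
      show (g : A) • y = x
      rw [hyw, smul_mul', smul_inv', h1, h2]
      group
  have hX₁card : X₁.ncard = m := by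
    have h1 : X₁.ncard = H.relIndex H₀ := by
      rw [hX₁, ← index_stabilizer, Subgroup.relIndex]; congr 1
    have h2 : m = (stabilizer A y).relIndex H := by
      rw [hm, hO, ← index_stabilizer, Subgroup.relIndex]; congr 1
    have h3 := Subgroup.relIndex_mul_index (inf_le_right : H ⊓ H₀ ≤ H₀)
    have h4 := Subgroup.relIndex_mul_index (inf_le_right : stabilizer A y ⊓ H ≤ H)
    rw [Subgroup.inf_relIndex_right, ← h1, hN w hw1] at h3
    rw [Subgroup.inf_relIndex_right, ← h2, hN v hv] at h4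
    have h5 : H ⊓ H₀ = stabilizer A y ⊓ H := by
      ext g
      rw [Subgroup.mem_inf, Subgroup.mem_inf, mem_stabilizer_iff, mem_stabilizer_iff,
        mem_stabilizer_iff]
      constructor
      · rintro ⟨h6, h7⟩
        exact ⟨by rw [hyw, smul_mul', smul_inv', h6, h7], h6⟩
      · rintro ⟨h6, h7⟩
        exact ⟨h7, by rw [hw, smul_mul', h6, h7]⟩
    rw [h5, ← h4] at h3
    exact Nat.eq_of_mul_eq_mul_right (by omega) h3
  have hX₁Ω : X₁ ⊆ orbit A v := by
    rintro _ ⟨h, rfl⟩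
    exact ⟨(h : A), rfl⟩
  have hX₂Ω : X₂ ⊆ orbit A v := by
    rintro _ ⟨h, rfl⟩
    obtain ⟨b, rfl⟩ := hy
    exact ⟨(h : A) * b, mul_smul _ _ _⟩
  have hX₂card : X₂.ncard = m := by
    rw [← hX₁card]
    refine Set.ncard_congr (fun x _ => w * x⁻¹) (fun x hx => (hX₂e x).1 hx) ?_ ?_
    · intro a b _ _ hab
      exact inv_injective (mul_left_cancel hab)
    · intro b hb
      refine ⟨w * b⁻¹, ?_, ?_⟩
      · rw [hX₂e]
        have : w * (w * b⁻¹)⁻¹ = b := by rw [mul_inv_rev, inv_inv]; rw [mul_comm b, mul_inv_cancel_left]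
        rw [this]; exact hb
      · show w * (w * b⁻¹)⁻¹ = b
        rw [mul_inv_rev, inv_inv]; rw [mul_comm b, mul_inv_cancel_left]
  -- the complement of `X₁ ∪ X₁⁻¹`
  have hX₁dis : Disjoint X₁ X₁⁻¹ := by
    rw [Set.disjoint_left]
    intro x hx hx'
    exact hdis H₀ hH₀odd v hv x hx hx'
  have hX₁inv : X₁⁻¹ ⊆ orbit A v := by
    intro x hx
    have := hΩinv _ (hX₁Ω hx)
    rwa [inv_inv] at this
  have hcompl : (orbit A v \ (X₁ ∪ X₁⁻¹)).ncard = 2 := by
    rw [Set.ncard_sdiff (Set.union_subset hX₁Ω hX₁inv), hcardΩ, Set.ncard_union_eq hX₁dis,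
      hinvcard, hX₁card]
    omega
  have hH₀inv : ∀ g ∈ H₀, ∀ x ∈ orbit A v \ (X₁ ∪ X₁⁻¹), g • x ∈ orbit A v \ (X₁ ∪ X₁⁻¹) := by
    intro g hg x hx
    refine ⟨?_, ?_⟩
    · obtain ⟨b, rfl⟩ := hx.1
      exact ⟨g * b, mul_smul _ _ _⟩
    · intro h1
      apply hx.2
      rcases h1 with h1 | h1
      · left
        obtain ⟨k, hk⟩ := h1
        refine ⟨(⟨g, hg⟩ : H₀)⁻¹ * k, ?_⟩
        have hk' : k • v = g • x := hk
        show ((⟨g, hg⟩ : H₀)⁻¹ * k) • v = x
        rw [mul_smul, hk']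
        exact inv_smul_smul (⟨g, hg⟩ : H₀) x
      · right
        obtain ⟨k, hk⟩ := h1
        refine ⟨(⟨g, hg⟩ : H₀)⁻¹ * k, ?_⟩
        have hk' : k • v = (g • x)⁻¹ := hk
        show ((⟨g, hg⟩ : H₀)⁻¹ * k) • v = x⁻¹
        rw [mul_smul, hk', ← smul_inv']
        exact inv_smul_smul (⟨g, hg⟩ : H₀) x⁻¹
  -- `H₀` fixes the remaining two points
  obtain ⟨u, u', huu', hcomp⟩ := Set.ncard_eq_two.1 hcompl
  have hfixall : ∀ x ∈ orbit A v \ (X₁ ∪ X₁⁻¹), ∀ g ∈ H₀, g • x = x := by
    intro x hx g hg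
    apply smul_eq_of_sq hH₀odd hg
    -- three elements in a two element set
    have h1 := hH₀inv g hg x hx
    have h2 := hH₀inv g hg _ h1
    by_contra h3
    have h4 : g • x ≠ x := fun h4 => h3 (by rw [h4, h4])
    have h5 : g • g • x ≠ g • x := fun h5 => h4 (smul_left_cancel g h5)
    rw [hcomp] at hx h1 h2
    rcases hx with hx | hx <;> rcases h1 with h1 | h1 <;> rcases h2 with h2 | h2
    · exact h3 (h2.trans hx.symm)
    · exact h4 (h1.trans hx.symm)
    · exact h3 (h2.trans hx.symm)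
    · exact h5 (h2.trans h1.symm)
    · exact h5 (h2.trans h1.symm)
    · exact h3 (h2.trans hx.symm)
    · exact h4 (h1.trans hx.symm)
    · exact h3 (h2.trans hx.symm)
  -- `X₂` avoids these points
  have hX₂sub : X₂ ⊆ X₁ ∪ X₁⁻¹ := by
    intro x hx
    by_contra h1
    have hfx := hfixall x ⟨hX₂Ω hx, h1⟩
    have h2 : X₂ ⊆ {x} := by
      rintro _ ⟨g, rfl⟩
      obtain ⟨k, hk⟩ := hx
      have h3 : (k : A) • y = x := hk
      have h4 : (g : A) • y = ((g : A) * (k : A)⁻¹) • x := by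
        rw [← h3, mul_smul, inv_smul_smul]
      show (g : A) • y ∈ ({x} : Set V)
      rw [h4, Set.mem_singleton_iff]
      exact hfx _ (mul_mem g.2 (inv_mem k.2))
    have h3 := Set.ncard_le_ncard h2 (Set.toFinite _)
    rw [hX₂card, Set.ncard_singleton] at h3
    omega
  have hyX₂ : y ∈ X₂ := mem_orbit_self _
  rcases hX₂sub hyX₂ with h1 | h1
  · -- `X₂ = X₁`
    have hX : X₂ = X₁ := (orbit_eq_iff (G := H₀)).2 h1
    have hvX : v ∈ X₁ := mem_orbit_self _
    have h2 : w * v⁻¹ ∈ X₁ := by rw [← hX₂e, hX]; exact hvX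
    obtain ⟨g, hg⟩ := h2
    have hg' : (g : A) • v = w * v⁻¹ := hg
    have hgw : (g : A) • w = w := g.2
    have h3 : (g : A) • v = v := by
      apply smul_eq_of_sq hH₀odd g.2
      rw [hg', smul_mul', smul_inv', hgw, hg', mul_inv_rev, inv_inv, mul_comm v,
        mul_inv_cancel_left]
    have h4 : v ^ 2 = w := by
      rw [h3] at hg'
      rw [pow_two]
      nth_rewrite 1 [hg']
      group
    have h5 : X₁ ⊆ {v} := by
      rintro _ ⟨k, rfl⟩
      show (k : A) • v ∈ ({v} : Set V)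
      rw [Set.mem_singleton_iff]
      apply eq_one_of_sq_eq hVodd
      have h6 : (k : A) • w = w := k.2
      have h7 : ((k : A) • v) ^ 2 = (k : A) • (v ^ 2) := (smul_pow' _ _ _).symm
      rw [h7, h4, h6]
    have h6 := Set.ncard_le_ncard h5 (Set.toFinite _)
    rw [hX₁card, Set.ncard_singleton] at h6
    omega
  · -- `X₂ = X₁⁻¹`
    have hX : X₂ = X₁⁻¹ := by
      have h2 : orbit H₀ y⁻¹ = X₁ := (orbit_eq_iff (G := H₀)).2 h1
      ext x
      rw [Set.mem_inv, ← h2]
      constructor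
      · rintro ⟨k, rfl⟩
        exact ⟨k, smul_inv' _ _⟩
      · rintro ⟨k, hk⟩
        refine ⟨k, ?_⟩
        have hk' : k • y⁻¹ = x⁻¹ := hk
        show k • y = x
        rw [smul_inv', inv_inj] at hk'
        exact hk'
    -- the product
    have e : ∀ x : V, w * (w * x⁻¹)⁻¹ = x := fun x => by
      rw [mul_inv_rev, inv_inv, mul_comm x, mul_inv_cancel_left]
    have hP1 : ∏ x ∈ X₂.toFinset, x = ∏ x ∈ X₁.toFinset, (w * x⁻¹) := by
      refine Finset.prod_bij (fun x _ => w * x⁻¹) ?_ ?_ ?_ ?_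
      · intro x hx
        rw [Set.mem_toFinset] at hx ⊢
        exact (hX₂e x).1 hx
      · intro a _ b _ hab
        exact inv_injective (mul_left_cancel hab)
      · intro b hb
        rw [Set.mem_toFinset] at hb
        refine ⟨w * b⁻¹, ?_, e b⟩
        rw [Set.mem_toFinset, hX₂e, e]
        exact hb
      · intro x _
        exact (e x).symm
    have hP2 : ∏ x ∈ X₂.toFinset, x = ∏ x ∈ X₁.toFinset, x⁻¹ := by
      refine Finset.prod_bij (fun x _ => x⁻¹) ?_ ?_ ?_ ?_
      · intro x hx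
        rw [Set.mem_toFinset] at hx ⊢
        rw [hX] at hx; exact hx
      · intro a _ b _ hab
        exact inv_injective hab
      · intro b hb
        rw [Set.mem_toFinset] at hb
        refine ⟨b⁻¹, ?_, inv_inv b⟩
        rw [Set.mem_toFinset, hX, Set.mem_inv, inv_inv]
        exact hb
      · intro x _
        exact (inv_inv x).symm
    rw [hP1, Finset.prod_mul_distrib, Finset.prod_const] at hP2
    have h2 : w ^ X₁.toFinset.card = 1 := mul_eq_right.1 hP2
    rw [← Set.ncard_eq_toFinset_card', hX₁card] at h2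
    refine hw1 (eq_one_of_pow_of_dvd cop (n := m) ?_ h2)
    rw [← hX₁card, hX₁, ← index_stabilizer]
    exact (Subgroup.index_dvd_card _).trans (Subgroup.card_subgroup_dvd_card _)

end Cfsg.Agent.H24
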