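import Cfsg.Agent.H24.PowOrb5
import Cfsg.Agent.H20.ExtTransfer

set_option autoImplicit false

/-!
The case `p = 2` (helper24).
-/

namespace Cfsg.Agent.H24

open MulAction

/-- the subgroup generated by an invariant set is invariant. -/
theorem closure_stab {G X Q : Type*} [Group G] [MulAction G X] [Group Q] [Finite Q] {ι : Q →* G}
    {α : X} (hreg : Function.Bijective (fun x : Q => ι x • α)) (S : Set Q)
    (hS : ∀ h ∈ stabilizer G α, ∀ x x' : Q, h • ι x • α = ι x' • α → x ∈ S → x' ∈ S) :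
    ∀ x ∈ Subgroup.closure S, ∀ h ∈ stabilizer G α,
      ∃ x' ∈ Subgroup.closure S, h • ι x • α = ι x' • α := by
  have hsurj : ∀ β : X, ∃ x : Q, ι x • α = β := hreg.2
  set L' := Subgroup.closure S with hL'
  have step : ∀ s ∈ S, ∀ y ∈ L', (∀ h ∈ stabilizer G α, ∃ x' ∈ L', h • ι y • α = ι x' • α) →
      ∀ h ∈ stabilizer G α, ∃ x' ∈ L', h • ι (s * y) • α = ι x' • α := by
    intro s hs y hy ih h hh
    obtain ⟨s', hs'⟩ := hsurj (h • ι s • α)
    have hs'S : s' ∈ S := hS h hh s s' hs'.symm hs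
    have hh' : (ι s')⁻¹ * h * ι s ∈ stabilizer G α := by
      rw [mem_stabilizer_iff, mul_smul, mul_smul, ← hs', inv_smul_smul]
    obtain ⟨x', hx', hx''⟩ := ih _ hh'
    refine ⟨s' * x', mul_mem (Subgroup.subset_closure hs'S) hx', ?_⟩
    rw [map_mul, mul_smul, map_mul, mul_smul, ← hx'', mul_smul, mul_smul, smul_inv_smul]
  have stepn : ∀ s ∈ S, ∀ n : ℕ, ∀ y ∈ L',
      (∀ h ∈ stabilizer G α, ∃ x' ∈ L', h • ι y • α = ι x' • α) →
      ∀ h ∈ stabilizer G α, ∃ x' ∈ L', h • ι (s ^ n * y) • α = ι x' • α := by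
    intro s hs n
    induction n with
    | zero => intro y hy ih; simpa using ih
    | succ n ihn =>
      intro y hy ih
      have h1 := step s hs (s ^ n * y) (mul_mem (pow_mem (Subgroup.subset_closure hs) n) hy)
        (ihn y hy ih)
      rwa [← mul_assoc, ← pow_succ'] at h1
  intro x hx
  induction hx using Subgroup.closure_induction_left with
  | one =>
    intro h hh
    exact ⟨1, one_mem _, by rw [map_one, one_smul]; exact hh⟩
  | mul_left s hs y hy ih => exact step s hs y hy ih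
  | inv_mul_cancel s hs y hy ih =>
    have h1 := stepn s hs (orderOf s - 1) y hy ih
    have h2 : s ^ (orderOf s - 1) = s⁻¹ := by
      rw [eq_inv_iff_mul_eq_one, ← pow_succ, Nat.sub_add_cancel (orderOf_pos s),
        pow_orderOf_eq_one]
    rwa [h2] at h1

section cyc

variable {A : Type*} [Group A]

theorem sq_eq_one_of_mem_zpowers {u : A} {n : ℕ} (hu : orderOf u = 2 ^ (n + 1)) {t : A}
    (ht : t ∈ Subgroup.zpowers u) (ht2 : t * t = 1) : t = 1 ∨ t = u ^ 2 ^ n := by
  obtain ⟨k, hk⟩ := Subgroup.mem_zpowers_iff.1 ht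
  have h1 : u ^ (2 * k) = 1 := by
    rw [two_mul, zpow_add, hk, ht2]
  have h2 : ((2 ^ (n + 1) : ℕ) : ℤ) ∣ 2 * k := by
    rw [← hu]; exact orderOf_dvd_iff_zpow_eq_one.2 h1
  obtain ⟨m, hm⟩ := h2
  have h3 : k = 2 ^ n * m := by
    push_cast at hm
    rw [pow_succ] at hm
    linarith
  have hz : (u ^ 2 ^ n) ^ (2 : ℤ) = 1 := by
    rw [zpow_ofNat, ← pow_mul, ← pow_succ, ← hu, pow_orderOf_eq_one]
  have h4 : t = (u ^ 2 ^ n) ^ m := by
    rw [← hk, h3, zpow_mul]
    norm_cast
  rcases Int.even_or_odd' m with ⟨j, hj | hj⟩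
  · left
    rw [h4, hj, zpow_mul, hz, one_zpow]
  · right
    rw [h4, hj, zpow_add, zpow_mul, hz, one_zpow, one_mul, zpow_one]

end cyc

variable {A V : Type*} [Group A] [CommGroup V] [MulDistribMulAction A V]

theorem two_case [Finite A] [Finite V] [FaithfulSMul A V] [Nontrivial V]
    (h : PowOrb 2 A V) (hirr : IrrAct A V) (P : Sylow 2 A) {n : ℕ}
    (hD : H23.DQS (P : Subgroup A) n) (hperf : _root_.commutator A = ⊤)
    (hA : ¬ Group.IsSolvable A) : False := by
  classical
  haveI : Fact (Nat.Prime 2) := ⟨Nat.prime_two⟩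
  obtain ⟨hn, u, x, hu, hidx, hx, hcases⟩ := hD
  have hdvd : 2 ∣ Nat.card A := dvd_card_of_not_solvable h hA
  have hnoidx : ∀ N : Subgroup A, N.index = 2 → False := by
    intro N hN
    haveI : N.Normal := Subgroup.normal_of_index_eq_two hN
    have h1 : _root_.commutator A ≤ N := by
      have hc : ∀ a b : A ⧸ N, a * b = b * a := by
        haveI : IsCyclic (A ⧸ N) := isCyclic_of_prime_card (p := 2) (by
          rw [← Subgroup.index_eq_card]; exact hN)
        intro a b
        have := (IsCyclic.commutative (α := A ⧸ N)).is_comm.comm a b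
        exact this
      rw [_root_.commutator_def, Subgroup.commutator_le]
      intro a _ b _
      rw [← QuotientGroup.eq_one_iff, commutatorElement_def]
      show (a : A ⧸ N) * b * (a : A ⧸ N)⁻¹ * (b : A ⧸ N)⁻¹ = 1
      rw [hc (a : A ⧸ N) b]; group
    rw [hperf, top_le_iff] at h1
    rw [h1, Subgroup.index_top] at hN
    omega
  set z : A := (u : A) ^ 2 ^ n with hz
  set C : Subgroup A := Subgroup.zpowers (u : A) with hC
  have hCP : C ≤ (P : Subgroup A) := by rw [hC, Subgroup.zpowers_le]; exact u.2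
  have huo : orderOf (u : A) = 2 ^ (n + 1) := by rw [Subgroup.orderOf_coe]; exact hu
  have hmemC : ∀ y : (P : Subgroup A), y ∈ Subgroup.zpowers u ↔ (y : A) ∈ C := by
    intro y
    rw [Subgroup.mem_zpowers_iff, hC, Subgroup.mem_zpowers_iff]
    constructor
    · rintro ⟨k, hk⟩; exact ⟨k, by rw [← hk]; simp⟩
    · rintro ⟨k, hk⟩; exact ⟨k, Subtype.ext (by simpa using hk)⟩
  have hCsub : C.subgroupOf (P : Subgroup A) = Subgroup.zpowers u := by
    ext y; rw [Subgroup.mem_subgroupOf, hmemC]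
  have hCrel : C.relIndex (P : Subgroup A) = 2 := by
    rw [Subgroup.relIndex, hCsub, hidx]
  have hxC : (x : A) ∉ C := fun h1 => hx ((hmemC x).2 h1)
  have hz2 : z * z = 1 := by
    rw [hz, ← pow_two, ← pow_mul, ← pow_succ, ← huo, pow_orderOf_eq_one]
  have hz1 : z ≠ 1 := by
    intro h1
    have := orderOf_dvd_of_pow_eq_one h1
    rw [huo] at this
    have := (Nat.pow_dvd_pow_iff_le_right (by norm_num : 1 < 2)).1 this
    omega
  have hzC : z ∈ C := Subgroup.pow_mem _ (Subgroup.mem_zpowers _) _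
  have hzinv : z⁻¹ = z := inv_eq_of_mul_eq_one_right hz2
  have hinvol : ∀ t ∈ C, t * t = 1 → t = 1 ∨ t = z := fun t ht ht2 =>
    sq_eq_one_of_mem_zpowers huo ht ht2
  have hCnormal : ∀ y ∈ (P : Subgroup A), ∀ t ∈ C, y * t * y⁻¹ ∈ C := by
    intro y hy t ht
    haveI : (Subgroup.zpowers u).Normal := Subgroup.normal_of_index_eq_two hidx
    have h1 := (inferInstance : (Subgroup.zpowers u).Normal).conj_mem ⟨t, hCP ht⟩
      ((hmemC _).2 ht) ⟨y, hy⟩
    exact (hmemC _).1 h1
  have hzP : ∀ y ∈ (P : Subgroup A), y * z = z * y := by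
    intro y hy
    have h1 := hCnormal y hy z hzC
    rcases hinvol _ h1 (by
      calc y * z * y⁻¹ * (y * z * y⁻¹) = y * (z * z) * y⁻¹ := by group
        _ = 1 := by rw [hz2]; group) with h2 | h2
    · exfalso
      apply hz1
      have : y * z = y := by rwa [mul_inv_eq_one] at h2
      exact mul_eq_left.1 this
    · rwa [mul_inv_eq_iff_eq_mul] at h2
  -- `z` inverts
  have hfixz := h.fixOf_eq_bot hirr P (c := z) hzP hz1
  have hzv : ∀ v : V, z • v = v⁻¹ := by
    intro v
    have h1 : v * (z • v) ∈ fixOf V z := by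
      show z • (v * (z • v)) = v * (z • v)
      rw [smul_mul', ← mul_smul, hz2, one_smul, mul_comm]
    rw [hfixz, Subgroup.mem_bot] at h1
    exact (inv_eq_of_mul_eq_one_right h1).symm
  have hzcen : ∀ a : A, a * z = z * a := by
    intro a
    apply FaithfulSMul.eq_of_smul_eq_smul (M := A) (α := V)
    intro v
    rw [mul_smul, mul_smul, hzv, hzv, smul_inv']
  -- transfer for involutions
  have hnotinv : ∀ y ∈ (P : Subgroup A), y ∉ C → y * y ≠ 1 := by
    intro y hy hyC hy2
    rcases H20.extremal_transfer P C hCP hCrel y 1 (by rw [pow_one, pow_two]; exact hy2)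
      (fun g k hk _ => by
        have h1 : y ^ 2 ^ k = 1 := by
          obtain ⟨j, rfl⟩ : ∃ j, k = j + 1 := ⟨k - 1, by omega⟩
          rw [pow_succ', pow_mul, pow_two, hy2, one_pow]
        rw [h1]; simp) ⊥ IsPGroup.of_bot (by
          intro t ht; rw [Subgroup.mem_bot] at ht; rw [ht]; simp) with ⟨a, ha, -⟩ | ⟨N, hN, -⟩
    · rcases hinvol _ ha (by
        calc a⁻¹ * y * a * (a⁻¹ * y * a) = a⁻¹ * (y * y) * a := by group
          _ = 1 := by rw [hy2]; group) with h1 | h1
      · apply hyC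
        have : y = 1 := by
          have h2 : y = a * (a⁻¹ * y * a) * a⁻¹ := by group
          rw [h2, h1]; group
        rw [this]; exact one_mem _
      · apply hyC
        have : y = z := by
          have h2 : y = a * (a⁻¹ * y * a) * a⁻¹ := by group
          rw [h2, h1, hzcen a]; group
        rw [this]; exact hzC
    · exact hnoidx N hN
  have hxq : (x : A) * u * (x : A)⁻¹ = (u : A)⁻¹ ∧ (x : A) * x = z := by
    rcases hcases with ⟨-, h2⟩ | ⟨h1, h2⟩ | ⟨-, -, h2⟩
    · exact absurd (congrArg Subtype.val h2) (hnotinv x x.2 hxC)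
    · refine ⟨?_, ?_⟩
      · have := congrArg Subtype.val h1; simpa using this
      · have := congrArg Subtype.val h2; simpa [hz] using this
    · exact absurd (congrArg Subtype.val h2) (hnotinv x x.2 hxC)
  -- elements outside `C`
  have hout : ∀ y ∈ (P : Subgroup A), y ∉ C → y * y = z := by
    intro y hy hyC
    have h1 : y * (x : A)⁻¹ ∈ C := by
      have h2 : (⟨y, hy⟩ : (P : Subgroup A)) * x⁻¹ ∈ Subgroup.zpowers u := by
        rw [Subgroup.mul_mem_iff_of_index_two hidx, inv_mem_iff]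
        exact iff_of_false (fun h3 => hyC ((hmemC _).1 h3)) hx
      exact (hmemC _).1 h2
    obtain ⟨k, hk⟩ := Subgroup.mem_zpowers_iff.1 h1
    have h2 : y = (u : A) ^ k * x := by rw [hk]; group
    have h3 : (x : A) * (u : A) ^ k * (x : A)⁻¹ = ((u : A) ^ k)⁻¹ := by
      rw [← conj_zpow, hxq.1, inv_zpow]
    calc y * y = (u : A) ^ k * ((x : A) * (u : A) ^ k * (x : A)⁻¹) * ((x : A) * x) := by
          rw [h2]; group
      _ = z := by rw [h3, hxq.2]; group
  -- semiregularity
  have hsemi : ∀ w : V, w ≠ 1 → ∀ y ∈ (P : Subgroup A), y • w = w → y = 1 := by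
    intro w hw y hy hyw
    by_contra hy1
    have hkey : ∃ k : ℕ, y ^ k = z := by
      by_cases hyC : y ∈ C
      · have ho : orderOf y ∣ 2 ^ (n + 1) := by
          rw [← huo, ← Nat.card_zpowers (u : A), ← Subgroup.orderOf_mk y hyC]
          exact orderOf_dvd_natCard _
        obtain ⟨s, hs, hs'⟩ := (Nat.dvd_prime_pow Nat.prime_two).1 ho
        have hs0 : s ≠ 0 := by
          rintro rfl
          rw [pow_zero, orderOf_eq_one_iff] at hs'
          exact hy1 hs'
        obtain ⟨r, rfl⟩ : ∃ r, s = r + 1 := ⟨s - 1, by omega⟩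
        refine ⟨2 ^ r, ?_⟩
        rcases hinvol (y ^ 2 ^ r) (pow_mem hyC _) (by
          rw [← pow_two, ← pow_mul, ← pow_succ, ← hs', pow_orderOf_eq_one]) with h1 | h1
        · exfalso
          have := orderOf_dvd_of_pow_eq_one h1
          rw [hs'] at this
          have := (Nat.pow_dvd_pow_iff_le_right (by norm_num : 1 < 2)).1 this
          omega
        · exact h1
      · exact ⟨2, by rw [pow_two]; exact hout y hy hyC⟩
    obtain ⟨k, hk⟩ := hkey
    have h1 : y ∈ stabilizer A w := hyw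
    have h2 : z ∈ stabilizer A w := by rw [← hk]; exact pow_mem h1 k
    have h3 : w ∈ fixOf V z := h2
    rw [hfixz, Subgroup.mem_bot] at h3
    exact hw h3
  have hN : ∀ w : V, w ≠ 1 → (stabilizer A w).index = Nat.card (P : Subgroup A) :=
    fun w hw => index_stabilizer_of_semiregular h P (hsemi w hw)
  have hodd : ∀ w : V, w ≠ 1 → Odd (Nat.card (stabilizer A w)) := by
    intro w hw
    have h1 := Subgroup.card_mul_index (stabilizer A w)
    have h2 := Subgroup.card_mul_index (P : Subgroup A)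
    rw [hN w hw] at h1
    have h3 : Nat.card (stabilizer A w) = (P : Subgroup A).index := by
      rw [← h2, mul_comm] at h1
      exact Nat.eq_of_mul_eq_mul_left Nat.card_pos h1
    rw [h3, ← Nat.not_even_iff_odd, even_iff_two_dvd]
    exact P.not_dvd_index
  -- the element of order four
  obtain ⟨n', rfl⟩ : ∃ n', n = n' + 1 := ⟨n - 1, by omega⟩
  set c : A := (u : A) ^ 2 ^ n' with hc
  have hcC : c ∈ C := Subgroup.pow_mem _ (Subgroup.mem_zpowers _) _
  have hcc : c * c = z := by rw [hc, hz, ← pow_two, ← pow_mul, ← pow_succ]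
  have hcinv : c⁻¹ = z * c := by
    apply inv_eq_of_mul_eq_one_right
    rw [← mul_assoc, hzcen c, mul_assoc, hcc, hz2]
  have hsqz : ∀ t ∈ C, t * t = z → t = c ∨ t = c⁻¹ := by
    intro t ht htz
    have hcomm : t * c = c * t := by
      obtain ⟨i, hi⟩ := Subgroup.mem_zpowers_iff.1 ht
      obtain ⟨j, hj⟩ := Subgroup.mem_zpowers_iff.1 hcC
      rw [← hi, ← hj, ← zpow_add, ← zpow_add, add_comm]
    rcases hinvol (t * c) (mul_mem ht hcC) (by
      calc t * c * (t * c) = t * (c * t) * c := by group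
        _ = t * (t * c) * c := by rw [hcomm]
        _ = (t * t) * (c * c) := by group
        _ = 1 := by rw [htz, hcc, hz2]) with h1 | h1
    · right; exact eq_inv_of_mul_eq_one_left h1
    · left
      have h2 : t = z * c⁻¹ := by rw [← h1]; group
      rw [h2, hcinv, ← mul_assoc, hz2, one_mul]
  obtain ⟨v, hv⟩ := exists_ne (1 : V)
  let α : orbit A v := ⟨v, mem_orbit_self v⟩
  have hst : ∀ g, g ∈ stabilizer A α ↔ g ∈ stabilizer A v := by
    intro g
    rw [mem_stabilizer_iff, mem_stabilizer_iff, Subtype.ext_iff]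
    rfl
  have hXcard : Nat.card (orbit A v) = Nat.card (P : Subgroup A) := by
    rw [← hN v hv, index_stabilizer]; rfl
  have hreg : Function.Bijective (fun y : (P : Subgroup A) => (P : Subgroup A).subtype y • α) := by
    haveI := Fintype.ofFinite (P : Subgroup A)
    haveI := Fintype.ofFinite (orbit A v)
    rw [Fintype.bijective_iff_injective_and_card]
    constructor
    · intro y y' hxy
      have h1 : (y : A) • v = (y' : A) • v := congrArg Subtype.val hxy
      have h2 := hsemi v hv ((y' : A)⁻¹ * y) (mul_mem (inv_mem y'.2) y.2) (by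
        rw [mul_smul, h1, inv_smul_smul])
      rw [inv_mul_eq_one] at h2
      exact Subtype.ext h2.symm
    · rw [← Nat.card_eq_fintype_card, ← Nat.card_eq_fintype_card, hXcard]
  -- Claim A
  have claimA : ∀ y ∈ (P : Subgroup A), y ∉ C → ∃ g ∈ stabilizer A v,
      y • v = g • c • v ∨ y • v = g • c⁻¹ • v := by
    intro y hy hyC
    rcases H20.extremal_transfer P C hCP hCrel y 2 (by
      have h1 : y ^ 2 ^ 2 = (y * y) * (y * y) := by
        rw [show (2 : ℕ) ^ 2 = 2 + 2 by norm_num, pow_add, pow_two]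
      rw [h1, hout y hy hyC, hz2])
      (fun g k hk _ => by
        obtain ⟨j, rfl⟩ : ∃ j, k = j + 1 := ⟨k - 1, by omega⟩
        have h1 : y ^ 2 ^ (j + 1) ∈ C := by
          rw [pow_succ', pow_mul, pow_two, hout y hy hyC]
          exact pow_mem hzC _
        have h2 : g⁻¹ * y ^ 2 ^ (j + 1) * g = y ^ 2 ^ (j + 1) := by
          rw [pow_succ', pow_mul, pow_two, hout y hy hyC]
          have h3 : Commute z g := (hzcen g).symm
          rw [mul_assoc, (h3.pow_left _).eq, inv_mul_cancel_left]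
        rw [h2]; exact h1) ⊥ IsPGroup.of_bot (by
          intro t ht; rw [Subgroup.mem_bot] at ht; rw [ht]; simp) with ⟨a, ha, -⟩ | ⟨N, hN', -⟩
    · -- conjugate into `C`
      have hsq : (a⁻¹ * y * a) * (a⁻¹ * y * a) = z := by
        calc a⁻¹ * y * a * (a⁻¹ * y * a) = a⁻¹ * (y * y) * a := by group
          _ = z := by rw [hout y hy hyC, mul_assoc, ← hzcen a, inv_mul_cancel_left]
      obtain ⟨w, hw, hwv⟩ := h.exists_sylow_smul P a⁻¹ v
      have haw : a * w ∈ stabilizer A v := by
        rw [mem_stabilizer_iff, mul_smul, ← hwv, smul_inv_smul]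
      have h1 : w⁻¹ * (a⁻¹ * y * a) * w ∈ C := by
        have := hCnormal w⁻¹ (inv_mem hw) _ ha
        rwa [inv_inv] at this
      have h2 : (w⁻¹ * (a⁻¹ * y * a) * w) * (w⁻¹ * (a⁻¹ * y * a) * w) = z := by
        calc _ = w⁻¹ * ((a⁻¹ * y * a) * (a⁻¹ * y * a)) * w := by group
          _ = z := by rw [hsq, mul_assoc, ← hzcen w, inv_mul_cancel_left]
      have h3 : y • v = (a * w) • (w⁻¹ * (a⁻¹ * y * a) * w) • v := by
        rw [← mul_smul]
        have h4 : a * w * (w⁻¹ * (a⁻¹ * y * a) * w) = y * (a * w) := by group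
        rw [h4, mul_smul, show (a * w) • v = v from haw]
      refine ⟨a * w, haw, ?_⟩
      rcases hsqz _ h1 h2 with h4 | h4
      · left; rw [h3, h4]
      · right; rw [h3, h4]
    · exact absurd hN' (fun h1 => hnoidx N h1)
  -- Claim B
  have claimB : ∀ y ∈ (P : Subgroup A), y ≠ 1 → y ≠ z → ∃ g ∈ stabilizer A v,
      y • v = g • c • v ∨ y • v = g • c⁻¹ • v := by
    intro y₀ hy₀ hy₀1 hy₀z
    by_contra hno
    push Not at hno
    let S : Set (P : Subgroup A) :=
      {y | StabRel (P : Subgroup A).subtype α ⟨y₀, hy₀⟩ y}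
    have hSC : ∀ y ∈ S, (y : A) ∈ C := by
      intro y hy
      by_contra hyC
      obtain ⟨g, hg, hgy⟩ := claimA y y.2 hyC
      obtain ⟨k, hk, hky⟩ := hy
      have hk' : k ∈ stabilizer A v := (hst k).1 hk
      have hky' : k • y₀ • v = (y : A) • v := congrArg Subtype.val hky
      rcases hgy with hgy | hgy
      · apply (hno (k⁻¹ * g) (mul_mem (inv_mem hk') hg)).1
        rw [mul_smul, ← hgy, ← hky', inv_smul_smul]
      · apply (hno (k⁻¹ * g) (mul_mem (inv_mem hk') hg)).2
        rw [mul_smul, ← hgy, ← hky', inv_smul_smul]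
    have hSinv : ∀ g ∈ stabilizer A α, ∀ y y' : (P : Subgroup A),
        g • (P : Subgroup A).subtype y • α = (P : Subgroup A).subtype y' • α → y ∈ S → y' ∈ S :=
      fun g hg y y' hgy hy => StabRel.trans hy ⟨g, hg, hgy⟩
    have hcl := closure_stab hreg S hSinv
    have hclC : ∀ y ∈ Subgroup.closure S, (y : A) ∈ C := by
      intro y hy
      have h1 : Subgroup.closure S ≤ C.subgroupOf (P : Subgroup A) := by
        rw [Subgroup.closure_le]
        intro y hy
        exact hSC y hy
      exact h1 hy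
    have hy₀S : (⟨y₀, hy₀⟩ : (P : Subgroup A)) ∈ S := StabRel.refl _ _ _
    have hy₀C : y₀ ∈ C := hSC _ hy₀S
    -- a power of `y₀` is `c` or its inverse
    obtain ⟨k, hk⟩ : ∃ k : ℕ, y₀ ^ k = c ∨ y₀ ^ k = c⁻¹ := by
      have ho : orderOf y₀ ∣ 2 ^ (n' + 1 + 1) := by
        rw [← huo, ← Nat.card_zpowers (u : A), ← Subgroup.orderOf_mk y₀ hy₀C]
        exact orderOf_dvd_natCard _
      obtain ⟨s, hs, hs'⟩ := (Nat.dvd_prime_pow Nat.prime_two).1 ho
      have hs2 : 2 ≤ s := by
        by_contra hlt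
        have h1 : y₀ * y₀ = 1 := by
          have h2 : orderOf y₀ ∣ 2 := by
            rw [hs']
            exact (pow_dvd_pow 2 (by omega : s ≤ 1)).trans (by rw [pow_one])
          rw [← pow_two]; exact orderOf_dvd_iff_pow_eq_one.1 h2
        rcases hinvol y₀ hy₀C h1 with h2 | h2
        · exact hy₀1 h2
        · exact hy₀z h2
      obtain ⟨r, rfl⟩ : ∃ r, s = r + 2 := ⟨s - 2, by omega⟩
      refine ⟨2 ^ r, ?_⟩
      apply hsqz _ (pow_mem hy₀C _)
      rcases hinvol ((y₀ ^ 2 ^ r) * (y₀ ^ 2 ^ r)) (mul_mem (pow_mem hy₀C _) (pow_mem hy₀C _)) (by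
        have : y₀ ^ 2 ^ r * y₀ ^ 2 ^ r * (y₀ ^ 2 ^ r * y₀ ^ 2 ^ r) = y₀ ^ 2 ^ (r + 2) := by
          rw [← pow_add, ← pow_add]; congr 1; ring
        rw [this, ← hs', pow_orderOf_eq_one]) with h1 | h1
      · exfalso
        have h2 : y₀ ^ 2 ^ (r + 1) = 1 := by
          rw [← h1, ← pow_add]; congr 1; ring
        have := orderOf_dvd_of_pow_eq_one h2
        rw [hs'] at this
        have := (Nat.pow_dvd_pow_iff_le_right (by norm_num : 1 < 2)).1 this
        omega
      · exact h1
    have hccl : (⟨c, hCP hcC⟩ : (P : Subgroup A)) ∈ Subgroup.closure S := by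
      have h1 : (⟨y₀, hy₀⟩ : (P : Subgroup A)) ^ k ∈ Subgroup.closure S :=
        pow_mem (Subgroup.subset_closure hy₀S) k
      rcases hk with hk | hk
      · have h2 : (⟨y₀, hy₀⟩ : (P : Subgroup A)) ^ k = ⟨c, hCP hcC⟩ := Subtype.ext (by simpa using hk)
        rwa [h2] at h1
      · have h2 : ((⟨y₀, hy₀⟩ : (P : Subgroup A)) ^ k)⁻¹ = ⟨c, hCP hcC⟩ :=
          Subtype.ext (by simp [hk])
        rw [← h2]; exact inv_mem h1
    obtain ⟨g, hg, hgx⟩ := claimA x x.2 hxC
    have hfin : ∀ t : (P : Subgroup A), t ∈ Subgroup.closure S → (x : A) • v ≠ g • (t : A) • v := by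
      intro t ht hxt
      obtain ⟨x', hx', hx''⟩ := hcl t ht g ((hst g).2 hg)
      have h1 : g • (t : A) • v = (x' : A) • v := congrArg Subtype.val hx''
      have h2 : x = x' := hreg.1 (Subtype.ext (hxt.trans h1))
      exact hxC (by rw [h2]; exact hclC x' hx')
    rcases hgx with hgx | hgx
    · exact hfin _ hccl hgx
    · exact hfin _ (inv_mem hccl) (by simpa using hgx)
  -- conclusion
  have hVodd : Odd (Nat.card V) := by
    rw [← Nat.not_even_iff_odd, even_iff_two_dvd]
    intro h2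
    have := Nat.dvd_gcd hdvd h2
    rw [h.cop.gcd_eq_one] at this
    exact absurd (Nat.dvd_one.1 this) (by norm_num)
  have hPcard : 8 ≤ Nat.card (P : Subgroup A) := by
    have h1 := Subgroup.card_mul_index (Subgroup.zpowers u)
    rw [hidx, Nat.card_zpowers, hu] at h1
    rw [← h1]
    have : 2 ^ 2 ≤ 2 ^ (n' + 1 + 1) := Nat.pow_le_pow_right (by norm_num) (by omega)
    omega
  refine endgame_even h.cop v hVodd hN hv hodd ⟨z, hzv⟩ hPcard (c • v) ⟨c, rfl⟩ ?_ ?_ ?_
  · intro h1
    have := hsemi v hv c (hCP hcC) h1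
    rw [this, mul_one] at hcc
    exact hz1 hcc.symm
  · intro h1
    rw [← hzv v] at h1
    have h2 := hsemi v hv (z⁻¹ * c) (mul_mem (inv_mem (hCP hzC)) (hCP hcC)) (by
      rw [mul_smul, h1, inv_smul_smul])
    rw [inv_mul_eq_one] at h2
    rw [← h2, hz2] at hcc
    exact hz1 hcc.symm
  · rintro _ ⟨a, rfl⟩
    obtain ⟨y, hy, hya⟩ := h.exists_sylow_smul P a v
    show a • v = v ∨ a • v = v⁻¹ ∨ a • v ∈ orbit (stabilizer A v) (c • v) ∨
      (a • v)⁻¹ ∈ orbit (stabilizer A v) (c • v)
    rw [hya]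
    by_cases hy1 : y = 1
    · left; rw [hy1, one_smul]
    by_cases hyz : y = z
    · right; left; rw [hyz, hzv]
    obtain ⟨g, hg, hgy | hgy⟩ := claimB y hy hy1 hyz
    · right; right; left
      exact ⟨⟨g, hg⟩, hgy.symm⟩
    · right; right; right
      refine ⟨⟨g, hg⟩, ?_⟩
      show g • c • v = (y • v)⁻¹
      rw [hgy, hcinv, mul_smul, hzv, smul_inv', inv_inv]

end Cfsg.Agent.H24
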