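import Cfsg.Agent.H24.PowOrb6
import Cfsg.Agent.H20.TwoComp
import Cfsg.Agent.H10.Basic

set_option autoImplicit false

/-!
Coprime action with all orbits of `p`-power size: solvability (helper24).
-/

namespace Cfsg.Agent.H24

open MulAction
open scoped commutatorElement

universe u v

section irr

variable {A V : Type*} [Group A] [CommGroup V] [MulDistribMulAction A V] {p : ℕ}

theorem irreducible_case [Finite A] [Finite V] [hp : Fact p.Prime] [FaithfulSMul A V]
    [Nontrivial V] (h : PowOrb p A V) (hirr : IrrAct A V) (hperf : _root_.commutator A = ⊤)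
    (hA : ¬ Group.IsSolvable A)
    (hsol : ∀ N : Subgroup A, N.Normal → N ≠ ⊤ → Group.IsSolvable N) : False := by
  classical
  obtain ⟨P⟩ : Nonempty (Sylow p A) := inferInstance
  have hdvd := dvd_card_of_not_solvable h hA
  have hPp : IsPGroup p (P : Subgroup A) := P.isPGroup'
  have htor : ∀ v : V, v ^ p = 1 → v = 1 := fun v hv => eq_one_of_pow_of_dvd h.cop hdvd hv
  by_cases hE : ∃ E : Subgroup (P : Subgroup A), E.Normal ∧ Nat.card E = p ^ 2 ∧ ∀ a ∈ E, a ^ p = 1
  · obtain ⟨E, hEn, hEc, hEp⟩ := hE
    obtain ⟨Z, hZE, hZn, hZc⟩ := H23.exists_normal_card hPp E 1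
      (by rw [hEc]; exact Nat.pow_le_pow_right hp.out.pos (by norm_num))
    rw [pow_one] at hZc
    have hZ : Z ≤ Subgroup.center _ := H23.le_center_of_card_le hPp hZc.le
    have hlt : Z < E := by
      refine lt_of_le_of_ne hZE ?_
      rintro rfl
      rw [hEc] at hZc
      have := hp.out.one_lt
      nlinarith
    obtain ⟨b, hbE, hbZ, -, hb⟩ := H23.exists_central_mod hPp hlt
    obtain ⟨z, hzZ, hz1⟩ : ∃ z ∈ Z, z ≠ 1 := by
      have hne : Z ≠ ⊥ := by
        rintro rfl
        rw [Subgroup.card_bot] at hZc
        exact hp.out.one_lt.ne hZc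
      obtain ⟨w, hw⟩ := Z.ne_bot_iff_exists_ne_one.1 hne
      exact ⟨w, w.2, fun h => hw (Subtype.ext h)⟩
    have hzp : z ^ p = 1 := hEp z (hZE hzZ)
    have hZz : Subgroup.zpowers z = Z := by
      apply Subgroup.eq_of_le_of_card_ge
      · rwa [Subgroup.zpowers_le]
      · rw [Nat.card_zpowers, orderOf_eq_prime hzp hz1, hZc]
    have hzc : ∀ x : (P : Subgroup A), x * z = z * x := fun x => Subgroup.mem_center_iff.1 (hZ hzZ) x
    have hzp' : (z : A) ^ p = 1 := by
      have := congrArg Subtype.val hzp; simpa using this
    have hbp' : (b : A) ^ p = 1 := by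
      have := congrArg Subtype.val (hEp b hbE); simpa using this
    have hz1' : (z : A) ≠ 1 := fun h1 => hz1 (Subtype.ext h1)
    have hzP : ∀ x ∈ (P : Subgroup A), x * (z : A) = z * x := fun x hx =>
      congrArg Subtype.val (hzc ⟨x, hx⟩)
    have hfixz := h.fixOf_eq_bot hirr P (c := (z : A)) hzP hz1'
    have hfix : ∀ v : V, (z : A) • v = v → v = 1 := by
      intro v hv
      have h1 : v ∈ fixOf V (z : A) := hv
      rwa [hfixz, Subgroup.mem_bot] at h1
    have hconj : ∀ x ∈ (P : Subgroup A), ∃ l : ZMod p,
        x * (b : A) * x⁻¹ = b * zpar hzp' l := by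
      intro x hx
      have h1 := hb ⟨x, hx⟩
      have h2 : (b⁻¹ * (⟨x, hx⟩ * b * (⟨x, hx⟩ : (P : Subgroup A))⁻¹)) ∈ Z := by
        have h3 := hZn.conj_mem _ h1 b⁻¹
        have h4 : b⁻¹ * ⁅(⟨x, hx⟩ : (P : Subgroup A)), b⁆ * b⁻¹⁻¹ =
            b⁻¹ * (⟨x, hx⟩ * b * (⟨x, hx⟩ : (P : Subgroup A))⁻¹) := by
          rw [commutatorElement_def]; group
        rwa [h4] at h3
      rw [← hZz] at h2
      have h5 : (b : A)⁻¹ * (x * b * x⁻¹) ∈ Subgroup.zpowers (z : A) := by
        obtain ⟨k, hk⟩ := Subgroup.mem_zpowers_iff.1 h2
        refine Subgroup.mem_zpowers_iff.2 ⟨k, ?_⟩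
        have := congrArg Subtype.val hk
        simpa using this
      obtain ⟨l, hl⟩ := mem_zpar hzp' h5
      exact ⟨l, by rw [← hl]; group⟩
    have D : Dec p A V (P : Subgroup A) (b : A) (z : A) :=
      { hb := hbp'
        hz := hzp'
        hbz := hzP b b.2
        hfix := hfix
        hzP := hzP
        hconj := hconj
        htor := htor }
    by_cases hnc : ∃ x ∈ (P : Subgroup A), x * (b : A) ≠ b * x
    · exact D.false h P hnc hperf
    · push Not at hnc
      obtain ⟨v, hv⟩ := exists_ne (1 : V)
      have h1 := prod_nrm D.hb D.hz D.hbz D.hfix v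
      have h2 : ∀ i : ZMod p, nrm p ((b : A) * zpar D.hz i) v = 1 := by
        intro i
        have h3 := D.nrm_mem i v
        have h4 : D.U i = ⊥ := by
          apply h.fixOf_eq_bot hirr P
          · intro x hx
            have h5 := zpar_commute D.hz (hzP x hx) i
            rw [← mul_assoc, hnc x hx, mul_assoc, h5.eq, mul_assoc]
          · intro h5
            apply hbZ
            rw [← hZz]
            have h6 : (b : A) = (zpar D.hz i)⁻¹ := eq_inv_of_mul_eq_one_left h5
            have h7 : (b : A) ∈ Subgroup.zpowers (z : A) := by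
              rw [h6]
              exact inv_mem (Subgroup.pow_mem _ (Subgroup.mem_zpowers _) _)
            obtain ⟨k, hk⟩ := Subgroup.mem_zpowers_iff.1 h7
            exact Subgroup.mem_zpowers_iff.2 ⟨k, Subtype.ext (by simpa using hk)⟩
        rwa [h4, Subgroup.mem_bot] at h3
      rw [Finset.prod_congr rfl (fun i _ => h2 i), Finset.prod_const_one] at h1
      exact hv (htor v h1.symm)
  · push Not at hE
    rcases H23.cyclic_or_dqs hPp (fun E h1 h2 h3 => by
      obtain ⟨a, ha, ha'⟩ := hE E h1 h2
      exact ha' (h3 a ha)) with hcyc | ⟨hp2, n, hD⟩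
    · by_cases hp2 : p = 2
      · subst hp2
        obtain ⟨K, hKn, hKp, k, hk⟩ := H2.hasNormalPComplement_iff.mp
          (H20.hasNormalPComplement_of_cyclic P hcyc)
        have hK : K = ⊥ := h.eq_bot_of_coprime K hKp
        rw [hK, Subgroup.index_bot] at hk
        apply hA
        have hpg : IsPGroup 2 A := IsPGroup.of_card hk
        haveI := hpg.isNilpotent
        infer_instance
      · exact cyclic_case hp2 h hirr P hcyc hperf hA hsol
    · subst hp2
      exact two_case h hirr P hD hperf hA

end irr

section sections

variable {A : Type*} [Group A]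

/-- action on an invariant subgroup. -/
def subAct {V : Type*} [CommGroup V] [MulDistribMulAction A V] (W : Subgroup V)
    (hW : ∀ a : A, ∀ w ∈ W, a • w ∈ W) : MulDistribMulAction A W where
  smul a w := ⟨a • (w : V), hW a w w.2⟩
  one_smul w := Subtype.ext (one_smul A (w : V))
  mul_smul a b w := Subtype.ext (mul_smul a b (w : V))
  smul_mul a x y := Subtype.ext (smul_mul' a (x : V) (y : V))
  smul_one a := Subtype.ext (smul_one a)

/-- action on the quotient by an invariant subgroup. -/
def quotAct {V : Type*} [CommGroup V] [MulDistribMulAction A V] (W : Subgroup V)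
    (hW : ∀ a : A, ∀ w ∈ W, a • w ∈ W) : MulDistribMulAction A (V ⧸ W) where
  smul a := QuotientGroup.map W W (MulDistribMulAction.toMonoidHom V a) (fun w hw => hW a w hw)
  one_smul q := by
    induction q using QuotientGroup.induction_on with
    | H v => exact congrArg (QuotientGroup.mk (s := W)) (one_smul A v)
  mul_smul a b q := by
    induction q using QuotientGroup.induction_on with
    | H v => exact congrArg (QuotientGroup.mk (s := W)) (mul_smul a b v)
  smul_mul a x y := map_mul _ x y
  smul_one a := map_one _

theorem powOrb_range {p : ℕ} {W : Type*} [CommGroup W] [Finite A] [MulDistribMulAction A W]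
    (hcop : (Nat.card A).Coprime (Nat.card W))
    (hpow : ∀ w : W, ∃ k : ℕ, (stabilizer A w).index = p ^ k) :
    PowOrb p (MulDistribMulAction.toMulAut A W).range W := by
  set f := MulDistribMulAction.toMulAut A W with hf
  refine ⟨?_, fun w => ?_⟩
  · refine Nat.Coprime.coprime_dvd_left ?_ hcop
    exact Subgroup.card_range_dvd f
  · obtain ⟨k, hk⟩ := hpow w
    refine ⟨k, ?_⟩
    rw [← hk, ← Subgroup.index_comap_of_surjective (stabilizer f.range w) f.rangeRestrict_surjective]
    congr 1

end sections

instance faithful_range (A : Type*) [Group A] (W : Type*) [CommGroup W]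
    [MulDistribMulAction A W] : FaithfulSMul (MulDistribMulAction.toMulAut A W).range W :=
  ⟨fun {a b} h => Subtype.ext (MulEquiv.ext h)⟩

theorem solvable_of_commutator {A : Type*} [Group A] (h : Group.IsSolvable (_root_.commutator A)) :
    Group.IsSolvable A := by
  refine Group.isSolvable_of_ker_le_range (_root_.commutator A).subtype
    (Abelianization.of (G := A)) ?_
  rw [Abelianization.ker_of, Subgroup.range_subtype]

theorem solvable_of_powOrb_aux {p : ℕ} [hp : Fact p.Prime] (n : ℕ) :
    ∀ (A V : Type u) [Group A] [Finite A] [CommGroup V] [Finite V]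
      [MulDistribMulAction A V] [FaithfulSMul A V],
      Nat.card A + Nat.card V = n → PowOrb p A V → Group.IsSolvable A := by
  induction n using Nat.strong_induction_on with
  | _ n ih =>
    intro A V _ _ _ _ _ _ hn h
    by_contra hA
    haveI : Nontrivial V := by
      by_contra hV
      rw [not_nontrivial_iff_subsingleton] at hV
      apply hA
      have h1 : ∀ a : A, a = 1 := fun a =>
        FaithfulSMul.eq_of_smul_eq_smul (M := A) (α := V) (fun v => Subsingleton.elim _ _)
      exact Group.isSolvable_of_comm fun a b => by rw [h1 a, h1 b]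
    have hsol : ∀ N : Subgroup A, N.Normal → N ≠ ⊤ → Group.IsSolvable N := by
      intro N hN hNtop
      haveI : FaithfulSMul N V := ⟨fun {a b} hab => Subtype.ext
        (FaithfulSMul.eq_of_smul_eq_smul (M := A) (α := V) hab)⟩
      have hlt : Nat.card N < Nat.card A :=
        lt_of_le_of_ne (Subgroup.card_le_card_group N)
          (fun h1 => hNtop (Subgroup.eq_top_of_card_eq N h1))
      exact ih _ (by omega) N V rfl (h.normal N)
    have hperf : _root_.commutator A = ⊤ := by
      by_contra hne
      exact hA (solvable_of_commutator (hsol _ inferInstance hne))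
    have hirr : IrrAct A V := by
      intro W hW
      by_contra hno
      rw [not_or] at hno
      apply hA
      -- the two sections
      letI i1 : MulDistribMulAction A W := subAct W hW
      letI i2 : MulDistribMulAction A (V ⧸ W) := quotAct W hW
      have hWlt : Nat.card W < Nat.card V :=
        lt_of_le_of_ne (Subgroup.card_le_card_group W)
          (fun h1 => hno.2 (Subgroup.eq_top_of_card_eq W h1))
      have hQlt : Nat.card (V ⧸ W) < Nat.card V := by
        rw [← Subgroup.index_eq_card, ← Subgroup.card_mul_index W]
        have h1 : 1 < Nat.card W := by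
          rw [Subgroup.one_lt_card_iff_ne_bot]; exact hno.1
        have h2 : 0 < W.index := Nat.pos_of_ne_zero Subgroup.index_ne_zero_of_finite
        nlinarith
      set f₁ := MulDistribMulAction.toMulAut A W with hf₁
      set f₂ := MulDistribMulAction.toMulAut A (V ⧸ W) with hf₂
      have hp1 : PowOrb p f₁.range W := by
        refine powOrb_range (h.cop.coprime_dvd_right (Subgroup.card_subgroup_dvd_card W)) ?_
        intro w
        obtain ⟨k, hk⟩ := h.pow (w : V)
        refine ⟨k, ?_⟩
        rw [← hk]
        congr 1
        ext a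
        rw [mem_stabilizer_iff, mem_stabilizer_iff, Subtype.ext_iff]
        rfl
      have hp2 : PowOrb p f₂.range (V ⧸ W) := by
        refine powOrb_range (h.cop.coprime_dvd_right
          ((Subgroup.index_eq_card W) ▸ Subgroup.index_dvd_card W)) ?_
        intro q
        induction q using QuotientGroup.induction_on with
        | H v =>
          obtain ⟨k, hk⟩ := h.pow v
          have hle : stabilizer A v ≤ stabilizer A (v : V ⧸ W) := by
            intro a ha
            exact congrArg (QuotientGroup.mk (s := W)) (show a • v = v from ha)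
          obtain ⟨j, -, hj⟩ := (Nat.dvd_prime_pow hp.out).1 (hk ▸ Subgroup.index_dvd_of_le hle)
          exact ⟨j, hj⟩
      have hs1 : Group.IsSolvable f₁.range := by
        refine ih _ ?_ f₁.range W rfl hp1
        have := Nat.le_of_dvd Nat.card_pos (Subgroup.card_range_dvd f₁)
        omega
      have hs2 : Group.IsSolvable f₂.range := by
        refine ih _ ?_ f₂.range (V ⧸ W) rfl hp2
        have := Nat.le_of_dvd Nat.card_pos (Subgroup.card_range_dvd f₂)
        omega
      -- embedding
      have hinj : ∀ a : A, f₁ a = 1 → f₂ a = 1 → a = 1 := by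
        intro a ha1 ha2
        apply FaithfulSMul.eq_of_smul_eq_smul (M := A) (α := V)
        intro v
        rw [one_smul]
        have h1 : ∀ w ∈ W, a • w = w := by
          intro w hw
          have := congrArg (fun φ : MulAut W => ((φ ⟨w, hw⟩ : W) : V)) ha1
          exact this
        have h2 : v⁻¹ * (a • v) ∈ W := by
          have h3 : ((a • v : V) : V ⧸ W) = (v : V ⧸ W) := by
            have := congrArg (fun φ : MulAut (V ⧸ W) => φ (v : V ⧸ W)) ha2
            exact this
          exact QuotientGroup.eq.1 h3.symm
        -- iterate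
        set w := v⁻¹ * (a • v) with hw
        have h3 : a • v = v * w := by rw [hw]; group
        have h4 : ∀ k : ℕ, a ^ k • v = v * w ^ k := by
          intro k
          induction k with
          | zero => simp
          | succ k ihk =>
            rw [pow_succ', mul_smul, ihk, smul_mul', h3, smul_pow', h1 w h2, mul_assoc, ← pow_succ']
        have h5 := h4 (orderOf a)
        rw [pow_orderOf_eq_one, one_smul] at h5
        have h6 : w ^ orderOf a = 1 := mul_eq_left.1 h5.symm
        have h7 := eq_one_of_pow_of_dvd h.cop (orderOf_dvd_natCard a) h6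
        rw [h3, h7, mul_one]
      have hker : Group.IsSolvable f₁.ker := by
        refine @Group.isSolvable_of_isSolvable_injective _ _ _ _
          (f₂.rangeRestrict.comp f₁.ker.subtype) ?_ hs2
        rw [injective_iff_map_eq_one]
        intro a ha
        exact Subtype.ext (hinj a a.2 (congrArg Subtype.val ha))
      refine @Group.isSolvable_of_ker_le_range _ _ _ _ _ _ f₁.ker.subtype f₁.rangeRestrict ?_ hker hs1
      rw [Subgroup.range_subtype, MonoidHom.ker_rangeRestrict]
    exact irreducible_case h hirr hperf hA hsol

/-- A group acting faithfully and coprimely on an abelian group with all orbits of `p`-power size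
is solvable. -/
theorem solvable_of_powOrb {p : ℕ} [hp : Fact p.Prime] {A V : Type u} [Group A] [Finite A]
    [CommGroup V] [Finite V] [MulDistribMulAction A V] [FaithfulSMul A V] (h : PowOrb p A V) :
    Group.IsSolvable A := solvable_of_powOrb_aux _ A V rfl h

end Cfsg.Agent.H24
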