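import Cfsg.Agent.H24.Kazarin2
import Cfsg.Agent.H24.PowOrb7
import Cfsg.Agent.H24.ClassSize

set_option autoImplicit false

/-!
Groups in which every `q`-element has a class of prime power size (helper24).
-/

namespace Cfsg.Agent.H24

open Cfsg Subgroup
open scoped commutatorElement

universe u

variable {G : Type u} [Group G]

/-- a `q`-element with class size a power of `q` lies in `O_q(G)`. -/
theorem mem_pCore_of_own_prime [Finite G] {q : ℕ} [hq : Fact q.Prime] (Q : Sylow q G) {x : G}
    (hx : x ∈ (Q : Subgroup G)) {a : ℕ} (hidx : (centralizer ({x} : Set G)).index = q ^ a) :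
    x ∈ pCore q G := by
  have hcop : (Q : Subgroup G).index.Coprime (centralizer ({x} : Set G)).index := by
    rw [hidx]
    exact Nat.Coprime.pow_right a ((hq.out.coprime_iff_not_dvd.2 Q.not_dvd_index).symm)
  have hle : normalClosure ({x} : Set G) ≤ (Q : Subgroup G) := by
    rw [normalClosure, closure_le]
    intro y hy
    rw [Group.mem_conjugatesOfSet_iff] at hy
    obtain ⟨a, ha, hay⟩ := hy
    rw [Set.mem_singleton_iff] at ha
    subst ha
    obtain ⟨c, rfl⟩ := isConj_iff.1 hay
    obtain ⟨u, hu, d, hd, rfl⟩ := H1.factor_of_coprime_index hcop c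
    rw [mem_centralizer_singleton_iff] at hd
    have : u * d * a * (u * d)⁻¹ = u * a * u⁻¹ := by
      calc u * d * a * (u * d)⁻¹ = u * (d * a) * d⁻¹ * u⁻¹ := by group
        _ = u * (a * d) * d⁻¹ * u⁻¹ := by rw [hd]
        _ = _ := by group
    rw [this]
    exact mul_mem (mul_mem hu hx) (inv_mem hu)
  have h1 : normalClosure ({x} : Set G) ≤ pCore q G :=
    H1.le_pCore inferInstance (Q.isPGroup'.to_le hle)
  exact h1 (subset_normalClosure rfl)

/-- an element whose class size is prime to `t` centralizes `O_t(G)`. -/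
theorem mem_centralizer_pCore [Finite G] {t : ℕ} [ht : Fact t.Prime] {x : G}
    (hx : ¬ t ∣ (centralizer ({x} : Set G)).index) : x ∈ centralizer (pCore t G : Set G) := by
  obtain ⟨T, hT⟩ := exists_sylow_centralizes_of_not_dvd (p := t) x hx
  exact centralizer_le (H1.pCore_le_sylow T) hT

theorem pCore_map_subtype_le {t : ℕ} (L : Subgroup G) [L.Normal] :
    (pCore t L).map L.subtype ≤ pCore t G :=
  H1.le_pCore inferInstance ((H1.pCore_isPGroup t L).map _)

/-- Camina–Camina: modulo `O_p(G)`, an element whose class size is a power of `p` lies in the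
Fitting subgroup; here for `q`-elements. -/
theorem mem_pCore_of_prime_power_class [Finite G] {p q : ℕ} [hp : Fact p.Prime] [hq : Fact q.Prime]
    (hO : pCore p G = ⊥) {x : G} {a k : ℕ} (hx : orderOf x = q ^ a)
    (hk : (centralizer ({x} : Set G)).index = p ^ k) : x ∈ pCore q G := by
  set L := normalClosure ({x} : Set G) with hL
  have hLs : Group.IsSolvable L := kazarin hp.out k x hk
  -- `L` centralizes all cores
  have hLcen : ∀ t : ℕ, t.Prime → t ≠ p → L ≤ centralizer (pCore t G : Set G) := by
    intro t ht htp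
    haveI : Fact t.Prime := ⟨ht⟩
    haveI : (centralizer (pCore t G : Set G)).Normal := inferInstance
    refine normalClosure_le_normal ?_
    rw [Set.singleton_subset_iff]
    apply mem_centralizer_pCore
    rw [hk]
    intro hd
    exact htp ((Nat.prime_dvd_prime_iff_eq ht hp.out).1 (ht.dvd_of_dvd_pow hd))
  have hF : ∀ y ∈ fittingSubgroup L, ∀ l : L, l * y = y * l := by
    have h1 : fittingSubgroup L ≤ center L := by
      rw [H1.fitting_eq_iSup_pCore]
      refine iSup_le fun t => ?_
      intro y hy
      rw [mem_center_iff]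
      intro l
      have h2 : (y : G) ∈ pCore (t : ℕ) G := pCore_map_subtype_le L ⟨y, hy, rfl⟩
      by_cases htp : (t : ℕ) = p
      · rw [htp, hO, mem_bot] at h2
        have : y = 1 := Subtype.ext h2
        rw [this, mul_one, one_mul]
      · have h3 := hLcen t t.2 htp l.2
        rw [mem_centralizer_iff] at h3
        exact Subtype.ext (h3 y h2).symm
    intro y hy l
    exact mem_center_iff.1 (h1 hy) l
  have hcomm : ∀ a b : L, a * b = b * a := by
    intro a b
    have h1 := H1.centralizer_fitting_le hLs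
    have h2 : b ∈ fittingSubgroup L := by
      apply h1
      rw [mem_centralizer_iff]
      intro y hy
      exact (hF y hy b).symm
    exact hF b h2 a
  -- the `q`-part of the abelian normal subgroup `L`
  have hxL : x ∈ L := subset_normalClosure rfl
  have h1 : (⟨x, hxL⟩ : L) ∈ pCore q L := by
    obtain ⟨T⟩ : Nonempty (Sylow q L) := inferInstance
    haveI hTn : (T : Subgroup L).Normal := ⟨fun n hn g => by
      rw [hcomm g n, mul_inv_cancel_right]; exact hn⟩
    have h2 : zpowers (⟨x, hxL⟩ : L) ≤ (T : Subgroup L) := by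
      have hz : IsPGroup q (zpowers (⟨x, hxL⟩ : L)) := by
        apply IsPGroup.of_card (n := a)
        rw [Nat.card_zpowers, Subgroup.orderOf_mk, hx]
      haveI hzn : (zpowers (⟨x, hxL⟩ : L)).Normal := ⟨fun n hn g => by
        rw [hcomm g n, mul_inv_cancel_right]; exact hn⟩
      exact (H1.le_pCore hzn hz).trans (H1.pCore_le_sylow T)
    exact H1.le_pCore hTn T.isPGroup' (h2 (mem_zpowers _))
  exact pCore_map_subtype_le L ⟨_, h1, rfl⟩

/-- two commuting `q`-elements with class sizes powers of different primes different from `q`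
whose product has a class of `r`-power size. -/
theorem two_primes_aux [Finite G] {q r s : ℕ} [hq : Fact q.Prime] [hr : Fact r.Prime]
    [hs : Fact s.Prime] (hrq : r ≠ q) (hrs : r ≠ s) {x y : G} (hxy : x * y = y * x)
    {m : ℕ} (hy : orderOf y = q ^ m) {a b c : ℕ}
    (hxa : (centralizer ({x} : Set G)).index = r ^ a)
    (hyb : (centralizer ({y} : Set G)).index = s ^ b)
    (hxyc : (centralizer ({x * y} : Set G)).index = r ^ c) : b = 0 := by
  classical
  haveI := Fintype.ofFinite G
  have hcop : (centralizer ({x} : Set G)).index.Coprime (centralizer ({y} : Set G)).index := by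
    rw [hxa, hyb]
    exact Nat.Coprime.pow a b ((Nat.coprime_primes hr.out hs.out).2 hrs)
  -- simultaneous conjugation
  have hsim : ∀ g h : G, ∃ k : G, k * x * k⁻¹ = g * x * g⁻¹ ∧ k * y * k⁻¹ = h * y * h⁻¹ := by
    intro g h
    obtain ⟨c, hc, d, hd, hcd⟩ := H1.factor_of_coprime_index hcop (g⁻¹ * h)
    rw [mem_centralizer_singleton_iff] at hc hd
    refine ⟨g * c, ?_, ?_⟩
    · calc g * c * x * (g * c)⁻¹ = g * (c * x) * c⁻¹ * g⁻¹ := by group
        _ = g * (x * c) * c⁻¹ * g⁻¹ := by rw [hc]
        _ = _ := by group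
    · have h1 : g * c = h * d⁻¹ := by
        have : h = g * (c * d) := by rw [← hcd]; group
        rw [this]; group
      rw [h1]
      calc h * d⁻¹ * y * (h * d⁻¹)⁻¹ = h * d⁻¹ * (y * d) * h⁻¹ := by group
        _ = h * d⁻¹ * (d * y) * h⁻¹ := by rw [hd]
        _ = _ := by group
  -- classes
  let X : Set G := {z | IsConj x z}
  let W : Set G := {z | IsConj (x * y) z}
  have hXc : X.ncard = r ^ a := by
    rw [← hxa, ← ncard_isConj]
  have hWc : W.ncard = r ^ c := by
    rw [← hxyc, ← ncard_isConj]
  have hca : r ^ c ≤ r ^ a := by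
    have h1 : centralizer ({x} : Set G) ⊓ centralizer ({y} : Set G) ≤
        centralizer ({x * y} : Set G) := by
      intro g hg
      have h2 := mem_centralizer_singleton_iff.1 (mem_inf.1 hg).1
      have h3 := mem_centralizer_singleton_iff.1 (mem_inf.1 hg).2
      rw [mem_centralizer_singleton_iff]
      rw [mul_assoc, h3, ← mul_assoc, h2, mul_assoc]
    have h2 := Subgroup.index_dvd_of_le h1
    rw [H1.index_inf_of_coprime hcop, hxa, hyb, hxyc] at h2
    have h3 : r ^ c ∣ r ^ a := by
      refine Nat.Coprime.dvd_of_dvd_mul_right ?_ h2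
      exact Nat.Coprime.pow c b ((Nat.coprime_primes hr.out hs.out).2 hrs)
    exact Nat.le_of_dvd (pow_pos hr.out.pos a) h3
  have hmulW : ∀ g h : G, (g * x * g⁻¹) * (h * y * h⁻¹) ∈ W := by
    intro g h
    obtain ⟨k, hk1, hk2⟩ := hsim g h
    rw [← hk1, ← hk2]
    refine isConj_iff.2 ⟨k, ?_⟩
    group
  have hXmul : ∀ h : G, (fun z => z * (h * y * h⁻¹)) '' X = W := by
    intro h
    apply Set.eq_of_subset_of_ncard_le
    · rintro _ ⟨z, hz, rfl⟩
      obtain ⟨g, rfl⟩ := isConj_iff.1 hz
      exact hmulW g h
    · rw [Set.ncard_image_of_injective _ (mul_left_injective _), hXc, hWc]; exact hca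
    · exact Set.toFinite _
  -- the set of differences
  have hXd : ∀ h : G, ∀ z ∈ X, z * ((h * y * h⁻¹) * y⁻¹) ∈ X := by
    intro h z hz
    have h1 : z * (h * y * h⁻¹) ∈ W := by rw [← hXmul h]; exact ⟨z, hz, rfl⟩
    have h2 : W = (fun z => z * y) '' X := by
      have := hXmul 1
      simpa using this.symm
    rw [h2] at h1
    obtain ⟨z', hz', hz''⟩ := h1
    have h3 : z * ((h * y * h⁻¹) * y⁻¹) = z' := by
      rw [← mul_assoc, ← hz'']
      exact mul_inv_cancel_right z' y
    rw [h3]; exact hz'
  let D : Subgroup G := closure {d | ∃ h : G, d = (h * y * h⁻¹) * y⁻¹}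
  have hD : ∀ d ∈ D, ∀ z ∈ X, z * d ∈ X := by
    intro d hd
    induction hd using closure_induction with
    | mem d hd =>
      obtain ⟨h, rfl⟩ := hd
      exact hXd h
    | one => intro z hz; rwa [mul_one]
    | mul a b _ _ ha hb => intro z hz; rw [← mul_assoc]; exact hb _ (ha z hz)
    | inv a _ ha =>
      intro z hz
      have h1 : (fun z => z * a) '' X = X := by
        apply Set.eq_of_subset_of_ncard_le
        · rintro _ ⟨w, hw, rfl⟩; exact ha w hw
        · rw [Set.ncard_image_of_injective _ (mul_left_injective _)]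
        · exact Set.toFinite _
      rw [← h1] at hz
      obtain ⟨w, hw, rfl⟩ := hz
      simpa using hw
  have hDn : D.Normal := by
    apply Subgroup.Normal.mk
    intro d hd g
    induction hd using closure_induction with
    | mem d hd =>
      obtain ⟨h, rfl⟩ := hd
      have h1 : g * (h * y * h⁻¹ * y⁻¹) * g⁻¹ =
          ((g * h) * y * (g * h)⁻¹ * y⁻¹) * (g * y * g⁻¹ * y⁻¹)⁻¹ := by group
      rw [h1]
      exact mul_mem (subset_closure ⟨g * h, rfl⟩) (inv_mem (subset_closure ⟨g, rfl⟩))
    | one => simp
    | mul a b _ _ ha hb =>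
      have : g * (a * b) * g⁻¹ = (g * a * g⁻¹) * (g * b * g⁻¹) := by group
      rw [this]; exact mul_mem ha hb
    | inv a _ ha =>
      have : g * a⁻¹ * g⁻¹ = (g * a * g⁻¹)⁻¹ := by group
      rw [this]; exact inv_mem ha
  -- `D` is an `r`-group
  have hDr : IsPGroup r D := by
    have hprime : ∀ t : ℕ, t.Prime → t ∣ Nat.card D → t = r := by
      intro t ht htd
      haveI : Fact t.Prime := ⟨ht⟩
      obtain ⟨d, hd⟩ := exists_prime_orderOf_dvd_card' t htd
      letI : MulAction (zpowers d) X :=
        { smul := fun e z => ⟨(z : G) * ((e : D) : G)⁻¹, hD _ (inv_mem (e : D).2) _ z.2⟩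
          one_smul := fun z => Subtype.ext (by
            show (z : G) * (((1 : zpowers d) : D) : G)⁻¹ = z
            simp)
          mul_smul := fun e e' z => Subtype.ext (by
            show (z : G) * (((e * e' : zpowers d) : D) : G)⁻¹ =
              (z : G) * ((e' : D) : G)⁻¹ * ((e : D) : G)⁻¹
            push_cast; group) }
      have hz : IsPGroup t (zpowers d) := by
        apply IsPGroup.of_card (n := 1)
        rw [Nat.card_zpowers, hd, pow_one]
      haveI : Finite X := Set.toFinite X
      have h1 := hz.card_modEq_card_fixedPoints X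
      have h2 : MulAction.fixedPoints (zpowers d) X = ∅ := by
        rw [Set.eq_empty_iff_forall_notMem]
        intro z hz
        have h3 := hz ⟨d, mem_zpowers d⟩
        have h4 : (z : G) * (d : G)⁻¹ = z := congrArg Subtype.val h3
        have h5 : (d : G)⁻¹ = 1 := mul_eq_left.1 h4
        have h6 : d = 1 := Subtype.ext (inv_eq_one.1 h5)
        rw [h6, orderOf_one] at hd
        exact ht.one_lt.ne hd
      rw [h2] at h1
      have h3 : Nat.card X = r ^ a := hXc
      rw [h3, Nat.card_coe_set_eq, Set.ncard_empty] at h1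
      have h4 : t ∣ r ^ a := (Nat.modEq_zero_iff_dvd).1 h1
      exact (Nat.prime_dvd_prime_iff_eq ht hr.out).1 (ht.dvd_of_dvd_pow h4)
    exact IsPGroup.of_card (Nat.eq_prime_pow_of_unique_prime_dvd (p := r) Nat.card_pos.ne'
      (fun {t} ht htd => hprime t ht htd))
  -- conclusion
  have hyc : y ∈ centralizer (pCore r G : Set G) := by
    apply mem_centralizer_pCore
    rw [hyb]
    intro hd
    exact hrs ((Nat.prime_dvd_prime_iff_eq hr.out hs.out).1 (hr.out.dvd_of_dvd_pow hd))
  have hDle : D ≤ pCore r G := H1.le_pCore hDn hDr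
  have hall : ∀ h : G, h * y * h⁻¹ = y := by
    intro h
    set d := (h * y * h⁻¹) * y⁻¹ with hd
    have hdD : d ∈ D := subset_closure ⟨h, rfl⟩
    have hdy : d * y = y * d := by
      rw [mem_centralizer_iff] at hyc
      exact hyc d (hDle hdD)
    have h1 : h * y * h⁻¹ = d * y := by rw [hd]; group
    have h2 : d ^ (q ^ m) = 1 := by
      have h3 : (h * y * h⁻¹) ^ (q ^ m) = 1 := by
        rw [conj_pow, ← hy, pow_orderOf_eq_one]; group
      rw [h1, (show Commute d y from hdy).mul_pow, ← hy, pow_orderOf_eq_one, mul_one, hy] at h3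
      exact h3
    obtain ⟨j, hj⟩ := (IsPGroup.iff_orderOf.1 hDr) ⟨d, hdD⟩
    rw [Subgroup.orderOf_mk] at hj
    have h4 : orderOf d ∣ q ^ m := orderOf_dvd_of_pow_eq_one h2
    have h5 : orderOf d = 1 := by
      have h6 : (orderOf d).Coprime (q ^ m) := by
        rw [hj]
        exact Nat.Coprime.pow j m ((Nat.coprime_primes hr.out hq.out).2 hrq)
      exact Nat.Coprime.eq_one_of_dvd h6 h4
    rw [orderOf_eq_one_iff] at h5
    rw [h1, h5, one_mul]
  have htop : centralizer ({y} : Set G) = ⊤ := by
    rw [eq_top_iff]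
    intro h _
    rw [mem_centralizer_singleton_iff]
    have := hall h
    rw [mul_inv_eq_iff_eq_mul] at this
    exact this.symm
  rw [htop, index_top] at hyb
  by_contra hb
  exact absurd hyb.symm (Nat.one_lt_pow hb hs.out.one_lt).ne'

end Cfsg.Agent.H24
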