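import Cfsg.Agent.H24.QBaer

set_option autoImplicit false

/-!
Groups in which every `q`-element has a class of prime power size, part 2 (helper24).
-/

namespace Cfsg.Agent.H24

open Cfsg Subgroup
open scoped commutatorElement

universe u

variable {G : Type u} [Group G]

theorem centralizer_sylow_le [Finite G] {q : ℕ} [hq : Fact q.Prime] (Q : Sylow q G)
    [hQn : (Q : Subgroup G).Normal]
    (hcomm : ∀ x ∈ (Q : Subgroup G), ∀ y ∈ (Q : Subgroup G), x * y = y * x)
    (hO : pPrimeCore q G = ⊥) : centralizer ((Q : Subgroup G) : Set G) ≤ (Q : Subgroup G) := by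
  obtain ⟨T, hT⟩ := Subgroup.exists_right_complement'_of_coprime (N := (Q : Subgroup G))
    (Sylow.card_coprime_index Q)
  have hTcard : Nat.card T = (Q : Subgroup G).index := hT.symm.index_eq_card.symm
  have hfac : ∀ g : G, ∃ u ∈ (Q : Subgroup G), ∃ t ∈ T, g = u * t := by
    intro g
    obtain ⟨⟨⟨u, hu⟩, ⟨t, ht⟩⟩, hut⟩ := hT.2 g
    exact ⟨u, hu, t, ht, hut.symm⟩
  set C := centralizer ((Q : Subgroup G) : Set G) with hC
  have hn : (C ⊓ T).Normal := by
    constructor
    intro c hc g
    obtain ⟨u, hu, t, ht, rfl⟩ := hfac g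
    have h1 : t * c * t⁻¹ ∈ C := (inferInstance : C.Normal).conj_mem c (Subgroup.mem_inf.1 hc).1 t
    have h2 : u * t * c * (u * t)⁻¹ = t * c * t⁻¹ := by
      have h3 := (mem_centralizer_iff.1 h1) u hu
      calc u * t * c * (u * t)⁻¹ = (u * (t * c * t⁻¹)) * u⁻¹ := by group
        _ = t * c * t⁻¹ := by rw [h3]; group
    rw [h2]
    exact Subgroup.mem_inf.2 ⟨h1, mul_mem (mul_mem ht (Subgroup.mem_inf.1 hc).2) (inv_mem ht)⟩
  have hcop : (Nat.card ↥(C ⊓ T)).Coprime q := by
    refine Nat.Coprime.coprime_dvd_left (Subgroup.card_dvd_of_le inf_le_right) ?_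
    rw [hTcard]
    exact (hq.out.coprime_iff_not_dvd.2 Q.not_dvd_index).symm
  have hbot : C ⊓ T = ⊥ := by
    have := H1.le_pPrimeCore hn hcop
    rwa [hO, le_bot_iff] at this
  intro c hc
  obtain ⟨u, hu, t, ht, rfl⟩ := hfac c
  have huC : u ∈ C := by
    rw [mem_centralizer_iff]
    intro y hy
    exact hcomm y hy u hu
  have htC : t ∈ C := by
    have := mul_mem (inv_mem huC) hc
    rwa [inv_mul_cancel_left] at this
  have : t ∈ C ⊓ T := ⟨htC, ht⟩
  rw [hbot, mem_bot] at this
  rw [this, mul_one]; exact hu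

/-- The solvability part. -/
theorem solvable_of_abelian_sylow [Finite G] {p q : ℕ} [hp : Fact p.Prime] [hq : Fact q.Prime]
    (Q : Sylow q G) [hQn : (Q : Subgroup G).Normal]
    (hcomm : ∀ x ∈ (Q : Subgroup G), ∀ y ∈ (Q : Subgroup G), x * y = y * x)
    (hO : pPrimeCore q G = ⊥)
    (hpow : ∀ x ∈ (Q : Subgroup G), ∃ k : ℕ, (centralizer ({x} : Set G)).index = p ^ k) :
    Group.IsSolvable G := by
  have hC := centralizer_sylow_le Q hcomm hO
  letI : CommGroup (Q : Subgroup G) :=
    { (inferInstance : Group (Q : Subgroup G)) with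
      mul_comm := fun a b => Subtype.ext (hcomm a a.2 b b.2) }
  let f : G →* MulAut (Q : Subgroup G) := MulAut.conjNormal
  have hf : ∀ (g : G) (y : (Q : Subgroup G)), ((f g y : (Q : Subgroup G)) : G) = g * y * g⁻¹ :=
    fun g y => MulAut.conjNormal_apply g y
  have hker : f.ker ≤ (Q : Subgroup G) := by
    intro g hg
    apply hC
    rw [mem_centralizer_iff]
    intro y hy
    have h1 := hf g ⟨y, hy⟩
    rw [MonoidHom.mem_ker.1 hg] at h1
    have h2 : y = g * y * g⁻¹ := h1
    rw [eq_mul_inv_iff_mul_eq] at h2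
    exact h2
  have hQker : (Q : Subgroup G) ≤ f.ker := by
    intro g hg
    rw [MonoidHom.mem_ker]
    ext y
    rw [hf, hcomm g hg y y.2, mul_inv_cancel_right]
    rfl
  haveI : FaithfulSMul f.range (Q : Subgroup G) :=
    ⟨fun {a b} h => Subtype.ext (MulEquiv.ext h)⟩
  have hpo : PowOrb p f.range (Q : Subgroup G) := by
    refine ⟨?_, fun w => ?_⟩
    · have h1 : Nat.card f.range ∣ (Q : Subgroup G).index := by
        rw [← Subgroup.index_ker f]
        exact Subgroup.index_dvd_of_le hQker
      exact (Nat.Coprime.coprime_dvd_left h1 (Sylow.card_coprime_index Q).symm)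
    · obtain ⟨k, hk⟩ := hpow w w.2
      refine ⟨k, ?_⟩
      rw [← hk, ← Subgroup.index_comap_of_surjective (MulAction.stabilizer f.range w)
        f.rangeRestrict_surjective]
      congr 1
      ext g
      rw [mem_comap, MulAction.mem_stabilizer_iff, mem_centralizer_singleton_iff]
      have h1 : f.rangeRestrict g • w = f g w := rfl
      rw [h1, Subtype.ext_iff, hf, mul_inv_eq_iff_eq_mul, eq_comm]
  haveI hs1 : Group.IsSolvable f.range := solvable_of_powOrb hpo
  haveI hs2 : Group.IsSolvable f.ker := by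
    have h1 : IsPGroup q f.ker := Q.isPGroup'.to_le hker
    haveI := h1.isNilpotent
    infer_instance
  refine Group.isSolvable_of_ker_le_range f.ker.subtype f.rangeRestrict ?_
  rw [Subgroup.range_subtype, MonoidHom.ker_rangeRestrict]

/-- In `G / O_{q'}(G)` the Sylow `q`-subgroup is normal. -/
theorem sylow_normal_of_qbaer [Finite G] {q : ℕ} [hq : Fact q.Prime] (hO : pPrimeCore q G = ⊥)
    (Q : Sylow q G)
    (hBaer : ∀ x ∈ (Q : Subgroup G), ∃ r a : ℕ, r.Prime ∧
      (centralizer ({x} : Set G)).index = r ^ a) : (Q : Subgroup G) = pCore q G := by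
  apply le_antisymm _ (H1.pCore_le_sylow Q)
  intro x hx
  obtain ⟨r, a, hr, hra⟩ := hBaer x hx
  by_cases hrq : r = q
  · subst hrq
    exact mem_pCore_of_own_prime Q hx hra
  haveI : Fact r.Prime := ⟨hr⟩
  -- the solvable radical
  set R := H10.solvRad G with hR
  haveI hRn : R.Normal := H10.solvRad_normal G
  have hRs : Group.IsSolvable R := H10.solvRad_isSolvable G
  have hxR : x ∈ R := by
    have h1 : normalClosure ({x} : Set G) ≤ R :=
      H10.le_solvRad inferInstance (kazarin hr a x hra)
    exact h1 (subset_normalClosure rfl)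
  have hRO : pPrimeCore q R = ⊥ := by
    have h1 : (pPrimeCore q R).map R.subtype ≤ pPrimeCore q G := by
      refine H1.le_pPrimeCore inferInstance ?_
      rw [Subgroup.card_map_of_injective R.subtype_injective]
      exact H1.pPrimeCore_coprime q R
    rw [hO, le_bot_iff, Subgroup.map_eq_bot_iff_of_injective _ R.subtype_injective] at h1
    exact h1
  have h1 := H1.centralizer_pCore_le hRs q hRO
  have hxc : x ∈ centralizer (pCore q G : Set G) := by
    apply mem_centralizer_pCore
    rw [hra]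
    intro hd
    exact hrq ((Nat.prime_dvd_prime_iff_eq hq.out hr).1 (hq.out.dvd_of_dvd_pow hd)).symm
  have h2 : (⟨x, hxR⟩ : R) ∈ pCore q R := by
    apply h1
    rw [mem_centralizer_iff]
    intro y hy
    have h3 : (y : G) ∈ pCore q G := pCore_map_subtype_le R ⟨y, hy, rfl⟩
    exact Subtype.ext ((mem_centralizer_iff.1 hxc) y h3)
  exact pCore_map_subtype_le R ⟨_, h2, rfl⟩

end Cfsg.Agent.H24
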