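import Cfsg.Agent.H24.QBaer2
import Cfsg.Agent.H24.TwoGroupMax

set_option autoImplicit false

/-!
Groups in which every `q`-element has a class of prime power size, part 3 (helper24).
-/

namespace Cfsg.Agent.H24

open Cfsg Subgroup
open scoped commutatorElement

universe u

variable {G : Type u} [Group G]

theorem mulAut_eq_one_of_trivial_on_abelianization {P : Type*} [Group P] [Finite P] {p : ℕ}
    [hp : Fact p.Prime] (hP : IsPGroup p P) (β : MulAut P) (hcop : (orderOf β).Coprime p)
    (htriv : ∀ w : P, w⁻¹ * β w ∈ _root_.commutator P) : β = 1 := by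
  by_contra hne
  have hn1 : orderOf β ≠ 1 := fun h => hne (orderOf_eq_one_iff.1 h)
  obtain ⟨q, hq, hqn⟩ := Nat.exists_prime_and_dvd hn1
  haveI : Fact q.Prime := ⟨hq⟩
  have hpq : p ≠ q := by
    intro h
    have h1 : q ∣ p := h ▸ dvd_rfl
    have h2 := Nat.dvd_gcd hqn h1
    rw [hcop] at h2
    exact hq.one_lt.ne' (Nat.dvd_one.1 h2)
  have hpow : ∀ (k : ℕ) (w : P), w⁻¹ * (β ^ k) w ∈ _root_.commutator P := by
    intro k
    induction k with
    | zero => intro w; simp
    | succ k ih =>
      intro w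
      have h1 := mul_mem (ih w) (htriv ((β ^ k) w))
      have h2 : w⁻¹ * (β ^ k) w * (((β ^ k) w)⁻¹ * β ((β ^ k) w)) = w⁻¹ * (β ^ (k + 1)) w := by
        rw [pow_succ', MulAut.mul_apply]; group
      rwa [h2] at h1
  have h1 := eq_one_of_trivial_on_abelianization hpq hP (β ^ (orderOf β / q))
    (by rw [← pow_mul, Nat.div_mul_cancel hqn, pow_orderOf_eq_one]) (hpow _)
  have h2 := orderOf_dvd_of_pow_eq_one h1
  have h3 : orderOf β / q < orderOf β :=
    Nat.div_lt_self (Nat.pos_of_ne_zero (by
      intro h0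
      rw [h0, Nat.coprime_zero_left] at hcop
      exact hp.out.one_lt.ne' hcop)) hq.one_lt
  have h4 : 0 < orderOf β / q := Nat.div_pos (Nat.le_of_dvd (by
    rcases Nat.eq_zero_or_pos (orderOf β) with h0 | h0
    · rw [h0] at h3; simp at h3
    · exact h0) hqn) hq.pos
  exact absurd (Nat.le_of_dvd h4 h2) (not_le.2 h3)

theorem centralizes_of_trivial_mod_commutator [Finite G] {p : ℕ} [hp : Fact p.Prime]
    (P : Subgroup G) [P.Normal] (hP : IsPGroup p P) (y : G) (hcop : (orderOf y).Coprime p)
    (htriv : ∀ x ∈ P, x⁻¹ * (y * x * y⁻¹) ∈ ⁅P, P⁆) : ∀ x ∈ P, y * x = x * y := by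
  set β : MulAut P := MulAut.conjNormal y with hβ
  have h1 : β = 1 := by
    apply mulAut_eq_one_of_trivial_on_abelianization hP β
    · exact Nat.Coprime.coprime_dvd_left (orderOf_map_dvd (MulAut.conjNormal (H := P)) y) hcop
    · intro w
      have h2 := htriv w w.2
      have h3 : ⁅P, P⁆ = (_root_.commutator P).map P.subtype := by
        rw [_root_.commutator_def, Subgroup.map_commutator, ← MonoidHom.range_eq_map,
          Subgroup.range_subtype]
      rw [h3] at h2
      obtain ⟨z, hz, hz2⟩ := h2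
      have h4 : z = w⁻¹ * β w := by
        apply Subtype.ext
        rw [hβ]
        rw [Subgroup.coe_mul, Subgroup.coe_inv, MulAut.conjNormal_apply]
        exact hz2
      rw [← h4]
      exact hz
  intro x hx
  have h5 := MulAut.conjNormal_apply y (⟨x, hx⟩ : P)
  rw [← hβ, h1] at h5
  have h6 : x = y * x * y⁻¹ := h5
  rw [eq_mul_inv_iff_mul_eq] at h6
  exact h6.symm

/-- index of centralizers and conjugation. -/
theorem exists_conj_mem_sylow [Finite G] {q : ℕ} [hq : Fact q.Prime] (Q : Sylow q G) {x : G}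
    {k : ℕ} (hx : orderOf x = q ^ k) : ∃ y ∈ (Q : Subgroup G),
      (centralizer ({x} : Set G)).index = (centralizer ({y} : Set G)).index := by
  have h1 : IsPGroup q (zpowers x) := by
    apply IsPGroup.of_card (n := k)
    rw [Nat.card_zpowers, hx]
  obtain ⟨P, hP⟩ := h1.exists_le_sylow
  obtain ⟨g, hg⟩ := MulAction.exists_smul_eq G P Q
  refine ⟨g * x * g⁻¹, ?_, ?_⟩
  · rw [← hg, Sylow.coe_subgroup_smul]
    refine Subgroup.mem_map.2 ⟨x, hP (mem_zpowers x), ?_⟩
    rfl
  · have h2 : centralizer ({g * x * g⁻¹} : Set G) =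
        (centralizer ({x} : Set G)).map (MulAut.conj g).toMonoidHom := by
      ext z
      rw [mem_centralizer_singleton_iff, Subgroup.mem_map]
      constructor
      · intro hz
        refine ⟨g⁻¹ * z * g, ?_, ?_⟩
        · rw [mem_centralizer_singleton_iff]
          calc x * (g⁻¹ * z * g) = g⁻¹ * ((g * x * g⁻¹) * z) * g := by group
            _ = g⁻¹ * (z * (g * x * g⁻¹)) * g := by rw [hz]
            _ = g⁻¹ * z * g * x := by group
        · show g * (g⁻¹ * z * g) * g⁻¹ = z
          group
      · rintro ⟨w, hw, rfl⟩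
        have hw := mem_centralizer_singleton_iff.1 hw
        show g * x * g⁻¹ * (g * w * g⁻¹) = g * w * g⁻¹ * (g * x * g⁻¹)
        calc g * x * g⁻¹ * (g * w * g⁻¹) = g * (x * w) * g⁻¹ := by group
          _ = g * (w * x) * g⁻¹ := by rw [hw]
          _ = g * w * g⁻¹ * (g * x * g⁻¹) := by group
    rw [h2]
    exact (Subgroup.index_map_equiv _ (MulAut.conj g)).symm

end Cfsg.Agent.H24
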