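import Cfsg.Agent.H24.QBaer3

set_option autoImplicit false

/-!
Groups in which every `q`-element has a class of prime power size, part 4 (helper24).
-/

namespace Cfsg.Agent.H24

open Cfsg Subgroup
open scoped commutatorElement

universe u

variable {G : Type u} [Group G]

theorem qbaer_quot [Finite G] {q : ℕ} [hq : Fact q.Prime] (Q : Sylow q G)
    (hBaer : ∀ x ∈ (Q : Subgroup G), ∃ r a : ℕ, r.Prime ∧
      (centralizer ({x} : Set G)).index = r ^ a)
    (N : Subgroup G) [N.Normal] :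
    ∀ x ∈ ((Q.mapSurjective (QuotientGroup.mk'_surjective N) : Sylow q (G ⧸ N)) :
      Subgroup (G ⧸ N)), ∃ r a : ℕ, r.Prime ∧
      (centralizer ({x} : Set (G ⧸ N))).index = r ^ a := by
  intro x hx
  rw [Sylow.coe_mapSurjective] at hx
  obtain ⟨x, hx, rfl⟩ := hx
  obtain ⟨r, a, hr, hra⟩ := hBaer x hx
  have h1 := index_centralizer_quotient_dvd N x
  rw [hra] at h1
  obtain ⟨b, -, hb⟩ := (Nat.dvd_prime_pow hr).1 h1
  exact ⟨r, b, hr, hb⟩

theorem qbaer_map_eq_pCore [Finite G] {q : ℕ} [hq : Fact q.Prime] (Q : Sylow q G)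
    (hBaer : ∀ x ∈ (Q : Subgroup G), ∃ r a : ℕ, r.Prime ∧
      (centralizer ({x} : Set G)).index = r ^ a) :
    (Q : Subgroup G).map (QuotientGroup.mk' (pPrimeCore q G)) =
      pCore q (G ⧸ pPrimeCore q G) := by
  have h1 := sylow_normal_of_qbaer (H1.pPrimeCore_quotient_eq_bot q)
    (Q.mapSurjective (QuotientGroup.mk'_surjective (pPrimeCore q G)))
    (qbaer_quot Q hBaer _)
  rw [Sylow.coe_mapSurjective] at h1
  exact h1

theorem qbaer_length_one [Finite G] {q : ℕ} [hq : Fact q.Prime] (Q : Sylow q G)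
    (hBaer : ∀ x ∈ (Q : Subgroup G), ∃ r a : ℕ, r.Prime ∧
      (centralizer ({x} : Set G)).index = r ^ a) :
    ∃ K L : Subgroup G, K.Normal ∧ L.Normal ∧ K ≤ L ∧ (Nat.card K).Coprime q ∧
      (∃ m : ℕ, K.relIndex L = q ^ m) ∧ L.index.Coprime q := by
  have hQ := qbaer_map_eq_pCore Q hBaer
  set K := pPrimeCore q G with hK
  refine ⟨K, (pCore q (G ⧸ K)).comap (QuotientGroup.mk' K), inferInstance, inferInstance,
    ?_, H1.pPrimeCore_coprime q G, ?_, ?_⟩
  · exact QuotientGroup.le_comap_mk' K _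
  · have h1 : K = (⊥ : Subgroup (G ⧸ K)).comap (QuotientGroup.mk' K) := by
      rw [MonoidHom.comap_bot, QuotientGroup.ker_mk']
    obtain ⟨m, hm⟩ := IsPGroup.iff_card.1 (H1.pCore_isPGroup q (G ⧸ K))
    refine ⟨m, ?_⟩
    have h2 : ((⊥ : Subgroup (G ⧸ K)).comap (QuotientGroup.mk' K)).relIndex
        ((pCore q (G ⧸ K)).comap (QuotientGroup.mk' K)) = q ^ m := by
      rw [Subgroup.relIndex_comap, Subgroup.map_comap_eq_self_of_surjective
        (QuotientGroup.mk'_surjective K), Subgroup.relIndex_bot_left, hm]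
    rw [← h1] at h2
    exact h2
  · rw [Subgroup.index_comap_of_surjective _ (QuotientGroup.mk'_surjective K), ← hQ]
    have h1 := (Q.mapSurjective (QuotientGroup.mk'_surjective K)).not_dvd_index
    rw [Sylow.coe_mapSurjective] at h1
    exact (hq.out.coprime_iff_not_dvd.2 h1).symm

theorem le_of_noncentral_mem {Q E : Subgroup G} (hna : ∃ x ∈ Q, ∃ y ∈ Q, x * y ≠ y * x)
    (hE : ∀ x ∈ Q, (∃ y ∈ Q, x * y ≠ y * x) → x ∈ E) : Q ≤ E := by
  obtain ⟨x, hx, y, hy, hxy⟩ := hna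
  intro z hz
  by_cases hzc : ∃ y ∈ Q, z * y ≠ y * z
  · exact hE z hz hzc
  · push Not at hzc
    have h1 : x * z ∈ E := by
      refine hE _ (mul_mem hx hz) ⟨y, hy, fun h => hxy ?_⟩
      have h2 : x * y * z = y * x * z := by
        calc x * y * z = x * (y * z) := by group
          _ = x * (z * y) := by rw [hzc y hy]
          _ = x * z * y := by group
          _ = y * (x * z) := h
          _ = y * x * z := by group
      exact mul_right_cancel h2
    have h2 : x ∈ E := hE x hx ⟨y, hy, hxy⟩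
    have := mul_mem (inv_mem h2) h1
    rwa [inv_mul_cancel_left] at this

theorem inf_sylow_pPrimeCore [Finite G] {q : ℕ} [hq : Fact q.Prime] (Q : Sylow q G) :
    (Q : Subgroup G) ⊓ pPrimeCore q G = ⊥ := by
  apply Subgroup.inf_eq_bot_of_coprime
  obtain ⟨n, hn⟩ := IsPGroup.iff_card.1 Q.isPGroup'
  rw [hn]
  exact (H1.pPrimeCore_coprime q G).symm.pow_left n

/-- noncentral elements of `Q` have class size a power of `q`. -/
theorem qbaer_noncentral_index [Finite G] {q : ℕ} [hq : Fact q.Prime] (Q : Sylow q G)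
    (hBaer : ∀ x ∈ (Q : Subgroup G), ∃ r a : ℕ, r.Prime ∧
      (centralizer ({x} : Set G)).index = r ^ a) {x : G} (hx : x ∈ (Q : Subgroup G))
    (hnc : ∃ y ∈ (Q : Subgroup G), x * y ≠ y * x) :
    ∃ a : ℕ, (centralizer ({x} : Set G)).index = q ^ a := by
  obtain ⟨r, a, hr, hra⟩ := hBaer x hx
  by_cases hrq : r = q
  · exact ⟨a, by rw [hra, hrq]⟩
  exfalso
  obtain ⟨y, hy, hxy⟩ := hnc
  apply hxy
  have hQ := qbaer_map_eq_pCore Q hBaer
  set K := pPrimeCore q G with hK
  have h1 : (x : G ⧸ K) ∈ centralizer (pCore q (G ⧸ K) : Set (G ⧸ K)) := by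
    apply mem_centralizer_pCore
    intro hd
    have h2 := hd.trans (index_centralizer_quotient_dvd K x)
    rw [hra] at h2
    exact hrq ((Nat.prime_dvd_prime_iff_eq hq.out hr).1 (hq.out.dvd_of_dvd_pow h2)).symm
  have h2 : (y : G ⧸ K) ∈ pCore q (G ⧸ K) := by
    rw [← hQ]
    exact ⟨y, hy, rfl⟩
  have h3 := (mem_centralizer_iff.1 h1) _ h2
  have h4 : (x * y)⁻¹ * (y * x) ∈ K := by
    rw [← QuotientGroup.eq]
    exact h3.symm
  have h5 : (x * y)⁻¹ * (y * x) ∈ (Q : Subgroup G) ⊓ K :=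
    Subgroup.mem_inf.2 ⟨mul_mem (inv_mem (mul_mem hx hy)) (mul_mem hy hx), h4⟩
  rw [inf_sylow_pPrimeCore, mem_bot] at h5
  exact (inv_mul_eq_one.1 h5)

theorem normal_of_centralizing_complement {N Q : Subgroup G} (hc : N.IsComplement' Q)
    (h : ∀ n ∈ N, ∀ u ∈ Q, u * n = n * u) : N.Normal := by
  constructor
  intro n hn g
  obtain ⟨⟨⟨t, ht⟩, ⟨u, hu⟩⟩, hut⟩ := hc.2 g
  have h1 : t * u = g := hut
  have h2 : g * n * g⁻¹ = t * n * t⁻¹ := by
    calc g * n * g⁻¹ = t * (u * n) * u⁻¹ * t⁻¹ := by rw [← h1]; group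
      _ = t * (n * u) * u⁻¹ * t⁻¹ := by rw [h n hn u hu]
      _ = t * n * t⁻¹ := by group
  rw [h2]
  exact mul_mem (mul_mem ht hn) (inv_mem ht)

theorem qbaer_of_complement_centralizes [Finite G] {q : ℕ} [hq : Fact q.Prime] (Q : Sylow q G)
    {N : Subgroup G} (hc : N.IsComplement' (Q : Subgroup G))
    (h : ∀ n ∈ N, ∀ u ∈ (Q : Subgroup G), u * n = n * u) :
    ∀ x ∈ (Q : Subgroup G), ∃ a : ℕ, (centralizer ({x} : Set G)).index = q ^ a := by
  intro x hx
  have h1 : N ≤ centralizer ({x} : Set G) := by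
    intro n hn
    rw [mem_centralizer_singleton_iff]
    exact h n hn x hx
  have h2 := Subgroup.index_dvd_of_le h1
  rw [hc.symm.index_eq_card] at h2
  obtain ⟨n, hn⟩ := IsPGroup.iff_card.1 Q.isPGroup'
  rw [hn] at h2
  obtain ⟨b, -, hb⟩ := (Nat.dvd_prime_pow hq.out).1 h2
  exact ⟨b, hb⟩

theorem qbaer_nonabelian [Finite G] {q : ℕ} [hq : Fact q.Prime] (Q : Sylow q G)
    (hBaer : ∀ x ∈ (Q : Subgroup G), ∃ r a : ℕ, r.Prime ∧
      (centralizer ({x} : Set G)).index = r ^ a)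
    (hna : ∃ x ∈ (Q : Subgroup G), ∃ y ∈ (Q : Subgroup G), x * y ≠ y * x) :
    (Q : Subgroup G).Normal ∧ (∃ N : Subgroup G, N.Normal ∧ N.IsComplement' (Q : Subgroup G)) ∧
      ∀ x ∈ (Q : Subgroup G), ∃ a : ℕ, (centralizer ({x} : Set G)).index = q ^ a := by
  have hidx := fun {x : G} (hx : x ∈ (Q : Subgroup G)) hnc => qbaer_noncentral_index Q hBaer hx hnc
  have hle : (Q : Subgroup G) ≤ pCore q G := by
    apply le_of_noncentral_mem hna
    intro x hx hnc
    obtain ⟨a, ha⟩ := hidx hx hnc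
    exact mem_pCore_of_own_prime Q hx ha
  have hQeq : (Q : Subgroup G) = pCore q G := le_antisymm hle (H1.pCore_le_sylow Q)
  haveI hQn : (Q : Subgroup G).Normal := by rw [hQeq]; infer_instance
  have hcent : ∀ y : G, (orderOf y).Coprime q → ∀ x ∈ (Q : Subgroup G), y * x = x * y := by
    intro y hy
    apply centralizes_of_trivial_mod_commutator (Q : Subgroup G) Q.isPGroup' y hy
    set D := ⁅(Q : Subgroup G), (Q : Subgroup G)⁆ with hD
    have hmem : ∀ x : G, x ∈ (centralizer ({(y : G ⧸ D)} : Set (G ⧸ D))).comap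
        (QuotientGroup.mk' D) ↔ x⁻¹ * (y * x * y⁻¹) ∈ D := by
      intro x
      rw [mem_comap, mem_centralizer_singleton_iff, ← QuotientGroup.eq]
      constructor
      · intro h
        rw [QuotientGroup.mk_mul, QuotientGroup.mk_mul, QuotientGroup.mk_inv,
          eq_mul_inv_iff_mul_eq]
        exact h.symm
      · intro h
        rw [QuotientGroup.mk_mul, QuotientGroup.mk_mul, QuotientGroup.mk_inv,
          eq_mul_inv_iff_mul_eq] at h
        exact h.symm
    have hle2 : (Q : Subgroup G) ≤ (centralizer ({(y : G ⧸ D)} : Set (G ⧸ D))).comap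
        (QuotientGroup.mk' D) := by
      apply le_of_noncentral_mem hna
      intro x hx hnc
      obtain ⟨a, ha⟩ := hidx hx hnc
      rw [hmem]
      have hcop : (Q : Subgroup G).index.Coprime (centralizer ({x} : Set G)).index := by
        rw [ha]
        exact Nat.Coprime.pow_right a ((hq.out.coprime_iff_not_dvd.2 Q.not_dvd_index).symm)
      obtain ⟨u, hu, c, hc, hyc⟩ := H1.factor_of_coprime_index hcop y
      have h1 := mem_centralizer_singleton_iff.1 hc
      have h2 : x⁻¹ * (y * x * y⁻¹) = ⁅x⁻¹, u⁆ := by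
        rw [hyc, commutatorElement_def]
        calc x⁻¹ * (u * c * x * (u * c)⁻¹) = x⁻¹ * (u * (c * x) * c⁻¹ * u⁻¹) := by group
          _ = x⁻¹ * (u * (x * c) * c⁻¹ * u⁻¹) := by rw [h1]
          _ = x⁻¹ * u * x⁻¹⁻¹ * u⁻¹ := by group
      rw [h2]
      exact Subgroup.commutator_mem_commutator (inv_mem hx) hu
    intro x hx
    exact (hmem x).1 (hle2 hx)
  obtain ⟨N, hN⟩ := Subgroup.exists_left_complement'_of_coprime (N := (Q : Subgroup G))
    (Sylow.card_coprime_index Q)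
  have hNc : ∀ n ∈ N, ∀ u ∈ (Q : Subgroup G), u * n = n * u := by
    intro n hn u hu
    refine (hcent n ?_ u hu).symm
    refine Nat.Coprime.coprime_dvd_left (Subgroup.orderOf_dvd_natCard N hn) ?_
    rw [← hN.index_eq_card]
    exact (hq.out.coprime_iff_not_dvd.2 Q.not_dvd_index).symm
  exact ⟨hQn, ⟨N, normal_of_centralizing_complement hN hNc, hN⟩,
    qbaer_of_complement_centralizes Q hN hNc⟩

end Cfsg.Agent.H24
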