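import Cfsg.Agent.H24.QBaer4

set_option autoImplicit false

/-!
Groups in which every `q`-element has a class of prime power size, part 5 (helper24).
-/

namespace Cfsg.Agent.H24

open Cfsg Subgroup
open scoped commutatorElement

universe u

variable {G : Type u} [Group G]

/-- one prime serves for all, abelian case. -/
theorem qbaer_one_prime [Finite G] {q r : ℕ} [hq : Fact q.Prime] [hr : Fact r.Prime]
    (Q : Sylow q G)
    (hBaer : ∀ x ∈ (Q : Subgroup G), ∃ r a : ℕ, r.Prime ∧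
      (centralizer ({x} : Set G)).index = r ^ a)
    (hab : ∀ x ∈ (Q : Subgroup G), ∀ y ∈ (Q : Subgroup G), x * y = y * x)
    {x : G} (hx : x ∈ (Q : Subgroup G)) {a : ℕ} (ha : a ≠ 0)
    (hxa : (centralizer ({x} : Set G)).index = r ^ a) :
    r ≠ q ∧ ∀ y ∈ (Q : Subgroup G), ∃ b : ℕ, (centralizer ({y} : Set G)).index = r ^ b := by
  have hnq : ∀ y ∈ (Q : Subgroup G), ¬ q ∣ (centralizer ({y} : Set G)).index := by
    intro y hy hd
    have h1 : (Q : Subgroup G) ≤ centralizer ({y} : Set G) := by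
      intro z hz
      rw [mem_centralizer_singleton_iff]
      exact hab y hy z hz
    exact Q.not_dvd_index (hd.trans (Subgroup.index_dvd_of_le h1))
  have hne : ∀ {y : G} {s b : ℕ}, y ∈ (Q : Subgroup G) → s.Prime → b ≠ 0 →
      (centralizer ({y} : Set G)).index = s ^ b → s ≠ q := by
    intro y s b hy hs hb hyb h
    apply hnq y hy
    rw [hyb, h]
    exact dvd_pow_self q hb
  have hrq : r ≠ q := hne hx hr.out ha hxa
  refine ⟨hrq, fun y hy => ?_⟩
  obtain ⟨s, b, hs, hyb⟩ := hBaer y hy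
  by_cases hb : b = 0
  · exact ⟨0, by rw [hyb, hb, pow_zero, pow_zero]⟩
  by_cases hsr : s = r
  · exact ⟨b, by rw [hyb, hsr]⟩
  exfalso
  haveI : Fact s.Prime := ⟨hs⟩
  have hsq : s ≠ q := hne hy hs hb hyb
  obtain ⟨mx, hmx⟩ : ∃ m, orderOf x = q ^ m := by
    obtain ⟨m, hm⟩ := IsPGroup.iff_orderOf.1 Q.isPGroup' ⟨x, hx⟩
    exact ⟨m, by rw [← hm, Subgroup.orderOf_mk]⟩
  obtain ⟨my, hmy⟩ : ∃ m, orderOf y = q ^ m := by
    obtain ⟨m, hm⟩ := IsPGroup.iff_orderOf.1 Q.isPGroup' ⟨y, hy⟩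
    exact ⟨m, by rw [← hm, Subgroup.orderOf_mk]⟩
  have hxy := hab x hx y hy
  obtain ⟨t, c, ht, htc⟩ := hBaer (x * y) (mul_mem hx hy)
  have hcases : (∃ c', (centralizer ({x * y} : Set G)).index = r ^ c') ∨
      (∃ c', (centralizer ({x * y} : Set G)).index = s ^ c') := by
    have hcop : (centralizer ({x} : Set G)).index.Coprime (centralizer ({y} : Set G)).index := by
      rw [hxa, hyb]
      exact Nat.Coprime.pow _ _ ((Nat.coprime_primes hr.out hs).2 (fun h => hsr h.symm))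
    have h1 := H1.index_inf_of_coprime hcop
    have h2 : centralizer ({x} : Set G) ⊓ centralizer ({y} : Set G) ≤
        centralizer ({x * y} : Set G) := by
      intro z hz
      obtain ⟨hz1, hz2⟩ := Subgroup.mem_inf.1 hz
      rw [mem_centralizer_singleton_iff] at hz1 hz2 ⊢
      calc x * y * z = x * (y * z) := by group
        _ = x * (z * y) := by rw [hz2]
        _ = x * z * y := by group
        _ = z * x * y := by rw [hz1]
        _ = z * (x * y) := by group
    have h3 := Subgroup.index_dvd_of_le h2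
    rw [h1, hxa, hyb, htc] at h3
    by_cases hc : c = 0
    · left
      exact ⟨0, by rw [htc, hc, pow_zero, pow_zero]⟩
    have h4 := (dvd_pow_self t hc).trans h3
    rcases (Nat.Prime.dvd_mul ht).1 h4 with h5 | h5
    · left
      have := (Nat.prime_dvd_prime_iff_eq ht hr.out).1 (ht.dvd_of_dvd_pow h5)
      exact ⟨c, by rw [htc, this]⟩
    · right
      have := (Nat.prime_dvd_prime_iff_eq ht hs).1 (ht.dvd_of_dvd_pow h5)
      exact ⟨c, by rw [htc, this]⟩
  rcases hcases with ⟨c', hc'⟩ | ⟨c', hc'⟩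
  · exact hb (two_primes_aux hrq (fun h => hsr h.symm) hxy hmy hxa hyb hc')
  · rw [hxy] at hc'
    exact ha (two_primes_aux hsq hsr hxy.symm hmx hyb hxa hc')

theorem qbaer_sup_normal [Finite G] {p q : ℕ} [hp : Fact p.Prime] [hq : Fact q.Prime]
    (Q : Sylow q G)
    (hpow : ∀ x ∈ (Q : Subgroup G), ∃ k : ℕ, (centralizer ({x} : Set G)).index = p ^ k) :
    (pCore p G ⊔ (Q : Subgroup G)).Normal := by
  set N := pCore p G with hN
  have h1 : (Q : Subgroup G).map (QuotientGroup.mk' N) = pCore q (G ⧸ N) := by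
    apply le_antisymm
    · rintro _ ⟨x, hx, rfl⟩
      obtain ⟨k, hk⟩ := hpow x hx
      have h2 := index_centralizer_quotient_dvd N x
      rw [hk] at h2
      obtain ⟨b, -, hb⟩ := (Nat.dvd_prime_pow hp.out).1 h2
      obtain ⟨m, hm⟩ : ∃ m, orderOf x = q ^ m := by
        obtain ⟨m, hm⟩ := IsPGroup.iff_orderOf.1 Q.isPGroup' ⟨x, hx⟩
        exact ⟨m, by rw [← hm, Subgroup.orderOf_mk]⟩
      have h3 := orderOf_map_dvd (QuotientGroup.mk' N) x
      rw [hm] at h3
      obtain ⟨c, -, hc⟩ := (Nat.dvd_prime_pow hq.out).1 h3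
      exact mem_pCore_of_prime_power_class (H1.pCore_quotient_eq_bot p) hc hb
    · have h2 := H1.pCore_le_sylow (Q.mapSurjective (QuotientGroup.mk'_surjective N))
      rw [Sylow.coe_mapSurjective] at h2
      exact h2
  have h2 : pCore p G ⊔ (Q : Subgroup G) = (pCore q (G ⧸ N)).comap (QuotientGroup.mk' N) := by
    rw [← h1, Subgroup.comap_map_eq, QuotientGroup.ker_mk', sup_comm]
  rw [h2]
  infer_instance

theorem qbaer_solvable_quot [Finite G] {p q : ℕ} [hp : Fact p.Prime] [hq : Fact q.Prime]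
    (Q : Sylow q G)
    (hab : ∀ x ∈ (Q : Subgroup G), ∀ y ∈ (Q : Subgroup G), x * y = y * x)
    (hpow : ∀ x ∈ (Q : Subgroup G), ∃ k : ℕ, (centralizer ({x} : Set G)).index = p ^ k) :
    Group.IsSolvable (G ⧸ pPrimeCore q G) := by
  have hBaer : ∀ x ∈ (Q : Subgroup G), ∃ r a : ℕ, r.Prime ∧
      (centralizer ({x} : Set G)).index = r ^ a := by
    intro x hx
    obtain ⟨k, hk⟩ := hpow x hx
    exact ⟨p, k, hp.out, hk⟩
  set K := pPrimeCore q G with hK
  have h1 := qbaer_map_eq_pCore Q hBaer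
  set Q' := Q.mapSurjective (QuotientGroup.mk'_surjective K) with hQ'
  have hco : (Q' : Subgroup (G ⧸ K)) = (Q : Subgroup G).map (QuotientGroup.mk' K) :=
    Sylow.coe_mapSurjective _ _
  haveI : (Q' : Subgroup (G ⧸ K)).Normal := by
    rw [hco, h1]; infer_instance
  refine solvable_of_abelian_sylow (p := p) Q' ?_ (H1.pPrimeCore_quotient_eq_bot q) ?_
  · rw [hco]
    rintro _ ⟨x, hx, rfl⟩ _ ⟨y, hy, rfl⟩
    rw [← map_mul, hab x hx y hy, map_mul]
  · rw [hco]
    rintro _ ⟨x, hx, rfl⟩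
    obtain ⟨k, hk⟩ := hpow x hx
    have h2 := index_centralizer_quotient_dvd K x
    rw [hk] at h2
    obtain ⟨b, -, hb⟩ := (Nat.dvd_prime_pow hp.out).1 h2
    exact ⟨b, hb⟩

theorem qbaer_main [Finite G] {q : ℕ} [hq : Fact q.Prime] (Q : Sylow q G)
    (hBaer : ∀ x ∈ (Q : Subgroup G), ∃ r a : ℕ, r.Prime ∧
      (centralizer ({x} : Set G)).index = r ^ a) :
    ∃ p : ℕ, p.Prime ∧ (∀ x ∈ (Q : Subgroup G), ∃ a : ℕ,
        (centralizer ({x} : Set G)).index = p ^ a) ∧
      (p = q → (Q : Subgroup G).Normal ∧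
        ∃ N : Subgroup G, N.Normal ∧ N.IsComplement' (Q : Subgroup G)) ∧
      (p ≠ q → (∀ x ∈ (Q : Subgroup G), ∀ y ∈ (Q : Subgroup G), x * y = y * x) ∧
        (pCore p G ⊔ (Q : Subgroup G)).Normal ∧
        Group.IsSolvable (G ⧸ pPrimeCore q G)) := by
  by_cases hna : ∃ x ∈ (Q : Subgroup G), ∃ y ∈ (Q : Subgroup G), x * y ≠ y * x
  · obtain ⟨h1, h2, h3⟩ := qbaer_nonabelian Q hBaer hna
    exact ⟨q, hq.out, h3, fun _ => ⟨h1, h2⟩, fun h => absurd rfl h⟩
  push Not at hna
  by_cases hx0 : ∃ x ∈ (Q : Subgroup G), (centralizer ({x} : Set G)).index ≠ 1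
  · obtain ⟨x, hx, hx1⟩ := hx0
    obtain ⟨r, a, hr, hra⟩ := hBaer x hx
    haveI : Fact r.Prime := ⟨hr⟩
    have ha : a ≠ 0 := by
      rintro rfl
      exact hx1 (by rw [hra, pow_zero])
    obtain ⟨hrq, hall⟩ := qbaer_one_prime Q hBaer hna hx ha hra
    exact ⟨r, hr, hall, fun h => absurd h hrq, fun _ =>
      ⟨hna, qbaer_sup_normal Q hall, qbaer_solvable_quot Q hna hall⟩⟩
  push Not at hx0
  have hcen : ∀ g : G, ∀ u ∈ (Q : Subgroup G), u * g = g * u := by
    intro g u hu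
    have h1 := Subgroup.index_eq_one.1 (hx0 u hu)
    have h2 : g ∈ centralizer ({u} : Set G) := by rw [h1]; trivial
    exact mem_centralizer_singleton_iff.1 h2
  haveI hQn : (Q : Subgroup G).Normal := by
    constructor
    intro u hu g
    rw [← hcen g u hu, mul_inv_cancel_right]
    exact hu
  obtain ⟨N, hN⟩ := Subgroup.exists_left_complement'_of_coprime (N := (Q : Subgroup G))
    (Sylow.card_coprime_index Q)
  refine ⟨q, hq.out, fun x hx => ⟨0, by rw [hx0 x hx, pow_zero]⟩, fun _ => ⟨hQn, N,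
    normal_of_centralizing_complement hN (fun n _ u hu => hcen n u hu), hN⟩,
    fun h => absurd rfl h⟩

end Cfsg.Agent.H24
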