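import Mathlib
import Cfsg.Agent.H9.CTE
import Cfsg.Agent.H5.Small
import Cfsg.Agent.H16.SL2Class
import Cfsg.Agent.H24.SNGrp

set_option autoImplicit false
set_option linter.all false

/-! # H24/SLTwoA: `SL(2,F)`, `F` finite of characteristic two: Borel subgroup, centralizers -/

namespace Cfsg.Agent.H24.SLTwo

open Subgroup Matrix

variable {F : Type*} [Field F]

local notation "SL₂" => Matrix.SpecialLinearGroup (Fin 2) F

theorem ext4 {g h : Matrix.SpecialLinearGroup (Fin 2) F} (h00 : g 0 0 = h 0 0) (h01 : g 0 1 = h 0 1)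
    (h10 : g 1 0 = h 1 0) (h11 : g 1 1 = h 1 1) : g = h := by
  ext i j
  fin_cases i <;> fin_cases j
  · exact h00
  · exact h01
  · exact h10
  · exact h11

theorem det4 (g : Matrix.SpecialLinearGroup (Fin 2) F) : g 0 0 * g 1 1 - g 0 1 * g 1 0 = 1 := by
  have := g.det_coe
  rw [Matrix.det_fin_two] at this
  exact this

theorem mul00 (g h : Matrix.SpecialLinearGroup (Fin 2) F) : (g * h) 0 0 = g 0 0 * h 0 0 + g 0 1 * h 1 0 := by
  show ((g * h : SL₂) : Matrix (Fin 2) (Fin 2) F) 0 0 = _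
  rw [Matrix.SpecialLinearGroup.coe_mul, Matrix.mul_apply, Fin.sum_univ_two]
theorem mul01 (g h : Matrix.SpecialLinearGroup (Fin 2) F) : (g * h) 0 1 = g 0 0 * h 0 1 + g 0 1 * h 1 1 := by
  show ((g * h : SL₂) : Matrix (Fin 2) (Fin 2) F) 0 1 = _
  rw [Matrix.SpecialLinearGroup.coe_mul, Matrix.mul_apply, Fin.sum_univ_two]
theorem mul10 (g h : Matrix.SpecialLinearGroup (Fin 2) F) : (g * h) 1 0 = g 1 0 * h 0 0 + g 1 1 * h 1 0 := by
  show ((g * h : SL₂) : Matrix (Fin 2) (Fin 2) F) 1 0 = _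
  rw [Matrix.SpecialLinearGroup.coe_mul, Matrix.mul_apply, Fin.sum_univ_two]
theorem mul11 (g h : Matrix.SpecialLinearGroup (Fin 2) F) : (g * h) 1 1 = g 1 0 * h 0 1 + g 1 1 * h 1 1 := by
  show ((g * h : SL₂) : Matrix (Fin 2) (Fin 2) F) 1 1 = _
  rw [Matrix.SpecialLinearGroup.coe_mul, Matrix.mul_apply, Fin.sum_univ_two]

theorem inv00 (g : Matrix.SpecialLinearGroup (Fin 2) F) : g⁻¹ 0 0 = g 1 1 := by
  rw [Matrix.SpecialLinearGroup.SL2_inv_expl]; rfl
theorem inv01 (g : Matrix.SpecialLinearGroup (Fin 2) F) : g⁻¹ 0 1 = - g 0 1 := by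
  rw [Matrix.SpecialLinearGroup.SL2_inv_expl]; rfl
theorem inv10 (g : Matrix.SpecialLinearGroup (Fin 2) F) : g⁻¹ 1 0 = - g 1 0 := by
  rw [Matrix.SpecialLinearGroup.SL2_inv_expl]; rfl
theorem inv11 (g : Matrix.SpecialLinearGroup (Fin 2) F) : g⁻¹ 1 1 = g 0 0 := by
  rw [Matrix.SpecialLinearGroup.SL2_inv_expl]; rfl

theorem one00 : (1 : Matrix.SpecialLinearGroup (Fin 2) F) 0 0 = 1 := by simp
theorem one01 : (1 : Matrix.SpecialLinearGroup (Fin 2) F) 0 1 = 0 := by simp
theorem one10 : (1 : Matrix.SpecialLinearGroup (Fin 2) F) 1 0 = 0 := by simp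
theorem one11 : (1 : Matrix.SpecialLinearGroup (Fin 2) F) 1 1 = 1 := by simp

/-- matrix with given entries -/
def mk4 (a b c d : F) (h : a * d - b * c = 1) : Matrix.SpecialLinearGroup (Fin 2) F :=
  ⟨!![a, b; c, d], by rw [Matrix.det_fin_two]; simpa using h⟩

theorem mk00 (a b c d : F) (h : a * d - b * c = 1) : mk4 a b c d h 0 0 = a := rfl
theorem mk01 (a b c d : F) (h : a * d - b * c = 1) : mk4 a b c d h 0 1 = b := rfl
theorem mk10 (a b c d : F) (h : a * d - b * c = 1) : mk4 a b c d h 1 0 = c := rfl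
theorem mk11 (a b c d : F) (h : a * d - b * c = 1) : mk4 a b c d h 1 1 = d := rfl

/-- Borel subgroup -/
def Bor (F : Type*) [Field F] : Subgroup (Matrix.SpecialLinearGroup (Fin 2) F) where
  carrier := {g | g 1 0 = 0}
  mul_mem' := by
    intro g h hg hh
    rw [Set.mem_setOf_eq] at hg hh ⊢
    rw [mul10, hg, hh]; ring
  one_mem' := one10
  inv_mem' := by
    intro g hg
    rw [Set.mem_setOf_eq] at hg ⊢
    rw [inv10, hg, neg_zero]

theorem mem_bor {g : SL₂} : g ∈ Bor F ↔ g 1 0 = 0 := Iff.rfl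

theorem bor_det {g : SL₂} (hg : g ∈ Bor F) : g 0 0 * g 1 1 = 1 := by
  have := det4 g
  rw [mem_bor.mp hg] at this
  simpa using this

/-- the diagonal character of the Borel subgroup -/
def dchar (F : Type*) [Field F] : Bor F →* Fˣ where
  toFun g := ⟨(g : Matrix.SpecialLinearGroup (Fin 2) F) 0 0, (g : Matrix.SpecialLinearGroup (Fin 2) F) 1 1,
    bor_det g.2, by rw [mul_comm]; exact bor_det g.2⟩
  map_one' := by
    apply Units.ext
    exact one00
  map_mul' := by
    intro g h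
    apply Units.ext
    show ((g * h : Bor F) : Matrix.SpecialLinearGroup (Fin 2) F) 0 0 =
      (g : Matrix.SpecialLinearGroup (Fin 2) F) 0 0 * (h : Matrix.SpecialLinearGroup (Fin 2) F) 0 0
    rw [Subgroup.coe_mul, mul00, mem_bor.mp h.2]; ring

theorem dchar_apply (g : Bor F) : ((dchar F g : Fˣ) : F) = (g : SL₂) 0 0 := rfl

/-- unipotent radical -/
def Uni (F : Type*) [Field F] : Subgroup (Matrix.SpecialLinearGroup (Fin 2) F) where
  carrier := {g | g 1 0 = 0 ∧ g 0 0 = 1}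
  mul_mem' := by
    intro g h hg hh
    obtain ⟨hg1, hg2⟩ := hg
    obtain ⟨hh1, hh2⟩ := hh
    refine ⟨?_, ?_⟩
    · rw [mul10, hg1, hh1]; ring
    · rw [mul00, hg2, hh1, hh2]; ring
  one_mem' := ⟨one10, one00⟩
  inv_mem' := by
    intro g hg
    obtain ⟨hg1, hg2⟩ := hg
    refine ⟨by rw [inv10, hg1, neg_zero], ?_⟩
    have := bor_det (F := F) (g := g) hg1
    rw [hg2, one_mul] at this
    rw [inv00, this]

theorem mem_uni {g : SL₂} : g ∈ Uni F ↔ g 1 0 = 0 ∧ g 0 0 = 1 := Iff.rfl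

theorem uni11 {g : SL₂} (hg : g ∈ Uni F) : g 1 1 = 1 := by
  have := bor_det (F := F) (g := g) hg.1
  rwa [hg.2, one_mul] at this

theorem uni_le_bor : Uni F ≤ Bor F := fun g hg => hg.1

theorem uni_comm {g h : SL₂} (hg : g ∈ Uni F) (hh : h ∈ Uni F) : g * h = h * g := by
  apply ext4
  · rw [mul00, mul00, hg.1, hh.1]; ring
  · rw [mul01, mul01, hg.2, hh.2, uni11 hg, uni11 hh]; ring
  · rw [mul10, mul10, hg.1, hh.1]; ring
  · rw [mul11, mul11, hg.1, hh.1]; ring

theorem uni_ne_one {g : SL₂} (hg : g ∈ Uni F) (h1 : g ≠ 1) : g 0 1 ≠ 0 := by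
  intro h
  apply h1
  apply ext4
  · rw [hg.2, one00]
  · rw [h, one01]
  · rw [hg.1, one10]
  · rw [uni11 hg, one11]

/-- `g u g⁻¹ ∈ U` with `1 ≠ u ∈ U` forces `g ∈ B`. -/
theorem mem_bor_of_conj {u g : SL₂} (hu : u ∈ Uni F) (hu1 : u ≠ 1) (h : g * u * g⁻¹ ∈ Uni F) : g ∈ Bor F := by
  have h1 : g * u = (g * u * g⁻¹) * g := by group
  set v := g * u * g⁻¹ with hv
  have e := congrArg (fun x : SL₂ => x 1 1) h1
  rw [mul11, mul11, uni11 hu, h.1, uni11 h] at e
  have h2 : g 1 0 * u 0 1 = 0 := by linear_combination e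
  rcases mul_eq_zero.mp h2 with h3 | h3
  · exact h3
  · exact absurd h3 (uni_ne_one hu hu1)

theorem bor_normalizes {g u : SL₂} (hg : g ∈ Bor F) (hu : u ∈ Uni F) : g * u * g⁻¹ ∈ Uni F := by
  have hd := bor_det hg
  refine ⟨?_, ?_⟩
  · rw [mul10, mul10, mul11, inv10, inv00, hu.1, uni11 hu, mem_bor.mp hg]; ring
  · rw [mul00, mul00, mul01, inv10, inv00, hu.1, hu.2, uni11 hu, mem_bor.mp hg]
    linear_combination hd

theorem conj01 {g u : SL₂} (hg : g ∈ Bor F) (hu : u ∈ Uni F) :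
    (g * u * g⁻¹) 0 1 = g 0 0 * g 0 0 * u 0 1 := by
  rw [mul01, mul00, mul01, inv01, inv11, hu.1, hu.2, uni11 hu]
  ring

section char2

variable [CharP F 2]

theorem eq_one_of_sq {a : F} (h : a * a = 1) : a = 1 := by
  have h5 : (a - 1) * (a - 1) = 0 := by
    have h6 : (2 : F) = 0 := CharTwo.two_eq_zero
    linear_combination h + (1 - a) * h6
  exact sub_eq_zero.mp (mul_self_eq_zero.mp h5)

/-- centralizers of unipotent elements -/
theorem mem_uni_of_comm {u g : SL₂} (hu : u ∈ Uni F) (hu1 : u ≠ 1) (h : g * u = u * g) : g ∈ Uni F := by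
  have hx := uni_ne_one hu hu1
  have hg : g ∈ Bor F := by
    apply mem_bor_of_conj hu hu1
    rw [h]
    simpa using hu
  have e := congrArg (fun x : SL₂ => x 0 1) h
  rw [mul01, mul01, hu.2, uni11 hu] at e
  have h1 : (g 0 0 - g 1 1) * u 0 1 = 0 := by linear_combination e
  have h2 : g 0 0 = g 1 1 := by
    rcases mul_eq_zero.mp h1 with h3 | h3
    · exact sub_eq_zero.mp h3
    · exact absurd h3 hx
  have h3 := bor_det hg
  rw [← h2] at h3
  exact ⟨hg, eq_one_of_sq h3⟩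

theorem uni_sq {u : SL₂} (hu : u ∈ Uni F) : u * u = 1 := by
  have h2 : (2 : F) = 0 := CharTwo.two_eq_zero
  apply ext4
  · rw [mul00, hu.1, hu.2, one00]; ring
  · rw [mul01, hu.2, uni11 hu, one01]; linear_combination (u 0 1) * h2
  · rw [mul10, hu.1, one10]; ring
  · rw [mul11, hu.1, uni11 hu, one11]; ring

/-- involutions of `B` lie in `U` -/
theorem mem_uni_of_sq {g : SL₂} (hg : g ∈ Bor F) (h : g * g = 1) : g ∈ Uni F := by
  have e := congrArg (fun x : SL₂ => x 0 0) h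
  rw [mul00, mem_bor.mp hg, one00] at e
  exact ⟨hg, eq_one_of_sq (by linear_combination e)⟩

theorem scal_one {A : SL₂} (h : A 0 0 - A 1 1 = 0 ∧ A 0 1 = 0 ∧ A 1 0 = 0) : A = 1 := by
  obtain ⟨h1, h2, h3⟩ := h
  have hdet := det4 A
  have h4 : A 0 0 = 1 := eq_one_of_sq (by
    rw [h2, ← sub_eq_zero.mp h1] at hdet
    linear_combination hdet)
  apply ext4
  · rw [h4, one00]
  · rw [h2, one01]
  · rw [h3, one10]
  · rw [← sub_eq_zero.mp h1, h4, one11]

/-- commuting is transitive -/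
theorem ct {a b c : SL₂} (hb : b ≠ 1) (hab : a * b = b * a) (hbc : b * c = c * b) : a * c = c * a := by
  have hB2 : b 0 0 - b 1 1 ≠ 0 ∨ b 0 1 ≠ 0 ∨ b 1 0 ≠ 0 := by
    by_contra hcon
    push Not at hcon
    exact hb (scal_one hcon)
  have h3 : (a : Matrix (Fin 2) (Fin 2) F) * c = c * a := by
    apply H9.CT.commute_of_commute hB2
    · have := congrArg (fun X : SL₂ => (X : Matrix (Fin 2) (Fin 2) F)) hab
      simpa using this
    · have := congrArg (fun X : SL₂ => (X : Matrix (Fin 2) (Fin 2) F)) hbc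
      simpa using this.symm
  apply Subtype.ext
  simpa using h3

/-- commuting conjugates of a non-involution are equal or inverse -/
theorem conj_eq {a b g : SL₂} (ha : a * a ≠ 1) (hg : g * a * g⁻¹ = b) (hab : a * b = b * a) :
    b = a ∨ b = a⁻¹ := by
  have h2 : (2 : F) = 0 := CharTwo.two_eq_zero
  have ha1 : ¬ H16.IsScal (a : Matrix (Fin 2) (Fin 2) F) := by
    rintro ⟨h1, h3, h4⟩
    apply ha
    have : a = 1 := scal_one ⟨by
      have h5 : a 0 0 = a 1 1 := h4
      rw [h5, sub_self], h1, h3⟩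
    rw [this, one_mul]
  have hab' : (a : Matrix (Fin 2) (Fin 2) F) * b = b * a := by
    have := congrArg (fun X : SL₂ => (X : Matrix (Fin 2) (Fin 2) F)) hab
    simpa using this
  obtain ⟨x, y, hxy⟩ := H16.commute_nonscalar ha1 hab'
  have b00 : b 0 0 = x + y * a 0 0 := by
    have := congrFun (congrFun hxy 0) 0
    simpa using this
  have b01 : b 0 1 = y * a 0 1 := by
    have := congrFun (congrFun hxy 0) 1
    simpa using this
  have b10 : b 1 0 = y * a 1 0 := by
    have := congrFun (congrFun hxy 1) 0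
    simpa using this
  have b11 : b 1 1 = x + y * a 1 1 := by
    have := congrFun (congrFun hxy 1) 1
    simpa using this
  have htr : b 0 0 + b 1 1 = a 0 0 + a 1 1 := by
    have hd := det4 g
    rw [← hg, mul00, mul11, mul00, mul01, mul10, mul11, inv00, inv01, inv10, inv11]
    linear_combination (a 0 0 + a 1 1) * hd
  have hda := det4 a
  have hdb := det4 b
  have ht : a 0 0 + a 1 1 ≠ 0 := by
    intro ht
    apply ha
    apply ext4
    · rw [mul00, one00]; linear_combination (a 0 0) * ht - hda - h2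
    · rw [mul01, one01]; linear_combination (a 0 1) * ht
    · rw [mul10, one10]; linear_combination (a 1 0) * ht
    · rw [mul11, one11]; linear_combination (a 1 1) * ht - hda - h2
  have hy : y = 1 := by
    have h5 : (y - 1) * (a 0 0 + a 1 1) = 0 := by
      rw [b00, b11] at htr
      linear_combination htr - x * h2
    rcases mul_eq_zero.mp h5 with h6 | h6
    · exact sub_eq_zero.mp h6
    · exact absurd h6 ht
  subst hy
  rw [b00, b01, b10, b11] at hdb
  have hx : x * (x + (a 0 0 + a 1 1)) = 0 := by linear_combination hdb - hda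
  rcases mul_eq_zero.mp hx with hx | hx
  · left
    apply ext4
    · rw [b00, hx]; ring
    · rw [b01]; ring
    · rw [b10]; ring
    · rw [b11, hx]; ring
  · right
    apply ext4
    · rw [b00, inv00]; linear_combination hx - (a 1 1) * h2
    · rw [b01, inv01]; linear_combination (a 0 1) * h2
    · rw [b10, inv10]; linear_combination (a 1 0) * h2
    · rw [b11, inv11]; linear_combination hx - (a 0 0) * h2

end char2

/-- the Borel subgroup with one more element generates everything -/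
theorem eq_top_of_bor_lt {H : Subgroup (Matrix.SpecialLinearGroup (Fin 2) F)} (hB : Bor F ≤ H) {g : SL₂}
    (hg : g ∈ H) (hgB : g ∉ Bor F) : H = ⊤ := by
  -- w = [0,-1;1,0]
  have key : ∀ k : SL₂, k 1 0 ≠ 0 → ∃ b₁ ∈ Bor F, ∃ b₂ ∈ Bor F,
      k = b₁ * mk4 0 (-1) 1 0 (by ring) * b₂ := by
    intro k hk
    refine ⟨mk4 1 (k 0 0 * (k 1 0)⁻¹) 0 1 (by ring), rfl, mk4 (k 1 0) (k 1 1) 0 (k 1 0)⁻¹ (by
      rw [mul_inv_cancel₀ hk]; ring), rfl, ?_⟩
    have hd := det4 k
    apply ext4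
    · rw [mul00, mul00, mul01, mk00, mk01, mk00, mk10, mk00, mk10, mk01, mk11]
      field_simp
      ring
    · rw [mul01, mul00, mul01, mk00, mk01, mk00, mk10, mk01, mk11, mk01, mk11]
      field_simp
      linear_combination (-(k 1 0)) * hd
    · rw [mul10, mul10, mul11, mk10, mk11, mk00, mk10, mk00, mk10, mk01, mk11]
      ring
    · rw [mul11, mul10, mul11, mk10, mk11, mk00, mk10, mk01, mk11, mk01, mk11]
      ring
  have hw : (mk4 0 (-1) 1 0 (by ring) : SL₂) ∈ H := by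
    obtain ⟨b₁, hb₁, b₂, hb₂, he⟩ := key g hgB
    have h1 : (mk4 0 (-1) 1 0 (by ring) : SL₂) = b₁⁻¹ * g * b₂⁻¹ := by rw [he]; group
    rw [h1]
    exact mul_mem (mul_mem (inv_mem (hB hb₁)) hg) (inv_mem (hB hb₂))
  rw [eq_top_iff]
  intro k _
  by_cases hk : k 1 0 = 0
  · exact hB hk
  · obtain ⟨b₁, hb₁, b₂, hb₂, he⟩ := key k hk
    rw [he]
    exact mul_mem (mul_mem (hB hb₁) hw) (hB hb₂)

end Cfsg.Agent.H24.SLTwo
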