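import Mathlib
import Cfsg.Agent.H24.SNGrp

set_option autoImplicit false
set_option linter.all false

/-! # H24/SNGrp2: local analysis of simple groups whose nonabelian subgroups are self-normalizing -/

namespace Cfsg.Agent.H24

open Subgroup
open scoped Pointwise commutatorElement

open scoped IsMulCommutative in
theorem eq_one_of_transfer {S : Type*} [Group S] [Finite S] {p : ℕ} [hp : Fact p.Prime] (P : Sylow p S)
    [hPc : IsMulCommutative P] (hperf : _root_.commutator S = ⊤) {z : S} (hz : z ∈ (P : Subgroup S))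
    (hN : normalizer ((P : Subgroup S) : Set S) ≤ centralizer ({z} : Set S)) : z = 1 := by
  have key : ∀ (k : ℕ) (g₀ : S), g₀⁻¹ * z ^ k * g₀ ∈ (P : Subgroup S) → g₀⁻¹ * z ^ k * g₀ = z ^ k := by
    intro k g₀ hk
    obtain ⟨n, hn, he⟩ := Sylow.conj_eq_normalizer_conj_of_mem P (z ^ k) g₀ (pow_mem hz k) hk
    rw [he]
    have h1 : n * z = z * n := mem_centralizer_singleton_iff.mp (hN hn)
    have h2 : n * z ^ k = z ^ k * n := (Commute.pow_right (show Commute n z from h1) k).eq
    calc n⁻¹ * z ^ k * n = n⁻¹ * (z ^ k * n) := by group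
      _ = n⁻¹ * (n * z ^ k) := by rw [h2]
      _ = z ^ k := by group
  have h1 := MonoidHom.transfer_eq_pow (MonoidHom.id (P : Subgroup S)) z key
  have h2 : MonoidHom.transfer (MonoidHom.id (P : Subgroup S)) z = 1 := by
    have h3 := Abelianization.commutator_subset_ker (MonoidHom.transfer (MonoidHom.id (P : Subgroup S)))
    rw [hperf] at h3
    exact h3 (Subgroup.mem_top z)
  rw [h2] at h1
  have h3 : z ^ (P : Subgroup S).index = 1 := by
    have := congrArg Subtype.val h1
    simpa using this.symm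
  have h4 : orderOf z ∣ (P : Subgroup S).index := orderOf_dvd_of_pow_eq_one h3
  obtain ⟨n, hn⟩ := IsPGroup.iff_orderOf.mp P.2 ⟨z, hz⟩
  have hn' : orderOf z = p ^ n := by rw [← hn, ← Subgroup.orderOf_coe]
  rcases Nat.eq_zero_or_pos n with h0 | h0
  · rw [h0, pow_zero] at hn'
    exact orderOf_eq_one_iff.mp hn'
  · exfalso
    apply P.not_dvd_index
    refine dvd_trans ?_ h4
    rw [hn']
    exact dvd_pow_self p h0.ne'

theorem perfect_of_simple {S : Type*} [Group S] [IsSimpleGroup S] (hna : ¬ IsMulCommutative S) :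
    _root_.commutator S = ⊤ := by
  rcases (inferInstance : (_root_.commutator S).Normal).eq_bot_or_eq_top with h | h
  · exfalso
    apply hna
    refine ⟨⟨fun a b => ?_⟩⟩
    have h1 : ⁅a, b⁆ ∈ _root_.commutator S := Subgroup.commutator_mem_commutator (mem_top a) (mem_top b)
    rw [h, mem_bot] at h1
    exact commutatorElement_eq_one_iff_mul_comm.mp h1
  · exact h

theorem not_complement_of_simple {S : Type*} [Group S] [Finite S] [IsSimpleGroup S]
    (hna : ¬ IsMulCommutative S) {p : ℕ} [hp : Fact p.Prime] (hpS : p ∣ Nat.card S) :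
    ¬ Cfsg.HasNormalPComplement p S := by
  intro h
  obtain ⟨N, hN, hpN, k, hk⟩ := H2.hasNormalPComplement_iff.1 h
  rcases hN.eq_bot_or_eq_top with h1 | h1
  · rw [h1, Subgroup.index_bot] at hk
    have hp' : IsPGroup p S := IsPGroup.of_card hk
    haveI : Group.IsNilpotent S := hp'.isNilpotent
    have hs : Group.IsSolvable S := inferInstance
    exact hna ⟨⟨fun a b => IsSimpleGroup.comm_iff_isSolvable.mpr hs a b⟩⟩
  · rw [h1, Subgroup.card_top] at hpN
    exact hpN hpS

/-- subgroups with a nontrivial abelian normal subgroup are solvable -/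
def Loc (S : Type*) [Group S] : Prop :=
  ∀ Y : Subgroup S, (∃ U : Subgroup Y, U.Normal ∧ U ≠ ⊥ ∧ IsMulCommutative U) → Group.IsSolvable Y

theorem Loc.normalizer {S : Type*} [Group S] [Finite S] (h : Loc S) {p : ℕ} [Fact p.Prime] {U : Subgroup S}
    (hU : IsPGroup p U) (hne : U ≠ ⊥) : Group.IsSolvable (Subgroup.normalizer (U : Set S)) := by
  apply h
  let Y := Subgroup.normalizer (U : Set S)
  let V : Subgroup Y := U.subgroupOf Y
  haveI hVn : V.Normal := by
    constructor
    intro n hn g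
    rw [mem_subgroupOf] at hn ⊢
    exact (mem_normalizer_iff.mp g.2 n).mp hn
  have hVp : IsPGroup p V := hU.comap_subtype
  haveI hVnt : Nontrivial V := by
    obtain ⟨u, hu⟩ := Subgroup.ne_bot_iff_exists_ne_one.mp hne
    refine ⟨⟨⟨⟨u, le_normalizer u.2⟩, u.2⟩, 1, ?_⟩⟩
    intro h1
    apply hu
    have := congrArg (fun x : V => ((x : Y) : S)) h1
    exact Subtype.ext (by simpa using this)
  haveI := hVp.center_nontrivial
  refine ⟨(center V).map V.subtype, inferInstance, ?_, ?_⟩
  · intro h1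
    have h2 := (Subgroup.map_eq_bot_iff_of_injective _ V.subtype_injective).mp h1
    have h3 := (Subgroup.nontrivial_iff_ne_bot (center V)).mp inferInstance
    exact h3 h2
  · rw [isMulComm_map_iff _ V.subtype_injective]
    infer_instance

theorem Loc.sub_normalizer {S : Type*} [Group S] [Finite S] (h : Loc S) {p : ℕ} [Fact p.Prime] {U Y : Subgroup S}
    (hU : IsPGroup p U) (hne : U ≠ ⊥) (hY : Y ≤ Subgroup.normalizer (U : Set S)) : Group.IsSolvable Y := by
  haveI := h.normalizer hU hne
  exact Group.isSolvable_of_isSolvable_injective (f := Subgroup.inclusion hY) (Subgroup.inclusion_injective hY)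

/-- the basic step: a `p`-local subgroup with a `p'`-element acting nontrivially. -/
theorem local_step {S : Type*} [Group S] [Finite S] (hSN : SN S) (hL : Loc S) {p : ℕ} [hp : Fact p.Prime]
    {U : Subgroup S} (hU : IsPGroup p U) {y : S} (hy : y ∈ normalizer (U : Set S))
    (hyc : (orderOf y).Coprime p) (hyn : y ∉ centralizer (U : Set S)) :
    ∃ A : Subgroup S, A < normalizer (U : Set S) ∧ normalizer (U : Set S) ≤ normalizer (A : Set S) ∧
      (∀ a ∈ A, ∀ b ∈ A, a * b = b * a) ∧ (A.relIndex (normalizer (U : Set S))).Prime ∧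
      A.relIndex (normalizer (U : Set S)) ≠ p ∧ U ≤ A ∧
      (∀ x ∈ normalizer (U : Set S), (∃ k : ℕ, orderOf x = p ^ k) → x ∈ A) := by
  have hne : U ≠ ⊥ := by
    rintro rfl
    apply hyn
    rw [mem_centralizer_iff]
    intro t ht
    rw [SetLike.mem_coe, mem_bot] at ht
    rw [ht]; simp
  have hsol := hL.normalizer hU hne
  have hNne : normalizer (U : Set S) ≠ ⊥ := fun h => hne (le_bot_iff.mp (h ▸ le_normalizer))
  obtain ⟨A, hAK, hn, hr⟩ := exists_rel_index_prime (normalizer (U : Set S)) hsol hNne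
  have hAc := hSN.normal_rel A _ hAK hn
  have hrp : A.relIndex (normalizer (U : Set S)) ≠ p := by
    intro h
    apply hyn
    have hyA : y ∈ A := mem_of_coprime_relIndex hn hy (by rw [h]; exact hyc)
    exact comm_of_mem hAc hU (le_normalizer.trans hn) hyA hy hyc
  have hmem : ∀ x ∈ normalizer (U : Set S), (∃ k : ℕ, orderOf x = p ^ k) → x ∈ A := by
    rintro x hx ⟨k, hk⟩
    apply mem_of_coprime_relIndex hn hx
    rw [hk]
    exact Nat.Coprime.pow_left k ((Nat.coprime_primes hp.out hr).mpr hrp.symm)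
  refine ⟨A, hAK, hn, hAc, hr, hrp, ?_, hmem⟩
  intro u hu
  obtain ⟨n, hn'⟩ := IsPGroup.iff_orderOf.mp hU ⟨u, hu⟩
  exact hmem u (le_normalizer hu) ⟨n, by rw [← hn', ← Subgroup.orderOf_coe]⟩

/-- elements of `p`-power order commuting with a Sylow `p`-subgroup lie in it. -/
theorem mem_sylow_of_comm {S : Type*} [Group S] [Finite S] {p : ℕ} [hp : Fact p.Prime] (P : Sylow p S)
    {x : S} (hx : ∃ k : ℕ, orderOf x = p ^ k) (hc : ∀ t ∈ (P : Subgroup S), t * x = x * t) :
    x ∈ (P : Subgroup S) := by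
  have h1 : IsPGroup p (zpowers x) := by
    obtain ⟨k, hk⟩ := hx
    exact IsPGroup.of_card (by rw [Nat.card_zpowers, hk])
  have h2 : (P : Subgroup S) ≤ normalizer (zpowers x : Set S) := by
    refine le_trans ?_ (Subgroup.centralizer_le_normalizer _)
    intro t ht
    rw [mem_centralizer_iff]
    rintro _ ⟨k, rfl⟩
    exact (Commute.zpow_right (show Commute t x from hc t ht) k).eq.symm
  have h3 : IsPGroup p ((P : Subgroup S) ⊔ zpowers x : Subgroup S) := P.2.to_sup_of_normal_right' h1 h2
  have h4 := P.3 h3 le_sup_left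
  rw [← h4]
  exact mem_sup_right (mem_zpowers x)

theorem exists_good_sylow {S : Type*} [Group S] [Finite S] [IsSimpleGroup S] (hna : ¬ IsMulCommutative S)
    (hSN : SN S) (hL : Loc S) {p : ℕ} [hp : Fact p.Prime] (hpS : p ∣ Nat.card S) :
    ∃ (P : Sylow p S) (y : S), IsMulCommutative P ∧ y ∈ normalizer ((P : Subgroup S) : Set S) ∧
      (orderOf y).Coprime p ∧ y ∉ centralizer ((P : Subgroup S) : Set S) ∧
      (∀ a ∈ centralizer ((P : Subgroup S) : Set S), ∀ b ∈ centralizer ((P : Subgroup S) : Set S),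
        a * b = b * a) ∧
      ((centralizer ((P : Subgroup S) : Set S)).relIndex (normalizer ((P : Subgroup S) : Set S))).Prime ∧
      (centralizer ((P : Subgroup S) : Set S)).relIndex (normalizer ((P : Subgroup S) : Set S)) ≠ p := by
  obtain ⟨U, hU, y, hyN, hyc, hyn⟩ : ∃ U : Subgroup S, IsPGroup p U ∧ ∃ y ∈ normalizer (U : Set S),
      (orderOf y).Coprime p ∧ y ∉ centralizer (U : Set S) := by
    by_contra hcon
    push Not at hcon
    exact not_complement_of_simple hna hpS (H2.hasNormalPComplement_of_centralizer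
      (fun X hX g hg hgc => hcon X hX g hg hgc))
  obtain ⟨A, hAK, hn, hAc, hr, hrp, hUA, hmem⟩ := local_step hSN hL hU hyN hyc hyn
  -- a Sylow subgroup of N(U)
  let T : Sylow p (normalizer (U : Set S)) := default
  let T' : Subgroup S := (T : Subgroup (normalizer (U : Set S))).map (normalizer (U : Set S)).subtype
  have hT'p : IsPGroup p T' := T.2.map _
  have hT'N : T' ≤ normalizer (U : Set S) := by
    rintro _ ⟨x, -, rfl⟩; exact x.2
  have hpel : ∀ {V : Subgroup S}, IsPGroup p V → ∀ x ∈ V, ∃ k : ℕ, orderOf x = p ^ k := by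
    intro V hV x hx
    obtain ⟨n, hn'⟩ := IsPGroup.iff_orderOf.mp hV ⟨x, hx⟩
    exact ⟨n, by rw [← hn', ← Subgroup.orderOf_coe]⟩
  have hT'A : T' ≤ A := fun x hx => hmem x (hT'N hx) (hpel hT'p x hx)
  have hTall : ∀ x ∈ normalizer (U : Set S), (∃ k : ℕ, orderOf x = p ^ k) → x ∈ T' := by
    intro x hx hk
    have hxA := hmem x hx hk
    have h1 : (⟨x, hx⟩ : normalizer (U : Set S)) ∈ (T : Subgroup (normalizer (U : Set S))) := by
      apply mem_sylow_of_comm T
      · obtain ⟨k, hk⟩ := hk
        exact ⟨k, by rw [← hk, ← Subgroup.orderOf_coe]⟩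
      · intro t ht
        apply Subtype.ext
        exact hAc t (hT'A ⟨t, ht, rfl⟩) x hxA
    exact ⟨_, h1, rfl⟩
  have hUT : U ≤ T' := fun u hu => hTall u (le_normalizer hu) (hpel hU u hu)
  have hNN : normalizer (U : Set S) ≤ normalizer (T' : Set S) := by
    intro n hn'
    have key : ∀ n ∈ normalizer (U : Set S), ∀ t ∈ T', n * t * n⁻¹ ∈ T' := by
      intro n hn' t ht
      apply hTall
      · exact mul_mem (mul_mem hn' (hT'N ht)) (inv_mem hn')
      · obtain ⟨k, hk⟩ := hpel hT'p t ht
        refine ⟨k, ?_⟩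
        rw [← hk]
        exact orderOf_injective (MulAut.conj n).toMonoidHom (MulAut.conj n).injective t
    rw [mem_normalizer_iff]
    intro t
    refine ⟨key n hn' t, fun h => ?_⟩
    have := key n⁻¹ (inv_mem hn') _ h
    have e : n⁻¹ * (n * t * n⁻¹) * n⁻¹⁻¹ = t := by group
    rwa [e] at this
  have hyT : y ∉ centralizer (T' : Set S) := fun h => hyn (centralizer_le hUT h)
  obtain ⟨A₁, hA₁K, hn₁, hA₁c, hr₁, hrp₁, hTA₁, hmem₁⟩ := local_step hSN hL hT'p (hNN hyN) hyc hyT
  -- T' is Sylow in S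
  obtain ⟨P, hTP⟩ := hT'p.exists_le_sylow
  have hPT : T' = (P : Subgroup S) := by
    by_contra hne
    have hlt : T' < (P : Subgroup S) := lt_of_le_of_ne hTP hne
    have hnil : Group.IsNilpotent (P : Subgroup S) := P.2.isNilpotent
    have h1 := H1.lt_normalizer_inf_of_nilpotent hnil hlt
    obtain ⟨x, hx, hxT⟩ := SetLike.exists_of_lt h1
    apply hxT
    have hxP : x ∈ (P : Subgroup S) := by
      first
        | exact hx.1
        | exact hx.2
    have hxN : x ∈ normalizer (T' : Set S) := by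
      first
        | exact hx.2
        | exact hx.1
    have hxA : x ∈ A₁ := hmem₁ x hxN (hpel P.2 x hxP)
    apply hTall x _ (hpel P.2 x hxP)
    refine Subgroup.centralizer_le_normalizer _ ?_
    rw [mem_centralizer_iff]
    intro u hu
    exact hA₁c u (hTA₁ (hUT hu)) x hxA
  rw [hPT] at hA₁K hn₁ hr₁ hrp₁ hTA₁ hmem₁ hyT hNN hT'p
  refine ⟨P, y, ?_, hNN hyN, hyc, hyT, ?_⟩
  · rw [isMulComm_iff]
    intro a ha b hb
    exact hA₁c a (hTA₁ ha) b (hTA₁ hb)
  -- centralizer = A₁
  have hAC : A₁ ≤ centralizer ((P : Subgroup S) : Set S) := by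
    intro a ha
    rw [mem_centralizer_iff]
    intro t ht
    exact hA₁c t (hTA₁ ht) a ha
  have hCN : centralizer ((P : Subgroup S) : Set S) ≤ normalizer ((P : Subgroup S) : Set S) :=
    Subgroup.centralizer_le_normalizer _
  have hCeq : centralizer ((P : Subgroup S) : Set S) = A₁ := by
    have h1 := Subgroup.relIndex_mul_relIndex A₁ _ _ hAC hCN
    rw [← h1] at hr₁
    rcases Nat.prime_mul_iff.mp hr₁ with ⟨h2, h3⟩ | ⟨h2, h3⟩
    · exfalso
      rw [Subgroup.relIndex_eq_one] at h3
      exact hyT (h3 (hNN hyN))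
    · rw [Subgroup.relIndex_eq_one] at h3
      exact le_antisymm h3 hAC
  rw [hCeq]
  exact ⟨hA₁c, hr₁, hrp₁⟩

end Cfsg.Agent.H24
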