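import Mathlib
import Cfsg.Agent.H24.SLTwoA
import Cfsg.Agent.H24.SNGrp2
import Cfsg.Agent.H24.FTUse
import Cfsg.Agent.H1.Coprime

set_option autoImplicit false
set_option linter.all false

/-! # H24/SLTwoB: `SL(2,2^n)`, `2^n - 1` prime: nonabelian subgroups are self-normalizing -/

namespace Cfsg.Agent.H24.SLTwo

open Subgroup Matrix
open scoped commutatorElement

variable {F : Type*} [Field F]

local notation "SL₂" => Matrix.SpecialLinearGroup (Fin 2) F

/-- a solvable subgroup `≠ 1` has a nontrivial abelian subgroup normalized by `N(H)`. -/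
theorem exists_comm_char {G : Type*} [Group G] (H : Subgroup G) (hs : Group.IsSolvable H) (hne : H ≠ ⊥) :
    ∃ W : Subgroup G, W ≤ H ∧ W ≠ ⊥ ∧ (∀ a ∈ W, ∀ b ∈ W, a * b = b * a) ∧
      normalizer (H : Set G) ≤ normalizer (W : Set G) := by
  let D : ℕ → Subgroup G := fun k => (derivedSeries H k).map H.subtype
  have hD0 : D 0 = H := by
    show (derivedSeries H 0).map H.subtype = H
    rw [derivedSeries_zero, ← MonoidHom.range_eq_map, Subgroup.range_subtype]
  have hDs : ∀ k, D (k + 1) = ⁅D k, D k⁆ := by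
    intro k
    show (derivedSeries H (k + 1)).map H.subtype = _
    rw [derivedSeries_succ, Subgroup.map_commutator]
  have hDn : ∀ k, normalizer (H : Set G) ≤ normalizer (D k : Set G) := by
    intro k
    induction k with
    | zero => rw [hD0]
    | succ k ih =>
      rw [hDs]
      intro g hg
      have h1 := H1.mem_normalizer_iff_conj_smul.mp (ih hg)
      rw [H1.mem_normalizer_iff_conj_smul, H1.conj_smul_commutator, h1]
  have hDle : ∀ k, D k ≤ H := by
    intro k
    rintro _ ⟨x, -, rfl⟩; exact x.2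
  obtain ⟨n, hn⟩ := hs.solvable
  have hex : ∃ k, D k = ⊥ := ⟨n, by show (derivedSeries H n).map H.subtype = ⊥; rw [hn, Subgroup.map_bot]⟩
  classical
  have hmin := Nat.find_spec hex
  have hm0 : Nat.find hex ≠ 0 := by
    intro h
    rw [h, hD0] at hmin
    exact hne hmin
  obtain ⟨m, hm⟩ := Nat.exists_eq_succ_of_ne_zero hm0
  rw [hm, Nat.succ_eq_add_one, hDs] at hmin
  refine ⟨D m, hDle m, ?_, ?_, hDn m⟩
  · exact Nat.find_min hex (by rw [hm]; exact Nat.lt_succ_self m)
  · intro a ha b hb
    have h1 : ⁅a, b⁆ ∈ ⁅D m, D m⁆ := Subgroup.commutator_mem_commutator ha hb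
    rw [hmin, mem_bot] at h1
    exact commutatorElement_eq_one_iff_mul_comm.mp h1

section char2

variable [CharP F 2]

/-- involutions are conjugate into `U`. -/
theorem exists_conj_uni {t : SL₂} (ht : t * t = 1) : ∃ c : SL₂, c * t * c⁻¹ ∈ Uni F := by
  have h2 : (2 : F) = 0 := CharTwo.two_eq_zero
  by_cases hc : t 1 0 = 0
  · exact ⟨1, by simpa using mem_uni_of_sq hc ht⟩
  · have e00 := congrArg (fun x : SL₂ => x 0 0) ht
    have e10 := congrArg (fun x : SL₂ => x 1 0) ht
    rw [mul00, one00] at e00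
    rw [mul10, one10] at e10
    have hd := det4 t
    have htr : t 0 0 + t 1 1 = 0 := by
      have : t 1 0 * (t 0 0 + t 1 1) = 0 := by linear_combination e10
      rcases mul_eq_zero.mp this with h | h
      · exact absurd h hc
      · exact h
    let g : SL₂ := mk4 0 (t 1 0)⁻¹ (-(t 1 0)) (t 0 0 + 1) (by
      have := mul_inv_cancel₀ hc
      linear_combination this)
    refine ⟨g, ?_⟩
    apply mem_uni_of_sq
    · rw [mem_bor]
      have g10 : g 1 0 = -(t 1 0) := rfl
      have g11 : g 1 1 = t 0 0 + 1 := rfl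
      have g00 : g 0 0 = 0 := rfl
      rw [mul10, mul10, mul11, inv00, inv10, g10, g11]
      linear_combination (t 1 0) * (t 0 0 + 1) * htr - (t 1 0) * e00
    · have : g * t * g⁻¹ * (g * t * g⁻¹) = g * (t * t) * g⁻¹ := by group
      rw [this, ht]; group

/-- powers of a Borel element -/
theorem zpow00 (h : Bor F) (k : ℤ) : ((h ^ k : Bor F) : SL₂) 0 0 = (((dchar F h) ^ k : Fˣ) : F) := by
  rw [← map_zpow]; rfl

theorem bor_le [Fintype F] (hr : (Fintype.card F - 1).Prime) {H : Subgroup (Matrix.SpecialLinearGroup (Fin 2) F)}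
    {t h : SL₂} (ht : t ∈ Uni F) (ht1 : t ≠ 1) (htH : t ∈ H) (hh : h ∈ Bor F) (hhU : h ∉ Uni F) (hhH : h ∈ H) :
    Uni F ≤ H ∧ Bor F ≤ H := by
  classical
  set a : Fˣ := dchar F ⟨h, hh⟩ with ha
  have hcard : Nat.card Fˣ = Fintype.card F - 1 := by
    rw [Nat.card_eq_fintype_card, Fintype.card_units]
  haveI : Fact (Nat.card Fˣ).Prime := ⟨by rw [hcard]; exact hr⟩
  have ha1 : a ≠ 1 := by
    intro h1
    apply hhU
    refine ⟨hh, ?_⟩
    have := congrArg (fun x : Fˣ => (x : F)) h1
    simpa [ha, dchar_apply] using this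
  have ha2 : a * a ≠ 1 := by
    intro h1
    apply ha1
    apply Units.ext
    apply eq_one_of_sq
    have := congrArg (fun x : Fˣ => (x : F)) h1
    simpa using this
  have hgen : ∀ b : Fˣ, b ≠ 1 → ∀ c : Fˣ, c ∈ zpowers b := fun b hb c => mem_zpowers_of_prime_card rfl hb
  have hU : Uni F ≤ H := by
    intro u hu
    by_cases hu1 : u = 1
    · rw [hu1]; exact one_mem _
    have hy := uni_ne_one hu hu1
    have hx := uni_ne_one ht ht1
    obtain ⟨k, hk⟩ := hgen (a * a) ha2 (Units.mk0 (u 0 1) hy * (Units.mk0 (t 0 1) hx)⁻¹)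
    have hk' : ((a ^ k : Fˣ) : F) * ((a ^ k : Fˣ) : F) * t 0 1 = u 0 1 := by
      have h1 := congrArg (fun x : Fˣ => (x : F)) hk
      simp only [mul_zpow, Units.val_mul, Units.val_mk0, Units.val_inv_eq_inv_val] at h1
      rw [h1]
      field_simp
    have h2 : u = (((⟨h, hh⟩ : Bor F) ^ k : Bor F) : SL₂) * t * (((⟨h, hh⟩ : Bor F) ^ k : Bor F) : SL₂)⁻¹ := by
      have h3 := bor_normalizes ((⟨h, hh⟩ : Bor F) ^ k : Bor F).2 ht
      apply ext4
      · rw [hu.2, h3.2]
      · rw [conj01 ((⟨h, hh⟩ : Bor F) ^ k : Bor F).2 ht, zpow00, ← ha, hk']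
      · rw [hu.1, h3.1]
      · rw [uni11 hu, uni11 h3]
    rw [h2, Subgroup.coe_zpow]
    exact mul_mem (mul_mem (zpow_mem hhH k) htH) (inv_mem (zpow_mem hhH k))
  refine ⟨hU, ?_⟩
  intro g hg
  obtain ⟨k, hk⟩ := hgen a ha1 (dchar F ⟨g, hg⟩)
  have h1 : (((⟨h, hh⟩ : Bor F) ^ k)⁻¹ * ⟨g, hg⟩ : Bor F) ∈ (dchar F).ker := by
    rw [MonoidHom.mem_ker, map_mul, map_inv, map_zpow, ← ha]
    have : a ^ k = dchar F ⟨g, hg⟩ := hk
    rw [this, inv_mul_cancel]
  have h2 : h ^ (-k) * g ∈ Uni F := by
    have h3 : ((((⟨h, hh⟩ : Bor F) ^ k)⁻¹ * ⟨g, hg⟩ : Bor F) : SL₂) = h ^ (-k) * g := by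
      rw [Subgroup.coe_mul, Subgroup.coe_inv, Subgroup.coe_zpow, _root_.zpow_neg]
    refine ⟨mul_mem (zpow_mem hh _) hg, ?_⟩
    have h4 : ((dchar F (((⟨h, hh⟩ : Bor F) ^ k)⁻¹ * ⟨g, hg⟩ : Bor F) : Fˣ) : F) = ((1 : Fˣ) : F) :=
      congrArg (fun x : Fˣ => (x : F)) (MonoidHom.mem_ker.mp h1)
    rw [← h3]
    exact h4
  have h5 : g = h ^ k * (h ^ (-k) * g) := by group
  rw [h5]
  exact mul_mem (zpow_mem hhH k) (hU h2)

theorem exists_uni : ∃ u : SL₂, u ∈ Uni F ∧ u ≠ 1 := by
  refine ⟨mk4 1 1 0 1 (by ring), ⟨rfl, rfl⟩, ?_⟩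
  intro h
  have := congrArg (fun x : SL₂ => x 0 1) h
  rw [one01] at this
  exact one_ne_zero this

theorem normalizer_bor : normalizer (Bor F : Set SL₂) = Bor F := by
  apply le_antisymm _ le_normalizer
  intro g hg
  obtain ⟨u, hu, hu1⟩ := exists_uni (F := F)
  apply mem_bor_of_conj hu hu1
  apply mem_uni_of_sq
  · exact (mem_normalizer_iff.mp hg u).mp (uni_le_bor hu)
  · have : g * u * g⁻¹ * (g * u * g⁻¹) = g * (u * u) * g⁻¹ := by group
    rw [this, uni_sq hu]; group

/-- the key case: an involution with a commuting but different conjugate -/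
theorem key_case [Fintype F] (hr : (Fintype.card F - 1).Prime) {H : Subgroup (Matrix.SpecialLinearGroup (Fin 2) F)}
    {t h : SL₂} (ht : t * t = 1) (htH : t ∈ H) (hhH : h ∈ H) (hc : (h * t * h⁻¹) * t = t * (h * t * h⁻¹))
    (hne : h * t ≠ t * h) : normalizer (H : Set SL₂) = H := by
  have ht1 : t ≠ 1 := by
    rintro rfl
    apply hne; simp
  obtain ⟨c, hcU⟩ := exists_conj_uni ht
  -- pass to the conjugate
  set H' : Subgroup (Matrix.SpecialLinearGroup (Fin 2) F) := H.map (MulAut.conj c).toMonoidHom with hH'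
  have hmem : ∀ x : SL₂, c * x * c⁻¹ ∈ H' ↔ x ∈ H := by
    intro x
    constructor
    · rintro ⟨y, hy, hyx⟩
      have : y = x := (MulAut.conj c).injective hyx
      rwa [← this]
    · intro hx
      exact ⟨x, hx, rfl⟩
  set t' := c * t * c⁻¹ with ht'
  set h' := c * h * c⁻¹ with hh'
  have ht'1 : t' ≠ 1 := by
    intro h1
    apply ht1
    have : t = c⁻¹ * t' * c := by rw [ht']; group
    rw [this, h1]; group
  have hconj : h' * t' * h'⁻¹ = c * (h * t * h⁻¹) * c⁻¹ := by rw [hh', ht']; group
  have hcomm : (h' * t' * h'⁻¹) * t' = t' * (h' * t' * h'⁻¹) := by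
    rw [hconj, ht']
    calc c * (h * t * h⁻¹) * c⁻¹ * (c * t * c⁻¹) = c * ((h * t * h⁻¹) * t) * c⁻¹ := by group
      _ = c * (t * (h * t * h⁻¹)) * c⁻¹ := by rw [hc]
      _ = _ := by group
  have h1 : h' * t' * h'⁻¹ ∈ Uni F := mem_uni_of_comm hcU ht'1 hcomm
  have hB : h' ∈ Bor F := mem_bor_of_conj hcU ht'1 h1
  have hhU : h' ∉ Uni F := by
    intro h2
    apply hne
    have h3 := uni_comm h2 hcU
    have h4 : c * (h * t) * c⁻¹ = c * (t * h) * c⁻¹ := by
      calc c * (h * t) * c⁻¹ = h' * t' := by rw [hh', ht']; group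
        _ = t' * h' := h3
        _ = _ := by rw [hh', ht']; group
    exact mul_left_cancel (mul_right_cancel h4)
  obtain ⟨hUH, hBH⟩ := bor_le hr hcU ht'1 ((hmem t).mpr htH) hB hhU ((hmem h).mpr hhH)
  have hN' : normalizer (H' : Set SL₂) = H' := by
    by_cases hex : ∃ g ∈ H', g ∉ Bor F
    · obtain ⟨g, hg, hgB⟩ := hex
      rw [eq_top_of_bor_lt hBH hg hgB]
      exact Subgroup.normalizer_eq_top _
    · push Not at hex
      have : H' = Bor F := le_antisymm hex hBH
      rw [this]
      exact normalizer_bor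
  -- back
  apply le_antisymm _ le_normalizer
  intro x hx
  rw [← hmem]
  rw [← hN', mem_normalizer_iff]
  intro y
  have hy : y = c * (c⁻¹ * y * c) * c⁻¹ := by group
  have h2 : c * x * c⁻¹ * y * (c * x * c⁻¹)⁻¹ = c * (x * (c⁻¹ * y * c) * x⁻¹) * c⁻¹ := by group
  rw [h2, hmem]
  rw [show (y ∈ H' ↔ c⁻¹ * y * c ∈ H) by
    constructor
    · intro h; rw [hy, hmem] at h; exact h
    · intro h; rw [hy, hmem]; exact h]
  exact mem_normalizer_iff.mp hx _

theorem sn_of_prime [Fintype F] (hr : (Fintype.card F - 1).Prime) : SN (Matrix.SpecialLinearGroup (Fin 2) F) := by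
  classical
  intro H hH
  have hHc : ¬ ∀ a ∈ H, ∀ b ∈ H, a * b = b * a := fun h => hH ((isMulComm_iff H).mpr h)
  have hHne : H ≠ ⊥ := by
    rintro rfl
    apply hHc
    intro a ha b hb
    rw [mem_bot] at ha hb
    rw [ha, hb]
  by_cases hs : Group.IsSolvable H
  · obtain ⟨W, hWH, hWne, hWc, hNW⟩ := exists_comm_char H hs hHne
    -- elements of H not commuting with a given nontrivial element
    have hnc : ∀ w : SL₂, w ≠ 1 → ∃ h ∈ H, h * w ≠ w * h := by
      intro w hw1
      by_contra hcon
      push Not at hcon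
      apply hHc
      intro a ha b hb
      exact ct hw1 (hcon a ha) (hcon b hb).symm
    by_cases hinv : ∃ w ∈ W, w ≠ 1 ∧ w * w = 1
    · obtain ⟨w, hw, hw1, hww⟩ := hinv
      obtain ⟨h, hh, hhw⟩ := hnc w hw1
      refine key_case hr hww (hWH hw) hh ?_ hhw
      have h1 : h * w * h⁻¹ ∈ W := (mem_normalizer_iff.mp (hNW (le_normalizer hh)) w).mp hw
      exact hWc _ h1 _ hw
    · push Not at hinv
      obtain ⟨⟨w, hw⟩, hw1'⟩ := (Subgroup.ne_bot_iff_exists_ne_one).mp hWne
      have hw1 : w ≠ 1 := fun h => hw1' (Subtype.ext h)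
      have hww := hinv w hw hw1
      -- no involution commutes with w
      have hno : ∀ a : SL₂, a ≠ 1 → a * w = w * a → a * a ≠ 1 := by
        intro a ha1 haw haa
        obtain ⟨c, hc⟩ := exists_conj_uni haa
        have h1 : c * a * c⁻¹ ≠ 1 := by
          intro h
          apply ha1
          have : a = c⁻¹ * (c * a * c⁻¹) * c := by group
          rw [this, h]; group
        have h2 : c * w * c⁻¹ ∈ Uni F := by
          apply mem_uni_of_comm hc h1
          calc c * w * c⁻¹ * (c * a * c⁻¹) = c * (w * a) * c⁻¹ := by group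
            _ = c * (a * w) * c⁻¹ := by rw [haw]
            _ = _ := by group
        have h3 := uni_sq h2
        apply hww
        have h4 : w * w = c⁻¹ * (c * w * c⁻¹ * (c * w * c⁻¹)) * c := by group
        rw [h4, h3]; group
      have hconjw : ∀ g ∈ normalizer (H : Set SL₂), g * w * g⁻¹ = w ∨ g * w * g⁻¹ = w⁻¹ := by
        intro g hg
        have h1 : g * w * g⁻¹ ∈ W := (mem_normalizer_iff.mp (hNW hg) w).mp hw
        exact conj_eq hww rfl (hWc _ hw _ h1)
      obtain ⟨h, hh, hhw⟩ := hnc w hw1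
      have hinvw : h * w * h⁻¹ = w⁻¹ := by
        rcases hconjw h (le_normalizer hh) with h1 | h1
        · exfalso
          apply hhw
          calc h * w = (h * w * h⁻¹) * h := by group
            _ = w * h := by rw [h1]
        · exact h1
      have hcase1 : ∀ k ∈ normalizer (H : Set SL₂), k * w = w * k → k ∈ H := by
        intro k hk hkw
        by_cases hk1 : k = 1
        · rw [hk1]; exact one_mem _
        have hkk := hno k hk1 hkw
        have h1 : (h * k * h⁻¹) * w = w * (h * k * h⁻¹) := by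
          have h2 : (h * k * h⁻¹) * w⁻¹ = w⁻¹ * (h * k * h⁻¹) := by
            rw [← hinvw]
            calc h * k * h⁻¹ * (h * w * h⁻¹) = h * (k * w) * h⁻¹ := by group
              _ = h * (w * k) * h⁻¹ := by rw [hkw]
              _ = _ := by group
          exact ((show Commute (h * k * h⁻¹) w⁻¹ from h2).inv_right.eq) |> fun h => by simpa using h
        have h3 : k * (h * k * h⁻¹) = (h * k * h⁻¹) * k := ct hw1 hkw h1.symm
        have h4 : h * k * h⁻¹ = k⁻¹ := by
          rcases conj_eq hkk rfl h3 with h5 | h5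
          · exfalso
            apply hhw
            have h6 : h * k = k * h := by
              calc h * k = (h * k * h⁻¹) * h := by group
                _ = k * h := by rw [h5]
            exact ct hk1 h6 hkw
          · exact h5
        have h5 : k * k ∈ H := by
          have h6 : k * h * k⁻¹ ∈ H := (mem_normalizer_iff.mp hk h).mp hh
          have h7 := H.mul_mem h6 (H.inv_mem hh)
          have h8 : k * h * k⁻¹ * h⁻¹ = k * (h * k * h⁻¹)⁻¹ := by group
          rw [h8, h4, inv_inv] at h7
          exact h7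
        -- k has odd order
        have hodd : Odd (orderOf k) := by
          rw [← Nat.not_even_iff_odd]
          rintro ⟨m, hm⟩
          have hpos := orderOf_pos k
          have hkm : k ^ m ≠ 1 := by
            intro h9
            have := orderOf_dvd_of_pow_eq_one h9
            have := Nat.le_of_dvd (by omega) this
            omega
          refine hno (k ^ m) hkm ((Commute.pow_left (show Commute k w from hkw) m).eq) ?_
          rw [← pow_add, ← hm, pow_orderOf_eq_one]
        obtain ⟨m, hm⟩ := hodd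
        have h9 : k = (k * k) ^ (m + 1) := by
          rw [← pow_two, ← pow_mul]
          have : 2 * (m + 1) = orderOf k + 1 := by omega
          rw [this, pow_succ, pow_orderOf_eq_one, one_mul]
        rw [h9]
        exact pow_mem h5 _
      apply le_antisymm _ le_normalizer
      intro k hk
      rcases hconjw k hk with h1 | h1
      · apply hcase1 k hk
        calc k * w = (k * w * k⁻¹) * k := by group
          _ = w * k := by rw [h1]
      · have h2 : h * k ∈ H := by
          apply hcase1 (h * k) (mul_mem (le_normalizer hh) hk)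
          have h3 : h * w⁻¹ * h⁻¹ = w := by
            have : h * w⁻¹ * h⁻¹ = (h * w * h⁻¹)⁻¹ := by group
            rw [this, hinvw, inv_inv]
          calc h * k * w = h * (k * w * k⁻¹) * h⁻¹ * (h * k) := by group
            _ = h * w⁻¹ * h⁻¹ * (h * k) := by rw [h1]
            _ = w * (h * k) := by rw [h3]
        have h4 : k = h⁻¹ * (h * k) := by group
        rw [h4]
        exact mul_mem (inv_mem hh) h2
  · -- nonsolvable
    haveI : Fact (Nat.Prime 2) := ⟨Nat.prime_two⟩
    have h1 : ¬ Cfsg.HasNormalPComplement 2 H := fun h => hs (solvable_of_hasNormalTwoComplement h)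
    obtain ⟨X, hX, g, hg, hgc, hgn⟩ : ∃ X : Subgroup H, IsPGroup 2 X ∧ ∃ g ∈ normalizer (X : Set H),
        (orderOf g).Coprime 2 ∧ g ∉ centralizer (X : Set H) := by
      by_contra hcon
      push Not at hcon
      exact h1 (H2.hasNormalPComplement_of_centralizer (fun X hX g hg hgc => hcon X hX g hg hgc))
    -- an element of X not commuting with g
    obtain ⟨x, hx, hxg⟩ : ∃ x ∈ X, g * x ≠ x * g := by
      by_contra hcon
      push Not at hcon
      apply hgn
      rw [mem_centralizer_iff]
      intro x hx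
      exact (hcon x hx).symm
    -- central involution of X
    haveI hXnt : Nontrivial X := by
      refine ⟨⟨⟨x, hx⟩, 1, ?_⟩⟩
      intro h
      apply hxg
      have : x = 1 := congrArg Subtype.val h
      rw [this]; simp
    haveI := hX.center_nontrivial
    have hXc : IsPGroup 2 (center X) := hX.to_subgroup _
    obtain ⟨z, hz⟩ : ∃ z : center X, orderOf z = 2 := by
      apply exists_prime_orderOf_dvd_card'
      obtain ⟨n, hn⟩ := IsPGroup.iff_card.mp hXc
      rw [hn]
      apply dvd_pow_self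
      rintro rfl
      have := Finite.one_lt_card_iff_nontrivial.mpr (inferInstance : Nontrivial (center X))
      rw [hn] at this
      simp at this
    set z' : SL₂ := (((z : X) : H) : SL₂) with hz'
    have hzz : z' * z' = 1 := by
      have h2 : z * z = 1 := by
        have h20 := pow_orderOf_eq_one z
        rwa [hz, pow_two] at h20
      have := congrArg (fun w : center X => (((w : X) : H) : SL₂)) h2
      simpa using this
    have hz1 : z' ≠ 1 := by
      intro h
      have h2 : z = 1 := by
        apply Subtype.ext; apply Subtype.ext; apply Subtype.ext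
        exact h
      rw [h2, orderOf_one] at hz
      norm_num at hz
    have hzc : ∀ y ∈ X, (y : SL₂) * z' = z' * y := by
      intro y hy
      have := mem_center_iff.mp z.2 ⟨y, hy⟩
      have h2 := congrArg (fun w : X => ((w : H) : SL₂)) this
      simpa using h2
    -- x has order 2 and commutes with its conjugate
    obtain ⟨c, hc⟩ := exists_conj_uni hzz
    have hcz1 : c * z' * c⁻¹ ≠ 1 := by
      intro h
      apply hz1
      have : z' = c⁻¹ * (c * z' * c⁻¹) * c := by group
      rw [this, h]; group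
    have hXU : ∀ y ∈ X, c * (y : SL₂) * c⁻¹ ∈ Uni F := by
      intro y hy
      apply mem_uni_of_comm hc hcz1
      calc c * (y : SL₂) * c⁻¹ * (c * z' * c⁻¹) = c * (y * z') * c⁻¹ := by group
        _ = c * (z' * y) * c⁻¹ := by rw [hzc y hy]
        _ = _ := by group
    have hXc2 : ∀ y ∈ X, ∀ y' ∈ X, (y : SL₂) * y' = y' * y := by
      intro y hy y' hy'
      have h2 := uni_comm (hXU y hy) (hXU y' hy')
      have h3 : c * ((y : SL₂) * y') * c⁻¹ = c * ((y' : SL₂) * y) * c⁻¹ := by
        calc c * ((y : SL₂) * y') * c⁻¹ = c * (y : SL₂) * c⁻¹ * (c * y' * c⁻¹) := by group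
          _ = c * (y' : SL₂) * c⁻¹ * (c * y * c⁻¹) := h2
          _ = _ := by group
      exact mul_left_cancel (mul_right_cancel h3)
    have hxx : (x : SL₂) * x = 1 := by
      have h2 := uni_sq (hXU x hx)
      have h3 : (x : SL₂) * x = c⁻¹ * (c * (x : SL₂) * c⁻¹ * (c * x * c⁻¹)) * c := by group
      rw [h3, h2]; group
    have hgx : g * x * g⁻¹ ∈ X := (mem_normalizer_iff.mp hg x).mp hx
    refine key_case hr hxx x.2 g.2 ?_ ?_
    · have := hXc2 _ hgx _ hx
      simpa using this
    · intro h
      apply hxg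
      exact Subtype.ext h

end char2

end Cfsg.Agent.H24.SLTwo
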