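import Mathlib
import Cfsg.Agent.H24.SNGrp2

set_option autoImplicit false
set_option linter.all false

/-! # H24/SNGrp3: simple SN groups are CT groups -/

namespace Cfsg.Agent.H24

open Subgroup
open scoped Pointwise commutatorElement

/-- in a cyclic group elements of the same order generate the same subgroup. -/
theorem zpowers_eq_of_orderOf_eq {C : Type*} [Group C] [Finite C] [hC : IsCyclic C] {a b : C}
    (h : orderOf a = orderOf b) : b ∈ zpowers a := by
  classical
  haveI := Fintype.ofFinite C
  have h1 : (Finset.univ.filter fun x : C => x ^ orderOf a = 1).card ≤ orderOf a :=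
    IsCyclic.card_pow_eq_one_le (orderOf_pos a)
  have h2 : (Finset.univ.filter fun x : C => x ∈ zpowers a) ⊆
      (Finset.univ.filter fun x : C => x ^ orderOf a = 1) := by
    intro x hx
    rw [Finset.mem_filter] at hx ⊢
    refine ⟨Finset.mem_univ _, ?_⟩
    obtain ⟨k, rfl⟩ := hx.2
    show (a ^ k) ^ orderOf a = 1
    rw [← zpow_natCast, ← zpow_mul, mul_comm, zpow_mul, zpow_natCast, pow_orderOf_eq_one, one_zpow]
  have h3 : (Finset.univ.filter fun x : C => x ∈ zpowers a).card = orderOf a := by
    rw [← Nat.card_zpowers, Nat.card_eq_fintype_card, Fintype.card_subtype]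
  have h4 := Finset.eq_of_subset_of_card_le h2 (by rw [h3]; exact h1)
  have h5 : b ∈ (Finset.univ.filter fun x : C => x ^ orderOf a = 1) := by
    rw [Finset.mem_filter]
    exact ⟨Finset.mem_univ _, by rw [h]; exact pow_orderOf_eq_one b⟩
  rw [← h4, Finset.mem_filter] at h5
  exact h5.2

theorem centralizer_comm_of_mem {S : Type*} [Group S] [Finite S] [IsSimpleGroup S]
    (hna : ¬ IsMulCommutative S) (hSN : SN S) (hL : Loc S) {p : ℕ} [hp : Fact p.Prime]
    (P : Sylow p S) (hPc : IsMulCommutative P)
    (hCc : ∀ a ∈ centralizer ((P : Subgroup S) : Set S), ∀ b ∈ centralizer ((P : Subgroup S) : Set S),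
        a * b = b * a)
    (hr : ((centralizer ((P : Subgroup S) : Set S)).relIndex (normalizer ((P : Subgroup S) : Set S))).Prime)
    {z : S} (hz : z ∈ (P : Subgroup S)) (hzo : orderOf z = p) :
    IsMulCommutative (centralizer ({z} : Set S)) := by
  by_contra hCna
  have hperf := perfect_of_simple hna
  have hz1 : z ≠ 1 := by
    rintro rfl
    rw [orderOf_one] at hzo
    exact hp.out.one_lt.ne hzo
  -- it suffices to show N(P) ≤ C(z)
  suffices hN : normalizer ((P : Subgroup S) : Set S) ≤ centralizer ({z} : Set S) from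
    hz1 (eq_one_of_transfer P hperf hz hN)
  set C : Subgroup S := centralizer ({z} : Set S) with hC
  have hzC : z ∈ C := mem_centralizer_singleton_iff.mpr rfl
  have hPcomm := (isMulComm_iff _).mp hPc
  have hPC : (P : Subgroup S) ≤ C := by
    intro x hx
    exact mem_centralizer_singleton_iff.mpr (hPcomm x hx z hz)
  have hPCP : (P : Subgroup S) ≤ centralizer ((P : Subgroup S) : Set S) := by
    intro x hx
    rw [mem_centralizer_iff]
    intro t ht
    exact hPcomm t ht x hx
  have hCPC : centralizer ((P : Subgroup S) : Set S) ≤ C := by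
    intro x hx
    rw [hC, mem_centralizer_singleton_iff]
    exact (mem_centralizer_iff.mp hx z hz).symm
  have hzp : IsPGroup p (zpowers z) := IsPGroup.of_card (n := 1) (by rw [Nat.card_zpowers, hzo, pow_one])
  have hzne : zpowers z ≠ ⊥ := by rwa [ne_eq, zpowers_eq_bot]
  have hCn : C ≤ normalizer (zpowers z : Set S) := by
    refine le_trans ?_ (Subgroup.centralizer_le_normalizer _)
    intro t ht
    rw [mem_centralizer_iff]
    rintro _ ⟨k, rfl⟩
    exact (Commute.zpow_right (show Commute t z from mem_centralizer_singleton_iff.mp ht) k).eq.symm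
  have hsol : Group.IsSolvable C := hL.sub_normalizer hzp hzne hCn
  have hCne : C ≠ ⊥ := fun h => hz1 (by rw [h, mem_bot] at hzC; exact hzC)
  obtain ⟨A, hAC, hn, hrA⟩ := exists_rel_index_prime C hsol hCne
  have hAc := hSN.normal_rel A C hAC hn
  have hCna' : ¬ ∀ a ∈ C, ∀ b ∈ C, a * b = b * a := fun h => hCna ((isMulComm_iff _).mpr h)
  have hpel : ∀ {V : Subgroup S}, IsPGroup p V → ∀ x ∈ V, ∃ k : ℕ, orderOf x = p ^ k := by
    intro V hV x hx
    obtain ⟨n, hn'⟩ := IsPGroup.iff_orderOf.mp hV ⟨x, hx⟩
    exact ⟨n, by rw [← hn', ← Subgroup.orderOf_coe]⟩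
  by_cases hrp : A.relIndex C = p
  · -- P is cyclic
    -- p'-elements of C lie in A and centralize the p-subgroups they normalize
    have hcompl : Cfsg.HasNormalPComplement p C := by
      apply H2.hasNormalPComplement_of_centralizer
      intro X hX g hg hgc
      have hX' : IsPGroup p (X.map C.subtype) := hX.map _
      have hXC : X.map C.subtype ≤ C := by rintro _ ⟨x, -, rfl⟩; exact x.2
      have hg' : (g : S) ∈ normalizer ((X.map C.subtype : Subgroup S) : Set S) := by
        rw [mem_normalizer_iff]
        intro t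
        constructor
        · rintro ⟨w, hw, rfl⟩
          exact ⟨g * w * g⁻¹, (mem_normalizer_iff.mp hg w).mp hw, rfl⟩
        · rintro ⟨w, hw, hwt⟩
          have e : t = ((g⁻¹ * w * g : C) : S) := by
            have e1 : t = (g : S)⁻¹ * ((g : S) * t * (g : S)⁻¹) * g := by group
            rw [e1, ← hwt]; rfl
          refine ⟨g⁻¹ * w * g, ?_, e.symm⟩
          refine (mem_normalizer_iff.mp hg (g⁻¹ * w * g)).mpr ?_
          have e2 : g * (g⁻¹ * w * g) * g⁻¹ = w := by group
          rw [e2]; exact hw
      have hgA : (g : S) ∈ A := mem_of_coprime_relIndex hn g.2 (by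
        rw [hrp, Subgroup.orderOf_coe]; exact hgc)
      have h1 := comm_of_mem hAc hX' (hXC.trans hn) hgA hg' (by rw [Subgroup.orderOf_coe]; exact hgc)
      rw [mem_centralizer_iff] at h1 ⊢
      intro x hx
      apply Subtype.ext
      exact h1 x ⟨x, hx, rfl⟩
    obtain ⟨W, hWn, hWp, k, hWk⟩ := H2.hasNormalPComplement_iff.1 hcompl
    haveI := hWn
    -- W ≤ A
    have hWA : ∀ w ∈ W, (w : S) ∈ A := by
      intro w hw
      apply mem_of_coprime_relIndex hn w.2
      rw [hrp, Subgroup.orderOf_coe]
      have h1 : orderOf w ∣ Nat.card W := by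
        have := orderOf_dvd_natCard (⟨w, hw⟩ : W)
        rwa [← Subgroup.orderOf_coe] at this
      exact Nat.Coprime.coprime_dvd_left h1 ((Nat.Prime.coprime_iff_not_dvd hp.out).mpr hWp).symm
    -- P as a Sylow subgroup of C
    let PC : Sylow p C := P.subtype hPC
    have hPCmem : ∀ x : C, x ∈ (PC : Subgroup C) ↔ (x : S) ∈ (P : Subgroup S) := fun x => Iff.rfl
    have hcompl' := H2.isComplement'_sylow_of_card_index hWp hWk PC
    have hsup : W ⊔ (PC : Subgroup C) = ⊤ := hcompl'.sup_eq_top
    have hcycP : ∀ s ∈ (P : Subgroup S), (∃ w ∈ W, (w : S) * s ≠ s * w) → ∀ x ∈ (P : Subgroup S), x ∈ zpowers s := by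
      intro s hs hw x hx
      -- the subgroup W⟨s⟩ is normal in C and nonabelian
      let s' : C := ⟨s, hPC hs⟩
      have hnor : (W ⊔ zpowers s' : Subgroup C).Normal := by
        rw [← Subgroup.normalizer_eq_top_iff, eq_top_iff, ← hsup]
        apply sup_le
        · exact le_sup_left.trans le_normalizer
        · intro t ht
          rw [hPCmem] at ht
          have h1 : t ∈ normalizer ((W : Subgroup C) : Set C) := by
            rw [Subgroup.normalizer_eq_top W]; trivial
          have h2 : t ∈ normalizer ((zpowers s' : Subgroup C) : Set C) := by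
            refine Subgroup.centralizer_le_normalizer _ ?_
            rw [mem_centralizer_iff]
            rintro _ ⟨k, rfl⟩
            have h3 : Commute t s' := Subtype.ext (hPcomm t ht s hs)
            exact (Commute.zpow_right h3 k).eq.symm
          exact Subgroup.normalizer_inf_normalizer_le_normalizer_sup W (zpowers s') ⟨h1, h2⟩
      haveI := hnor
      have htop : (W ⊔ zpowers s' : Subgroup C) = ⊤ := by
        by_contra hne
        have h1 := (hSN.sub C).normal _ hne
        rw [isMulComm_iff] at h1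
        obtain ⟨w, hw, hws⟩ := hw
        apply hws
        have h2 := h1 w (mem_sup_left hw) s' (mem_sup_right (mem_zpowers s'))
        exact congrArg Subtype.val h2
      have h2 : (⟨x, hPC hx⟩ : C) ∈ (W ⊔ zpowers s' : Subgroup C) := by rw [htop]; trivial
      obtain ⟨w, hw, t, ht, hwt⟩ := Subgroup.mem_sup_of_normal_left.mp h2
      have ht' : t ∈ (PC : Subgroup C) := by
        have : zpowers s' ≤ (PC : Subgroup C) := zpowers_le.mpr hs
        exact this ht
      have hw' : w ∈ (PC : Subgroup C) := by
        have e : w = (⟨x, hPC hx⟩ : C) * t⁻¹ := by rw [← hwt]; group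
        rw [e]
        exact mul_mem hx (inv_mem ht')
      have hw1 : w = 1 := by
        have := hcompl'.disjoint
        rw [disjoint_iff] at this
        have h3 : w ∈ W ⊓ (PC : Subgroup C) := ⟨hw, hw'⟩
        rw [this, mem_bot] at h3
        exact h3
      rw [hw1, one_mul] at hwt
      obtain ⟨k, hk⟩ := ht
      refine ⟨k, ?_⟩
      have := congrArg Subtype.val (hk.trans hwt)
      simpa using this
    have hex : ∃ s ∈ (P : Subgroup S), ∃ w ∈ W, (w : S) * s ≠ s * w := by
      by_contra hcon
      push Not at hcon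
      apply hCna'
      intro a ha b hb
      have ha' : (⟨a, ha⟩ : C) ∈ W ⊔ (PC : Subgroup C) := by rw [hsup]; trivial
      have hb' : (⟨b, hb⟩ : C) ∈ W ⊔ (PC : Subgroup C) := by rw [hsup]; trivial
      obtain ⟨w, hw, t, ht, hwt⟩ := Subgroup.mem_sup_of_normal_left.mp ha'
      obtain ⟨v, hv, u, hu, hvu⟩ := Subgroup.mem_sup_of_normal_left.mp hb'
      have e1 : a = (w : S) * t := by
        have := congrArg Subtype.val hwt; simpa using this.symm
      have e2 : b = (v : S) * u := by
        have := congrArg Subtype.val hvu; simpa using this.symm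
      have c1 : Commute (w : S) (v : S) := hAc _ (hWA w hw) _ (hWA v hv)
      have c2 : Commute (w : S) (u : S) := hcon u hu w hw
      have c3 : Commute (v : S) (t : S) := hcon t ht v hv
      have c4 : Commute (t : S) (u : S) := hPcomm t ht u hu
      rw [e1, e2]
      exact (Commute.mul_left (c1.mul_right c2) (c3.symm.mul_right c4)).eq
    obtain ⟨s, hs, w, hw, hws⟩ := hex
    have hcyc := hcycP s hs ⟨w, hw, hws⟩
    haveI hPcyc : IsCyclic (P : Subgroup S) := by
      refine ⟨⟨s, hs⟩, fun x => ?_⟩
      obtain ⟨k, hk⟩ := hcyc x x.2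
      exact ⟨k, Subtype.ext (by simpa using hk)⟩
    -- N(P) normalizes ⟨z⟩
    have hNC : normalizer (C : Set S) = C := hSN C hCna
    intro n hn'
    rw [← hNC, mem_normalizer_iff]
    have key : ∀ n ∈ normalizer ((P : Subgroup S) : Set S), ∀ c ∈ C, n * c * n⁻¹ ∈ C := by
      intro n hn' c hc
      have h1 : n⁻¹ * z * n ∈ (P : Subgroup S) := by
        have := (mem_normalizer_iff.mp (inv_mem hn') z).mp hz
        simpa using this
      have h2 : orderOf (n⁻¹ * z * n) = orderOf z := by
        have := orderOf_injective (MulAut.conj n⁻¹).toMonoidHom (MulAut.conj n⁻¹).injective z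
        simpa using this
      have h3 : (⟨n⁻¹ * z * n, h1⟩ : (P : Subgroup S)) ∈ zpowers (⟨z, hz⟩ : (P : Subgroup S)) := by
        apply zpowers_eq_of_orderOf_eq
        rw [← Subgroup.orderOf_coe, ← Subgroup.orderOf_coe]
        exact h2.symm
      obtain ⟨k, hk⟩ := h3
      have hk' : z ^ k = n⁻¹ * z * n := by
        have := congrArg Subtype.val hk; simpa using this
      rw [hC, mem_centralizer_singleton_iff] at hc ⊢
      have h4 : c * z ^ k = z ^ k * c := (Commute.zpow_right (show Commute c z from hc) k).eq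
      rw [hk'] at h4
      calc n * c * n⁻¹ * z = n * (c * (n⁻¹ * z * n)) * n⁻¹ := by group
        _ = n * ((n⁻¹ * z * n) * c) * n⁻¹ := by rw [h4]
        _ = z * (n * c * n⁻¹) := by group
    intro c
    refine ⟨key n hn' c, fun h => ?_⟩
    have := key n⁻¹ (inv_mem hn') _ h
    have e : n⁻¹ * (n * c * n⁻¹) * n⁻¹⁻¹ = c := by group
    rwa [e] at this
  · -- P ≤ A
    have hPA : (P : Subgroup S) ≤ A := by
      intro x hx
      apply mem_of_coprime_relIndex hn (hPC hx)
      obtain ⟨k, hk⟩ := hpel P.2 x hx
      rw [hk]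
      exact Nat.Coprime.pow_left k ((Nat.coprime_primes hp.out hrA).mpr (Ne.symm hrp))
    have hACP : A ≤ centralizer ((P : Subgroup S) : Set S) := by
      intro a ha
      rw [mem_centralizer_iff]
      intro t ht
      exact hAc t (hPA ht) a ha
    have hAeq : centralizer ((P : Subgroup S) : Set S) = A := by
      have h1 := Subgroup.relIndex_mul_relIndex A _ _ hACP hCPC
      rw [← h1] at hrA
      rcases Nat.prime_mul_iff.mp hrA with ⟨h2, h3⟩ | ⟨h2, h3⟩
      · exfalso
        rw [Subgroup.relIndex_eq_one] at h3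
        exact hCna' (fun a ha b hb => hCc a (h3 ha) b (h3 hb))
      · rw [Subgroup.relIndex_eq_one] at h3
        exact le_antisymm h3 hACP
    -- C ≤ N(P)
    have hCN : C ≤ normalizer ((P : Subgroup S) : Set S) := by
      have key : ∀ c ∈ C, ∀ x ∈ (P : Subgroup S), c * x * c⁻¹ ∈ (P : Subgroup S) := by
        intro c hc x hx
        apply mem_sylow_of_comm P
        · obtain ⟨k, hk⟩ := hpel P.2 x hx
          refine ⟨k, ?_⟩
          rw [← hk]
          exact orderOf_injective (MulAut.conj c).toMonoidHom (MulAut.conj c).injective x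
        · intro t ht
          have h1 : c * x * c⁻¹ ∈ A := (mem_normalizer_iff.mp (hn hc) x).mp (hPA hx)
          exact hAc t (hPA ht) _ h1
      intro c hc
      rw [mem_normalizer_iff]
      intro x
      refine ⟨key c hc x, fun h => ?_⟩
      have := key c⁻¹ (inv_mem hc) _ h
      have e : c⁻¹ * (c * x * c⁻¹) * c⁻¹⁻¹ = x := by group
      rwa [e] at this
    have h1 := Subgroup.relIndex_mul_relIndex _ _ _ hCPC hCN
    rw [← h1] at hr
    rcases Nat.prime_mul_iff.mp hr with ⟨h2, h3⟩ | ⟨h2, h3⟩
    · rw [Subgroup.relIndex_eq_one] at h3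
      exact h3
    · exfalso
      rw [Subgroup.relIndex_eq_one] at h3
      exact hCna' (fun a ha b hb => hCc a (h3 ha) b (h3 hb))

/-- the commuting relation is transitive. -/
theorem ct_of_SN {S : Type*} [Group S] [Finite S] [IsSimpleGroup S]
    (hna : ¬ IsMulCommutative S) (hSN : SN S) (hL : Loc S) :
    ∀ a b c : S, a ≠ 1 → b ≠ 1 → c ≠ 1 → Commute a b → Commute b c → Commute a c := by
  intro a b c ha hb hc hab hbc
  -- a power of b of prime order
  have hb1 : orderOf b ≠ 1 := fun h => hb (orderOf_eq_one_iff.mp h)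
  obtain ⟨p, hp, hpb⟩ := Nat.exists_prime_and_dvd hb1
  haveI : Fact p.Prime := ⟨hp⟩
  obtain ⟨m, hm⟩ := hpb
  have hz : orderOf (b ^ m) = p := by
    have hpos := orderOf_pos b
    have hm0 : m ≠ 0 := by rintro rfl; omega
    rw [orderOf_pow' b hm0, hm, Nat.gcd_mul_left_left, Nat.mul_div_cancel _ (Nat.pos_of_ne_zero hm0)]
  set z := b ^ m with hzdef
  obtain ⟨P, y, hPc, hyN, hyc, hyn, hCc, hr, hrp⟩ := exists_good_sylow hna hSN hL (p := p)
    ((hz ▸ orderOf_dvd_natCard z))
  have hzp : IsPGroup p (zpowers z) := IsPGroup.of_card (n := 1) (by rw [Nat.card_zpowers, hz, pow_one])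
  obtain ⟨Q, hQ⟩ := hzp.exists_le_sylow
  obtain ⟨g, hg⟩ := MulAction.exists_smul_eq S Q P
  have hgz : g * z * g⁻¹ ∈ (P : Subgroup S) := by
    rw [← hg, Sylow.coe_subgroup_smul]
    exact Subgroup.smul_mem_pointwise_smul z (MulAut.conj g) _ (hQ (mem_zpowers z))
  have hgo : orderOf (g * z * g⁻¹) = p := by
    rw [← hz]
    exact orderOf_injective (MulAut.conj g).toMonoidHom (MulAut.conj g).injective z
  have h1 := (isMulComm_iff _).mp (centralizer_comm_of_mem hna hSN hL P hPc hCc hr hgz hgo)
  have haz : a * z = z * a := (hab.pow_right m).eq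
  have hcz : c * z = z * c := (hbc.symm.pow_right m).eq
  have h2 : g * a * g⁻¹ ∈ centralizer ({g * z * g⁻¹} : Set S) := by
    rw [mem_centralizer_singleton_iff]
    calc g * a * g⁻¹ * (g * z * g⁻¹) = g * (a * z) * g⁻¹ := by group
      _ = g * (z * a) * g⁻¹ := by rw [haz]
      _ = _ := by group
  have h3 : g * c * g⁻¹ ∈ centralizer ({g * z * g⁻¹} : Set S) := by
    rw [mem_centralizer_singleton_iff]
    calc g * c * g⁻¹ * (g * z * g⁻¹) = g * (c * z) * g⁻¹ := by group
      _ = g * (z * c) * g⁻¹ := by rw [hcz]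
      _ = _ := by group
  have h4 := h1 _ h2 _ h3
  show a * c = c * a
  have h5 : g * (a * c) * g⁻¹ = g * (c * a) * g⁻¹ := by
    calc g * (a * c) * g⁻¹ = g * a * g⁻¹ * (g * c * g⁻¹) := by group
      _ = g * c * g⁻¹ * (g * a * g⁻¹) := h4
      _ = _ := by group
  have h6 := congrArg (fun w => g⁻¹ * w * g) h5
  simpa [mul_assoc] using h6

end Cfsg.Agent.H24
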