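import Mathlib
import Cfsg.Agent.H24.SNGrp3

set_option autoImplicit false
set_option linter.all false

/-! # H24/SNGrp4: SN groups with a nontrivial abelian normal subgroup are solvable -/

namespace Cfsg.Agent.H24

open Subgroup
open scoped Pointwise commutatorElement

universe u

theorem solvable_of_comm_normal {X : Type*} [Group X] (N : Subgroup X) [N.Normal]
    (h1 : IsMulCommutative N) (h2 : Group.IsSolvable (X ⧸ N)) : Group.IsSolvable X := by
  haveI : Group.IsSolvable N := isSolvable_of_comm (fun a b => h1.is_comm.comm a b)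
  exact Group.isSolvable_of_ker_le_range N.subtype (QuotientGroup.mk' N) (by simp)

theorem SN.solvable_aux (n : ℕ) : ∀ (X : Type u) [Group X] [Finite X], Nat.card X = n → SN X →
    (∃ U : Subgroup X, U.Normal ∧ U ≠ ⊥ ∧ IsMulCommutative U) → Group.IsSolvable X := by
  induction n using Nat.strong_induction_on with
  | _ n ih =>
  intro X _ _ hn hSN ⟨U, hUn, hUne, hUc⟩
  by_contra hns
  haveI := hUn
  -- X is perfect
  have hperf : _root_.commutator X = ⊤ := by
    by_contra hne
    apply hns
    have h1 := hSN.normal (_root_.commutator X) hne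
    haveI h2 : Group.IsSolvable (X ⧸ _root_.commutator X) :=
      isSolvable_of_comm (fun a b => (inferInstance : CommGroup (Abelianization X)).mul_comm a b)
    exact solvable_of_comm_normal _ h1 h2
  have hUt : U ≠ ⊤ := by
    rintro rfl
    apply hns
    rw [isMulComm_iff] at hUc
    exact isSolvable_of_comm (fun a b => hUc a (mem_top a) b (mem_top b))
  obtain ⟨R, hR⟩ := (Set.toFinite {N : Subgroup X | N.Normal ∧ N ≠ ⊤ ∧ U ≤ N}).exists_maximal
    ⟨U, hUn, hUt, le_rfl⟩
  obtain ⟨hRn, hRt, hUR⟩ := hR.prop
  haveI := hRn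
  have hRc := hSN.normal R hRt
  have hRc' := (isMulComm_iff _).mp hRc
  haveI hnt : Nontrivial (X ⧸ R) := by
    rw [← Finite.one_lt_card_iff_nontrivial, ← Subgroup.index_eq_card]
    have h1 : R.index ≠ 1 := fun h => hRt (Subgroup.index_eq_one.mp h)
    have h2 : R.index ≠ 0 := Subgroup.index_ne_zero_of_finite
    omega
  haveI hsimp : IsSimpleGroup (X ⧸ R) := by
    constructor
    intro N hN
    haveI := hN
    by_cases h1 : N = ⊤
    · exact Or.inr h1
    · left
      have h2 : N.comap (QuotientGroup.mk' R) ≠ ⊤ := by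
        intro h
        apply h1
        rw [eq_top_iff]
        intro x _
        obtain ⟨g, rfl⟩ := QuotientGroup.mk'_surjective R x
        have : g ∈ N.comap (QuotientGroup.mk' R) := by rw [h]; trivial
        exact this
      have h3 : R ≤ N.comap (QuotientGroup.mk' R) := by
        intro x hx
        rw [mem_comap, (QuotientGroup.eq_one_iff (N := R) x).mpr hx |> fun h => (show QuotientGroup.mk' R x = 1 from h)]
        exact one_mem _
      have h4 := hR.le_of_ge (y := N.comap (QuotientGroup.mk' R)) ⟨inferInstance, h2, hUR.trans h3⟩ h3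
      rw [eq_bot_iff]
      intro x hx
      obtain ⟨g, rfl⟩ := QuotientGroup.mk'_surjective R x
      have : g ∈ R := h4 hx
      rw [mem_bot]
      exact (QuotientGroup.eq_one_iff (N := R) g).mpr this
  have hnsq : ¬ Group.IsSolvable (X ⧸ R) := fun h => hns (solvable_of_comm_normal R hRc h)
  have hnaq : ¬ IsMulCommutative (X ⧸ R) := fun h => hnsq (isSolvable_of_comm (fun a b => h.is_comm.comm a b))
  have hSNq : SN (X ⧸ R) := hSN.quot R
  have hRne : R ≠ ⊥ := fun h => hUne (le_bot_iff.mp (h ▸ hUR))
  have hcard : Nat.card (X ⧸ R) < n := by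
    rw [← hn, ← Subgroup.index_eq_card, ← Subgroup.card_mul_index R]
    have h1 : 1 < Nat.card R := by
      rw [Finite.one_lt_card_iff_nontrivial]
      exact (Subgroup.nontrivial_iff_ne_bot R).mpr hRne
    have h2 : 0 < R.index := Nat.pos_of_ne_zero Subgroup.index_ne_zero_of_finite
    nlinarith
  have hLq : Loc (X ⧸ R) := by
    intro Y hY
    refine ih (Nat.card Y) (lt_of_le_of_lt (Subgroup.card_le_card_group Y) hcard) Y rfl (hSNq.sub Y) hY
  -- for each prime, the preimage of a Sylow subgroup of the quotient is abelian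
  have hpre : ∀ p : ℕ, p.Prime → p ∣ Nat.card (X ⧸ R) → ∃ V : Subgroup X, R < V ∧
      (∀ a ∈ V, ∀ b ∈ V, a * b = b * a) ∧ ¬ p ∣ V.index := by
    intro p hp hpd
    haveI : Fact p.Prime := ⟨hp⟩
    obtain ⟨P, y, hPc, hyN, hyc, hyn, hCc, hr, hrp⟩ := exists_good_sylow hnaq hSNq hLq hpd
    set V : Subgroup X := (P : Subgroup (X ⧸ R)).comap (QuotientGroup.mk' R) with hV
    have hRV : R ≤ V := by
      intro x hx
      rw [hV, mem_comap, (QuotientGroup.eq_one_iff (N := R) x).mpr hx |> fun h => (show QuotientGroup.mk' R x = 1 from h)]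
      exact one_mem _
    have hPne : (P : Subgroup (X ⧸ R)) ≠ ⊥ := by
      intro h
      apply hyn
      rw [mem_centralizer_iff]
      intro t ht
      rw [h, SetLike.mem_coe, mem_bot] at ht
      rw [ht]; simp
    have hRV' : R < V := by
      refine lt_of_le_of_ne hRV ?_
      intro h
      apply hPne
      rw [eq_bot_iff]
      intro x hx
      obtain ⟨g, rfl⟩ := QuotientGroup.mk'_surjective R x
      have : g ∈ R := by rw [h]; exact hx
      rw [mem_bot]
      exact (QuotientGroup.eq_one_iff (N := R) g).mpr this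
    obtain ⟨y', hy'⟩ := QuotientGroup.mk'_surjective R y
    have hVN : V < normalizer (V : Set X) := by
      refine lt_of_le_of_ne le_normalizer ?_
      intro h
      have h1 : y' ∈ normalizer (V : Set X) := by
        rw [mem_normalizer_iff]
        intro x
        have h2 := mem_normalizer_iff.mp hyN (QuotientGroup.mk' R x)
        rw [← hy'] at h2
        rw [hV, mem_comap, mem_comap, map_mul, map_mul, map_inv]
        exact h2
      rw [← h] at h1
      have h3 : y ∈ (P : Subgroup (X ⧸ R)) := by rw [← hy']; exact h1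
      apply hyn
      rw [mem_centralizer_iff]
      intro t ht
      exact (isMulComm_iff _).mp hPc t ht y h3
    refine ⟨V, hRV', hSN.normal_rel V _ hVN le_rfl, ?_⟩
    rw [hV, Subgroup.index_comap_of_surjective _ (QuotientGroup.mk'_surjective R)]
    exact P.not_dvd_index
  -- R is central
  have hRcen : R ≤ center X := by
    obtain ⟨p, hp, hpd⟩ := Nat.exists_prime_and_dvd (n := Nat.card (X ⧸ R)) (by
      have := Finite.one_lt_card_iff_nontrivial.mpr hnt
      omega)
    obtain ⟨V, hRV, hVc, -⟩ := hpre p hp hpd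
    set D : Subgroup X := centralizer (R : Set X) with hD
    haveI hDn : D.Normal := by
      constructor
      intro d hd g
      rw [hD, mem_centralizer_iff] at hd ⊢
      intro r hr
      have h1 : g⁻¹ * r * g ∈ R := by
        have := hRn.conj_mem r hr g⁻¹
        simpa using this
      have h2 := hd _ h1
      calc r * (g * d * g⁻¹) = g * ((g⁻¹ * r * g) * d) * g⁻¹ := by group
        _ = g * (d * (g⁻¹ * r * g)) * g⁻¹ := by rw [h2]
        _ = _ := by group
    have hVD : V ≤ D := by
      intro v hv
      rw [hD, mem_centralizer_iff]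
      intro r hr
      exact hVc r (hRV.le hr) v hv
    have hDt : D = ⊤ := by
      by_contra hne
      have h4 := hR.le_of_ge (y := D) ⟨hDn, hne, hUR.trans (hRV.le.trans hVD)⟩ (hRV.le.trans hVD)
      exact absurd (hVD.trans h4) (not_le_of_gt hRV)
    intro r hr
    rw [mem_center_iff]
    intro g
    have : g ∈ D := by rw [hDt]; trivial
    exact (mem_centralizer_iff.mp this r hr).symm
  -- an element of prime order in R
  obtain ⟨p, hp, hpd⟩ := Nat.exists_prime_and_dvd (n := Nat.card R) (by
    intro h
    exact hRne (Subgroup.card_eq_one.mp h))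
  haveI : Fact p.Prime := ⟨hp⟩
  obtain ⟨z, hz⟩ := exists_prime_orderOf_dvd_card' p hpd
  have hzo : orderOf (z : X) = p := by rw [Subgroup.orderOf_coe]; exact hz
  have hz1 : (z : X) ≠ 1 := by
    intro h
    rw [h, orderOf_one] at hzo
    exact hp.one_lt.ne hzo
  -- abelian Sylow p-subgroup of X
  obtain ⟨V, hVc, hVi⟩ : ∃ V : Subgroup X, (∀ a ∈ V, ∀ b ∈ V, a * b = b * a) ∧ ¬ p ∣ V.index := by
    by_cases h : p ∣ Nat.card (X ⧸ R)
    · obtain ⟨V, -, h1, h2⟩ := hpre p hp h
      exact ⟨V, h1, h2⟩
    · exact ⟨R, hRc', by rwa [Subgroup.index_eq_card]⟩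
  let T : Sylow p V := default
  have hTp : IsPGroup p ((T : Subgroup V).map V.subtype) := T.2.map _
  have hTi : ¬ p ∣ ((T : Subgroup V).map V.subtype).index := by
    have hle : (T : Subgroup V).map V.subtype ≤ V := by rintro _ ⟨x, -, rfl⟩; exact x.2
    rw [← Subgroup.relIndex_mul_index hle]
    have h1 : ((T : Subgroup V).map V.subtype).relIndex V = (T : Subgroup V).index := by
      show (((T : Subgroup V).map V.subtype).subgroupOf V).index = _
      congr 1
      exact Subgroup.comap_map_eq_self_of_injective V.subtype_injective _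
    rw [h1, hp.dvd_mul]
    rintro (h | h)
    · exact T.not_dvd_index h
    · exact hVi h
  let P : Sylow p X := hTp.toSylow hTi
  have hPV : (P : Subgroup X) ≤ V := by
    rintro _ ⟨x, -, rfl⟩; exact x.2
  haveI hPc : IsMulCommutative (P : Subgroup X) := by
    rw [isMulComm_iff]
    intro a ha b hb
    exact hVc a (hPV ha) b (hPV hb)
  have hzP : (z : X) ∈ (P : Subgroup X) := by
    apply mem_sylow_of_comm P ⟨1, by rw [hzo, pow_one]⟩
    intro t _
    exact mem_center_iff.mp (hRcen z.2) t
  exact hz1 (eq_one_of_transfer P hperf hzP (by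
    intro g _
    rw [mem_centralizer_singleton_iff]
    exact mem_center_iff.mp (hRcen z.2) g))

theorem SN.loc {S : Type u} [Group S] [Finite S] (h : SN S) : Loc S :=
  fun Y hY => SN.solvable_aux (Nat.card Y) Y rfl (h.sub Y) hY

/-- simple SN groups are CT groups. -/
theorem SN.ct {S : Type u} [Group S] [Finite S] [IsSimpleGroup S] (hna : ¬ IsMulCommutative S)
    (hSN : SN S) :
    ∀ a b c : S, a ≠ 1 → b ≠ 1 → c ≠ 1 → Commute a b → Commute b c → Commute a c :=
  ct_of_SN hna hSN hSN.loc

end Cfsg.Agent.H24
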