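import Cfsg.Agent.H24.ClassSize
import Cfsg.Agent.H24.RegClass
import Cfsg.Agent.H24.Decomp
import Cfsg.Agent.H2.Frobenius

set_option autoImplicit false

/-!
Groups whose class sizes are not divisible by the square of a prime, part 1 (helper24).
-/

namespace Cfsg.Agent.H24

open Cfsg Subgroup

universe u

variable {G : Type u} [Group G]

/-- Sylow subgroups of centralizers, with control of the index. -/
theorem exists_sylow_centralizer_ge [Finite G] {p : ℕ} [hp : Fact p.Prime] (C D : Subgroup G)
    (hD : IsPGroup p D) (hDC : D ≤ C) :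
    ∃ (P : Sylow p G) (T : Subgroup G), D ≤ T ∧ T ≤ (P : Subgroup G) ∧ T ≤ C ∧
      T.relIndex (P : Subgroup G) ∣ C.index := by
  have h1 : IsPGroup p (D.subgroupOf C) := hD.comap_subtype
  obtain ⟨S, hS⟩ := h1.exists_le_sylow
  have hT : IsPGroup p ((S : Subgroup C).map C.subtype) := S.isPGroup'.map _
  obtain ⟨P, hP⟩ := hT.exists_le_sylow
  refine ⟨P, (S : Subgroup C).map C.subtype, ?_, hP, Subgroup.map_subtype_le _, ?_⟩
  · intro d hd
    exact ⟨⟨d, hDC hd⟩, hS (Subgroup.mem_subgroupOf.2 hd), rfl⟩
  · set T := (S : Subgroup C).map C.subtype with hTdef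
    have h2 : T.relIndex (P : Subgroup G) * (P : Subgroup G).index = T.index :=
      Subgroup.relIndex_mul_index hP
    have h3 : T.relIndex C * C.index = T.index :=
      Subgroup.relIndex_mul_index (Subgroup.map_subtype_le _)
    have h4 : T.relIndex C = (S : Subgroup C).index := by
      rw [Subgroup.relIndex, hTdef]
      congr 1
      exact Subgroup.comap_map_eq_self_of_injective C.subtype_injective _
    obtain ⟨n, hn⟩ := IsPGroup.iff_card.1 P.isPGroup'
    have h5 : T.relIndex (P : Subgroup G) ∣ p ^ n := by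
      rw [← hn]; exact Subgroup.relIndex_dvd_card _ _
    have h6 : (T.relIndex (P : Subgroup G)).Coprime (T.relIndex C) := by
      refine Nat.Coprime.coprime_dvd_left h5 ?_
      rw [h4]
      exact (hp.out.coprime_iff_not_dvd.2 S.not_dvd_index).pow_left n
    refine h6.dvd_of_dvd_mul_left ?_
    rw [h3, ← h2]
    exact dvd_mul_right _ _

/-- a central `p`-subgroup may be factored out for the existence of normal `p`-complements. -/
theorem hasNormalPComplement_of_central_quotient [Finite G] {p : ℕ} [hp : Fact p.Prime]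
    (D : Subgroup G) [D.Normal] (hDc : D ≤ center G) (hD : IsPGroup p D)
    (h : HasNormalPComplement p (G ⧸ D)) : HasNormalPComplement p G := by
  apply H2.hasNormalPComplement_of_centralizer
  intro X hX g hg hg'
  rw [mem_centralizer_iff]
  intro x hx
  have h1 : (QuotientGroup.mk' D g) ∈ normalizer ((X.map (QuotientGroup.mk' D) : Subgroup (G ⧸ D)) :
      Set (G ⧸ D)) := by
    rw [Subgroup.mem_normalizer_iff]
    have hmem := (Subgroup.mem_normalizer_iff.1 hg)
    have hmem' := (Subgroup.mem_normalizer_iff.1 (inv_mem hg))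
    intro y
    constructor
    · rintro ⟨z, hz, rfl⟩
      exact ⟨g * z * g⁻¹, (hmem z).1 hz, by simp⟩
    · rintro ⟨z, hz, hz2⟩
      refine ⟨g⁻¹ * z * g⁻¹⁻¹, (hmem' z).1 hz, ?_⟩
      simp only [map_mul, map_inv, hz2]
      group
  have h2 : (orderOf (QuotientGroup.mk' D g)).Coprime p :=
    Nat.Coprime.coprime_dvd_left (orderOf_map_dvd (QuotientGroup.mk' D) g) hg'
  have h3 := H2.mem_centralizer_of_hasNormalPComplement h (hX.map (QuotientGroup.mk' D)) h1 h2
  have h4 := (mem_centralizer_iff.1 h3) _ ⟨x, hx, rfl⟩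
  have h5 : (g * x * g⁻¹) * x⁻¹ ∈ D := by
    rw [← QuotientGroup.eq_one_iff]
    have h6 : ((g * x * g⁻¹ * x⁻¹ : G) : G ⧸ D) = QuotientGroup.mk' D g * QuotientGroup.mk' D x *
      (QuotientGroup.mk' D g)⁻¹ * (QuotientGroup.mk' D x)⁻¹ := rfl
    rw [h6, ← h4]
    group
  set z := g * x * g⁻¹ * x⁻¹ with hz
  have hzc : ∀ w, w * z = z * w := fun w => mem_center_iff.1 (hDc h5) w
  have h6 : g * x = z * x * g := by rw [hz]; group
  have h7 : ∀ n : ℕ, g ^ n * x = z ^ n * x * g ^ n := by
    intro n
    induction n with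
    | zero => simp
    | succ n ih =>
      have hc : g ^ n * z = z * g ^ n := hzc _
      have hc2 : g * z ^ n = z ^ n * g := by
        have : Commute g z := hzc g
        exact (this.pow_right n).eq
      calc g ^ (n + 1) * x = g * (g ^ n * x) := by rw [pow_succ']; group
        _ = g * (z ^ n * x * g ^ n) := by rw [ih]
        _ = (g * z ^ n) * x * g ^ n := by group
        _ = z ^ n * (g * x) * g ^ n := by rw [hc2]; group
        _ = z ^ n * (z * x * g) * g ^ n := by rw [h6]
        _ = z ^ (n + 1) * x * g ^ (n + 1) := by rw [pow_succ z, pow_succ' g]; group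
  have h8 := h7 (orderOf g)
  rw [pow_orderOf_eq_one, one_mul, mul_one] at h8
  have h9 : z ^ orderOf g = 1 := by
    have := mul_right_cancel (b := x) (a := 1) (c := z ^ orderOf g) (by rw [one_mul]; exact h8)
    exact this.symm
  have h10 : z = 1 := by
    obtain ⟨k, hk⟩ := exists_orderOf_eq_pow_of_mem hD h5
    have h11 := orderOf_dvd_of_pow_eq_one h9
    rw [← orderOf_eq_one_iff]
    have h12 : (orderOf z).Coprime (orderOf z) := by
      refine Nat.Coprime.coprime_dvd_left h11 ?_
      rw [hk]
      exact hg'.pow_right k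
    rw [Nat.coprime_self] at h12
    exact h12
  rw [h10, one_mul] at h6
  exact h6.symm

end Cfsg.Agent.H24
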