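import Cfsg.Agent.H24.SqFree

set_option autoImplicit false

/-!
Groups whose class sizes are not divisible by the square of a prime, part 2: the counting argument
(helper24).
-/

namespace Cfsg.Agent.H24

open Cfsg Subgroup

universe u

variable {G : Type u} [Group G]

/-- There is an exponent computing `p`-parts. -/
theorem exists_pPart_exponent [Finite G] (p : ℕ) [hp : Fact p.Prime] :
    ∃ e : ℕ, ∀ y x : G, (∃ k : ℕ, orderOf y = p ^ k) → (orderOf x).Coprime p → y * x = x * y →
      (y * x) ^ e = y := by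
  have hn0 : Nat.card G ≠ 0 := Nat.card_pos.ne'
  obtain ⟨a, m, hm, hnm⟩ := Nat.exists_eq_pow_mul_and_not_dvd hn0 p hp.out.ne_one
  have hcop : Nat.Coprime (p ^ a) m :=
    Nat.Coprime.pow_left _ ((Nat.Prime.coprime_iff_not_dvd hp.out).2 hm)
  obtain ⟨e, he1, he2⟩ := Nat.chineseRemainder hcop 1 0
  refine ⟨e, ?_⟩
  rintro y x ⟨k, hk⟩ hx hyx
  have hy1 : orderOf y ∣ p ^ a := by
    have h1 : orderOf y ∣ p ^ a * m := hnm ▸ orderOf_dvd_natCard y
    rw [hk] at h1 ⊢
    exact (Nat.Coprime.pow_left k ((Nat.Prime.coprime_iff_not_dvd hp.out).2 hm)).dvd_of_dvd_mul_right h1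
  have hx1 : orderOf x ∣ m := by
    have h1 : orderOf x ∣ p ^ a * m := hnm ▸ orderOf_dvd_natCard x
    exact (Nat.Coprime.pow_right a hx).dvd_of_dvd_mul_left h1
  have h2 : y ^ e = y := by
    have h3 : e ≡ 1 [MOD orderOf y] := he1.of_dvd hy1
    have h4 := pow_eq_pow_iff_modEq.2 h3
    rwa [pow_one] at h4
  have h3 : x ^ e = 1 := by
    have h4 : e ≡ 0 [MOD orderOf x] := he2.of_dvd hx1
    have h5 := pow_eq_pow_iff_modEq.2 h4
    rwa [pow_zero] at h5
  rw [(show Commute y x from hyx).mul_pow, h2, h3, mul_one]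

section count

variable [Fintype G]

open Classical in
/-- count elements by their `p`-part. -/
theorem card_eq_sum_pPart (p : ℕ) [hp : Fact p.Prime] :
    Fintype.card G = ∑ y ∈ Finset.univ.filter (fun y : G => ∃ k : ℕ, orderOf y = p ^ k),
      (Finset.univ.filter (fun x : G => (orderOf x).Coprime p ∧ y * x = x * y)).card := by
  obtain ⟨e, he⟩ := exists_pPart_exponent (G := G) p
  rw [← Finset.card_sigma, ← Finset.card_univ]
  symm
  apply Finset.card_bij (fun (s : Σ _ : G, G) _ => s.1 * s.2)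
  · intro s _
    exact Finset.mem_univ _
  · rintro ⟨y, x⟩ h1 ⟨y', x'⟩ h2 h3
    simp only [Finset.mem_sigma, Finset.mem_filter, Finset.mem_univ, true_and] at h1 h2
    have h4 := he y x h1.1 h1.2.1 h1.2.2
    have h5 := he y' x' h2.1 h2.2.1 h2.2.2
    have h3' : y * x = y' * x' := h3
    have h6 : y = y' := by rw [← h4, ← h5, h3']
    subst h6
    have h7 : x = x' := mul_left_cancel h3'
    rw [h7]
  · intro g _
    obtain ⟨i, j, hg, hi, hj⟩ := exists_pPart_decomp p g
    refine ⟨⟨g ^ i, g ^ j⟩, ?_, hg.symm⟩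
    simp only [Finset.mem_sigma, Finset.mem_filter, Finset.mem_univ, true_and]
    exact ⟨hi, hj, (Commute.pow_pow_self g i j).eq⟩

open Classical in
/-- count elements by their `p'`-part. -/
theorem card_eq_sum_pPart' (p : ℕ) [hp : Fact p.Prime] :
    Fintype.card G = ∑ x ∈ Finset.univ.filter (fun x : G => (orderOf x).Coprime p),
      (Finset.univ.filter (fun y : G => (∃ k : ℕ, orderOf y = p ^ k) ∧ y * x = x * y)).card := by
  obtain ⟨e, he⟩ := exists_pPart_exponent (G := G) p
  rw [← Finset.card_sigma, ← Finset.card_univ]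
  symm
  apply Finset.card_bij (fun (s : Σ _ : G, G) _ => s.2 * s.1)
  · intro s _
    exact Finset.mem_univ _
  · rintro ⟨x, y⟩ h1 ⟨x', y'⟩ h2 h3
    simp only [Finset.mem_sigma, Finset.mem_filter, Finset.mem_univ, true_and] at h1 h2
    have h4 := he y x h1.2.1 h1.1 h1.2.2
    have h5 := he y' x' h2.2.1 h2.1 h2.2.2
    have h3' : y * x = y' * x' := h3
    have h6 : y = y' := by rw [← h4, ← h5, h3']
    subst h6
    have h7 : x = x' := mul_left_cancel h3'
    rw [h7]
  · intro g _
    obtain ⟨i, j, hg, hi, hj⟩ := exists_pPart_decomp p g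
    refine ⟨⟨g ^ j, g ^ i⟩, ?_, hg.symm⟩
    simp only [Finset.mem_sigma, Finset.mem_filter, Finset.mem_univ, true_and]
    exact ⟨hj, hi, (Commute.pow_pow_self g i j).eq⟩

end count

end Cfsg.Agent.H24
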