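import Cfsg.Agent.H24.SqFree2

set_option autoImplicit false

/-!
Groups whose class sizes are not divisible by the square of a prime, part 3: `p`-nilpotency
(helper24).
-/

namespace Cfsg.Agent.H24

open Cfsg Subgroup

universe u

variable {G : Type u} [Group G]

open Classical in
theorem sum_card_centralizer_conj [Fintype G] (z : G) :
    ∑ y ∈ Finset.univ.filter (fun y : G => IsConj z y),
      Nat.card (centralizer ({y} : Set G)) = Fintype.card G := by
  have h1 := Finset.card_eq_sum_card_fiberwise (f := fun g : G => g * z * g⁻¹)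
    (s := (Finset.univ : Finset G)) (t := Finset.univ.filter (fun y : G => IsConj z y))
    (by
      intro g _
      simp only [Finset.coe_filter, Finset.mem_univ, true_and, Set.mem_setOf_eq]
      exact isConj_iff.2 ⟨g, rfl⟩)
  rw [← Finset.card_univ, h1]
  apply Finset.sum_congr rfl
  intro y hy
  simp only [Finset.mem_filter, Finset.mem_univ, true_and] at hy
  obtain ⟨g₀, hg₀⟩ := isConj_iff.1 hy
  rw [Nat.card_eq_fintype_card, Fintype.card_subtype]
  apply Finset.card_bij (fun c _ => c * g₀)
  · intro c hc
    simp only [Finset.mem_filter, Finset.mem_univ, true_and] at hc ⊢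
    rw [mem_centralizer_singleton_iff] at hc
    calc c * g₀ * z * (c * g₀)⁻¹ = c * (g₀ * z * g₀⁻¹) * c⁻¹ := by group
      _ = c * y * c⁻¹ := by rw [hg₀]
      _ = y := by rw [← hc, mul_inv_cancel_right]
  · intro c _ c' _ h
    exact mul_right_cancel h
  · intro g hg
    simp only [Finset.mem_filter, Finset.mem_univ, true_and] at hg
    refine ⟨g * g₀⁻¹, ?_, by group⟩
    simp only [Finset.mem_filter, Finset.mem_univ, true_and]
    rw [mem_centralizer_singleton_iff]
    calc y * (g * g₀⁻¹) = (g * z * g⁻¹) * (g * g₀⁻¹) := by rw [hg]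
      _ = g * g₀⁻¹ * (g₀ * z * g₀⁻¹) := by group
      _ = g * g₀⁻¹ * y := by rw [hg₀]

theorem npc_of_count [Finite G] {p : ℕ} [hp : Fact p.Prime]
    (hab : ∀ K : Subgroup G, IsPGroup p K → ∀ a ∈ K, ∀ b ∈ K, a * b = b * a)
    (hsq : ∀ x : G, (orderOf x).Coprime p → ¬ p ^ 2 ∣ (centralizer ({x} : Set G)).index)
    (hC : ∀ y : G, y ≠ 1 → (∃ k : ℕ, orderOf y = p ^ k) →
      HasNormalPComplement p (centralizer ({y} : Set G)))
    (P : Sylow p G) (hP : p ^ 2 ≤ Nat.card (P : Subgroup G)) : HasNormalPComplement p G := by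
  classical
  haveI := Fintype.ofFinite G
  by_contra hcon
  -- a `p'`-element acting semiregularly on `P`
  have hne : ∃ n ∈ normalizer ((P : Subgroup G) : Set G),
      n ∉ centralizer ((P : Subgroup G) : Set G) := by
    by_contra h
    push Not at h
    exact hcon (hasNormalPComplement_of_relIndex_eq_one P (Subgroup.relIndex_eq_one.2 h))
  obtain ⟨n, hn, hnC⟩ := hne
  obtain ⟨i, j, hnij, hi, hj⟩ := exists_pPart_decomp p n
  have hni : n ^ i ∈ (P : Subgroup G) := by
    have h1 := IsPGroup.inf_normalizer_sylow (isPGroup_zpowers_of_orderOf hi) P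
    have h2 : n ^ i ∈ zpowers (n ^ i) ⊓ normalizer ((P : Subgroup G) : Set G) :=
      Subgroup.mem_inf.2 ⟨mem_zpowers _, pow_mem hn i⟩
    have h3 : n ^ i ∈ zpowers (n ^ i) ⊓ (P : Subgroup G) := by
      rw [← h1]; exact h2
    exact (Subgroup.mem_inf.1 h3).2
  set a := n ^ j with ha
  have haN : a ∈ normalizer ((P : Subgroup G) : Set G) := pow_mem hn j
  have haC : a ∉ centralizer ((P : Subgroup G) : Set G) := by
    intro h
    apply hnC
    rw [hnij]
    refine mul_mem ?_ h
    rw [mem_centralizer_iff]
    intro y hy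
    exact hab P P.isPGroup' y hy _ hni
  have hPC : ∀ z ∈ (P : Subgroup G), (P : Subgroup G) ≤ centralizer ({z} : Set G) := by
    intro z hz w hw
    rw [mem_centralizer_singleton_iff]
    exact hab P P.isPGroup' z hz w hw
  have hsemi : ∀ z ∈ (P : Subgroup G), z ≠ 1 → a * z * a⁻¹ ≠ z := by
    intro z hz hz1 h
    rw [mul_inv_eq_iff_eq_mul] at h
    apply haC
    have hz' : ∃ k : ℕ, orderOf z = p ^ k := exists_orderOf_eq_pow_of_mem P.isPGroup' hz
    have h2 := hC z hz1 hz'
    have haz : a ∈ centralizer ({z} : Set G) := mem_centralizer_singleton_iff.2 h.symm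
    have h3 : IsPGroup p ((P : Subgroup G).subgroupOf (centralizer ({z} : Set G))) :=
      P.isPGroup'.comap_subtype
    have h4 := H2.mem_centralizer_of_hasNormalPComplement h2 h3 (g := ⟨a, haz⟩) (by
      rw [Subgroup.mem_normalizer_iff]
      rintro ⟨w, hw⟩
      rw [Subgroup.mem_subgroupOf, Subgroup.mem_subgroupOf]
      exact (Subgroup.mem_normalizer_iff.1 haN) w) (by rw [Subgroup.orderOf_mk]; exact hj)
    rw [mem_centralizer_iff]
    intro w hw
    have h5 := (mem_centralizer_iff.1 h4) ⟨w, hPC z hz hw⟩ (Subgroup.mem_subgroupOf.2 hw)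
    exact congrArg Subtype.val h5
  -- notation
  set q := Nat.card (P : Subgroup G) with hq
  obtain ⟨m, hm⟩ := IsPGroup.iff_card.1 P.isPGroup'
  set isp : G → Prop := fun y => ∃ k : ℕ, orderOf y = p ^ k with hisp
  set Y : Finset G := Finset.univ.filter (fun y : G => isp y ∧ y ≠ 1) with hY
  set Z : Finset G := Finset.univ.filter (fun z : G => z ∈ (P : Subgroup G) ∧ z ≠ 1) with hZ
  let A : G → ℕ := fun y =>
    (Finset.univ.filter (fun x : G => (orderOf x).Coprime p ∧ y * x = x * y)).card
  set N' := (Finset.univ.filter (fun x : G => (orderOf x).Coprime p)).card with hN'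
  -- (1)
  have e1 : Fintype.card G = N' + ∑ y ∈ Y, A y := by
    rw [card_eq_sum_pPart (G := G) p]
    have h1 : Finset.univ.filter (fun y : G => ∃ k : ℕ, orderOf y = p ^ k) = insert 1 Y := by
      ext y
      simp only [Finset.mem_filter, Finset.mem_univ, true_and, Finset.mem_insert, hY, hisp]
      constructor
      · intro h
        by_cases hy : y = 1
        · exact Or.inl hy
        · exact Or.inr ⟨h, hy⟩
      · rintro (rfl | h)
        · exact ⟨0, by rw [orderOf_one, pow_zero]⟩
        · exact h.1
    rw [h1, Finset.sum_insert (by simp [hY])]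
    congr 1
    rw [hN']
    congr 1
    ext x
    simp
  -- (2)
  have e2 : ∀ y ∈ Y, A y * q ≤ Nat.card (centralizer ({y} : Set G)) := by
    intro y hy
    simp only [hY, Finset.mem_filter, Finset.mem_univ, true_and] at hy
    obtain ⟨N, hNn, hNp, k, hk⟩ := H2.hasNormalPComplement_iff.1 (hC y hy.2 hy.1)
    have h1 : A y ≤ Nat.card N := by
      have h2 : (Finset.univ.filter
          (fun x : G => (orderOf x).Coprime p ∧ y * x = x * y)).card ≤
          (Finset.univ.image (fun w : N => ((w : centralizer ({y} : Set G)) : G))).card := by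
        apply Finset.card_le_card
        intro x hx
        simp only [Finset.mem_filter, Finset.mem_univ, true_and] at hx
        have hxC : x ∈ centralizer ({y} : Set G) := mem_centralizer_singleton_iff.2 hx.2
        have hxN : (⟨x, hxC⟩ : centralizer ({y} : Set G)) ∈ N := by
          apply H2.mem_of_coprime_of_isPGroup_quotient (p := p)
          · apply IsPGroup.of_card (n := k)
            rw [← hk]; rfl
          · rw [Subgroup.orderOf_mk]; exact hx.1
        exact Finset.mem_image.2 ⟨⟨_, hxN⟩, Finset.mem_univ _, rfl⟩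
      refine h2.trans (Finset.card_image_le.trans ?_)
      rw [Finset.card_univ, Nat.card_eq_fintype_card]
    have h2 : Nat.card N * p ^ k = Nat.card (centralizer ({y} : Set G)) := by
      rw [← hk]; exact N.card_mul_index
    obtain ⟨Q, hQ⟩ := (isPGroup_zpowers_of_orderOf hy.1).exists_le_sylow
    have h3 : (Q : Subgroup G) ≤ centralizer ({y} : Set G) := by
      intro w hw
      rw [mem_centralizer_singleton_iff]
      exact hab Q Q.isPGroup' y (hQ (mem_zpowers y)) w hw
    have h4 : q ∣ Nat.card (centralizer ({y} : Set G)) := by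
      have := Subgroup.card_dvd_of_le h3
      rwa [Sylow.card_eq_multiplicity, ← Sylow.card_eq_multiplicity P] at this
    have h5 : q ∣ p ^ k := by
      rw [← h2] at h4
      refine Nat.Coprime.dvd_of_dvd_mul_left ?_ h4
      rw [hq, hm]
      exact Nat.Coprime.pow_left _ ((hp.out.coprime_iff_not_dvd).2 hNp)
    calc A y * q ≤ Nat.card N * p ^ k := Nat.mul_le_mul h1 (Nat.le_of_dvd (pow_pos hp.out.pos k) h5)
      _ = _ := h2
  -- (3)
  have e3 : 2 * ∑ y ∈ Y, Nat.card (centralizer ({y} : Set G)) ≤ (q - 1) * Fintype.card G := by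
    have hZcard : Z.card = q - 1 := by
      have h1 : Finset.univ.filter (fun z : G => z ∈ (P : Subgroup G)) = insert 1 Z := by
        ext y
        simp only [Finset.mem_filter, Finset.mem_univ, true_and, Finset.mem_insert, hZ]
        constructor
        · intro h
          by_cases hy : y = 1
          · exact Or.inl hy
          · exact Or.inr ⟨h, hy⟩
        · rintro (rfl | h)
          · exact one_mem _
          · exact h.1
      have h2 : q = (insert 1 Z).card := by
        rw [← h1, hq, Nat.card_eq_fintype_card, Fintype.card_subtype]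
      rw [h2, Finset.card_insert_of_notMem (by simp [hZ])]
      rfl
    have h1 : ∑ z ∈ Z, Fintype.card G = (q - 1) * Fintype.card G := by
      rw [Finset.sum_const, hZcard, smul_eq_mul]
    rw [← h1]
    have h2 : ∑ z ∈ Z, Fintype.card G = ∑ z ∈ Z,
        ∑ y ∈ Y.filter (fun y => IsConj z y), Nat.card (centralizer ({y} : Set G)) := by
      apply Finset.sum_congr rfl
      intro z hz
      simp only [hZ, Finset.mem_filter, Finset.mem_univ, true_and] at hz
      rw [← sum_card_centralizer_conj z]
      apply Finset.sum_congr _ (fun _ _ => rfl)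
      ext y
      simp only [hY, Finset.mem_filter, Finset.mem_univ, true_and]
      constructor
      · intro h
        obtain ⟨g, hg⟩ := isConj_iff.1 h
        refine ⟨⟨?_, ?_⟩, h⟩
        · obtain ⟨k, hk⟩ := exists_orderOf_eq_pow_of_mem P.isPGroup' hz.1
          refine ⟨k, ?_⟩
          rw [← hk, ← hg]
          exact (MulAut.conj g).orderOf_eq z
        · rintro rfl
          apply hz.2
          rw [mul_inv_eq_one] at hg
          exact mul_left_cancel (hg.trans (mul_one g).symm)
      · exact fun h => h.2
    rw [h2]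
    rw [Finset.sum_comm' (s' := fun y => Z.filter (fun z => IsConj z y)) (t' := Y)]
    · rw [Finset.mul_sum]
      apply Finset.sum_le_sum
      intro y hy
      rw [Finset.sum_const, smul_eq_mul]
      apply Nat.mul_le_mul_right
      simp only [hY, Finset.mem_filter, Finset.mem_univ, true_and] at hy
      obtain ⟨Q, hQ⟩ := (isPGroup_zpowers_of_orderOf hy.1).exists_le_sylow
      obtain ⟨g, hg⟩ := MulAction.exists_smul_eq G Q P
      have hz0 : g * y * g⁻¹ ∈ (P : Subgroup G) := by
        rw [← hg, Sylow.coe_subgroup_smul]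
        exact Subgroup.mem_map.2 ⟨y, hQ (mem_zpowers y), rfl⟩
      have hz1 : g * y * g⁻¹ ≠ 1 := by
        intro h
        rw [mul_inv_eq_one] at h
        exact hy.2 (mul_left_cancel (h.trans (mul_one g).symm))
      have hz2 : a * (g * y * g⁻¹) * a⁻¹ ∈ (P : Subgroup G) :=
        ((Subgroup.mem_normalizer_iff.1 haN) _).1 hz0
      have hz3 : a * (g * y * g⁻¹) * a⁻¹ ≠ 1 := by
        intro h
        rw [mul_inv_eq_one] at h
        exact hz1 (mul_left_cancel (h.trans (mul_one a).symm))
      have h5 : ({g * y * g⁻¹, a * (g * y * g⁻¹) * a⁻¹} : Finset G) ⊆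
          Z.filter (fun z => IsConj z y) := by
        intro w hw
        simp only [Finset.mem_insert, Finset.mem_singleton] at hw
        simp only [hZ, Finset.mem_filter, Finset.mem_univ, true_and]
        rcases hw with rfl | rfl
        · exact ⟨⟨hz0, hz1⟩, isConj_iff.2 ⟨g⁻¹, by group⟩⟩
        · exact ⟨⟨hz2, hz3⟩, isConj_iff.2 ⟨(a * g)⁻¹, by group⟩⟩
      calc 2 = ({g * y * g⁻¹, a * (g * y * g⁻¹) * a⁻¹} : Finset G).card :=
            (Finset.card_pair (hsemi _ hz0 hz1).symm).symm
        _ ≤ _ := Finset.card_le_card h5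
    · intro z y
      simp only [Finset.mem_filter]
      tauto
  -- (4)
  have e4 : N' * q ≤ Fintype.card G * p := by
    rw [card_eq_sum_pPart' (G := G) p, Finset.sum_mul, hN', Finset.card_eq_sum_ones,
      Finset.sum_mul]
    apply Finset.sum_le_sum
    intro x hx
    simp only [Finset.mem_filter, Finset.mem_univ, true_and] at hx
    rw [one_mul]
    obtain ⟨P', T, -, hTP, hTC, hTd⟩ := exists_sylow_centralizer_ge (p := p)
      (centralizer ({x} : Set G)) ⊥ IsPGroup.of_bot bot_le
    have h1 : T.relIndex (P' : Subgroup G) ≤ p := by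
      obtain ⟨m', hm'⟩ := IsPGroup.iff_card.1 P'.isPGroup'
      have h2 : T.relIndex (P' : Subgroup G) ∣ p ^ m' := by
        rw [← hm']; exact Subgroup.relIndex_dvd_card _ _
      obtain ⟨b, -, hb⟩ := (Nat.dvd_prime_pow hp.out).1 h2
      have h3 : b ≤ 1 := by
        by_contra hb1
        push Not at hb1
        apply hsq x hx
        refine dvd_trans ?_ hTd
        rw [hb]
        exact pow_dvd_pow p hb1
      rw [hb]
      calc p ^ b ≤ p ^ 1 := Nat.pow_le_pow_right hp.out.pos h3
        _ = p := pow_one p
    have h2 : Nat.card T * T.relIndex (P' : Subgroup G) = q := by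
      have h5 := (T.subgroupOf (P' : Subgroup G)).card_mul_index
      rw [Nat.card_congr (Subgroup.subgroupOfEquivOfLe hTP).toEquiv] at h5
      rw [Subgroup.relIndex, h5, hq, Sylow.card_eq_multiplicity,
        ← Sylow.card_eq_multiplicity P]
    have h3 : Nat.card T ≤ (Finset.univ.filter
        (fun y : G => (∃ k : ℕ, orderOf y = p ^ k) ∧ y * x = x * y)).card := by
      rw [Nat.card_eq_fintype_card, Fintype.card_subtype]
      apply Finset.card_le_card
      intro t ht
      simp only [Finset.mem_filter, Finset.mem_univ, true_and] at ht ⊢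
      refine ⟨exists_orderOf_eq_pow_of_mem P'.isPGroup' (hTP ht), ?_⟩
      exact (mem_centralizer_singleton_iff.1 (hTC ht)).symm
    calc q = Nat.card T * T.relIndex (P' : Subgroup G) := h2.symm
      _ ≤ _ := Nat.mul_le_mul h3 h1
  -- conclusion
  have e5 : (∑ y ∈ Y, A y) * q ≤ ∑ y ∈ Y, Nat.card (centralizer ({y} : Set G)) := by
    rw [Finset.sum_mul]
    exact Finset.sum_le_sum e2
  have hg : 0 < Fintype.card G := Fintype.card_pos
  have hq1 : 1 ≤ q := Nat.card_pos
  have e6 : 2 * q * Fintype.card G ≤ (2 * p + (q - 1)) * Fintype.card G := by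
    calc 2 * q * Fintype.card G = 2 * (N' * q) + 2 * ((∑ y ∈ Y, A y) * q) := by
          rw [e1]; ring
      _ ≤ 2 * (Fintype.card G * p) + 2 * ∑ y ∈ Y, Nat.card (centralizer ({y} : Set G)) := by
          omega
      _ ≤ 2 * (Fintype.card G * p) + (q - 1) * Fintype.card G := by omega
      _ = _ := by ring
  have e7 := Nat.le_of_mul_le_mul_right e6 hg
  have h2p : 2 ≤ p := hp.out.two_le
  have e8 : 2 * p ≤ p ^ 2 := by rw [pow_two]; exact Nat.mul_le_mul_right p h2p
  omega

end Cfsg.Agent.H24
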