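import Cfsg.Agent.H24.SqFree3
import Cfsg.Agent.H24.Kazarin2
import Cfsg.Agent.H24.AutFrat2

set_option autoImplicit false

/-!
Groups whose class sizes are not divisible by the square of a prime, part 4: `p`-nilpotency
with abelian Sylow subgroups (helper24).
-/

namespace Cfsg.Agent.H24

open Cfsg Subgroup

universe u

variable {G : Type u} [Group G]

theorem npc_of_small [Finite G] {p : ℕ} [hp : Fact p.Prime] (hcop : (Nat.card G).Coprime (p - 1))
    (P : Sylow p G) (hP : Nat.card (P : Subgroup G) < p ^ 2) : HasNormalPComplement p G := by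
  obtain ⟨m, hm⟩ := IsPGroup.iff_card.1 P.isPGroup'
  have hm1 : m < 2 := by
    rw [hm] at hP
    exact (Nat.pow_lt_pow_iff_right hp.out.one_lt).1 hP
  haveI hcyc : IsCyclic (P : Subgroup G) := by
    interval_cases m
    · rw [pow_zero] at hm
      haveI : Subsingleton (P : Subgroup G) := (Nat.card_eq_one_iff_unique.1 hm).1
      infer_instance
    · rw [pow_one] at hm
      exact isCyclic_of_prime_card hm
  have hrank : Group.rank (P : Subgroup G) ≤ 1 := by
    obtain ⟨g, hg⟩ := IsCyclic.exists_generator (α := (P : Subgroup G))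
    have h1 : Subgroup.closure (({g} : Finset (P : Subgroup G)) : Set (P : Subgroup G)) = ⊤ := by
      rw [Finset.coe_singleton, ← Subgroup.zpowers_eq_closure]
      exact (Subgroup.eq_top_iff' _).2 hg
    have h2 := Group.rank_le h1
    simpa using h2
  refine hasNormalPComplement_of_abelian_of_not_dvd P
    ⟨⟨fun a b => (IsCyclic.commutative.is_comm.comm a b)⟩⟩ hrank ?_
  intro q hq _ hqG hd
  rw [Finset.Icc_self, Finset.prod_singleton, pow_one] at hd
  have := Nat.dvd_gcd hqG hd
  rw [hcop] at this
  exact hq.one_lt.ne' (Nat.dvd_one.1 this)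

theorem npc_of_abelian_aux {p : ℕ} [hp : Fact p.Prime] (n : ℕ) : ∀ (G : Type u) [Group G]
    [Finite G], Nat.card G = n → (Nat.card G).Coprime (p - 1) →
    (∀ K : Subgroup G, IsPGroup p K → ∀ a ∈ K, ∀ b ∈ K, a * b = b * a) →
    (∀ x : G, (orderOf x).Coprime p → ¬ p ^ 2 ∣ (centralizer ({x} : Set G)).index) →
    HasNormalPComplement p G := by
  induction n using Nat.strong_induction_on with
  | _ n ih =>
  intro G _ _ hn hcop hab hsq
  obtain ⟨P⟩ := (inferInstance : Nonempty (Sylow p G))
  by_cases hP : Nat.card (P : Subgroup G) < p ^ 2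
  · exact npc_of_small hcop P hP
  push Not at hP
  by_cases hZ : center G ⊓ (P : Subgroup G) = ⊥
  · refine npc_of_count hab hsq ?_ P hP
    intro y hy1 hy
    obtain ⟨Q, hQ⟩ := (isPGroup_zpowers_of_orderOf hy).exists_le_sylow
    have hyQ : y ∈ (Q : Subgroup G) := hQ (mem_zpowers y)
    have hne : centralizer ({y} : Set G) ≠ ⊤ := by
      intro htop
      have hyc : y ∈ center G := by
        rw [mem_center_iff]
        intro g
        have h1 : g ∈ centralizer ({y} : Set G) := by rw [htop]; trivial
        exact (mem_centralizer_singleton_iff.1 h1).symm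
      obtain ⟨g, hg⟩ := MulAction.exists_smul_eq G Q P
      have h2 : g * y * g⁻¹ ∈ (P : Subgroup G) := by
        rw [← hg, Sylow.coe_subgroup_smul]
        exact Subgroup.mem_map.2 ⟨y, hyQ, rfl⟩
      rw [mem_center_iff.1 hyc g, mul_inv_cancel_right] at h2
      have h3 : y ∈ center G ⊓ (P : Subgroup G) := Subgroup.mem_inf.2 ⟨hyc, h2⟩
      rw [hZ, mem_bot] at h3
      exact hy1 h3
    have hlt : Nat.card (centralizer ({y} : Set G)) < n := by
      rw [← hn]
      refine lt_of_le_of_ne (Subgroup.card_le_card_group _) (fun h => hne ?_)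
      exact Subgroup.eq_top_of_card_eq _ h
    refine ih _ hlt (centralizer ({y} : Set G)) rfl ?_ ?_ ?_
    · exact Nat.Coprime.coprime_dvd_left (Subgroup.card_subgroup_dvd_card _) hcop
    · intro K hK a ha b hb
      have h1 := hab (K.map (centralizer ({y} : Set G)).subtype) (hK.map _) a ⟨a, ha, rfl⟩ b
        ⟨b, hb, rfl⟩
      exact Subtype.ext h1
    · intro x hx hd
      rw [index_centralizer_coe] at hd
      have hx' : (orderOf (x : G)).Coprime p := by rwa [Subgroup.orderOf_coe]
      apply hsq x hx'
      have hyx : zpowers y ≤ centralizer ({(x : G)} : Set G) := by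
        rw [zpowers_le, mem_centralizer_singleton_iff]
        exact (mem_centralizer_singleton_iff.1 x.2).symm
      obtain ⟨P', T, hyT, hTP, hTC, hTd⟩ := exists_sylow_centralizer_ge (p := p)
        (centralizer ({(x : G)} : Set G)) (zpowers y) (isPGroup_zpowers_of_orderOf hy) hyx
      have hyP' : y ∈ (P' : Subgroup G) := hTP (hyT (mem_zpowers y))
      have hP'C : (P' : Subgroup G) ≤ centralizer ({y} : Set G) := by
        intro w hw
        rw [mem_centralizer_singleton_iff]
        exact hab P' P'.isPGroup' y hyP' w hw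
      have h1 : (centralizer ({(x : G)} : Set G)).relIndex (centralizer ({y} : Set G)) ∣
          T.relIndex (centralizer ({y} : Set G)) := Subgroup.relIndex_dvd_of_le_left _ hTC
      have h2 : T.relIndex (P' : Subgroup G) * (P' : Subgroup G).relIndex
          (centralizer ({y} : Set G)) = T.relIndex (centralizer ({y} : Set G)) :=
        Subgroup.relIndex_mul_relIndex _ _ _ hTP hP'C
      have h3 : ¬ p ∣ (P' : Subgroup G).relIndex (centralizer ({y} : Set G)) := by
        intro h
        exact P'.not_dvd_index (h.trans (Subgroup.relIndex_dvd_index_of_le hP'C))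
      have h4 : p ^ 2 ∣ T.relIndex (P' : Subgroup G) := by
        have h5 := hd.trans h1
        rw [← h2] at h5
        exact (Nat.Coprime.pow_left 2 ((hp.out.coprime_iff_not_dvd).2 h3)).dvd_of_dvd_mul_right h5
      exact h4.trans hTd
  · set D := center G ⊓ (P : Subgroup G) with hD
    have hDc : D ≤ center G := inf_le_left
    haveI hDn : D.Normal := by
      constructor
      intro d hd g
      rw [← (mem_center_iff.1 (hDc hd) g).symm, mul_inv_cancel_right]
      exact hd
    have hDp : IsPGroup p D := P.isPGroup'.to_le inf_le_right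
    apply hasNormalPComplement_of_central_quotient D hDc hDp
    have hlt : Nat.card (G ⧸ D) < n := by
      rw [← hn, ← Subgroup.card_mul_index D, Subgroup.index]
      have h1 : 1 < Nat.card D := by
        rw [Subgroup.one_lt_card_iff_ne_bot]; exact hZ
      exact lt_mul_of_one_lt_left Nat.card_pos h1
    refine ih _ hlt (G ⧸ D) rfl ?_ ?_ ?_
    · exact Nat.Coprime.coprime_dvd_left (Subgroup.card_quotient_dvd_card _) hcop
    · intro K hK a ha b hb
      have h1 : IsPGroup p (K.comap (QuotientGroup.mk' D)) := by
        apply hK.comap_of_ker_isPGroup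
        rw [QuotientGroup.ker_mk']
        exact hDp
      obtain ⟨a, rfl⟩ := QuotientGroup.mk'_surjective D a
      obtain ⟨b, rfl⟩ := QuotientGroup.mk'_surjective D b
      rw [← map_mul, hab _ h1 a ha b hb, map_mul]
    · intro x hx hd
      obtain ⟨g, rfl, hg⟩ := exists_lift_coprime_order D x hx
      exact hsq g hg (hd.trans (index_centralizer_quotient_dvd D g))

/-- If the `p`-subgroups of `G` are abelian, `|G|` is prime to `p - 1` and no class of
`p`-regular elements has size divisible by `p ^ 2`, then `G` has a normal `p`-complement. -/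
theorem npc_of_abelian [Finite G] {p : ℕ} [hp : Fact p.Prime]
    (hcop : (Nat.card G).Coprime (p - 1))
    (hab : ∀ K : Subgroup G, IsPGroup p K → ∀ a ∈ K, ∀ b ∈ K, a * b = b * a)
    (hsq : ∀ x : G, (orderOf x).Coprime p → ¬ p ^ 2 ∣ (centralizer ({x} : Set G)).index) :
    HasNormalPComplement p G :=
  npc_of_abelian_aux _ G rfl hcop hab hsq

end Cfsg.Agent.H24
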