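import Cfsg.Agent.H24.SqFree4
import Cfsg.Agent.H13.Perm

set_option autoImplicit false

/-!
Groups whose class sizes are not divisible by the square of a prime, part 5: reduction to
abelian Sylow subgroups, Sylow towers (helper24).
-/

namespace Cfsg.Agent.H24

open Cfsg Subgroup
open scoped commutatorElement Pointwise

universe u

variable {G : Type u} [Group G]

/-- Jordan: the conjugates of a proper subgroup do not cover a finite group. -/
theorem exists_not_conj_mem [Finite G] (M : Subgroup G) (hM : M ≠ ⊤) :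
    ∃ g : G, ∀ x : G, x⁻¹ * g * x ∉ M := by
  classical
  by_contra hcon
  push Not at hcon
  haveI := Fintype.ofFinite G
  haveI := Fintype.ofFinite (G ⧸ M)
  have h1 := MulAction.sum_card_fixedBy_eq_card_orbits_mul_card_group G (G ⧸ M)
  have h2 : Fintype.card (Quotient (MulAction.orbitRel G (G ⧸ M))) = 1 := by
    have : Nat.card (Quotient (MulAction.orbitRel G (G ⧸ M))) = 1 := by
      rw [Nat.card_eq_one_iff_unique]
      refine ⟨⟨?_⟩, ⟨Quotient.mk'' (QuotientGroup.mk 1)⟩⟩
      intro a b
      induction a using Quotient.inductionOn'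
      induction b using Quotient.inductionOn'
      rename_i a b
      rw [Quotient.eq'']
      exact MulAction.exists_smul_eq G b a
    rwa [Nat.card_eq_fintype_card] at this
  rw [h2, one_mul] at h1
  have h3 : ∀ g : G, 1 ≤ Fintype.card (MulAction.fixedBy (G ⧸ M) g) := by
    intro g
    obtain ⟨x, hx⟩ := hcon g
    apply Fintype.card_pos_iff.2
    refine ⟨⟨QuotientGroup.mk x, ?_⟩⟩
    rw [MulAction.mem_fixedBy, MulAction.Quotient.smul_mk, eq_comm, QuotientGroup.eq, smul_eq_mul,
      ← mul_assoc]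
    exact hx
  have h4 : 1 < Fintype.card (MulAction.fixedBy (G ⧸ M) (1 : G)) := by
    have h5 : Fintype.card (MulAction.fixedBy (G ⧸ M) (1 : G)) = M.index := by
      rw [Subgroup.index, Nat.card_eq_fintype_card]
      apply Fintype.card_congr
      refine Equiv.subtypeUnivEquiv ?_
      intro x
      rw [MulAction.mem_fixedBy, one_smul]
    rw [h5]
    have h6 : M.index ≠ 1 := fun h => hM (Subgroup.index_eq_one.1 h)
    have h7 : M.index ≠ 0 := Subgroup.index_ne_zero_of_finite
    omega
  have h5 : ∑ g : G, 1 < ∑ g : G, Fintype.card (MulAction.fixedBy (G ⧸ M) g) :=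
    Finset.sum_lt_sum (fun g _ => h3 g) ⟨1, Finset.mem_univ _, h4⟩
  rw [h1, Finset.sum_const, smul_eq_mul, mul_one, Finset.card_univ] at h5
  exact lt_irrefl _ h5

/-- an element in all maximal subgroups of a Sylow subgroup is central. -/
theorem mem_center_of_mem_max [Finite G] {p : ℕ} [hp : Fact p.Prime]
    (hsq : ∀ x : G, ¬ p ^ 2 ∣ (centralizer ({x} : Set G)).index) (P : Sylow p G) {y : G}
    (hy : ∀ T : Subgroup G, T ≤ (P : Subgroup G) → T.relIndex (P : Subgroup G) ∣ p → y ∈ T) :
    y ∈ center G := by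
  have htop : centralizer ({y} : Set G) = ⊤ := by
    by_contra hne
    obtain ⟨g, hg⟩ := exists_not_conj_mem _ hne
    obtain ⟨P', T, -, hTP, hTC, hTd⟩ := exists_sylow_centralizer_ge (p := p)
      (centralizer ({g} : Set G)) ⊥ IsPGroup.of_bot bot_le
    have h1 : T.relIndex (P' : Subgroup G) ∣ p := by
      obtain ⟨m', hm'⟩ := IsPGroup.iff_card.1 P'.isPGroup'
      have h2 : T.relIndex (P' : Subgroup G) ∣ p ^ m' := by
        rw [← hm']; exact Subgroup.relIndex_dvd_card _ _
      obtain ⟨b, -, hb⟩ := (Nat.dvd_prime_pow hp.out).1 h2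
      have h3 : b ≤ 1 := by
        by_contra hb1
        push Not at hb1
        apply hsq g
        refine dvd_trans ?_ hTd
        rw [hb]
        exact pow_dvd_pow p hb1
      rw [hb]
      calc p ^ b ∣ p ^ 1 := pow_dvd_pow p h3
        _ = p := pow_one p
    obtain ⟨k, hk⟩ := MulAction.exists_smul_eq G P' P
    have h2 : y ∈ T.map (MulAut.conj k).toMonoidHom := by
      apply hy
      · rw [← hk, Sylow.coe_subgroup_smul]
        exact Subgroup.map_mono hTP
      · rw [← hk, Sylow.coe_subgroup_smul]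
        have h3 : (T.map (MulAut.conj k).toMonoidHom).relIndex
            ((P' : Subgroup G).map (MulAut.conj k).toMonoidHom) = T.relIndex (P' : Subgroup G) :=
          Subgroup.relIndex_map_map_of_injective _ _ (MulAut.conj k).injective
        have h4 : (MulAut.conj k • (P' : Subgroup G)) =
          (P' : Subgroup G).map (MulAut.conj k).toMonoidHom := rfl
        rw [h4, h3]
        exact h1
    obtain ⟨t, ht, hty⟩ := h2
    have h5 : k * t * k⁻¹ = y := hty
    apply hg k⁻¹
    have h6 := mem_centralizer_singleton_iff.1 (hTC ht)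
    rw [mem_centralizer_singleton_iff, inv_inv, ← h5]
    calc k * t * k⁻¹ * (k * g * k⁻¹) = k * (t * g) * k⁻¹ := by group
      _ = k * (g * t) * k⁻¹ := by rw [h6]
      _ = k * g * k⁻¹ * (k * t * k⁻¹) := by group
  rw [mem_center_iff]
  intro g
  have h1 : g ∈ centralizer ({y} : Set G) := by rw [htop]; trivial
  exact (mem_centralizer_singleton_iff.1 h1).symm

theorem commutator_mem_center_of_sylow [Finite G] {p : ℕ} [hp : Fact p.Prime]
    (hsq : ∀ x : G, ¬ p ^ 2 ∣ (centralizer ({x} : Set G)).index) (P : Sylow p G) {a b : G}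
    (ha : a ∈ (P : Subgroup G)) (hb : b ∈ (P : Subgroup G)) : ⁅a, b⁆ ∈ center G := by
  apply mem_center_of_mem_max hsq P
  intro T hTP hTd
  rcases (Nat.dvd_prime hp.out).1 hTd with h | h
  · have h1 : (P : Subgroup G) ≤ T := Subgroup.relIndex_eq_one.1 h
    rw [commutatorElement_def]
    exact mul_mem (mul_mem (mul_mem (h1 ha) (h1 hb)) (inv_mem (h1 ha))) (inv_mem (h1 hb))
  · set T' := T.subgroupOf (P : Subgroup G) with hT'
    have hidx : T'.index = p := h
    haveI hn : T'.Normal := H13.normal_of_index_prime_of_isPGroup P.isPGroup' hidx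
    have hcard : Nat.card ((P : Subgroup G) ⧸ T') = p := by
      rw [← Subgroup.index, hidx]
    haveI hcyc : IsCyclic ((P : Subgroup G) ⧸ T') := isCyclic_of_prime_card hcard
    have hcm : ((⟨a, ha⟩ : (P : Subgroup G)) : (P : Subgroup G) ⧸ T') *
        ((⟨b, hb⟩ : (P : Subgroup G)) : (P : Subgroup G) ⧸ T') =
        ((⟨b, hb⟩ : (P : Subgroup G)) : (P : Subgroup G) ⧸ T') *
        ((⟨a, ha⟩ : (P : Subgroup G)) : (P : Subgroup G) ⧸ T') :=
      IsCyclic.commutative.is_comm.comm _ _
    have h1 : (⁅(⟨a, ha⟩ : (P : Subgroup G)), ⟨b, hb⟩⁆ : (P : Subgroup G)) ∈ T' := by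
      rw [← QuotientGroup.eq_one_iff, commutatorElement_def, QuotientGroup.mk_mul,
        QuotientGroup.mk_mul, QuotientGroup.mk_mul, hcm, QuotientGroup.mk_inv,
        QuotientGroup.mk_inv]
      group
    exact Subgroup.mem_subgroupOf.1 h1

/-- If `|G|` is prime to `p - 1` and `p ^ 2` divides no class size then `G` has a normal
`p`-complement. -/
theorem npc_of_sq [Finite G] {p : ℕ} [hp : Fact p.Prime]
    (hcop : (Nat.card G).Coprime (p - 1))
    (hsq : ∀ x : G, ¬ p ^ 2 ∣ (centralizer ({x} : Set G)).index) :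
    HasNormalPComplement p G := by
  obtain ⟨P⟩ := (inferInstance : Nonempty (Sylow p G))
  set D := center G ⊓ (P : Subgroup G) with hD
  have hDc : D ≤ center G := inf_le_left
  haveI hDn : D.Normal := by
    constructor
    intro d hd g
    rw [← (mem_center_iff.1 (hDc hd) g).symm, mul_inv_cancel_right]
    exact hd
  have hDp : IsPGroup p D := P.isPGroup'.to_le inf_le_right
  apply hasNormalPComplement_of_central_quotient D hDc hDp
  apply npc_of_abelian
  · exact Nat.Coprime.coprime_dvd_left (Subgroup.card_quotient_dvd_card _) hcop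
  · intro K hK a ha b hb
    have h1 : IsPGroup p (K.comap (QuotientGroup.mk' D)) := by
      apply hK.comap_of_ker_isPGroup
      rw [QuotientGroup.ker_mk']
      exact hDp
    obtain ⟨Q, hQ⟩ := h1.exists_le_sylow
    obtain ⟨a, rfl⟩ := QuotientGroup.mk'_surjective D a
    obtain ⟨b, rfl⟩ := QuotientGroup.mk'_surjective D b
    have haQ : a ∈ (Q : Subgroup G) := hQ ha
    have hbQ : b ∈ (Q : Subgroup G) := hQ hb
    have h2 := commutator_mem_center_of_sylow hsq Q haQ hbQ
    have h3 : ⁅a, b⁆ ∈ (P : Subgroup G) := by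
      obtain ⟨k, hk⟩ := MulAction.exists_smul_eq G Q P
      have h4 : k * ⁅a, b⁆ * k⁻¹ ∈ (P : Subgroup G) := by
        rw [← hk, Sylow.coe_subgroup_smul]
        refine Subgroup.mem_map.2 ⟨⁅a, b⁆, ?_, rfl⟩
        rw [commutatorElement_def]
        exact mul_mem (mul_mem (mul_mem haQ hbQ) (inv_mem haQ)) (inv_mem hbQ)
      rwa [mem_center_iff.1 h2 k, mul_inv_cancel_right] at h4
    have h5 : ⁅a, b⁆ ∈ D := Subgroup.mem_inf.2 ⟨h2, h3⟩
    rw [← QuotientGroup.eq_one_iff, commutatorElement_def, QuotientGroup.mk_mul,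
        QuotientGroup.mk_mul, QuotientGroup.mk_mul, QuotientGroup.mk_inv,
        QuotientGroup.mk_inv, mul_inv_eq_one, mul_inv_eq_iff_eq_mul] at h5
    exact h5
  · intro x _ hd
    obtain ⟨g, rfl⟩ := QuotientGroup.mk_surjective x
    exact hsq g (hd.trans (index_centralizer_quotient_dvd D g))

/-- all class sizes are squarefree -/
def SqF (G : Type u) [Group G] : Prop := ∀ x : G, Squarefree (centralizer ({x} : Set G)).index

theorem SqF.subgroup [Finite G] (h : SqF G) (N : Subgroup G) [N.Normal] : SqF N := fun x =>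
  (h (x : G)).squarefree_of_dvd (index_centralizer_normal_dvd N x)

theorem SqF.quotient [Finite G] (h : SqF G) (N : Subgroup G) [N.Normal] : SqF (G ⧸ N) := by
  intro x
  obtain ⟨g, rfl⟩ := QuotientGroup.mk_surjective x
  exact (h g).squarefree_of_dvd (index_centralizer_quotient_dvd N g)

theorem SqF.not_sq_dvd (h : SqF G) {p : ℕ} (hp : p.Prime) (x : G) :
    ¬ p ^ 2 ∣ (centralizer ({x} : Set G)).index := by
  intro hd
  rw [pow_two] at hd
  exact hp.one_lt.ne' (Nat.isUnit_iff.1 (h x p hd))

/-- a group with squarefree class sizes has a normal Sylow subgroup. -/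
theorem SqF.exists_normal_sylow (n : ℕ) : ∀ (G : Type u) [Group G] [Finite G], Nat.card G = n →
    n ≠ 1 → SqF G → ∃ q : ℕ, q.Prime ∧ q ∣ Nat.card G ∧ ∃ Q : Sylow q G,
      (Q : Subgroup G).Normal := by
  induction n using Nat.strong_induction_on with
  | _ n ih =>
  intro G _ _ hn hn1 h
  have hcn1 : Nat.card G ≠ 1 := by rw [hn]; exact hn1
  set p := (Nat.card G).minFac with hpdef
  have hp : p.Prime := Nat.minFac_prime hcn1
  haveI : Fact p.Prime := ⟨hp⟩
  have hcop : (Nat.card G).Coprime (p - 1) := by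
    rw [Nat.coprime_iff_gcd_eq_one]
    by_contra hg
    obtain ⟨r, hr, hrd⟩ := Nat.exists_prime_and_dvd hg
    have h1 : p ≤ r := Nat.minFac_le_of_dvd hr.two_le (hrd.trans (Nat.gcd_dvd_left _ _))
    have h2 : r ≤ p - 1 := Nat.le_of_dvd (by have := hp.two_le; omega)
      (hrd.trans (Nat.gcd_dvd_right _ _))
    have := hp.two_le
    omega
  obtain ⟨N, hNn, hNp, k, hk⟩ := H2.hasNormalPComplement_iff.1
    (npc_of_sq hcop (fun x => h.not_sq_dvd hp x))
  by_cases hN1 : Nat.card N = 1
  · have hPG : IsPGroup p G := by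
      apply IsPGroup.of_card (n := k)
      rw [← N.card_mul_index, hN1, one_mul, hk]
    obtain ⟨P⟩ := (inferInstance : Nonempty (Sylow p G))
    refine ⟨p, hp, Nat.minFac_dvd _, P, ?_⟩
    have hT : IsPGroup p (⊤ : Subgroup G) := hPG.to_subgroup ⊤
    have : (P : Subgroup G) = ⊤ := (P.is_maximal' hT le_top).symm
    rw [this]
    infer_instance
  · have hk0 : k ≠ 0 := by
      rintro rfl
      rw [pow_zero, Subgroup.index_eq_one] at hk
      rw [hk, Subgroup.card_top] at hNp
      exact hNp (Nat.minFac_dvd _)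
    have hlt : Nat.card N < n := by
      rw [← hn, ← N.card_mul_index, hk]
      exact lt_mul_of_one_lt_right Nat.card_pos (Nat.one_lt_pow hk0 hp.one_lt)
    obtain ⟨q, hq, hqN, Q, hQ⟩ := ih _ hlt N rfl hN1 (h.subgroup N)
    haveI : Fact q.Prime := ⟨hq⟩
    have hqp : q ≠ p := by
      rintro rfl
      exact hNp hqN
    have hqidx : ¬ q ∣ N.index := by
      rw [hk]
      intro hd
      exact hqp ((Nat.prime_dvd_prime_iff_eq hq hp).1 (hq.dvd_of_dvd_pow hd))
    obtain ⟨P, hP, -⟩ := exists_sylow_equiv hqidx Q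
    refine ⟨q, hq, hqN.trans (Subgroup.card_subgroup_dvd_card N), P, ?_⟩
    rw [hP]
    haveI : (Q : Subgroup N).Characteristic := Sylow.characteristic_of_normal Q hQ
    infer_instance

end Cfsg.Agent.H24
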