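import Cfsg.Agent.H24.SqFree5
import Cfsg.Agent.H2.CoprimeAb
import Cfsg.Agent.H2.Fusion
import Cfsg.Agent.H1.Cyc

set_option autoImplicit false

/-!
Groups with squarefree class sizes, part 6: the commutator pencil (helper24).
-/

namespace Cfsg.Agent.H24

open Cfsg Subgroup
open scoped commutatorElement Pointwise

universe u

variable {G : Type u} [Group G]

/-- the homomorphism `v ↦ ⁅x, v⁆` on `Q`. -/
def commHom (Q : Subgroup G) (x : G)
    (h : ∀ w ∈ Q, ∀ v ∈ Q, v * ⁅x, w⁆ = ⁅x, w⁆ * v) : Q →* G where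
  toFun v := ⁅x, (v : G)⁆
  map_one' := by simp
  map_mul' := by
    intro v w
    have h1 := h w w.2 v v.2
    simp only [commutatorElement_def, Subgroup.coe_mul] at h1 ⊢
    calc x * (↑v * ↑w) * x⁻¹ * (↑v * ↑w)⁻¹ =
        (x * v * x⁻¹ * (v : G)⁻¹) * (v * (x * w * x⁻¹ * (w : G)⁻¹)) * (v : G)⁻¹ := by group
      _ = (x * v * x⁻¹ * (v : G)⁻¹) * ((x * w * x⁻¹ * (w : G)⁻¹) * v) * (v : G)⁻¹ := by rw [h1]
      _ = x * ↑v * x⁻¹ * (↑v)⁻¹ * (x * ↑w * x⁻¹ * (↑w)⁻¹) := by group

theorem card_range_commHom [Finite G] (Q : Subgroup G) (x : G)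
    (h : ∀ w ∈ Q, ∀ v ∈ Q, v * ⁅x, w⁆ = ⁅x, w⁆ * v) :
    Nat.card (commHom Q x h).range = (centralizer ({x} : Set G)).relIndex Q := by
  rw [← Subgroup.index_ker, Subgroup.relIndex]
  congr 1
  ext v
  rw [MonoidHom.mem_ker, Subgroup.mem_subgroupOf, mem_centralizer_singleton_iff]
  show ⁅x, (v : G)⁆ = 1 ↔ _
  rw [commutatorElement_eq_one_iff_mul_comm]

/-- The pencil lemma. -/
theorem pencil [Finite G] {q : ℕ} (hq : q.Prime) (X Q : Subgroup G)
    (hcomm : ∀ x ∈ X, ∀ w ∈ Q, ∀ v ∈ Q, v * ⁅x, w⁆ = ⁅x, w⁆ * v)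
    (hidx : ∀ x ∈ X, (centralizer ({x} : Set G)).relIndex Q ∣ q) :
    (∃ C : Subgroup G, C ≤ Q ∧ C ≤ centralizer (X : Set G) ∧ C.relIndex Q ∣ q) ∨
      (∃ L : Subgroup G, Nat.card L ∣ q ∧ ∀ x ∈ X, ∀ v ∈ Q, ⁅x, v⁆ ∈ L) := by
  classical
  -- either all centralizers coincide or all commutator groups coincide
  by_cases hall : ∃ x ∈ X, ∃ y ∈ X, (centralizer ({x} : Set G)).relIndex Q ≠ 1 ∧
      (centralizer ({y} : Set G)).relIndex Q ≠ 1 ∧
      Q ⊓ centralizer ({x} : Set G) ≠ Q ⊓ centralizer ({y} : Set G)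
  swap
  · left
    push Not at hall
    by_cases hex : ∃ x ∈ X, (centralizer ({x} : Set G)).relIndex Q ≠ 1
    · obtain ⟨x, hx, hx1⟩ := hex
      refine ⟨Q ⊓ centralizer ({x} : Set G), inf_le_left, ?_, ?_⟩
      · intro c hc
        rw [mem_centralizer_iff]
        intro y hy
        have hcy : c ∈ centralizer ({y} : Set G) := by
          by_cases hy1 : (centralizer ({y} : Set G)).relIndex Q = 1
          · exact Subgroup.relIndex_eq_one.1 hy1 (Subgroup.mem_inf.1 hc).1
          · rw [hall x hx y hy hx1 hy1] at hc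
            exact (Subgroup.mem_inf.1 hc).2
        exact mem_centralizer_singleton_iff.1 hcy
      · rw [Subgroup.inf_relIndex_left]
        exact hidx x hx
    · push Not at hex
      refine ⟨Q, le_rfl, ?_, by rw [Subgroup.relIndex_self]; exact one_dvd _⟩
      intro c hc
      rw [mem_centralizer_iff]
      intro y hy
      exact mem_centralizer_singleton_iff.1 (Subgroup.relIndex_eq_one.1 (hex y hy) hc)
  right
  obtain ⟨x, hx, y, hy, hx1, hy1, hxy⟩ := hall
  -- key: `L_a = L_b` if `C_a ≠ C_b`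
  let L : ∀ a : G, a ∈ X → Subgroup G := fun a ha => (commHom Q a (hcomm a ha)).range
  have hLcard : ∀ a (ha : a ∈ X), Nat.card (L a ha) = (centralizer ({a} : Set G)).relIndex Q :=
    fun a ha => card_range_commHom Q a (hcomm a ha)
  have hLmem : ∀ a (ha : a ∈ X) v, v ∈ Q → ⁅a, v⁆ ∈ L a ha := fun a ha v hv => ⟨⟨v, hv⟩, rfl⟩
  have key : ∀ a (ha : a ∈ X) b (hb : b ∈ X), (centralizer ({a} : Set G)).relIndex Q ≠ 1 →
      (centralizer ({b} : Set G)).relIndex Q ≠ 1 →
      Q ⊓ centralizer ({a} : Set G) ≠ Q ⊓ centralizer ({b} : Set G) → L a ha = L b hb := by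
    intro a ha b hb ha1 hb1 hab
    by_contra hL
    have hca : (centralizer ({a} : Set G)).relIndex Q = q :=
      ((Nat.dvd_prime hq).1 (hidx a ha)).resolve_left ha1
    have hcb : (centralizer ({b} : Set G)).relIndex Q = q :=
      ((Nat.dvd_prime hq).1 (hidx b hb)).resolve_left hb1
    have hLa : Nat.card (L a ha) = q := by rw [hLcard a ha, hca]
    have hLb : Nat.card (L b hb) = q := by rw [hLcard b hb, hcb]
    have hbot : L a ha ⊓ L b hb = ⊥ := by
      have h1 : Nat.card ↥(L a ha ⊓ L b hb) ∣ q := by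
        rw [← hLa]; exact Subgroup.card_dvd_of_le inf_le_left
      rcases (Nat.dvd_prime hq).1 h1 with h2 | h2
      · exact Subgroup.card_eq_one.1 h2
      · exfalso
        apply hL
        have h3 : L a ha ⊓ L b hb = L a ha :=
          Subgroup.eq_of_le_of_card_ge inf_le_left (by rw [hLa, h2])
        have h4 : L a ha ⊓ L b hb = L b hb :=
          Subgroup.eq_of_le_of_card_ge inf_le_right (by rw [hLb, h2])
        rw [← h3, h4]
    -- `C_{a⁻¹ b} ∩ Q ≤ C_a ∩ C_b`
    have hz : Q ⊓ centralizer ({a⁻¹ * b} : Set G) ≤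
        (Q ⊓ centralizer ({a} : Set G)) ⊓ (Q ⊓ centralizer ({b} : Set G)) := by
      intro v hv
      obtain ⟨hvQ, hv2⟩ := Subgroup.mem_inf.1 hv
      rw [mem_centralizer_singleton_iff] at hv2
      have h1 : ⁅a, v⁆ = ⁅b, v⁆ := by
        rw [commutatorElement_def, commutatorElement_def]
        have h2 : a * v * a⁻¹ = b * v * b⁻¹ := by
          calc a * v * a⁻¹ = a * (v * (a⁻¹ * b)) * b⁻¹ := by group
            _ = a * (a⁻¹ * b * v) * b⁻¹ := by rw [hv2]
            _ = b * v * b⁻¹ := by group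
        rw [h2]
      have h3 : ⁅a, v⁆ ∈ L a ha ⊓ L b hb :=
        Subgroup.mem_inf.2 ⟨hLmem a ha v hvQ, by rw [h1]; exact hLmem b hb v hvQ⟩
      rw [hbot, mem_bot] at h3
      have h4 : ⁅b, v⁆ = 1 := by rw [← h1]; exact h3
      refine Subgroup.mem_inf.2 ⟨Subgroup.mem_inf.2 ⟨hvQ, ?_⟩, Subgroup.mem_inf.2 ⟨hvQ, ?_⟩⟩
      · rw [mem_centralizer_singleton_iff]
        exact commutatorElement_eq_one_iff_mul_comm.1 h3
      · rw [mem_centralizer_singleton_iff]
        exact commutatorElement_eq_one_iff_mul_comm.1 h4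
    have hidz := hidx (a⁻¹ * b) (mul_mem (inv_mem ha) hb)
    -- compare indices
    have hrel : ∀ c ∈ X, (Q ⊓ centralizer ({c} : Set G)).relIndex Q =
        (centralizer ({c} : Set G)).relIndex Q := fun c _ => Subgroup.inf_relIndex_left _ _
    have hle : ∀ A B : Subgroup G, A ≤ B → B ≤ Q → A.relIndex Q ∣ q → B.relIndex Q = q →
        A = B := by
      intro A B hAB hBQ h1 h2
      have h3 : A.relIndex B * B.relIndex Q = A.relIndex Q := Subgroup.relIndex_mul_relIndex _ _ _ hAB hBQ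
      rw [h2] at h3
      have h4 : A.relIndex B = 1 := by
        have h5 : A.relIndex B * q ∣ 1 * q := by rw [h3, one_mul]; exact h1
        exact Nat.dvd_one.1 (Nat.dvd_of_mul_dvd_mul_right hq.pos h5)
      exact le_antisymm hAB (Subgroup.relIndex_eq_one.1 h4)
    have e1 := hle _ _ (hz.trans inf_le_left) inf_le_left
      (by rw [Subgroup.inf_relIndex_left]; exact hidz)
      (by rw [Subgroup.inf_relIndex_left]; exact hca)
    have e2 := hle _ _ (hz.trans inf_le_right) inf_le_left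
      (by rw [Subgroup.inf_relIndex_left]; exact hidz)
      (by rw [Subgroup.inf_relIndex_left]; exact hcb)
    exact hab (e1.symm.trans e2)
  refine ⟨L x hx, by rw [hLcard x hx]; exact hidx x hx, ?_⟩
  intro z hz v hv
  by_cases hz1 : (centralizer ({z} : Set G)).relIndex Q = 1
  · have h1 : v ∈ centralizer ({z} : Set G) := Subgroup.relIndex_eq_one.1 hz1 hv
    have h2 : ⁅z, v⁆ = 1 :=
      commutatorElement_eq_one_iff_mul_comm.2 (mem_centralizer_singleton_iff.1 h1)
    rw [h2]; exact one_mem _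
  · by_cases hzx : Q ⊓ centralizer ({z} : Set G) = Q ⊓ centralizer ({x} : Set G)
    · have h1 : L z hz = L y hy := key z hz y hy hz1 hy1 (by rw [hzx]; exact hxy)
      have h2 : L x hx = L y hy := key x hx y hy hx1 hy1 hxy
      rw [h2, ← h1]
      exact hLmem z hz v hv
    · have h1 : L z hz = L x hx := key z hz x hx hz1 hx1 hzx
      rw [← h1]
      exact hLmem z hz v hv

end Cfsg.Agent.H24
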