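import Cfsg.Agent.H24.SqFree6
import Cfsg.Agent.H1.SysNorm
import Mathlib.GroupTheory.SpecificGroups.ZGroup
import Mathlib.GroupTheory.Focal

set_option autoImplicit false

/-!
Groups with squarefree class sizes, part 7: the derived subgroup is cyclic of squarefree order
(helper24).
-/

namespace Cfsg.Agent.H24

open Cfsg Subgroup
open scoped commutatorElement Pointwise

universe u

variable {G : Type u} [Group G]

theorem comm_of_central_relIndex_prime [Finite G] {q : ℕ} (hq : q.Prime) {Q C : Subgroup G}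
    (hC : ∀ c ∈ C, ∀ v ∈ Q, v * c = c * v) (hidx : C.relIndex Q ∣ q) :
    ∀ a ∈ Q, ∀ b ∈ Q, a * b = b * a := by
  haveI : Fact q.Prime := ⟨hq⟩
  set C' := C.subgroupOf Q with hC'
  have hcen : C' ≤ center Q := by
    intro c hc
    rw [mem_center_iff]
    intro v
    exact Subtype.ext (hC c (Subgroup.mem_subgroupOf.1 hc) v v.2)
  haveI hn : C'.Normal := by
    constructor
    intro d hd g
    rw [mem_center_iff.1 (hcen hd) g, mul_inv_cancel_right]
    exact hd
  haveI : IsCyclic (Q ⧸ C') := by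
    apply isCyclic_of_card_dvd_prime (p := q)
    exact hidx
  intro a ha b hb
  have h1 := commutative_of_cyclic_center_quotient (QuotientGroup.mk' C')
    (by rw [QuotientGroup.ker_mk']; exact hcen) (⟨a, ha⟩ : Q) ⟨b, hb⟩
  exact congrArg Subtype.val h1

theorem mem_of_normal_sylow [Finite G] {q : ℕ} [hq : Fact q.Prime] (Q : Sylow q G)
    [hQ : (Q : Subgroup G).Normal] {x : G} (hx : ∃ k : ℕ, orderOf x = q ^ k) :
    x ∈ (Q : Subgroup G) := by
  have h1 := IsPGroup.inf_normalizer_sylow (isPGroup_zpowers_of_orderOf hx) Q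
  have hnt : normalizer ((Q : Subgroup G) : Set G) = ⊤ := by
    rw [Subgroup.normalizer_eq_top_iff]; exact hQ
  have h2 : x ∈ zpowers x ⊓ normalizer ((Q : Subgroup G) : Set G) :=
    Subgroup.mem_inf.2 ⟨mem_zpowers _, by rw [hnt]; trivial⟩
  have h3 : x ∈ zpowers x ⊓ (Q : Subgroup G) := by
    rw [← h1]; exact h2
  exact (Subgroup.mem_inf.1 h3).2

theorem SqF.relIndex_dvd [Finite G] (h : SqF G) {q : ℕ} [hq : Fact q.Prime] (Q : Sylow q G)
    [hQ : (Q : Subgroup G).Normal] (x : G) :
    (centralizer ({x} : Set G)).relIndex (Q : Subgroup G) ∣ q := by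
  obtain ⟨m, hm⟩ := IsPGroup.iff_card.1 Q.isPGroup'
  have h2 : (centralizer ({x} : Set G)).relIndex (Q : Subgroup G) ∣ q ^ m := by
    rw [← hm]; exact Subgroup.relIndex_dvd_card _ _
  obtain ⟨b, -, hb⟩ := (Nat.dvd_prime_pow hq.out).1 h2
  have h3 := H1.relIndex_dvd_index_of_normal_right (centralizer ({x} : Set G)) (Q : Subgroup G)
  have h4 : b ≤ 1 := by
    by_contra hb1
    push Not at hb1
    apply h.not_sq_dvd hq.out x
    refine dvd_trans ?_ h3
    rw [hb]
    exact pow_dvd_pow q hb1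
  rw [hb]
  calc q ^ b ∣ q ^ 1 := pow_dvd_pow q h4
    _ = q := pow_one q

/-- in the nonabelian case `q'`-elements centralize the normal Sylow `q`-subgroup. -/
theorem SqF.centralizes_of_nonabelian [Finite G] (h : SqF G) {q : ℕ} [hq : Fact q.Prime]
    (Q : Sylow q G) [hQ : (Q : Subgroup G).Normal]
    (hna : ¬ ∀ a ∈ (Q : Subgroup G), ∀ b ∈ (Q : Subgroup G), a * b = b * a) {x : G}
    (hx : (orderOf x).Coprime q) : ∀ v ∈ (Q : Subgroup G), x * v = v * x := by
  by_contra hcon
  push Not at hcon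
  obtain ⟨v₀, hv₀, hxv⟩ := hcon
  have hQc : ∀ g v : G, v ∈ (Q : Subgroup G) → g * v * g⁻¹ ∈ (Q : Subgroup G) :=
    fun g v hv => hQ.conj_mem v hv g
  set M := (Q : Subgroup G) ⊓ centralizer ({x} : Set G) with hM
  have hMidx : M.relIndex (Q : Subgroup G) = q := by
    rw [hM, Subgroup.inf_relIndex_left]
    refine ((Nat.dvd_prime hq.out).1 (h.relIndex_dvd Q x)).resolve_left ?_
    intro h1
    exact hxv (mem_centralizer_singleton_iff.1 (Subgroup.relIndex_eq_one.1 h1 hv₀))
  -- conj. formula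
  have hpow : ∀ g w : G, w ∈ M → x * g * x⁻¹ = g * w → w = 1 := by
    intro g w hw hgw
    have hwx := mem_centralizer_singleton_iff.1 (Subgroup.mem_inf.1 hw).2
    have h1 : ∀ n : ℕ, x ^ n * g = g * w ^ n * x ^ n := by
      intro n
      induction n with
      | zero => simp
      | succ n ih =>
        have hc : x * w ^ n = w ^ n * x := ((show Commute x w from hwx).pow_right n).eq
        calc x ^ (n + 1) * g = x * (x ^ n * g) := by rw [pow_succ']; group
          _ = x * (g * w ^ n * x ^ n) := by rw [ih]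
          _ = (x * g * x⁻¹) * (x * w ^ n) * x ^ n := by group
          _ = (g * w) * (w ^ n * x) * x ^ n := by rw [hgw, hc]
          _ = g * w ^ (n + 1) * x ^ (n + 1) := by rw [pow_succ' w, pow_succ' x]; group
    have h2 := h1 (orderOf x)
    rw [pow_orderOf_eq_one, one_mul, mul_one] at h2
    have h3 : w ^ orderOf x = 1 := (mul_left_cancel ((mul_one g).trans h2)).symm
    obtain ⟨k, hk⟩ := exists_orderOf_eq_pow_of_mem Q.isPGroup' (Subgroup.mem_inf.1 hw).1
    have h4 := orderOf_dvd_of_pow_eq_one h3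
    rw [← orderOf_eq_one_iff]
    have h5 : (orderOf w).Coprime (orderOf w) := by
      refine Nat.Coprime.coprime_dvd_left h4 ?_
      rw [hk]; exact hx.pow_right k
    rwa [Nat.coprime_self] at h5
  -- `M ≤ C(c)` for `c ∈ M`
  have hMc : ∀ c ∈ M, M ≤ centralizer ({c} : Set G) := by
    intro c hc
    obtain ⟨e, he⟩ := exists_pPart_exponent (G := G) q
    have hcx := mem_centralizer_singleton_iff.1 (Subgroup.mem_inf.1 hc).2
    have hcq : ∃ k : ℕ, orderOf c = q ^ k :=
      exists_orderOf_eq_pow_of_mem Q.isPGroup' (Subgroup.mem_inf.1 hc).1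
    have h1 : (c * x) ^ e = c := he c x hcq hx hcx.symm
    have h2 : (Q : Subgroup G) ⊓ centralizer ({c * x} : Set G) ≤ M ⊓ centralizer ({c} : Set G) := by
      intro v hv
      obtain ⟨hvQ, hv⟩ := Subgroup.mem_inf.1 hv
      have hv := mem_centralizer_singleton_iff.1 hv
      have h3 : c * v = v * c := by
        have h4 : Commute ((c * x) ^ e) v := (show Commute (c * x) v from hv).pow_left e
        rw [h1] at h4
        exact h4.eq
      have h4 : x * v = v * x := by
        have h5 : c * (x * v) = c * (v * x) := by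
          calc c * (x * v) = c * x * v := by group
            _ = v * (c * x) := hv
            _ = v * c * x := by group
            _ = c * v * x := by rw [h3]
            _ = c * (v * x) := by group
        exact mul_left_cancel h5
      exact Subgroup.mem_inf.2 ⟨Subgroup.mem_inf.2 ⟨hvQ, mem_centralizer_singleton_iff.2 h4⟩,
        mem_centralizer_singleton_iff.2 h3⟩
    have h3 : (M ⊓ centralizer ({c} : Set G)).relIndex (Q : Subgroup G) ∣ q := by
      refine (Subgroup.relIndex_dvd_of_le_left _ h2).trans ?_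
      rw [Subgroup.inf_relIndex_left]
      exact h.relIndex_dvd Q _
    have h4 : (M ⊓ centralizer ({c} : Set G)).relIndex M * M.relIndex (Q : Subgroup G) =
        (M ⊓ centralizer ({c} : Set G)).relIndex (Q : Subgroup G) :=
      Subgroup.relIndex_mul_relIndex _ _ _ inf_le_left inf_le_left
    rw [← h4, hMidx] at h3
    have h5 : (M ⊓ centralizer ({c} : Set G)).relIndex M ∣ 1 := by
      apply Nat.dvd_of_mul_dvd_mul_right hq.out.pos
      rw [one_mul]; exact h3
    rw [Subgroup.inf_relIndex_left, Nat.dvd_one, Subgroup.relIndex_eq_one] at h5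
    exact h5
  -- every element of `M` is central in `Q`
  apply hna
  apply comm_of_central_relIndex_prime hq.out (C := M) _ (by rw [hMidx])
  intro c hc v hv
  by_contra hcv
  -- `Q ∩ C(c) = M`
  have hCc : (Q : Subgroup G) ⊓ centralizer ({c} : Set G) ≤ M := by
    have h1 : M ≤ (Q : Subgroup G) ⊓ centralizer ({c} : Set G) := le_inf inf_le_left (hMc c hc)
    have h2 : ((Q : Subgroup G) ⊓ centralizer ({c} : Set G)).relIndex (Q : Subgroup G) = q := by
      rw [Subgroup.inf_relIndex_left]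
      refine ((Nat.dvd_prime hq.out).1 (h.relIndex_dvd Q c)).resolve_left ?_
      intro h1
      exact hcv (mem_centralizer_singleton_iff.1 (Subgroup.relIndex_eq_one.1 h1 hv)).symm
    have h3 : M.relIndex ((Q : Subgroup G) ⊓ centralizer ({c} : Set G)) *
        ((Q : Subgroup G) ⊓ centralizer ({c} : Set G)).relIndex (Q : Subgroup G) =
        M.relIndex (Q : Subgroup G) :=
      Subgroup.relIndex_mul_relIndex _ _ _ h1 inf_le_left
    rw [h2, hMidx] at h3
    have h4 : M.relIndex ((Q : Subgroup G) ⊓ centralizer ({c} : Set G)) = 1 :=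
      Nat.eq_of_mul_eq_mul_right hq.out.pos (by rw [h3, one_mul])
    exact Subgroup.relIndex_eq_one.1 h4
  -- then `x` centralizes `Q`
  apply hxv
  have hcx := mem_centralizer_singleton_iff.1 (Subgroup.mem_inf.1 hc).2
  have h1 : ⁅c, v₀⁆ ∈ center G :=
    commutator_mem_center_of_sylow (fun y => h.not_sq_dvd hq.out y) Q (Subgroup.mem_inf.1 hc).1 hv₀
  have h2 : ⁅c, v₀⁆ = ⁅c, x * v₀ * x⁻¹⁆ := by
    have h3 : x * ⁅c, v₀⁆ * x⁻¹ = ⁅c, v₀⁆ := by
      rw [mem_center_iff.1 h1 x, mul_inv_cancel_right]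
    rw [← h3]
    have h4 : x * c * x⁻¹ = c := by rw [hcx, mul_inv_cancel_right]
    simp only [commutatorElement_def]
    calc x * (c * v₀ * c⁻¹ * v₀⁻¹) * x⁻¹ =
        (x * c * x⁻¹) * (x * v₀ * x⁻¹) * (x * c * x⁻¹)⁻¹ * (x * v₀ * x⁻¹)⁻¹ := by group
      _ = c * (x * v₀ * x⁻¹) * c⁻¹ * (x * v₀ * x⁻¹)⁻¹ := by rw [h4]
  set v' := x * v₀ * x⁻¹ with hv'
  have hw : v₀⁻¹ * v' ∈ M := by
    apply hCc
    refine Subgroup.mem_inf.2 ⟨mul_mem (inv_mem hv₀) (hQc x v₀ hv₀), ?_⟩
    rw [mem_centralizer_singleton_iff]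
    simp only [commutatorElement_def] at h2
    have h5 : v₀ * c⁻¹ * v₀⁻¹ = v' * c⁻¹ * v'⁻¹ := by
      have h6 : c * (v₀ * c⁻¹ * v₀⁻¹) = c * (v' * c⁻¹ * v'⁻¹) := by
        calc c * (v₀ * c⁻¹ * v₀⁻¹) = c * v₀ * c⁻¹ * v₀⁻¹ := by group
          _ = c * v' * c⁻¹ * v'⁻¹ := h2
          _ = c * (v' * c⁻¹ * v'⁻¹) := by group
      exact mul_left_cancel h6
    have h6 : v₀ * c * v₀⁻¹ = v' * c * v'⁻¹ := by
      have := congrArg (fun z => z⁻¹) h5
      simpa [mul_assoc] using this
    calc c * (v₀⁻¹ * v') = v₀⁻¹ * (v₀ * c * v₀⁻¹) * v' := by group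
      _ = v₀⁻¹ * (v' * c * v'⁻¹) * v' := by rw [h6]
      _ = v₀⁻¹ * v' * c := by group
  have h3 := hpow v₀ (v₀⁻¹ * v') hw (by rw [mul_inv_cancel_left])
  have h4 : v' = v₀ := by
    rw [inv_mul_eq_one] at h3
    exact h3.symm
  rw [hv', mul_inv_eq_iff_eq_mul] at h4
  exact h4

theorem SqF.card_commutator_inf_dvd [Finite G] (h : SqF G) {q : ℕ} [hq : Fact q.Prime]
    (Q : Sylow q G) [hQ : (Q : Subgroup G).Normal] :
    Nat.card ↥(_root_.commutator G ⊓ (Q : Subgroup G)) ∣ q := by
  have hidx := fun x => h.relIndex_dvd Q x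
  have hpd : ∀ D : Subgroup G, D ≤ (Q : Subgroup G) → Nat.card D ≤ q → Nat.card D ∣ q := by
    intro D hD hle
    obtain ⟨b, hb⟩ := IsPGroup.iff_card.1 (Q.isPGroup'.to_le hD)
    have h4 : b ≤ 1 := by
      by_contra hb1
      push Not at hb1
      rw [hb] at hle
      have := Nat.pow_lt_pow_right hq.out.one_lt hb1
      rw [pow_one] at this
      omega
    rw [hb]
    calc q ^ b ∣ q ^ 1 := pow_dvd_pow q h4
      _ = q := pow_one q
  by_cases hab : ∀ a ∈ (Q : Subgroup G), ∀ b ∈ (Q : Subgroup G), a * b = b * a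
  · have hcomm : IsMulCommutative (Q : Subgroup G) :=
      ⟨⟨fun a b => Subtype.ext (hab a a.2 b b.2)⟩⟩
    rw [H2.commutator_inf_sylow_eq_of_abelian Q hcomm]
    have hnt : normalizer ((Q : Subgroup G) : Set G) = ⊤ := by
      rw [Subgroup.normalizer_eq_top_iff]; exact hQ
    have hle : ⁅(Q : Subgroup G), (⊤ : Subgroup G)⁆ ≤ (Q : Subgroup G) :=
      Subgroup.commutator_le_left _ _
    have hnt' : ⁅(Q : Subgroup G), normalizer ((Q : Subgroup G) : Set G)⁆ =
        ⁅(Q : Subgroup G), (⊤ : Subgroup G)⁆ := by rw [hnt]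
    change Nat.card ↥⁅(Q : Subgroup G), normalizer ((Q : Subgroup G) : Set G)⁆ ∣ q
    rw [hnt']
    rcases pencil hq.out (⊤ : Subgroup G) (Q : Subgroup G) (by
        intro x _ w hw v hv
        have h1 : ⁅x, w⁆ ∈ (Q : Subgroup G) := by
          rw [commutatorElement_def]
          exact mul_mem (hQ.conj_mem w hw x) (inv_mem hw)
        exact hab v hv _ h1) (fun x _ => hidx x) with ⟨C, hCQ, hCc, hCi⟩ | ⟨L, hL, hLm⟩
    · apply hpd _ hle
      obtain ⟨-, h2⟩ := H2.normal_abelian_hall_decomp (Q : Subgroup G) hcomm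
        (Sylow.card_coprime_index Q)
      have h3 : C ⊓ ⁅(Q : Subgroup G), (⊤ : Subgroup G)⁆ = ⊥ := by
        rw [← le_bot_iff, ← h2, inf_comm]
        refine inf_le_inf_left _ (le_inf hCQ ?_)
        rw [← Subgroup.centralizer_univ]
        exact hCc
      have h4 : C.relIndex ⁅(Q : Subgroup G), (⊤ : Subgroup G)⁆ =
          Nat.card ↥(⁅(Q : Subgroup G), (⊤ : Subgroup G)⁆ : Subgroup G) := by
        rw [← Subgroup.inf_relIndex_right, h3, Subgroup.relIndex_bot_left]
      rw [← h4]
      refine le_trans ?_ (Nat.le_of_dvd hq.out.pos hCi)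
      exact Subgroup.relIndex_le_of_le_right hle (relIndex_ne_zero_of_finite' _ _)
    · refine dvd_trans (Subgroup.card_dvd_of_le ?_) hL
      rw [Subgroup.commutator_le]
      intro v hv x _
      rw [← commutatorElement_inv]
      exact inv_mem (hLm x trivial v hv)
  · have hcen := fun {x : G} (hx : (orderOf x).Coprime q) => h.centralizes_of_nonabelian Q hab hx
    have h1 : _root_.commutator G ⊓ (Q : Subgroup G) ≤ ⁅(Q : Subgroup G), (Q : Subgroup G)⁆ := by
      rw [Subgroup.commutator_inf_eq_focalSubgroup, Subgroup.focalSubgroup_def, closure_le]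
      rintro g ⟨-, x, hx, u, rfl⟩
      obtain ⟨i, j, hu, hi, hj⟩ := exists_pPart_decomp q u
      have hui : u ^ i ∈ (Q : Subgroup G) :=
        mem_of_normal_sylow Q hi
      have h2 : ⁅x, u⁆ = ⁅x, u ^ i⁆ := by
        have h3 := hcen hj x hx
        conv_lhs => rw [hu]
        simp only [commutatorElement_def]
        calc x * (u ^ i * u ^ j) * x⁻¹ * (u ^ i * u ^ j)⁻¹ =
            x * u ^ i * (u ^ j * x⁻¹) * (u ^ j)⁻¹ * (u ^ i)⁻¹ := by group
          _ = x * u ^ i * (x⁻¹ * u ^ j) * (u ^ j)⁻¹ * (u ^ i)⁻¹ := by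
              rw [hcen hj x⁻¹ (inv_mem hx)]
          _ = x * u ^ i * x⁻¹ * (u ^ i)⁻¹ := by group
      show ⁅x, u⁆ ∈ _
      rw [h2]
      exact Subgroup.commutator_mem_commutator hx hui
    rcases pencil hq.out (Q : Subgroup G) (Q : Subgroup G) (by
        intro x hx w hw v hv
        exact mem_center_iff.1 (commutator_mem_center_of_sylow
          (fun y => h.not_sq_dvd hq.out y) Q hx hw) v) (fun x _ => hidx x) with
      ⟨C, hCQ, hCc, hCi⟩ | ⟨L, hL, hLm⟩
    · exfalso
      apply hab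
      apply comm_of_central_relIndex_prime hq.out (C := C) _ hCi
      intro c hc v hv
      exact mem_centralizer_iff.1 (hCc hc) v hv
    · refine dvd_trans (Subgroup.card_dvd_of_le (h1.trans ?_)) hL
      rw [Subgroup.commutator_le]
      intro x hx v hv
      exact hLm x hx v hv

end Cfsg.Agent.H24
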