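import Cfsg.Agent.H24.SqFree7
import Cfsg.Agent.H19.Supersolv
import Cfsg.Agent.H1.Struct1
import Cfsg.Agent.H25.Primary

set_option autoImplicit false

/-!
Groups with squarefree class sizes, part 8: main structure theorem (helper24).
-/

namespace Cfsg.Agent.H24

open Cfsg Subgroup
open scoped commutatorElement Pointwise

universe u

variable {G : Type u} [Group G]

theorem isCyclic_of_comm_squarefree {H : Type*} [Group H] [Finite H]
    (hc : ∀ a b : H, a * b = b * a) (hs : Squarefree (Nat.card H)) : IsCyclic H := by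
  haveI : IsZGroup H := IsZGroup.of_squarefree hs
  letI : CommGroup H := { (inferInstance : Group H) with mul_comm := hc }
  exact IsCyclic.of_exponent_eq_card (IsZGroup.exponent_eq_card H)

theorem SqF.commutator_aux (n : ℕ) : ∀ (G : Type u) [Group G] [Finite G], Nat.card G = n →
    SqF G → IsCyclic (_root_.commutator G) ∧ Squarefree (Nat.card (_root_.commutator G)) := by
  induction n using Nat.strong_induction_on with
  | _ n ih =>
  intro G _ _ hn h
  by_cases hn1 : n = 1
  · rw [hn1] at hn
    haveI : Subsingleton G := (Nat.card_eq_one_iff_unique.1 hn).1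
    haveI : Subsingleton (_root_.commutator G) := inferInstance
    refine ⟨inferInstance, ?_⟩
    rw [Nat.card_of_subsingleton (1 : _root_.commutator G)]
    exact squarefree_one
  obtain ⟨q, hq, hqG, Q, hQ⟩ := SqF.exists_normal_sylow n G hn hn1 h
  haveI : Fact q.Prime := ⟨hq⟩
  have hlt : Nat.card (G ⧸ (Q : Subgroup G)) < n := by
    rw [← hn, ← Subgroup.card_mul_index (Q : Subgroup G), Subgroup.index]
    have h1 : 1 < Nat.card (Q : Subgroup G) := by
      rw [Subgroup.one_lt_card_iff_ne_bot]
      exact Q.ne_bot_of_dvd_card hqG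
    exact lt_mul_of_one_lt_left Nat.card_pos h1
  obtain ⟨hcyc, hsq⟩ := ih _ hlt (G ⧸ (Q : Subgroup G)) rfl (h.quotient _)
  -- the restriction of the quotient map
  set f : _root_.commutator G →* G ⧸ (Q : Subgroup G) :=
    (QuotientGroup.mk' (Q : Subgroup G)).comp (_root_.commutator G).subtype with hf
  have hrange : f.range = _root_.commutator (G ⧸ (Q : Subgroup G)) := by
    rw [hf, MonoidHom.range_comp, Subgroup.range_subtype, _root_.commutator_def,
      Subgroup.map_commutator, Subgroup.map_top_of_surjective _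
      (QuotientGroup.mk'_surjective (Q : Subgroup G)), ← _root_.commutator_def]
  have hker : f.ker = (Q : Subgroup G).subgroupOf (_root_.commutator G) := by
    ext x
    rw [MonoidHom.mem_ker, Subgroup.mem_subgroupOf, hf]
    exact QuotientGroup.eq_one_iff _
  have hkc : Nat.card f.ker = Nat.card ↥(_root_.commutator G ⊓ (Q : Subgroup G)) := by
    rw [hker, ← Subgroup.card_map_of_injective (_root_.commutator G).subtype_injective,
      Subgroup.subgroupOf_map_subtype, inf_comm]
  have hkq : Nat.card f.ker ∣ q := by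
    rw [hkc]; exact h.card_commutator_inf_dvd Q
  have hcard : Nat.card (_root_.commutator G) = Nat.card f.ker * Nat.card f.range := by
    rw [← Subgroup.card_mul_index f.ker, Subgroup.index_ker]
  have hcopr : (Nat.card f.ker).Coprime (Nat.card f.range) := by
    refine Nat.Coprime.coprime_dvd_left hkq ?_
    refine Nat.Coprime.coprime_dvd_right (Subgroup.card_subgroup_dvd_card f.range) ?_
    rw [← Subgroup.index]
    exact (hq.coprime_iff_not_dvd).2 Q.not_dvd_index
  have hsqG : Squarefree (Nat.card (_root_.commutator G)) := by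
    rw [hcard, Nat.squarefree_mul hcopr]
    refine ⟨hq.prime.squarefree.squarefree_of_dvd hkq, ?_⟩
    rw [hrange]; exact hsq
  refine ⟨?_, hsqG⟩
  apply isCyclic_of_comm_squarefree _ hsqG
  haveI hcr : IsCyclic f.range := by rw [hrange]; exact hcyc
  have hZcyc : IsCyclic ↥(_root_.commutator G ⊓ (Q : Subgroup G)) :=
    isCyclic_of_card_dvd_prime (p := q) (h.card_commutator_inf_dvd Q)
  have hcen := H1.commutator_le_centralizer_of_cyclic
    (N := _root_.commutator G ⊓ (Q : Subgroup G)) inferInstance hZcyc
  refine commutative_of_cyclic_center_quotient f.rangeRestrict ?_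
  rw [MonoidHom.ker_rangeRestrict]
  intro z hz
  rw [mem_center_iff]
  intro w
  have h1 : (z : G) ∈ _root_.commutator G ⊓ (Q : Subgroup G) := by
    rw [hker] at hz
    exact Subgroup.mem_inf.2 ⟨z.2, Subgroup.mem_subgroupOf.1 hz⟩
  have h2 := mem_centralizer_iff.1 (hcen w.2) z h1
  exact Subtype.ext h2.symm

theorem SqF.commutator [Finite G] (h : SqF G) :
    IsCyclic (_root_.commutator G) ∧ Squarefree (Nat.card (_root_.commutator G)) :=
  SqF.commutator_aux _ G rfl h

theorem isSupersolvable_of_comm_aux (n : ℕ) : ∀ (H : Type u) [Group H] [Finite H],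
    Nat.card H = n → (∀ a b : H, a * b = b * a) → IsSupersolvable H := by
  induction n using Nat.strong_induction_on with
  | _ n ih =>
  intro H _ _ hn hc
  by_cases hs : Subsingleton H
  · refine ⟨0, fun _ => ⊥, rfl, ?_, fun _ => inferInstance, fun i => i.elim0⟩
    exact (Subsingleton.elim _ _)
  rw [not_subsingleton_iff_nontrivial] at hs
  obtain ⟨g, hg⟩ := exists_ne (1 : H)
  haveI hN : (zpowers g).Normal := by
    constructor
    intro x hx y
    rw [hc y x, mul_inv_cancel_right]
    exact hx
  apply H19.isSupersolvable_of_cyclic_normal (zpowers g) (g₀ := g) rfl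
  have hlt : Nat.card (H ⧸ zpowers g) < n := by
    rw [← hn, ← Subgroup.card_mul_index (zpowers g), Subgroup.index]
    have h1 : 1 < Nat.card (zpowers g) := by
      rw [Subgroup.one_lt_card_iff_ne_bot]
      intro h
      exact hg (Subgroup.zpowers_eq_bot.1 h)
    exact lt_mul_of_one_lt_left Nat.card_pos h1
  refine ih _ hlt _ rfl ?_
  intro a b
  obtain ⟨a, rfl⟩ := QuotientGroup.mk_surjective a
  obtain ⟨b, rfl⟩ := QuotientGroup.mk_surjective b
  rw [← QuotientGroup.mk_mul, hc a b, QuotientGroup.mk_mul]

theorem isSupersolvable_of_comm {H : Type u} [Group H] [Finite H]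
    (hc : ∀ a b : H, a * b = b * a) : IsSupersolvable H :=
  isSupersolvable_of_comm_aux _ H rfl hc

theorem quot_commutator_comm (N : Subgroup G) [N.Normal] (h : _root_.commutator G ≤ N) :
    ∀ a b : G ⧸ N, a * b = b * a := by
  intro a b
  obtain ⟨a, rfl⟩ := QuotientGroup.mk_surjective a
  obtain ⟨b, rfl⟩ := QuotientGroup.mk_surjective b
  rw [← QuotientGroup.mk_mul, ← QuotientGroup.mk_mul, QuotientGroup.eq]
  apply h
  have h1 : (a * b)⁻¹ * (b * a) = ⁅b⁻¹, a⁻¹⁆ := by
    rw [commutatorElement_def]; group
  rw [h1]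
  exact Subgroup.commutator_mem_commutator (mem_top _) (mem_top _)

theorem SqF.supersolvable [Finite G] (h : SqF G) : IsSupersolvable G := by
  obtain ⟨hc, hs⟩ := h.commutator
  obtain ⟨g, hg⟩ := Subgroup.isCyclic_iff_exists_zpowers_eq_top (_root_.commutator G) |>.1 hc
  apply H19.isSupersolvable_of_cyclic_normal (_root_.commutator G) (g₀ := g) hg.symm
  exact isSupersolvable_of_comm (quot_commutator_comm _ le_rfl)

/-- subgroups of a cyclic normal subgroup are normal -/
theorem zpowers_normal_of_mem_cyclic [Finite G] {N : Subgroup G} [hN : N.Normal] (hc : IsCyclic N)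
    {x : G} (hx : x ∈ N) : (zpowers x).Normal := by
  constructor
  intro y hy g
  have hyN : y ∈ N := (zpowers_le.2 hx) hy
  obtain ⟨m, hm⟩ := MonoidHom.map_cyclic (MulAut.conjNormal g : MulAut N).toMonoidHom
  have h1 := congrArg Subtype.val (hm ⟨y, hyN⟩)
  have h2 : g * y * g⁻¹ = y ^ m := by
    rw [← MulAut.conjNormal_apply g (⟨y, hyN⟩ : N)] at *
    exact h1
  rw [h2]
  exact zpow_mem hy m

theorem SqF.commutator_le_centralizer_fitting [Finite G] (h : SqF G) :
    _root_.commutator G ≤ centralizer (fittingSubgroup G : Set G) := by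
  obtain ⟨hc, hs⟩ := h.commutator
  apply H25.le_of_primary
  intro x hx r k hr hxo
  have hk : k ≤ 1 := by
    by_contra hk
    push Not at hk
    have h1 : r ^ 2 ∣ Nat.card (_root_.commutator G) :=
      (pow_dvd_pow r hk).trans (hxo ▸ Subgroup.orderOf_dvd_natCard _ hx)
    rw [pow_two] at h1
    exact hr.one_lt.ne' (Nat.isUnit_iff.1 (hs r h1))
  have hxn : (zpowers x).Normal := zpowers_normal_of_mem_cyclic hc hx
  rcases Nat.eq_zero_or_pos k with hk0 | hk0
  · rw [hk0, pow_zero, orderOf_eq_one_iff] at hxo
    rw [hxo]; exact one_mem _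
  have hk1 : k = 1 := le_antisymm hk hk0
  rw [hk1, pow_one] at hxo
  have hx1 : x ≠ 1 := by
    rintro rfl
    rw [orderOf_one] at hxo
    exact hr.one_lt.ne hxo
  have h2 := H1.fitting_le_centralizer_minimal (M := zpowers x) hxn
    (fun h => hx1 (Subgroup.zpowers_eq_bot.1 h)) (by
      intro K _ hK
      have h3 : Nat.card K ∣ r := by
        rw [← hxo, ← Nat.card_zpowers]; exact Subgroup.card_dvd_of_le hK
      rcases (Nat.dvd_prime hr).1 h3 with h4 | h4
      · exact Or.inl (Subgroup.card_eq_one.1 h4)
      · exact Or.inr (Subgroup.eq_of_le_of_card_ge hK (by rw [h4, Nat.card_zpowers, hxo])))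
  rw [mem_centralizer_iff]
  intro y hy
  exact (mem_centralizer_iff.1 (h2 hy) x (mem_zpowers x)).symm

/-- the centralizer of the derived subgroup is nilpotent (of class at most two). -/
theorem centralizer_commutator_isNilpotent (C : Subgroup G)
    (hC : C ≤ centralizer (_root_.commutator G : Set G)) :
    Subgroup.upperCentralSeries C 2 = ⊤ := by
  rw [eq_top_iff]
  intro x _
  rw [Subgroup.mem_upperCentralSeries_succ_iff]
  intro y
  rw [Subgroup.upperCentralSeries_one, mem_center_iff]
  intro z
  have h1 : ((x * y * x⁻¹ * y⁻¹ : C) : G) ∈ _root_.commutator G := by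
    have : ((x * y * x⁻¹ * y⁻¹ : C) : G) = ⁅(x : G), (y : G)⁆ := rfl
    rw [this]
    exact Subgroup.commutator_mem_commutator (mem_top _) (mem_top _)
  have h2 := mem_centralizer_iff.1 (hC z.2) _ h1
  exact Subtype.ext h2.symm

theorem SqF.main [Finite G] (h : SqF G) :
    IsSupersolvable G ∧ (fittingSubgroup G).Normal ∧
    (∀ _h : (fittingSubgroup G).Normal, IsCyclic (G ⧸ fittingSubgroup G) ∧
      Squarefree (fittingSubgroup G).index) ∧
    IsCyclic (_root_.commutator G) ∧ Squarefree (Nat.card (_root_.commutator G)) ∧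
    Subgroup.upperCentralSeries ↥(fittingSubgroup G) 2 = ⊤ ∧
    _root_.commutator ↥(_root_.commutator G) = ⊥ := by
  obtain ⟨hc, hs⟩ := h.commutator
  have hFc := h.commutator_le_centralizer_fitting
  have hFc' : fittingSubgroup G ≤ centralizer (_root_.commutator G : Set G) :=
    Subgroup.le_centralizer_iff.1 hFc
  have hCF : centralizer (_root_.commutator G : Set G) ≤ fittingSubgroup G := by
    apply H1.le_fitting inferInstance
    exact ⟨2, centralizer_commutator_isNilpotent _ le_rfl⟩
  have hcomm : ∀ a b : _root_.commutator G, a * b = b * a :=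
    fun a b => IsCyclic.commutative.is_comm.comm a b
  have hGF : _root_.commutator G ≤ fittingSubgroup G := by
    refine le_trans ?_ hCF
    intro x hx
    rw [mem_centralizer_iff]
    intro y hy
    exact congrArg Subtype.val (hcomm ⟨y, hy⟩ ⟨x, hx⟩)
  have hidx : Squarefree (fittingSubgroup G).index := by
    obtain ⟨g, hg⟩ := Subgroup.isCyclic_iff_exists_zpowers_eq_top (_root_.commutator G) |>.1 hc
    refine (h g).squarefree_of_dvd (Subgroup.index_dvd_of_le (le_trans ?_ hCF))
    intro x hx
    have hx := mem_centralizer_singleton_iff.1 hx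
    rw [mem_centralizer_iff]
    intro y hy
    have hy' : y ∈ zpowers g := by rw [hg]; exact hy
    obtain ⟨n, rfl⟩ := Subgroup.mem_zpowers_iff.1 hy'
    exact ((show Commute g x from hx).zpow_left n).eq
  refine ⟨h.supersolvable, inferInstance, fun _ => ⟨?_, hidx⟩, hc, hs,
    centralizer_commutator_isNilpotent _ hFc', ?_⟩
  · exact isCyclic_of_comm_squarefree (quot_commutator_comm _ hGF) hidx
  · have h1 : ⁅(⊤ : Subgroup (_root_.commutator G)), (⊤ : Subgroup (_root_.commutator G))⁆ = ⊥ := by
      rw [Subgroup.commutator_eq_bot_iff_le_centralizer]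
      intro x _
      rw [mem_centralizer_iff]
      intro y _
      exact hcomm y x
    exact h1

end Cfsg.Agent.H24
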