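import Mathlib
import Cfsg.Agent.H10.SubnIn
import Cfsg.Agent.H18.PCore
import Cfsg.Agent.H18.Subnormal
import Cfsg.Agent.H23.Coprime
import Cfsg.Agent.H1.Coprime2

set_option autoImplicit false
set_option linter.all false

/-! # H24/SubCnt: counting the subnormalizer of a p-subgroup -/

namespace Cfsg.Agent.H24.SubCnt

open Subgroup
open scoped Pointwise

variable {G : Type*} [Group G] [Finite G]

theorem card_fib (E Q₀ : Subgroup G) (T : Subgroup G → Prop) :
    Nat.card {g : G // g ∈ E ∧ T (MulAut.conj g • Q₀)} =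
      Nat.card {Q : Subgroup G // T Q ∧ ∃ g ∈ E, MulAut.conj g • Q₀ = Q} *
        Nat.card (E ⊓ normalizer (Q₀ : Set G) : Subgroup G) := by
  rw [← Nat.card_prod]
  symm
  let r : {Q : Subgroup G // T Q ∧ ∃ g ∈ E, MulAut.conj g • Q₀ = Q} → G := fun Q => Q.2.2.choose
  have hr : ∀ Q, r Q ∈ E ∧ MulAut.conj (r Q) • Q₀ = Q.1 := fun Q => Q.2.2.choose_spec
  have hstab : ∀ n ∈ E ⊓ normalizer (Q₀ : Set G), MulAut.conj n • Q₀ = Q₀ :=
    fun n hn => H1.mem_normalizer_iff_conj_smul.mp (mem_inf.mp hn).2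
  refine Nat.card_congr (Equiv.ofBijective
    (fun q : {Q : Subgroup G // T Q ∧ ∃ g ∈ E, MulAut.conj g • Q₀ = Q} ×
        (E ⊓ normalizer (Q₀ : Set G) : Subgroup G) =>
      (⟨r q.1 * (q.2 : G), E.mul_mem (hr q.1).1 (mem_inf.mp q.2.2).1, by
        rw [map_mul, mul_smul, hstab _ q.2.2, (hr q.1).2]; exact q.1.2.1⟩ :
        {g : G // g ∈ E ∧ T (MulAut.conj g • Q₀)})) ⟨?_, ?_⟩)
  · rintro ⟨Q, n⟩ ⟨Q', n'⟩ h
    have h1 : r Q * (n : G) = r Q' * (n' : G) := congrArg Subtype.val h
    have h2 : Q = Q' := by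
      apply Subtype.ext
      have h3 : MulAut.conj (r Q * (n : G)) • Q₀ = Q.1 := by
        rw [map_mul, mul_smul, hstab _ n.2, (hr Q).2]
      have h4 : MulAut.conj (r Q' * (n' : G)) • Q₀ = Q'.1 := by
        rw [map_mul, mul_smul, hstab _ n'.2, (hr Q').2]
      rw [← h3, ← h4, h1]
    subst h2
    have h5 : (n : G) = n' := mul_left_cancel h1
    rw [Subtype.ext h5]
  · rintro ⟨g, hg, hT⟩
    let Q : {Q : Subgroup G // T Q ∧ ∃ g ∈ E, MulAut.conj g • Q₀ = Q} :=
      ⟨MulAut.conj g • Q₀, hT, g, hg, rfl⟩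
    refine ⟨⟨Q, ⟨(r Q)⁻¹ * g, mem_inf.mpr ⟨E.mul_mem (E.inv_mem (hr Q).1) hg, ?_⟩⟩⟩,
      Subtype.ext ?_⟩
    · rw [H1.mem_normalizer_iff_conj_smul, map_mul, map_inv, mul_smul, inv_smul_eq_iff, (hr Q).2]
    · show r Q * ((r Q)⁻¹ * g) = g
      group

open Classical in
theorem exists_inv {α : Type*} [Fintype α] [PartialOrder α] (F : α → ℤ) :
    ∃ f : α → ℤ, ∀ K, ∑ E ∈ Finset.univ.filter (fun E => E ≤ K), f E = F K := by
  have hex : ∃ f : α → ℤ, ∀ K, f K = F K - ∑ E : {E : α // E < K}, f E.1 := by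
    refine ⟨(wellFounded_lt (α := α)).fix fun K ih => F K - ∑ E : {E : α // E < K}, ih E.1 E.2, ?_⟩
    intro K
    exact WellFounded.fix_eq _ _ K
  obtain ⟨f, hf⟩ := hex
  refine ⟨f, fun K => ?_⟩
  have h1 : Finset.univ.filter (fun E => E ≤ K) = insert K (Finset.univ.filter (fun E => E < K)) := by
    ext E; simp [le_iff_eq_or_lt]
  rw [h1, Finset.sum_insert (by simp), hf K,
    Finset.sum_subtype (Finset.univ.filter (fun E => E < K)) (p := fun E => E < K) (by simp)]
  ring

open Classical in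
theorem sum_split {α : Type*} [Fintype α] [PartialOrder α] (f : α → ℤ) (K : α) :
    ∑ E ∈ Finset.univ.filter (fun E => E ≤ K), f E =
      f K + ∑ E ∈ Finset.univ.filter (fun E => E < K), f E := by
  have h1 : Finset.univ.filter (fun E => E ≤ K) = insert K (Finset.univ.filter (fun E => E < K)) := by
    ext E; simp [le_iff_eq_or_lt]
  rw [h1, Finset.sum_insert (by simp)]

open Classical in
theorem inv_supp [Fintype (Subgroup G)] {f F : Subgroup G → ℤ}
    (hf : ∀ K, ∑ E ∈ Finset.univ.filter (fun E => E ≤ K), f E = F K)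
    (N Q : Subgroup G) (h1 : ∀ K, F K = F (K ⊓ N)) (h2 : ∀ K, ¬ Q ≤ K → F K = 0) :
    ∀ E, ¬ (Q ≤ E ∧ E ≤ N) → f E = 0 := by
  intro E
  induction E using WellFoundedLT.induction with
  | ind E ih =>
    intro hE
    have hsplit : F E = f E + ∑ D ∈ Finset.univ.filter (fun D => D < E), f D := by
      rw [← hf E, sum_split]
    by_cases hQ : Q ≤ E
    · have hN : ¬ E ≤ N := fun h => hE ⟨hQ, h⟩
      have h3 : ∑ D ∈ Finset.univ.filter (fun D => D < E), f D =
          ∑ D ∈ Finset.univ.filter (fun D => D ≤ E ⊓ N), f D := by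
        symm
        apply Finset.sum_subset
        · intro D hD
          simp only [Finset.mem_filter, Finset.mem_univ, true_and, le_inf_iff] at hD ⊢
          exact lt_of_le_of_ne hD.1 (fun h => hN (h ▸ hD.2))
        · intro D hD hD2
          simp only [Finset.mem_filter, Finset.mem_univ, true_and, le_inf_iff] at hD hD2
          exact ih D hD (fun h => hD2 ⟨hD.le, h.2⟩)
      rw [h3, hf, h1 E] at hsplit
      linarith
    · have h4 : ∑ D ∈ Finset.univ.filter (fun D => D < E), f D = 0 := by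
        apply Finset.sum_eq_zero
        intro D hD
        simp only [Finset.mem_filter, Finset.mem_univ, true_and] at hD
        exact ih D hD (fun h => hQ (h.1.trans hD.le))
      rw [h4, h2 E hQ] at hsplit
      linarith

/-- inside a `p`-group everything is subnormal -/
theorem subnIn_of_isPGroup {p : ℕ} [Fact p.Prime] {H Q : Subgroup G} (hQ : IsPGroup p Q) (h : H ≤ Q) :
    H10.SubnIn H Q := ⟨h, H18.isSubnormal_of_isPGroup hQ _⟩

theorem le_sylow_of_subnIn {p : ℕ} [Fact p.Prime] {H E Q : Subgroup G} (h : H10.SubnIn H E)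
    (hH : IsPGroup p H) (hQ : H23.IsSylowOf p Q E) : H ≤ Q := by
  obtain ⟨S, rfl⟩ := hQ
  have h1 : IsPGroup p (H.subgroupOf E) := hH.of_equiv (subgroupOfEquivOfLe h.1).symm
  have h2 : H.subgroupOf E ≤ S := (H18.le_pCore_of_isSubnormal h.2 h1).trans (H18.pCore_le_sylow S)
  have := map_mono (f := E.subtype) h2
  rwa [subgroupOf_map_subtype, inf_of_le_left h.1] at this

theorem isSylowOf_inf_normalizer_iff {p : ℕ} [Fact p.Prime] {Q K : Subgroup G} :
    H23.IsSylowOf p Q K ↔ H23.IsSylowOf p Q (K ⊓ normalizer (Q : Set G)) := by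
  constructor
  · intro h
    rw [H23.isSylowOf_iff] at h ⊢
    refine ⟨le_inf h.1 le_normalizer, h.2.1, fun hd => h.2.2 (hd.trans ?_)⟩
    rw [← relIndex_mul_relIndex Q (K ⊓ normalizer (Q : Set G)) K (le_inf h.1 le_normalizer) inf_le_left]
    exact dvd_mul_right _ _
  · exact H23.isSylowOf_of_normalizer

open Classical in
theorem sum_psi [Fintype (Subgroup G)] {p : ℕ} [Fact p.Prime] (H K Q₀ : Subgroup G)
    (hQ₀ : H23.IsSylowOf p Q₀ K) :
    ∑ Q ∈ Finset.univ.filter (fun Q : Subgroup G => H ≤ Q ∧ IsPGroup p Q),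
      (if H23.IsSylowOf p Q K then (Nat.card (K ⊓ normalizer (Q : Set G) : Subgroup G) : ℤ) else 0) =
    Nat.card {g : G // g ∈ K ∧ H ≤ MulAut.conj g • Q₀} := by
  have h1 := card_fib K Q₀ (fun Q => H ≤ Q)
  rw [h1]
  rw [← Finset.sum_filter]
  have h2 : ∀ Q ∈ Finset.filter (fun Q => H23.IsSylowOf p Q K) (Finset.univ.filter
      (fun Q : Subgroup G => H ≤ Q ∧ IsPGroup p Q)),
      (Nat.card (K ⊓ normalizer (Q : Set G) : Subgroup G) : ℤ) =
        Nat.card (K ⊓ normalizer (Q₀ : Set G) : Subgroup G) := by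
    intro Q hQ
    simp only [Finset.mem_filter, Finset.mem_univ, true_and] at hQ
    obtain ⟨g, hg, rfl⟩ := hQ₀.exists_conj hQ.2
    have h3 : (K ⊓ normalizer ((MulAut.conj g • Q₀ : Subgroup G) : Set G) : Subgroup G) =
        MulAut.conj g • (K ⊓ normalizer (Q₀ : Set G)) := by
      rw [Subgroup.smul_inf, H1.mem_normalizer_iff_conj_smul.mp (le_normalizer hg)]
      rw [H1.conj_smul_normalizer]
    rw [h3, H1.card_conj_smul]
  rw [Finset.sum_congr rfl h2, Finset.sum_const, nsmul_eq_mul]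
  push_cast
  congr 1
  have h4 : (Finset.filter (fun Q => H23.IsSylowOf p Q K) (Finset.univ.filter
      (fun Q : Subgroup G => H ≤ Q ∧ IsPGroup p Q))).card =
      Nat.card {Q : Subgroup G // H ≤ Q ∧ ∃ g ∈ K, MulAut.conj g • Q₀ = Q} := by
    rw [Nat.card_eq_fintype_card, Fintype.card_subtype]
    congr 1
    ext Q
    simp only [Finset.mem_filter, Finset.mem_univ, true_and]
    constructor
    · rintro ⟨⟨h, -⟩, h'⟩
      exact ⟨h, hQ₀.exists_conj h'⟩
    · rintro ⟨h, g, hg, rfl⟩
      have := hQ₀.conj (le_normalizer hg)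
      exact ⟨⟨h, this.isPGroup⟩, this⟩
  rw [h4]

open Classical in
theorem sum_sub [Fintype (Subgroup G)] (H K : Subgroup G) (hHK : H ≤ K) :
    ∑ E ∈ Finset.univ.filter (fun E : Subgroup G => E ≤ K),
      (if H10.SubnIn H E then (Nat.card {g : G // H ⊔ zpowers g = E} : ℤ) else 0) =
    Nat.card {g : G // g ∈ K ∧ (H.subgroupOf (H ⊔ zpowers g)).IsSubnormal} := by
  haveI : Fintype G := Fintype.ofFinite G
  have h1 : Nat.card {g : G // g ∈ K ∧ (H.subgroupOf (H ⊔ zpowers g)).IsSubnormal} =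
      (Finset.univ.filter (fun g : G => g ∈ K ∧ (H.subgroupOf (H ⊔ zpowers g)).IsSubnormal)).card := by
    rw [Nat.card_eq_fintype_card, Fintype.card_subtype]
  rw [h1, Finset.card_eq_sum_card_fiberwise (f := fun g : G => H ⊔ zpowers g)
    (t := Finset.univ.filter (fun E : Subgroup G => E ≤ K))]
  · push_cast
    apply Finset.sum_congr rfl
    intro E hE
    simp only [Finset.mem_filter, Finset.mem_univ, true_and] at hE
    split_ifs with h
    · rw [Nat.card_eq_fintype_card, Fintype.card_subtype]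
      congr 2
      ext g
      simp only [Finset.mem_filter, Finset.mem_univ, true_and]
      constructor
      · rintro rfl
        exact ⟨⟨hE (mem_sup_right (mem_zpowers g)), h.2⟩, rfl⟩
      · rintro ⟨-, h⟩; exact h
    · symm
      rw [Nat.cast_eq_zero, Finset.card_eq_zero, Finset.filter_eq_empty_iff]
      intro g hg hgE
      simp only [Finset.mem_filter, Finset.mem_univ, true_and] at hg
      apply h
      subst hgE
      exact ⟨le_sup_left, hg.2⟩
  · intro g hg
    simp only [Finset.coe_filter, Finset.mem_univ, true_and, Set.mem_setOf_eq] at hg ⊢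
    exact sup_le hHK (by rw [zpowers_le]; exact hg.1)

open Classical in
theorem main {p : ℕ} [Fact p.Prime] (H : Subgroup G) (hH : IsPGroup p H) (K : Subgroup G)
    (hHK : H ≤ K) (Q₀ : Subgroup G) (hQ₀ : H23.IsSylowOf p Q₀ K) :
    Nat.card {g : G // g ∈ K ∧ (H.subgroupOf (H ⊔ zpowers g)).IsSubnormal} =
      Nat.card {g : G // g ∈ K ∧ H ≤ MulAut.conj g • Q₀} := by
  haveI : Fintype (Subgroup G) := Fintype.ofFinite _
  let ψ : Subgroup G → Subgroup G → ℤ := fun Q K =>
    if H23.IsSylowOf p Q K then (Nat.card (K ⊓ normalizer (Q : Set G) : Subgroup G) : ℤ) else 0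
  choose φ hφ using fun Q => exists_inv (ψ Q)
  let S := Finset.univ.filter (fun Q : Subgroup G => H ≤ Q ∧ IsPGroup p Q)
  let f' : Subgroup G → ℤ := fun E =>
    if H10.SubnIn H E then (Nat.card {g : G // H ⊔ zpowers g = E} : ℤ) else 0
  have hψ : ∀ Q E : Subgroup G, ¬ (Q ≤ E ∧ E ≤ normalizer (Q : Set G)) → φ Q E = 0 := by
    intro Q
    refine inv_supp (hφ Q) (normalizer (Q : Set G)) Q ?_ ?_
    · intro K
      show (if H23.IsSylowOf p Q K then (Nat.card (K ⊓ normalizer (Q : Set G) : Subgroup G) : ℤ) else 0) =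
        if H23.IsSylowOf p Q (K ⊓ normalizer (Q : Set G)) then
          (Nat.card (K ⊓ normalizer (Q : Set G) ⊓ normalizer (Q : Set G) : Subgroup G) : ℤ) else 0
      rw [inf_assoc, inf_idem, if_congr isSylowOf_inf_normalizer_iff rfl rfl]
    · intro K hQK
      show (if H23.IsSylowOf p Q K then (Nat.card (K ⊓ normalizer (Q : Set G) : Subgroup G) : ℤ) else 0) = 0
      rw [if_neg (fun h => hQK h.le)]
  have hh0 : ∀ E, ¬ H10.SubnIn H E → ∑ Q ∈ S, φ Q E = 0 := by
    intro E hE
    apply Finset.sum_eq_zero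
    intro Q hQ
    simp only [S, Finset.mem_filter, Finset.mem_univ, true_and] at hQ
    apply hψ
    rintro ⟨h1, h2⟩
    exact hE ((subnIn_of_isPGroup hQ.2 hQ.1).trans (H10.subnIn_of_normal h1 h2))
  have hw : ∀ K, ∑ E ∈ Finset.univ.filter (fun E => E ≤ K), ∑ Q ∈ S, φ Q E = ∑ Q ∈ S, ψ Q K := by
    intro K
    rw [Finset.sum_comm]
    exact Finset.sum_congr rfl fun Q _ => hφ Q K
  have hall : ∀ E, ∑ Q ∈ S, φ Q E = f' E := by
    intro E
    induction E using WellFoundedLT.induction with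
    | ind E ih =>
      by_cases hE : H10.SubnIn H E
      · obtain ⟨Q₁, hQ₁⟩ := H23.exists_isSylowOf p E
        have h1 := hw E
        rw [sum_psi H E Q₁ hQ₁, sum_split] at h1
        have h2 := sum_sub H E hE.1
        rw [sum_split] at h2
        have h3 : ∑ D ∈ Finset.univ.filter (fun D => D < E), ∑ Q ∈ S, φ Q D =
            ∑ D ∈ Finset.univ.filter (fun D => D < E), f' D := by
          apply Finset.sum_congr rfl
          intro D hD
          simp only [Finset.mem_filter, Finset.mem_univ, true_and] at hD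
          exact ih D hD
        have h4 : Nat.card {g : G // g ∈ E ∧ H ≤ MulAut.conj g • Q₁} =
            Nat.card {g : G // g ∈ E ∧ (H.subgroupOf (H ⊔ zpowers g)).IsSubnormal} := by
          refine Nat.card_congr (Equiv.subtypeEquivRight fun g => ?_)
          constructor
          · rintro ⟨hg, -⟩
            refine ⟨hg, (hE.mono le_sup_left (sup_le hE.1 ?_)).2⟩
            rw [zpowers_le]; exact hg
          · rintro ⟨hg, -⟩
            exact ⟨hg, le_sylow_of_subnIn hE hH (hQ₁.conj (le_normalizer hg))⟩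
        rw [h3, h4, ← h2] at h1
        exact add_right_cancel h1
      · rw [hh0 E hE]
        show 0 = if H10.SubnIn H E then (Nat.card {g : G // H ⊔ zpowers g = E} : ℤ) else 0
        rw [if_neg hE]
  have h1 := hw K
  rw [sum_psi H K Q₀ hQ₀, Finset.sum_congr rfl fun E _ => hall E, sum_sub H K hHK] at h1
  exact_mod_cast h1

end Cfsg.Agent.H24.SubCnt
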