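import Mathlib
import Cfsg.Agent.H24.SubCnt
import Cfsg.Agent.H2.Basic

set_option autoImplicit false
set_option linter.all false

/-! # H24/SubCnt2: counting the subnormalizer of a p-subgroup in p-solvable groups -/

namespace Cfsg.Agent.H24.SubCnt

open Subgroup
open scoped Pointwise

variable {G : Type*} [Group G] [Finite G] {p : ℕ} [Fact p.Prime]

theorem sylow_top (P : Sylow p G) :
    H23.IsSylowOf p (P : Subgroup G) ⊤ := by
  rw [H23.isSylowOf_iff]
  refine ⟨le_top, P.2, ?_⟩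
  rw [relIndex_top_right]
  exact P.not_dvd_index

/-- the conjugates lying in `P ⊔ A`. -/
def SA (H P A : Subgroup G) (g : G) : Prop := ∀ h ∈ H, g * h * g⁻¹ ∈ P ⊔ A

/-- the centralizer of `H` in `B/A`, pulled back. -/
def CC (H A B : Subgroup G) [hA : A.Normal] [hB : B.Normal] : Subgroup G where
  carrier := {u | u ∈ B ∧ ∀ h ∈ H, h * u * h⁻¹ * u⁻¹ ∈ A}
  one_mem' := ⟨B.one_mem, fun h _ => by simp [A.one_mem]⟩
  mul_mem' := by
    rintro u v ⟨hu, hu2⟩ ⟨hv, hv2⟩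
    refine ⟨B.mul_mem hu hv, fun h hh => ?_⟩
    have e : h * (u * v) * h⁻¹ * (u * v)⁻¹ =
        (h * u * h⁻¹ * u⁻¹) * (u * (h * v * h⁻¹ * v⁻¹) * u⁻¹) := by group
    rw [e]
    exact A.mul_mem (hu2 h hh) (hA.conj_mem _ (hv2 h hh) u)
  inv_mem' := by
    rintro u ⟨hu, hu2⟩
    refine ⟨B.inv_mem hu, fun h hh => ?_⟩
    have e : h * u⁻¹ * h⁻¹ * u⁻¹⁻¹ = u⁻¹ * (h * u * h⁻¹ * u⁻¹)⁻¹ * u⁻¹⁻¹ := by group
    rw [e]
    exact hA.conj_mem _ (A.inv_mem (hu2 h hh)) u⁻¹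

theorem sup_inf_eq (P : Sylow p G) (A B : Subgroup G) [A.Normal] [B.Normal] (hAB : A ≤ B)
    (hcop : (A.relIndex B).Coprime p) : ((P : Subgroup G) ⊔ A) ⊓ B ≤ A := by
  have h1 : A.relIndex (((P : Subgroup G) ⊔ A) ⊓ B) ∣ A.relIndex B := by
    rw [← relIndex_mul_relIndex A (((P : Subgroup G) ⊔ A) ⊓ B) B (le_inf le_sup_right hAB) inf_le_right]
    exact dvd_mul_right _ _
  have h2 : A.relIndex (((P : Subgroup G) ⊔ A) ⊓ B) ∣ A.relIndex ((P : Subgroup G) ⊔ A) := by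
    rw [← relIndex_mul_relIndex A (((P : Subgroup G) ⊔ A) ⊓ B) ((P : Subgroup G) ⊔ A)
      (le_inf le_sup_right hAB) inf_le_left]
    exact dvd_mul_right _ _
  rw [relIndex_sup_right] at h2
  have h3 : A.relIndex (P : Subgroup G) ∣ Nat.card (P : Subgroup G) := by
    show (A.subgroupOf (P : Subgroup G)).index ∣ _
    exact (A.subgroupOf (P : Subgroup G)).index_dvd_card
  obtain ⟨m, hm⟩ := IsPGroup.iff_card.mp P.2
  rw [hm] at h3
  have h4 := h2.trans h3
  have h5 : (A.relIndex B).Coprime (p ^ m) := Nat.Coprime.pow_right m hcop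
  rw [← relIndex_eq_one]
  exact Nat.eq_one_of_dvd_coprimes h5 h1 h4

theorem SA.mul {H P A B : Subgroup G} [hB : B.Normal] {g : G}
    (h : SA H P B g) {b : G} (hb : b ∈ B) : SA H P B (g * b) := by
  intro x hx
  have h1 : (b * x * b⁻¹ * x⁻¹) ∈ B := by
    have := B.mul_mem hb (hB.conj_mem _ (B.inv_mem hb) x)
    have e : b * (x * b⁻¹ * x⁻¹) = b * x * b⁻¹ * x⁻¹ := by group
    rwa [e] at this
  have e : g * b * x * (g * b)⁻¹ = (g * (b * x * b⁻¹ * x⁻¹) * g⁻¹) * (g * x * g⁻¹) := by group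
  rw [e]
  exact mul_mem (mem_sup_right (hB.conj_mem _ h1 g)) (h x hx)

theorem SA.mono {H P A B : Subgroup G} (hAB : A ≤ B) {g : G}
    (h : SA H P A g) : SA H P B g := fun x hx => sup_le_sup_left hAB P (h x hx)

theorem SA.mul_iff {H : Subgroup G} (P : Sylow p G) {A B : Subgroup G} [hA : A.Normal] [hB : B.Normal]
    (hAB : A ≤ B) (hcop : (A.relIndex B).Coprime p) {g : G} (hg : SA H P A g) {u : G} (hu : u ∈ B) :
    SA H P A (g * u) ↔ u ∈ CC H A B := by
  constructor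
  · intro h
    refine ⟨hu, fun x hx => ?_⟩
    have h1 : g * (u * x * u⁻¹ * x⁻¹) * g⁻¹ ∈ ((P : Subgroup G) ⊔ A) ⊓ B := by
      refine mem_inf.mpr ⟨?_, ?_⟩
      · have := mul_mem (h x hx) (inv_mem (hg x hx))
        have e : g * u * x * (g * u)⁻¹ * (g * x * g⁻¹)⁻¹ = g * (u * x * u⁻¹ * x⁻¹) * g⁻¹ := by group
        rwa [e] at this
      · refine hB.conj_mem _ ?_ g
        have := B.mul_mem hu (hB.conj_mem _ (B.inv_mem hu) x)
        have e : u * (x * u⁻¹ * x⁻¹) = u * x * u⁻¹ * x⁻¹ := by group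
        rwa [e] at this
    have h2 := sup_inf_eq P A B hAB hcop h1
    have h3 := hA.conj_mem _ h2 g⁻¹
    have h4 := A.inv_mem h3
    have e : (g⁻¹ * (g * (u * x * u⁻¹ * x⁻¹) * g⁻¹) * g⁻¹⁻¹)⁻¹ = x * u * x⁻¹ * u⁻¹ := by group
    rwa [e] at h4
  · rintro ⟨-, h⟩ x hx
    have e : g * u * x * (g * u)⁻¹ = (g * (x * u * x⁻¹ * u⁻¹)⁻¹ * g⁻¹) * (g * x * g⁻¹) := by group
    rw [e]
    exact mul_mem (mem_sup_right (hA.conj_mem _ (A.inv_mem (h x hx)) g)) (hg x hx)

theorem SA.exists_mul {H : Subgroup G} (hH : IsPGroup p H) (P : Sylow p G) {A B : Subgroup G}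
    [hA : A.Normal] [hB : B.Normal] {g : G} (hg : SA H P B g) : ∃ b ∈ B, SA H P A (g * b) := by
  have h1 : MulAut.conj g • H ≤ (P : Subgroup G) ⊔ B := by
    rintro _ ⟨x, hx, rfl⟩
    exact hg x hx
  have h2 : H23.IsSylowOf p (P : Subgroup G) ((P : Subgroup G) ⊔ B) := by
    rw [H23.isSylowOf_iff]
    refine ⟨le_sup_left, P.2, fun h => P.not_dvd_index (h.trans ?_)⟩
    exact relIndex_dvd_index_of_le le_sup_left
  obtain ⟨Q, hQ, hHQ⟩ := H23.exists_isSylowOf_ge (p := p) h1 (hH.map _)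
  obtain ⟨x, hx, hxQ⟩ := hQ.exists_conj h2
  obtain ⟨y, hy, b, hb, rfl⟩ := mem_sup_of_normal_right.mp hx
  have h3 : MulAut.conj b • Q = (P : Subgroup G) := by
    rw [map_mul, mul_smul] at hxQ
    have : MulAut.conj y⁻¹ • (P : Subgroup G) = P := by
      have := H1.mem_normalizer_iff_conj_smul.mp (le_normalizer ((P : Subgroup G).inv_mem hy))
      exact this
    rw [← hxQ, map_inv, inv_smul_smul] at this
    rw [this, hxQ]
  refine ⟨g⁻¹ * b * g⁻¹⁻¹, hB.conj_mem _ hb _, fun x hx => mem_sup_left ?_⟩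
  have h4 : g * x * g⁻¹ ∈ Q := hHQ ⟨x, hx, rfl⟩
  have h5 : b * (g * x * g⁻¹) * b⁻¹ ∈ (P : Subgroup G) := by
    rw [← h3]
    exact ⟨_, h4, rfl⟩
  have e : g * (g⁻¹ * b * g⁻¹⁻¹) * x * (g * (g⁻¹ * b * g⁻¹⁻¹))⁻¹ = b * (g * x * g⁻¹) * b⁻¹ := by group
  rwa [e]

theorem core {H : Subgroup G} (hH : IsPGroup p H) (P : Sylow p G) (A B : Subgroup G)
    [hA : A.Normal] [hB : B.Normal] (hAB : A ≤ B) (hcop : (A.relIndex B).Coprime p) :
    Nat.card {g : G // SA H P A g} * Nat.card B =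
      Nat.card (CC H A B) * Nat.card {g : G // SA H P B g} := by
  classical
  haveI : Fintype {g : G // SA H P B g} := Fintype.ofFinite _
  rw [← Nat.card_prod]
  have h1 : Nat.card ({g : G // SA H P A g} × B) =
      Nat.card ((g : {g : G // SA H P B g}) × {b : B // SA H P A (g.1 * b.1)}) := by
    refine Nat.card_congr ⟨fun q => ⟨⟨q.1.1 * (q.2 : G)⁻¹, (q.1.2.mono hAB).mul (A := A) (B.inv_mem q.2.2)⟩,
      ⟨q.2, by
        have e : q.1.1 * (q.2 : G)⁻¹ * (q.2 : G) = q.1.1 := by group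
        rw [e]; exact q.1.2⟩⟩,
      fun q => ⟨⟨q.1.1 * q.2.1.1, q.2.2⟩, q.2.1⟩, ?_, ?_⟩
    · rintro ⟨⟨g, hg⟩, b⟩
      simp
    · rintro ⟨⟨g, hg⟩, ⟨b, hb⟩⟩
      have e : g * (b : G) * (b : G)⁻¹ = g := by group
      ext
      · exact e
      · simp
  rw [h1, Nat.card_sigma]
  have h2 : ∀ g : {g : G // SA H P B g}, Nat.card {b : B // SA H P A (g.1 * b.1)} =
      Nat.card (CC H A B) := by
    rintro ⟨g, hg⟩
    obtain ⟨b₀, hb₀, hgb⟩ := hg.exists_mul hH P (A := A)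
    symm
    refine Nat.card_congr ⟨fun u => ⟨⟨b₀ * u, B.mul_mem hb₀ u.2.1⟩, ?_⟩,
      fun b => ⟨b₀⁻¹ * b.1, ?_⟩, ?_, ?_⟩
    · show SA H P A (g * (b₀ * u))
      rw [← mul_assoc]
      exact (SA.mul_iff P hAB hcop hgb u.2.1).mpr u.2
    · refine (SA.mul_iff P hAB hcop hgb (B.mul_mem (B.inv_mem hb₀) b.1.2)).mp ?_
      have e : g * b₀ * (b₀⁻¹ * (b.1 : G)) = g * b.1 := by group
      rw [e]; exact b.2
    · intro u
      apply Subtype.ext
      show b₀⁻¹ * (b₀ * (u : G)) = u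
      group
    · intro b
      apply Subtype.ext
      apply Subtype.ext
      show b₀ * (b₀⁻¹ * (b.1 : G)) = b.1
      group
  rw [Finset.sum_congr rfl fun g _ => h2 g, Finset.sum_const, Finset.card_univ, smul_eq_mul,
    Nat.card_eq_fintype_card (α := {g : G // SA H P B g})]
  ring

theorem le_of_ppower (P : Sylow p G) (A B : Subgroup G) [A.Normal] [B.Normal]
    {m : ℕ} (hm : A.relIndex B = p ^ m) : B ≤ (P : Subgroup G) ⊔ A := by
  rw [← relIndex_eq_one]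
  have h1 : ((P : Subgroup G) ⊔ A).relIndex B ∣ (P : Subgroup G).relIndex B :=
    relIndex_dvd_of_le_left B le_sup_left
  have h2 : ((P : Subgroup G) ⊔ A).relIndex B ∣ A.relIndex B :=
    relIndex_dvd_of_le_left B le_sup_right
  rw [hm] at h2
  obtain ⟨k, -, hk⟩ := (Nat.dvd_prime_pow Fact.out).mp h2
  rcases Nat.eq_zero_or_pos k with h0 | h0
  · rw [hk, h0, pow_zero]
  · exfalso
    apply H2.not_dvd_relIndex_of_normal P B
    refine (dvd_pow_self p h0.ne').trans ?_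
    rw [← hk]; exact h1

theorem card_sup_eq (P : Sylow p G) (A B : Subgroup G) [A.Normal] [B.Normal] (hAB : A ≤ B)
    (hcop : (A.relIndex B).Coprime p) :
    Nat.card ((P : Subgroup G) ⊔ B : Subgroup G) =
      Nat.card ((P : Subgroup G) ⊔ A : Subgroup G) * A.relIndex B := by
  have h1 := H2.card_sup_mul_card_inf (P : Subgroup G) A
  have h2 := H2.card_sup_mul_card_inf (P : Subgroup G) B
  have h3 : (P : Subgroup G) ⊓ B = (P : Subgroup G) ⊓ A := by
    apply le_antisymm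
    · exact le_inf inf_le_left ((inf_le_inf_right B le_sup_left).trans (sup_inf_eq P A B hAB hcop))
    · exact inf_le_inf_left _ hAB
  have h4 := H2.card_relIndex_mul_card hAB
  rw [h3, ← h4] at h2
  have h5 : Nat.card (((P : Subgroup G) ⊓ A : Subgroup G)) ≠ 0 := Nat.card_pos.ne'
  apply Nat.eq_of_mul_eq_mul_right (Nat.pos_of_ne_zero h5)
  rw [h2]
  calc _ = A.relIndex B * (Nat.card (P : Subgroup G) * Nat.card A) := by ring
    _ = _ := by rw [← h1]; ring

theorem telescope : ∀ (n : ℕ) (T : Fin (n + 1) → ℕ) (a c : Fin n → ℕ)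
    (h : ∀ i : Fin n, T i.castSucc * a i = c i * T i.succ),
    T 0 * ∏ i, a i = (∏ i, c i) * T (Fin.last n) := by
  intro n
  induction n with
  | zero => intro T a c h; simp
  | succ n ih =>
    intro T a c h
    rw [Fin.prod_univ_castSucc, Fin.prod_univ_castSucc]
    have h1 := ih (fun i => T i.castSucc) (fun i => a i.castSucc) (fun i => c i.castSucc)
      (fun i => h i.castSucc)
    have h2 := h (Fin.last n)
    have h3 : T 0 * ((∏ i : Fin n, a i.castSucc) * a (Fin.last n)) =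
        (T 0 * ∏ i : Fin n, a i.castSucc) * a (Fin.last n) := by ring
    rw [h3]
    have h4 : T 0 * ∏ i : Fin n, a i.castSucc = (∏ i : Fin n, c i.castSucc) * T (Fin.last n).castSucc := h1
    rw [h4, mul_assoc, h2, Fin.succ_last]
    ring

end Cfsg.Agent.H24.SubCnt
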