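import Cfsg.Agent.H9.BSWH
import Cfsg.Agent.H20.Zass3

set_option autoImplicit false
set_option linter.unusedSectionVars false
set_option linter.style.haveILetI false
set_option linter.unusedVariables false
set_option linter.unusedSimpArgs false
set_option maxHeartbeats 1000000

/-! Isolated TI Hall subgroups (adapted from helper9's abelian version). -/

open Cfsg

namespace Cfsg.Agent.H24

open Subgroup H9.BSW

universe u

variable {G : Type u} [Group G]

/-- a Hall TI subgroup containing the centralizers of its non-identity elements -/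
structure HTI (A : Subgroup G) : Prop where
  ne : A ≠ ⊥
  cop : Nat.Coprime (Nat.card A) A.index
  cen : ∀ z ∈ A, z ≠ 1 → ∀ g : G, g * z = z * g → g ∈ A
  ti : ∀ g a : G, a ∈ A → a ≠ 1 → g * a * g⁻¹ ∈ A → g ∈ normalizer (A : Set G)

namespace HTI

variable {A : Subgroup G} [Finite G]

theorem hall (hA : HTI A) {w : G} (hw : w ∈ normalizer (A : Set G)) (hw2 : Nat.Coprime (orderOf w) A.index) :
    w ∈ A := by
  haveI : (A.subgroupOf (normalizer (A : Set G))).Normal := normal_in_normalizer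
  set n : normalizer (A : Set G) := ⟨w, hw⟩ with hn
  have h1 : orderOf (QuotientGroup.mk n : normalizer (A : Set G) ⧸ A.subgroupOf (normalizer (A : Set G))) ∣ orderOf w := by
    have e1 : orderOf (QuotientGroup.mk' (A.subgroupOf (normalizer (A : Set G))) n) ∣ orderOf n := orderOf_map_dvd _ _
    have e2 : orderOf n = orderOf w := by
      rw [← orderOf_injective (normalizer (A : Set G)).subtype Subtype.val_injective]; rfl
    rw [e2] at e1
    exact e1
  have h2 : orderOf (QuotientGroup.mk n : normalizer (A : Set G) ⧸ A.subgroupOf (normalizer (A : Set G))) ∣ A.index := by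
    have e1 : orderOf (QuotientGroup.mk n : normalizer (A : Set G) ⧸ A.subgroupOf (normalizer (A : Set G))) ∣
        A.relIndex (normalizer (A : Set G)) := orderOf_dvd_natCard _
    exact e1.trans (relIndex_dvd_index_of_le le_normalizer)
  have h3 := Nat.eq_one_of_dvd_coprimes hw2 h1 h2
  rw [orderOf_eq_one_iff, QuotientGroup.eq_one_iff, mem_subgroupOf] at h3
  exact h3

theorem hall_of_mem (hA : HTI A) {w : G} (hw : w ∈ normalizer (A : Set G)) {g a : G} (ha : a ∈ A)
    (hwa : w = g * a * g⁻¹) : w ∈ A := by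
  apply hA.hall hw
  have h1 : orderOf w = orderOf a := by
    rw [hwa]
    have := orderOf_injective (MulAut.conj g).toMonoidHom (MulAut.conj g).injective a
    simpa using this
  rw [h1]
  apply Nat.Coprime.coprime_dvd_left _ hA.cop
  have h2 : orderOf (⟨a, ha⟩ : A) = orderOf a := by
    rw [← orderOf_injective A.subtype Subtype.val_injective]; rfl
  rw [← h2]
  exact orderOf_dvd_natCard _

/-- elements of `A` fix only one point -/
theorem fix (hA : HTI A) {z g : G} (hz : z ∈ A) (hz1 : z ≠ 1) (hg : g⁻¹ * z * g ∈ normalizer (A : Set G)) :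
    g ∈ normalizer (A : Set G) := by
  have h1 : g⁻¹ * z * g ∈ A := hA.hall_of_mem hg hz (g := g⁻¹) (by group)
  have h2 := hA.ti g⁻¹ _ hz hz1 (by simpa using h1)
  simpa using inv_mem h2

theorem index_dvd (hA : HTI A) : Nat.card A ∣ (normalizer (A : Set G)).index - 1 := by
  classical
  set N := normalizer (A : Set G) with hN
  have hfixed : ∀ z : A, ∀ x : G ⧸ N, x ≠ QuotientGroup.mk 1 → z • x ≠ QuotientGroup.mk 1 := by
    intro z x hx hc
    apply hx
    have h1 : x = (z : G)⁻¹ • (QuotientGroup.mk 1 : G ⧸ N) := by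
      rw [← hc]
      change x = (z : G)⁻¹ • ((z : G) • x)
      rw [inv_smul_smul]
    rw [h1]
    change (QuotientGroup.mk ((z : G)⁻¹ * 1) : G ⧸ N) = QuotientGroup.mk 1
    rw [mul_one]
    apply QuotientGroup.eq.mpr
    rw [inv_inv, mul_one]
    exact le_normalizer z.2
  letI act : MulAction A {x : G ⧸ N // x ≠ QuotientGroup.mk 1} :=
    { smul := fun z x => ⟨z • x.1, hfixed z x.1 x.2⟩
      one_smul := fun x => Subtype.ext (one_smul A x.1)
      mul_smul := fun a b x => Subtype.ext (mul_smul a b x.1) }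
  have hsm : ∀ (z : A) (x : {x : G ⧸ N // x ≠ QuotientGroup.mk 1}), (z • x).1 = (z : G) • x.1 := fun _ _ => rfl
  have h1 : Nat.card A ∣ Nat.card {x : G ⧸ N // x ≠ QuotientGroup.mk 1} := by
    apply H20.Zass.card_dvd_of_semiregular
    intro z x hzx
    by_contra hz1
    have hz1' : (z : G) ≠ 1 := fun e => hz1 (Subtype.ext e)
    apply x.2
    obtain ⟨g, hg⟩ := QuotientGroup.mk_surjective x.1
    have h2 := congrArg Subtype.val hzx
    rw [hsm, ← hg] at h2
    have h3 : (QuotientGroup.mk ((z : G) * g) : G ⧸ N) = QuotientGroup.mk g := h2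
    have h4 := QuotientGroup.eq.mp h3.symm
    have h5 := hA.fix z.2 hz1' (g := g) (by rw [← mul_assoc] at h4; exact h4)
    rw [← hg]
    apply QuotientGroup.eq.mpr
    rw [mul_one]
    exact inv_mem h5
  have h2 : Nat.card {x : G ⧸ N // x ≠ QuotientGroup.mk 1} = N.index - 1 := by
    have h3 : Nat.card (G ⧸ N) = Nat.card {x : G ⧸ N // x = QuotientGroup.mk 1} +
        Nat.card {x : G ⧸ N // x ≠ QuotientGroup.mk 1} := by
      rw [← Nat.card_sum]
      exact Nat.card_congr (Equiv.sumCompl (fun x : G ⧸ N => x = QuotientGroup.mk 1)).symm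
    have h4 : Nat.card {x : G ⧸ N // x = QuotientGroup.mk 1} = 1 := by
      haveI : Unique {x : G ⧸ N // x = QuotientGroup.mk 1} := ⟨⟨⟨_, rfl⟩⟩, fun b => Subtype.ext b.2⟩
      exact Nat.card_unique
    rw [Subgroup.index]
    omega
  rwa [h2] at h1

theorem one_lt (hA : HTI A) : 1 < Nat.card A := by
  by_contra hc
  have : Nat.card A = 1 := by
    have := Nat.card_pos (α := A)
    omega
  exact hA.ne (card_eq_one.mp this)

theorem relIndex_le (hA : HTI A) : A.relIndex (normalizer (A : Set G)) ≤ Nat.card A - 1 := by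
  classical
  set N := normalizer (A : Set G) with hN
  obtain ⟨z, hz, hz1⟩ := (bot_or_exists_ne_one A).resolve_left hA.ne
  have h1 : Nat.card {x : A // x ≠ 1} = Nat.card A - 1 := by
    have h3 : Nat.card A = Nat.card {x : A // x = 1} + Nat.card {x : A // x ≠ 1} := by
      rw [← Nat.card_sum]
      exact Nat.card_congr (Equiv.sumCompl (fun x : A => x = 1)).symm
    have h4 : Nat.card {x : A // x = 1} = 1 := by
      haveI : Unique {x : A // x = 1} := ⟨⟨⟨_, rfl⟩⟩, fun b => Subtype.ext b.2⟩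
      exact Nat.card_unique
    omega
  rw [← h1]
  change Nat.card (N ⧸ A.subgroupOf N) ≤ _
  have hmem : ∀ n : N, (n : G) * z * (n : G)⁻¹ ∈ A := fun n => (mem_normalizer_iff.mp n.2 z).mp hz
  let f : N ⧸ A.subgroupOf N → {x : A // x ≠ 1} := fun c =>
    ⟨⟨_, hmem c.out⟩, fun e => conj_ne_one' hz1 (congrArg Subtype.val e)⟩
  apply Nat.card_le_card_of_injective f
  intro c c' hcc
  have h2 : (c.out : G) * z * (c.out : G)⁻¹ = (c'.out : G) * z * (c'.out : G)⁻¹ := by
    have := congrArg (fun x => ((x : {x : A // x ≠ 1}).1 : G)) hcc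
    exact this
  have h3 : ((c'.out⁻¹ * c.out : N) : G) ∈ A := by
    apply hA.cen z hz hz1
    rw [Subgroup.coe_mul, Subgroup.coe_inv]
    have h4 : (c'.out : G)⁻¹ * c.out * z = (c'.out : G)⁻¹ * ((c.out : G) * z * (c.out : G)⁻¹) * c.out := by group
    rw [h4, h2]; group
  have h4 := (QuotientGroup.eq (s := A.subgroupOf N)).mpr (mem_subgroupOf.mpr h3)
  rw [← QuotientGroup.out_eq' c, ← QuotientGroup.out_eq' c']
  exact h4.symm

theorem card_eq (hA : HTI A) :
    Nat.card G = Nat.card A * (A.relIndex (normalizer (A : Set G)) * (normalizer (A : Set G)).index) := by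
  have h1 := relIndex_mul_index (le_normalizer : A ≤ normalizer (A : Set G))
  rw [h1, card_mul_index]

/-- the base point -/
def pt (A : Subgroup G) : G ⧸ normalizer (A : Set G) := QuotientGroup.mk 1

theorem smul_pt {g : G} : g • pt A = QuotientGroup.mk g := by
  change (QuotientGroup.mk (g * 1) : G ⧸ normalizer (A : Set G)) = _
  rw [mul_one]

theorem smul_pt_eq {g : G} : g • pt A = pt A ↔ g ∈ normalizer (A : Set G) := by
  rw [smul_pt, pt, eq_comm, QuotientGroup.eq, inv_one, one_mul]

theorem exists_pt (x : G ⧸ normalizer (A : Set G)) : ∃ g : G, g • pt A = x := by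
  obtain ⟨g, rfl⟩ := QuotientGroup.mk_surjective x
  exact ⟨g, smul_pt⟩

/-- semiregularity of `A` -/
theorem semireg (hA : HTI A) {z : G} (hz : z ∈ A) {x : G ⧸ normalizer (A : Set G)} (hx : x ≠ pt A)
    (hzx : z • x = x) : z = 1 := by
  by_contra hz1
  obtain ⟨g, rfl⟩ := exists_pt x
  apply hx
  rw [smul_pt_eq]
  apply hA.fix hz hz1
  rw [← smul_pt_eq, mul_smul, mul_smul, hzx, inv_smul_smul]

variable {q : ℕ}

/-- regularity of `A` -/
theorem reg (hA : HTI A) (hq : Nat.card A = q) (hi : (normalizer (A : Set G)).index = q + 1)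
    {x y : G ⧸ normalizer (A : Set G)} (hx : x ≠ pt A) (hy : y ≠ pt A) : ∃ z ∈ A, z • x = y := by
  classical
  have h1 : ∀ z : A, (z : G) • x ≠ pt A := by
    intro z hc
    apply hx
    rw [← inv_smul_smul (z : G) x, hc, smul_pt_eq]
    exact inv_mem (le_normalizer z.2)
  let f : A → {x : G ⧸ normalizer (A : Set G) // x ≠ pt A} := fun z => ⟨(z : G) • x, h1 z⟩
  have hf : Function.Injective f := by
    intro z z' hzz
    have h2 : (z : G) • x = (z' : G) • x := congrArg Subtype.val hzz
    have h3 : ((z' : G)⁻¹ * z) • x = x := by rw [mul_smul, h2, inv_smul_smul]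
    have h4 := hA.semireg (mul_mem (inv_mem z'.2) z.2) hx h3
    exact Subtype.ext (inv_mul_eq_one.mp h4).symm
  have hcard : Nat.card {x : G ⧸ normalizer (A : Set G) // x ≠ pt A} = q := by
    have h3 : Nat.card (G ⧸ normalizer (A : Set G)) = Nat.card {x : G ⧸ normalizer (A : Set G) // x = pt A} +
        Nat.card {x : G ⧸ normalizer (A : Set G) // x ≠ pt A} := by
      rw [← Nat.card_sum]
      exact Nat.card_congr (Equiv.sumCompl (fun x : G ⧸ normalizer (A : Set G) => x = pt A)).symm
    have h4 : Nat.card {x : G ⧸ normalizer (A : Set G) // x = pt A} = 1 := by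
      haveI : Unique {x : G ⧸ normalizer (A : Set G) // x = pt A} := ⟨⟨⟨_, rfl⟩⟩, fun b => Subtype.ext b.2⟩
      exact Nat.card_unique
    rw [Subgroup.index] at hi
    omega
  have hbij : Function.Bijective f := by
    rw [Nat.bijective_iff_injective_and_card]
    exact ⟨hf, by rw [hq, hcard]⟩
  obtain ⟨z, hz⟩ := hbij.2 ⟨y, hy⟩
  exact ⟨z, z.2, congrArg Subtype.val hz⟩

theorem two_trans (hA : HTI A) (hq : Nat.card A = q) (hi : (normalizer (A : Set G)).index = q + 1) :
    MulAction.IsMultiplyPretransitive G (G ⧸ normalizer (A : Set G)) 2 := by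
  rw [MulAction.is_two_pretransitive_iff]
  intro a b c d hab hcd
  obtain ⟨g, rfl⟩ := exists_pt a
  obtain ⟨g', rfl⟩ := exists_pt c
  have h1 : g⁻¹ • b ≠ pt A := by
    intro hc
    apply hab
    rw [← hc, smul_inv_smul]
  have h2 : g'⁻¹ • d ≠ pt A := by
    intro hc
    apply hcd
    rw [← hc, smul_inv_smul]
  obtain ⟨z, hz, hz2⟩ := hA.reg hq hi h1 h2
  refine ⟨g' * z * g⁻¹, ?_, ?_⟩
  · rw [mul_smul, mul_smul, inv_smul_smul, smul_pt_eq.mpr (le_normalizer hz)]
  · rw [mul_smul, mul_smul, hz2, smul_inv_smul]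

theorem three_fix (hA : HTI A) (hq : Nat.card A = q) (hi : (normalizer (A : Set G)).index = q + 1)
    {g : G} {a b c : G ⧸ normalizer (A : Set G)} (hab : a ≠ b) (hbc : b ≠ c) (hac : a ≠ c)
    (ha : g • a = a) (hb : g • b = b) (hc : g • c = c) : g = 1 := by
  obtain ⟨x, rfl⟩ := exists_pt a
  set g' := x⁻¹ * g * x with hg'
  have h1 : g' ∈ normalizer (A : Set G) := by
    rw [← smul_pt_eq, hg', mul_smul, mul_smul, ha, inv_smul_smul]
  have hb1 : x⁻¹ • b ≠ pt A := fun e => hab (by rw [← e, smul_inv_smul])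
  have hc1 : x⁻¹ • c ≠ pt A := fun e => hac (by rw [← e, smul_inv_smul])
  have hbf : g' • (x⁻¹ • b) = x⁻¹ • b := by rw [hg', mul_smul, mul_smul, smul_inv_smul, hb]
  have hcf : g' • (x⁻¹ • c) = x⁻¹ • c := by rw [hg', mul_smul, mul_smul, smul_inv_smul, hc]
  obtain ⟨z, hz, hz2⟩ := hA.reg hq hi hb1 hc1
  have hz1 : z ≠ 1 := by
    rintro rfl
    rw [one_smul] at hz2
    exact hbc (smul_left_cancel _ hz2)
  have h2 : z⁻¹ * (g' * z * g'⁻¹) ∈ A := mul_mem (inv_mem hz) ((mem_normalizer_iff.mp h1 z).mp hz)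
  have hbf' : g'⁻¹ • (x⁻¹ • b) = x⁻¹ • b := inv_smul_eq_iff.mpr hbf.symm
  have h3 : (z⁻¹ * (g' * z * g'⁻¹)) • (x⁻¹ • b) = x⁻¹ • b := by
    rw [mul_smul, mul_smul, mul_smul, hbf', hz2, hcf, ← hz2, inv_smul_smul]
  have h4 := hA.semireg h2 hb1 h3
  have h5 : g' * z = z * g' := by
    have h6 : g' * z * g'⁻¹ = z := (inv_mul_eq_one.mp h4).symm
    exact mul_inv_eq_iff_eq_mul.mp h6
  have h6 := hA.cen z hz hz1 g' h5
  have h7 := hA.semireg h6 hb1 hbf
  rw [hg'] at h7
  have h8 : g = x * (x⁻¹ * g * x) * x⁻¹ := by group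
  rw [h8, h7]; group


end HTI

end Cfsg.Agent.H24
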