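import Cfsg.Agent.H24.TIC
import Mathlib.GroupTheory.FixedPointFree

set_option autoImplicit false
set_option linter.unusedSectionVars false
set_option linter.style.haveILetI false
set_option linter.unusedVariables false
set_option linter.unusedSimpArgs false
set_option maxHeartbeats 1000000

/-! Isolated involution centralizers: fixed points of two-point stabilizers (adapted from helper9). -/

open Cfsg Subgroup

namespace Cfsg.Agent.H24

universe u

open H9.BSW HTI MulAction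

variable {G : Type u} [Group G] [Finite G] {u : G}

set_option quotPrecheck false
local notation "𝐀" => (centralizer ({u} : Set G))
local notation "𝐍" => (normalizer ((centralizer ({u} : Set G) : Subgroup G) : Set G))
local notation "𝐟" => ((centralizer ({u} : Set G)).relIndex (normalizer ((centralizer ({u} : Set G) : Subgroup G) : Set G)))

theorem conj_flip {v d : G} (h : v * d * v⁻¹ = d⁻¹) : v * d⁻¹ * v⁻¹ = d := by
  have h1 : (v * d * v⁻¹)⁻¹ = v * d⁻¹ * v⁻¹ := by group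
  rw [← h1, h, inv_inv]

namespace Ev

section

variable (h : Ev G u)
include h

/-- elements of two-point stabilizers are not in `A` -/
theorem not_mem_A {y : G ⧸ 𝐍} (hy : y ≠ pt 𝐀) {d : G} (hd1 : d ≠ 1) (hdy : d • y = y) : d ∉ 𝐀 := fun hc =>
  hd1 (h.hA.semireg hc hy hdy)

theorem d_sq {y : G ⧸ 𝐍} (hy : y ≠ pt 𝐀) {d : G} (hd1 : d ≠ 1) (hdp : d • pt 𝐀 = pt 𝐀) (hdy : d • y = y) :
    d * d ≠ 1 := by
  intro hc
  exact h.not_mem_A hy hd1 hdy (h.inv_mem_A hd1 hc (smul_pt_eq.mp hdp))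

/-- the centralizer of `d` is inverted -/
theorem cent_inv {y : G ⧸ 𝐍} (hy : y ≠ pt 𝐀) {d v : G} (hd1 : d ≠ 1) (hdp : d • pt 𝐀 = pt 𝐀) (hdy : d • y = y)
    (hv2 : v * v = 1) (hv : v * d * v⁻¹ = d⁻¹) {b : G} (hb : b ∈ centralizer ({d} : Set G)) : v * b * v⁻¹ = b⁻¹ := by
  have hvinv : v⁻¹ = v := inv_eq_of_mul_eq_one_left hv2
  have hdd := h.d_sq hy hd1 hdp hdy
  have hv1 : v ≠ 1 := by
    rintro rfl
    apply hdd
    rw [one_mul, inv_one, mul_one] at hv
    nth_rewrite 2 [hv]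
    exact mul_inv_cancel d
  have hnorm : ∀ b ∈ centralizer ({d} : Set G), v * b * v⁻¹ ∈ centralizer ({d} : Set G) := by
    intro b hb
    rw [mem_centralizer_singleton_iff] at hb ⊢
    have h1 : d = v * d⁻¹ * v⁻¹ := (conj_flip hv).symm
    have h2 : b * d⁻¹ = d⁻¹ * b := (show Commute b d from hb).inv_right.eq
    calc v * b * v⁻¹ * d = v * b * v⁻¹ * (v * d⁻¹ * v⁻¹) := by rw [← h1]
      _ = v * (b * d⁻¹) * v⁻¹ := by group
      _ = v * (d⁻¹ * b) * v⁻¹ := by rw [h2]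
      _ = (v * d⁻¹ * v⁻¹) * (v * b * v⁻¹) := by group
      _ = d * (v * b * v⁻¹) := by rw [← h1]
  let φ : centralizer ({d} : Set G) →* centralizer ({d} : Set G) :=
    { toFun := fun b => ⟨v * b * v⁻¹, hnorm b b.2⟩
      map_one' := Subtype.ext (by simp)
      map_mul' := fun a b => Subtype.ext (by
        change v * ((a : G) * b) * v⁻¹ = (v * a * v⁻¹) * (v * b * v⁻¹)
        group) }
  have hφ : ∀ x : centralizer ({d} : Set G), ((φ x : centralizer ({d} : Set G)) : G) = v * x * v⁻¹ := fun _ => rfl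
  have hfpf : MonoidHom.FixedPointFree φ := by
    intro x hx
    by_contra hne
    have hx1 : (x : G) ≠ 1 := fun e => hne (Subtype.ext e)
    have hvx : v * (x : G) * v⁻¹ = x := by rw [← hφ, hx]
    have hvx' : v * (x : G) = x * v := mul_inv_eq_iff_eq_mul.mp hvx
    obtain ⟨g, hg⟩ := h.one_class hv1 hv2
    have hxd := mem_centralizer_singleton_iff.mp x.2
    have h1 : g⁻¹ * (x : G) * g⁻¹⁻¹ ∈ 𝐀 := by
      rw [mem_centralizer_singleton_iff, inv_inv]
      have e1 : g⁻¹ * (x : G) * g * u = g⁻¹ * (x * (g * u * g⁻¹)) * g := by group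
      have e2 : u * (g⁻¹ * (x : G) * g) = g⁻¹ * ((g * u * g⁻¹) * x) * g := by group
      rw [e1, e2, hg, hvx']
    have h2 : g⁻¹ * d * g⁻¹⁻¹ ∈ 𝐀 := by
      apply h.hA.cen _ h1 (conj_ne_one' hx1)
      have e1 : g⁻¹ * d * g⁻¹⁻¹ * (g⁻¹ * (x : G) * g⁻¹⁻¹) = g⁻¹ * (d * x) * g := by group
      have e2 : g⁻¹ * (x : G) * g⁻¹⁻¹ * (g⁻¹ * d * g⁻¹⁻¹) = g⁻¹ * (x * d) * g := by group
      rw [e1, e2, hxd]
    have h3 : d * v = v * d := by
      have h4 := mem_centralizer_singleton_iff.mp h2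
      rw [inv_inv] at h4
      rw [← hg]
      have e1 : d * (g * u * g⁻¹) = g * (g⁻¹ * d * g * u) * g⁻¹ := by group
      have e2 : g * u * g⁻¹ * d = g * (u * (g⁻¹ * d * g)) * g⁻¹ := by group
      rw [e1, e2, h4]
    apply hdd
    have h8 : v * d * v⁻¹ = d := mul_inv_eq_iff_eq_mul.mpr h3.symm
    rw [h8] at hv
    nth_rewrite 2 [hv]
    exact mul_inv_cancel d
  have hinvol : Function.Involutive φ := by
    intro x
    apply Subtype.ext
    rw [hφ, hφ]
    have e1 : v * (v * (x : G) * v⁻¹) * v⁻¹ = (v * v) * x * (v * v)⁻¹ := by group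
    rw [e1, hv2]; simp
  have h9 := hfpf.coe_eq_inv_of_involutive hinvol
  have h10 := congrFun h9 ⟨b, hb⟩
  exact congrArg Subtype.val h10

/-- the stabilizer in `C(d)` of a fixed point of `d` is small -/
theorem card_sub_le {y : G ⧸ 𝐍} (hy : y ≠ pt 𝐀) {d : G} (hd1 : d ≠ 1) (hdp : d • pt 𝐀 = pt 𝐀) (hdy : d • y = y)
    {z : G ⧸ 𝐍} {B : Subgroup G} (hB : B ≤ centralizer ({d} : Set G)) (hBz : ∀ b ∈ B, b • z = z) : Nat.card B ≤ 𝐟 := by
  obtain ⟨g, rfl⟩ := exists_pt z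
  have h1 : Nat.card (B.map (MulAut.conj g⁻¹).toMonoidHom) = Nat.card B :=
    Nat.card_congr (B.equivMapOfInjective _ (MulAut.conj g⁻¹).injective).symm.toEquiv
  rw [← h1]
  apply h.card_le_of_disjoint
  · rintro x ⟨b, hb, rfl⟩
    rw [← smul_pt_eq]
    change (g⁻¹ * b * g⁻¹⁻¹) • pt 𝐀 = pt 𝐀
    rw [inv_inv, mul_smul, mul_smul, hBz b hb, inv_smul_smul]
  · rintro x ⟨b, hb, rfl⟩ hx
    change g⁻¹ * b * g⁻¹⁻¹ ∈ 𝐀 at hx
    change g⁻¹ * b * g⁻¹⁻¹ = 1
    by_contra hne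
    have hbd := mem_centralizer_singleton_iff.mp (hB hb)
    have h2 : g⁻¹ * d * g⁻¹⁻¹ ∈ 𝐀 := by
      apply h.hA.cen _ hx hne
      calc g⁻¹ * d * g⁻¹⁻¹ * (g⁻¹ * b * g⁻¹⁻¹) = g⁻¹ * (d * b) * g⁻¹⁻¹ := by group
        _ = g⁻¹ * (b * d) * g⁻¹⁻¹ := by rw [hbd]
        _ = g⁻¹ * b * g⁻¹⁻¹ * (g⁻¹ * d * g⁻¹⁻¹) := by group
    have h3 : g⁻¹ * d * g⁻¹⁻¹ ≠ 1 := conj_ne_one' hd1
    -- two fixed points
    have h4 : (g⁻¹ * d * g⁻¹⁻¹) • (g⁻¹ • pt 𝐀) = g⁻¹ • pt 𝐀 := by
      rw [inv_inv, mul_smul, mul_smul, smul_inv_smul, hdp]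
    have h5 : (g⁻¹ * d * g⁻¹⁻¹) • (g⁻¹ • y) = g⁻¹ • y := by
      rw [inv_inv, mul_smul, mul_smul, smul_inv_smul, hdy]
    have h6 : g⁻¹ • pt 𝐀 = pt 𝐀 := by
      by_contra hc
      exact h3 (h.hA.semireg h2 hc h4)
    have h7 : g⁻¹ • y = pt 𝐀 := by
      by_contra hc
      exact h3 (h.hA.semireg h2 hc h5)
    exact hy (smul_left_cancel _ (h7.trans h6.symm))

/-- the centralizer of `d` has order `f (k - 1)` -/
theorem card_cent_d {y : G ⧸ 𝐍} (hy : y ≠ pt 𝐀) {d : G} (hd1 : d ≠ 1) (hdp : d • pt 𝐀 = pt 𝐀) (hdy : d • y = y) :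
    Nat.card (centralizer ({d} : Set G)) = ({z : G ⧸ 𝐍 | d • z = z}.ncard - 1) * 𝐟 := by
  classical
  letI : Fintype G := Fintype.ofFinite G
  letI : Fintype (G ⧸ 𝐍) := Fintype.ofFinite _
  have hdd := h.d_sq hy hd1 hdp hdy
  -- some involution
  obtain ⟨hc1, hc2⟩ := h.count y hy
  have hf := h.one_lt_f
  have hne : {v : G | v * v = 1 ∧ v • pt 𝐀 = y}.Nonempty := by
    rw [Set.nonempty_iff_ne_empty]
    intro e
    rw [e, Set.ncard_empty] at hc1
    omega
  obtain ⟨v, hv2, hvy⟩ := hne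
  have hvd : v * d * v⁻¹ = d⁻¹ := h.inverts hv2 hy hvy (mem_inf.mpr ⟨hdp, hdy⟩)
  have hvinv : v⁻¹ = v := inv_eq_of_mul_eq_one_left hv2
  -- all elements of the coset
  have hmem : ∀ w : G, v * w ∈ centralizer ({d} : Set G) ↔ (w * w = 1 ∧ d • (w • pt 𝐀) = w • pt 𝐀 ∧ w • pt 𝐀 ≠ pt 𝐀) := by
    intro w
    constructor
    · intro hw
      have h1 := h.cent_inv hy hd1 hdp hdy hv2 hvd hw
      -- v (v w) v⁻¹ = (v w)⁻¹
      have h2 : w * w = 1 := by
        have h3 : w * v⁻¹ = w⁻¹ * v⁻¹ := by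
          have e1 : v * (v * w) * v⁻¹ = w * v⁻¹ := by rw [← mul_assoc, hv2, one_mul]
          have e2 : (v * w)⁻¹ = w⁻¹ * v⁻¹ := by rw [mul_inv_rev]
          rw [← e1, ← e2, h1]
        have h4 : w = w⁻¹ := mul_right_cancel h3
        nth_rewrite 2 [h4]
        exact mul_inv_cancel w
      -- w inverts d
      have hwd : w * d * w⁻¹ = d⁻¹ := by
        have h3 := mem_centralizer_singleton_iff.mp hw
        have e1 : w = v * (v * w) := by rw [← mul_assoc, hv2, one_mul]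
        calc w * d * w⁻¹ = (v * (v * w)) * d * (v * (v * w))⁻¹ := by rw [← e1]
          _ = v * ((v * w) * d) * (v * w)⁻¹ * v⁻¹ := by group
          _ = v * (d * (v * w)) * (v * w)⁻¹ * v⁻¹ := by rw [h3]
          _ = v * d * v⁻¹ := by group
          _ = d⁻¹ := hvd
      have hwinv : w⁻¹ = w := inv_eq_of_mul_eq_one_left h2
      refine ⟨h2, ?_, ?_⟩
      · have h3 : d * w = w * d⁻¹ := by
          have e2 : d = w * d⁻¹ * w⁻¹ := (conj_flip hwd).symm
          calc d * w = (w * d⁻¹ * w⁻¹) * w := by rw [← e2]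
            _ = w * d⁻¹ := by group
        rw [← mul_smul, h3, mul_smul, inv_smul_eq_iff.mpr hdp.symm]
      · intro hc
        have hwN : w ∈ 𝐍 := smul_pt_eq.mp hc
        have hw1 : w ≠ 1 := by
          rintro rfl
          apply hdd
          rw [one_mul, inv_one, mul_one] at hwd
          nth_rewrite 2 [hwd]
          exact mul_inv_cancel d
        have hwA := h.inv_mem_A hw1 h2 hwN
        have hdN : d ∈ 𝐍 := smul_pt_eq.mp hdp
        have h3 : w * (d * w⁻¹ * d⁻¹) ∈ 𝐀 := mul_mem hwA ((mem_normalizer_iff.mp hdN _).mp (inv_mem hwA))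
        have h4 : w * (d * w⁻¹ * d⁻¹) = d⁻¹ * d⁻¹ := by
          calc w * (d * w⁻¹ * d⁻¹) = (w * d * w⁻¹) * d⁻¹ := by group
            _ = d⁻¹ * d⁻¹ := by rw [hwd]
        rw [h4] at h3
        have h5 : d * d ∈ 𝐀 := by
          have := inv_mem h3
          rwa [mul_inv_rev, inv_inv] at this
        exact h.not_mem_A hy hdd (by rw [mul_smul, hdy, hdy]) h5
    · rintro ⟨hw2, hwd, hwp⟩
      have h1 := h.inverts hw2 hwp rfl (mem_inf.mpr ⟨hdp, hwd⟩)
      rw [mem_centralizer_singleton_iff]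
      have e2 : w * d = d⁻¹ * w := mul_inv_eq_iff_eq_mul.mp h1
      have e3 : v * d⁻¹ = d * v := mul_inv_eq_iff_eq_mul.mp (conj_flip hvd)
      rw [mul_assoc, e2, ← mul_assoc, e3, mul_assoc]
  -- the number of such elements
  have h1 : Nat.card (centralizer ({d} : Set G)) =
      (Finset.univ.filter (fun w : G => w * w = 1 ∧ d • (w • pt 𝐀) = w • pt 𝐀 ∧ w • pt 𝐀 ≠ pt 𝐀)).card := by
    rw [← Fintype.card_coe, ← Nat.card_eq_fintype_card]
    symm
    apply Nat.card_congr (Equiv.ofBijective (fun w : {w : G // w ∈ Finset.univ.filter (fun w : G => w * w = 1 ∧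
      d • (w • pt 𝐀) = w • pt 𝐀 ∧ w • pt 𝐀 ≠ pt 𝐀)} => (⟨v * w.1, (hmem w.1).mpr (Finset.mem_filter.mp w.2).2⟩ :
      centralizer ({d} : Set G))) ?_)
    constructor
    · intro a b hab
      exact Subtype.ext (mul_left_cancel (congrArg Subtype.val hab))
    · rintro ⟨b, hb⟩
      have h2 : v * (v * b) = b := by rw [← mul_assoc, hv2, one_mul]
      refine ⟨⟨v * b, Finset.mem_filter.mpr ⟨Finset.mem_univ _, (hmem _).mp (by rw [h2]; exact hb)⟩⟩, Subtype.ext h2⟩
  rw [h1]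
  have h2 : (Finset.univ.filter (fun w : G => w * w = 1 ∧ d • (w • pt 𝐀) = w • pt 𝐀 ∧ w • pt 𝐀 ≠ pt 𝐀)).card =
      ∑ z ∈ Finset.univ.filter (fun z : G ⧸ 𝐍 => d • z = z ∧ z ≠ pt 𝐀),
        (Finset.univ.filter (fun w : G => w * w = 1 ∧ w • pt 𝐀 = z)).card := by
    rw [Finset.card_eq_sum_card_fiberwise (f := fun w : G => w • pt 𝐀)
      (t := Finset.univ.filter (fun z : G ⧸ 𝐍 => d • z = z ∧ z ≠ pt 𝐀))]
    · apply Finset.sum_congr rfl
      intro z hz
      congr 1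
      ext w
      simp only [Finset.mem_filter, Finset.mem_univ, true_and] at hz ⊢
      constructor
      · rintro ⟨⟨h1, h2⟩, h3⟩; exact ⟨h1, h3⟩
      · rintro ⟨h1, h2⟩; exact ⟨⟨h1, by rw [h2]; exact hz⟩, h2⟩
    · intro w hw
      simp only [Finset.coe_filter, Finset.mem_univ, true_and, Set.mem_setOf_eq] at hw ⊢
      exact hw.2
  rw [h2]
  have h3 : ∀ z ∈ Finset.univ.filter (fun z : G ⧸ 𝐍 => d • z = z ∧ z ≠ pt 𝐀),
        (Finset.univ.filter (fun w : G => w * w = 1 ∧ w • pt 𝐀 = z)).card = 𝐟 := by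
    intro z hz
    have hz' := (Finset.mem_filter.mp hz).2
    rw [← (h.count z hz'.2).1, ← Set.ncard_coe_finset]
    congr 1
    ext w; simp
  rw [Finset.sum_congr rfl h3, Finset.sum_const, smul_eq_mul]
  congr 1
  have h4 : Finset.univ.filter (fun z : G ⧸ 𝐍 => d • z = z ∧ z ≠ pt 𝐀) =
      (Finset.univ.filter (fun z : G ⧸ 𝐍 => d • z = z)).erase (pt 𝐀) := by
    ext z
    simp only [Finset.mem_filter, Finset.mem_univ, true_and, Finset.mem_erase]
    tauto
  rw [h4, Finset.card_erase_of_mem (by simp [hdp]), ← Set.ncard_coe_finset]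
  congr 2
  ext z; simp

/-- non-trivial elements fixing two points fix no other point -/
theorem fix_two {y : G ⧸ 𝐍} (hy : y ≠ pt 𝐀) {d : G} (hd1 : d ≠ 1) (hdp : d • pt 𝐀 = pt 𝐀) (hdy : d • y = y)
    {z : G ⧸ 𝐍} (hz : d • z = z) : z = pt 𝐀 ∨ z = y := by
  classical
  by_contra hcon
  push Not at hcon
  have hf := h.one_lt_f
  have hcard := h.card_cent_d hy hd1 hdp hdy
  set B := centralizer ({d} : Set G) with hB
  set F := {z : G ⧸ 𝐍 | d • z = z} with hF
  have h3 : 3 ≤ F.ncard := by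
    have h1 : ({pt 𝐀, y, z} : Set (G ⧸ 𝐍)) ⊆ F := by
      rintro x (rfl | rfl | rfl)
      · exact hdp
      · exact hdy
      · exact hz
    have h2 := Set.ncard_le_ncard h1 (Set.toFinite _)
    rwa [Set.ncard_insert_of_notMem, Set.ncard_pair hcon.2.symm] at h2
    rintro (h1 | h1)
    · exact hy h1.symm
    · exact hcon.1 h1.symm
  -- the orbit of the base point under `B`
  have hinv : ∀ b : B, ∀ x ∈ F, b • x ∈ F := by
    intro b x hx
    have hb := mem_centralizer_singleton_iff.mp b.2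
    change d • ((b : G) • x) = (b : G) • x
    rw [← mul_smul, ← hb, mul_smul, hx]
  have hsub : MulAction.orbit B (pt 𝐀) ⊆ F := by
    rintro x ⟨b, rfl⟩
    exact hinv b _ hdp
  have hst : Nat.card (MulAction.stabilizer B (pt 𝐀)) = 𝐟 := by
    have h1 : Nat.card (MulAction.stabilizer B (pt 𝐀)) = Nat.card ((MulAction.stabilizer B (pt 𝐀)).map B.subtype) :=
      Nat.card_congr (Subgroup.equivMapOfInjective _ _ B.subtype_injective).toEquiv
    rw [h1]
    apply le_antisymm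
    · apply h.card_sub_le hy hd1 hdp hdy (z := pt 𝐀)
      · rintro x ⟨b, hb, rfl⟩
        exact b.2
      · rintro x ⟨b, hb, rfl⟩
        exact hb
    · rw [← (h.count y hy).2]
      apply Nat.card_le_card_of_injective (Set.inclusion ?_) (Set.inclusion_injective _)
      intro x hx
      have hx' := mem_inf.mp hx
      -- x commutes with d
      have hne : {v : G | v * v = 1 ∧ v • pt 𝐀 = y}.Nonempty := by
        rw [Set.nonempty_iff_ne_empty]
        intro e
        have hc1 := (h.count y hy).1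
        rw [e, Set.ncard_empty] at hc1
        omega
      obtain ⟨v, hv2, hvy⟩ := hne
      have e1 := h.inverts hv2 hy hvy hx
      have e2 := h.inverts hv2 hy hvy (mem_inf.mpr ⟨hdp, hdy⟩)
      have e3 := h.inverts hv2 hy hvy (mul_mem hx (mem_inf.mpr ⟨hdp, hdy⟩))
      have e4 : v * (x * d) * v⁻¹ = x⁻¹ * d⁻¹ := by rw [← e1, ← e2]; group
      rw [e4, mul_inv_rev] at e3
      have hxB : x ∈ B := by
        rw [hB, mem_centralizer_singleton_iff]
        have := congrArg (fun t => t⁻¹) e3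
        simp only [mul_inv_rev, inv_inv] at this
        exact this.symm
      exact ⟨⟨x, hxB⟩, hx'.1, rfl⟩
  have horb : (MulAction.orbit B (pt 𝐀)).ncard = F.ncard - 1 := by
    have h1 := card_mul_index (MulAction.stabilizer B (pt 𝐀))
    rw [hst, MulAction.index_stabilizer, hcard, mul_comm] at h1
    exact Nat.eq_of_mul_eq_mul_right (by omega) h1
  have hdiff : (F \ MulAction.orbit B (pt 𝐀)).ncard = 1 := by
    rw [Set.ncard_diff hsub (Set.toFinite _), horb]
    omega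
  obtain ⟨P, hP⟩ := Set.ncard_eq_one.mp hdiff
  have hPF : P ∈ F \ MulAction.orbit B (pt 𝐀) := by rw [hP]; exact rfl
  have hfix : ∀ b ∈ B, b • P = P := by
    intro b hb
    have h1 : (⟨b, hb⟩ : B) • P ∈ F \ MulAction.orbit B (pt 𝐀) := by
      refine ⟨hinv _ _ hPF.1, ?_⟩
      intro hc
      apply hPF.2
      obtain ⟨c, hc⟩ := hc
      refine ⟨(⟨b, hb⟩ : B)⁻¹ * c, ?_⟩
      change ((⟨b, hb⟩ : B)⁻¹ * c) • pt 𝐀 = P
      rw [mul_smul]
      have hc' : c • pt 𝐀 = (⟨b, hb⟩ : B) • P := hc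
      rw [hc', inv_smul_smul]
    rw [hP] at h1
    exact h1
  have hle := h.card_sub_le hy hd1 hdp hdy (B := B) le_rfl hfix
  rw [hcard] at hle
  have h4 : 2 * 𝐟 ≤ (F.ncard - 1) * 𝐟 := Nat.mul_le_mul_right _ (by omega)
  omega

end

end Ev

end Cfsg.Agent.H24
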