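import Cfsg.Agent.H24.TID
import Cfsg.Agent.H20.ZPsl7
import Cfsg.Agent.S1147
import Cfsg.Prelude.Def_OddOrderLocal
import Cfsg.Agent.H5.Small
import Mathlib.FieldTheory.Finite.GaloisField

set_option autoImplicit false
set_option linter.unusedSectionVars false
set_option linter.style.haveILetI false
set_option linter.unusedVariables false
set_option linter.unusedSimpArgs false
set_option maxHeartbeats 1000000

/-! Zassenhaus groups all of whose centralizers are TI. -/

open Cfsg Subgroup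

namespace Cfsg.Agent.H24

universe u

open MulAction H20.Zass

section zz

variable {G Ω : Type*} [Group G] [Finite G] [MulAction G Ω] [Finite Ω]

theorem pow_arith {n c : ℕ} (hn : 1 < n) (h1 : n < c) (h2 : c < 2 * n) (h : (2 ^ n - 1) ∣ 2 ^ c - 1) : False := by
  obtain ⟨r, rfl⟩ : ∃ r, c = n + r := ⟨c - n, by omega⟩
  have hr : r < n := by omega
  have hr0 : 0 < r := by omega
  have e : 2 ^ (n + r) - 1 = 2 ^ r * (2 ^ n - 1) + (2 ^ r - 1) := by
    have h3 : 1 ≤ 2 ^ n := Nat.one_le_two_pow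
    have h4 : 1 ≤ 2 ^ r := Nat.one_le_two_pow
    obtain ⟨a, ha⟩ : ∃ a, 2 ^ n = a + 1 := ⟨2 ^ n - 1, by omega⟩
    obtain ⟨b, hb⟩ : ∃ b, 2 ^ r = b + 1 := ⟨2 ^ r - 1, by omega⟩
    rw [pow_add, ha, hb]
    have : (a + 1) * (b + 1) = (b + 1) * a + (b + 1) := by ring
    rw [this]
    have h5 : a + 1 - 1 = a := by omega
    have h6 : b + 1 - 1 = b := by omega
    rw [h5, h6]
    omega
  rw [e] at h
  have h3 := (Nat.dvd_add_right (Dvd.intro_left _ rfl : (2 ^ n - 1) ∣ 2 ^ r * (2 ^ n - 1))).mp h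
  have h4 : 2 ^ 1 ≤ 2 ^ r := Nat.pow_le_pow_right (by norm_num) hr0
  have h5 : 2 ^ r < 2 ^ n := Nat.pow_lt_pow_right (by norm_num) hr
  have h6 := Nat.le_of_dvd (by omega) h3
  omega

/-- the non-abelian case is impossible -/
theorem zass_ti (hZ : IsZassenhausGroup G Ω) [IsSimpleGroup G]
    (hTI : ∀ x : G, IsTISubset (centralizer ({x} : Set G) : Set G)) {a : Ω}
    (hK : IsPGroup 2 (K hZ a)) (x y : K hZ a) (hxy : x * y ≠ y * x) : False := by
  classical
  obtain ⟨b, hab⟩ := exists_ne_pt hZ a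
  have hxy' : (x : G) * y ≠ y * x := fun e => hxy (Subtype.ext e)
  obtain ⟨n, -, hn, hΩ, -, hd, -⟩ := S1147.result hZ hab (K hZ a) (K_le hZ a)
    (fun h hh u hu => K_normal_in hZ hh hu) (fun c d hc hd => K_regular hZ hc hd) hK
    ⟨x, x.2, y, y.2, hxy'⟩
  have hKc : Nat.card (K hZ a) = 2 ^ (2 * n) := by
    have := card_K hZ a
    omega
  have hx1 : (x : G) ≠ 1 := fun e => hxy' (by rw [e]; simp)
  -- the center
  haveI : Nontrivial (K hZ a) := ⟨⟨x, 1, fun e => hx1 (congrArg Subtype.val e)⟩⟩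
  haveI := hK.center_nontrivial
  obtain ⟨⟨z, hz⟩, hz1⟩ := _root_.exists_ne (1 : center (K hZ a))
  have hz1' : (z : G) ≠ 1 := fun e => hz1 (Subtype.ext (Subtype.ext e))
  have hzc : ∀ w ∈ K hZ a, w * (z : G) = z * w := fun w hw =>
    congrArg Subtype.val (mem_center_iff.mp hz ⟨w, hw⟩)
  -- the two invariant subgroups
  have hcard : ∀ M : Subgroup G, M ≤ K hZ a → (∀ h : G, h • a = a → h • b = b → ∀ s ∈ M, h * s * h⁻¹ ∈ M) →
      (2 ^ n - 1) ∣ Nat.card M - 1 := by
    intro M hM hMinv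
    have hcardS : Nat.card ↥((M : Set G) \ {1}) + 1 = Nat.card M := by
      rw [Nat.card_coe_set_eq, Set.ncard_sdiff_singleton_add_one (one_mem M) (Set.toFinite _),
        ← Nat.card_coe_set_eq]
      rfl
    rw [← hcardS, Nat.add_sub_cancel, ← hd]
    apply card_dvd_of_invariant hZ hab
    · intro s hs; exact hM hs.1
    · intro h; exact h.2 rfl
    · intro h ha hb s hs
      exact ⟨hMinv h ha hb s hs.1, fun h' => hs.2 (conj_eq_one_iff.mp h')⟩
  set C := centralizer ({(x : G)} : Set G) with hC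
  have hCK : C ≤ K hZ a := fun g hg => mem_K_of_commute hZ x.2 hx1 (mem_centralizer_singleton_iff.mp hg)
  set Z := K hZ a ⊓ centralizer (K hZ a : Set G) with hZdef
  have hzZ : (z : G) ∈ Z := ⟨z.2, mem_centralizer_iff.mpr fun w hw => hzc w hw⟩
  have hZinv : ∀ h : G, h • a = a → ∀ s ∈ Z, h * s * h⁻¹ ∈ Z := by
    intro h ha s hs
    obtain ⟨hs1, hs2⟩ := mem_inf.mp hs
    refine mem_inf.mpr ⟨K_normal_in hZ ha hs1, ?_⟩
    rw [mem_centralizer_iff]
    intro w hw
    have hha : h⁻¹ • a = a := inv_smul_eq_iff.mpr ha.symm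
    have h1 : h⁻¹ * w * h⁻¹⁻¹ ∈ K hZ a := K_normal_in hZ hha hw
    have h2 := mem_centralizer_iff.mp hs2 _ h1
    rw [inv_inv] at h2
    have e1 : w * (h * s * h⁻¹) = h * (h⁻¹ * w * h * s) * h⁻¹ := by group
    have e2 : h * s * h⁻¹ * w = h * (s * (h⁻¹ * w * h)) * h⁻¹ := by group
    rw [e1, e2, h2]
  have hZC : Z ≤ C := fun s hs => mem_centralizer_singleton_iff.mpr
    (mem_centralizer_iff.mp hs.2 _ x.2).symm
  have hCinv : ∀ h : G, h • a = a → ∀ s ∈ C, h * s * h⁻¹ ∈ C := by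
    intro h ha s hs
    have hn : h ∈ normalizer (C : Set G) := by
      by_contra hc
      exact hz1' (hTI x h hc z (hZC hzZ) (hZC (hZinv h ha _ hzZ)))
    exact (mem_normalizer_iff.mp hn s).mp hs
  have hZ1 := hcard Z inf_le_left (fun h ha _ => hZinv h ha)
  have hC1 := hcard C hCK (fun h ha _ => hCinv h ha)
  -- orders
  have hxZ : (x : G) ∉ Z := fun hc => hxy' (mem_centralizer_iff.mp hc.2 _ y.2).symm
  have hxC : (x : G) ∈ C := mem_centralizer_singleton_iff.mpr rfl
  have hyC : (y : G) ∉ C := fun hc => hxy' (mem_centralizer_singleton_iff.mp hc).symm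
  have hZlt : Nat.card Z < Nat.card C := by
    apply lt_of_le_of_ne (Subgroup.card_le_of_le hZC)
    intro e
    apply hxZ
    rw [Subgroup.eq_of_le_of_card_ge hZC e.ge]
    exact hxC
  have hClt : Nat.card C < Nat.card (K hZ a) := by
    apply lt_of_le_of_ne (Subgroup.card_le_of_le hCK)
    intro e
    apply hyC
    rw [Subgroup.eq_of_le_of_card_ge hCK e.ge]
    exact y.2
  have hZ2 : 1 < Nat.card Z := by
    rw [Finite.one_lt_card_iff_nontrivial]
    exact ⟨⟨⟨z, hzZ⟩, 1, fun e => hz1' (congrArg Subtype.val e)⟩⟩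
  obtain ⟨c, hc2, hc⟩ := (Nat.dvd_prime_pow Nat.prime_two).mp (hKc ▸ Subgroup.card_dvd_of_le hCK)
  have hZ3 : 2 ^ n - 1 ≤ Nat.card Z - 1 := Nat.le_of_dvd (by omega) hZ1
  have hp : 1 ≤ 2 ^ n := Nat.one_le_two_pow
  rw [hc] at hC1 hClt hZlt
  rw [hKc] at hClt
  have h1 : c < 2 * n := (Nat.pow_lt_pow_iff_right (by norm_num)).mp hClt
  have h2 : n < c := by
    apply (Nat.pow_lt_pow_iff_right (a := 2) (by norm_num)).mp
    omega
  exact pow_arith hn h2 h1 hC1

end zz

/-- an involution acting without fixed points on a normal subgroup inverts it -/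
theorem inv_of_fpf {G : Type*} [Group G] [Finite G] {N : Subgroup G} [hN : N.Normal] {v : G} (hv2 : v * v = 1)
    (h : ∀ n ∈ N, v * n = n * v → n = 1) : ∀ n ∈ N, v * n * v⁻¹ = n⁻¹ := by
  let φ : N →* N := (MulAut.conjNormal v).toMonoidHom
  have hφ : ∀ x : N, ((φ x : N) : G) = v * x * v⁻¹ := fun x => MulAut.conjNormal_apply _ _
  have hfpf : MonoidHom.FixedPointFree φ := by
    intro x hx
    have h1 : v * (x : G) * v⁻¹ = x := by rw [← hφ, hx]
    exact Subtype.ext (h x x.2 (mul_inv_eq_iff_eq_mul.mp h1))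
  have hinvol : Function.Involutive φ := by
    intro x
    apply Subtype.ext
    rw [hφ, hφ]
    have e1 : v * (v * (x : G) * v⁻¹) * v⁻¹ = (v * v) * x * (v * v)⁻¹ := by group
    rw [e1, hv2]; simp
  intro n hn
  have h10 := congrFun (hfpf.coe_eq_inv_of_involutive hinvol) ⟨n, hn⟩
  have h11 := congrArg Subtype.val h10
  rw [hφ] at h11
  exact h11

end Cfsg.Agent.H24
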