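import Cfsg.Agent.H24.TIE

set_option autoImplicit false
set_option linter.unusedSectionVars false
set_option linter.style.haveILetI false
set_option linter.unusedVariables false
set_option linter.unusedSimpArgs false
set_option maxHeartbeats 1000000

/-! Isolated involution centralizers: the Zassenhaus action (adapted from helper9). -/

open Cfsg Subgroup

namespace Cfsg.Agent.H24

universe u

open H9.BSW HTI MulAction

variable {G : Type u} [Group G] [Finite G] {u : G}

set_option quotPrecheck false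
local notation "𝐀" => (centralizer ({u} : Set G))
local notation "𝐍" => (normalizer ((centralizer ({u} : Set G) : Subgroup G) : Set G))
local notation "𝐟" => ((centralizer ({u} : Set G)).relIndex (normalizer ((centralizer ({u} : Set G) : Subgroup G) : Set G)))

namespace Ev

section

variable (h : Ev G u)
include h

theorem index_ne_one : 𝐍.index ≠ 1 := by
  intro hc
  rw [index_eq_one] at hc
  obtain ⟨v, hv1, hv2, hne⟩ := h.ne
  have h1 : v ∈ 𝐍 := by rw [hc]; exact mem_top v
  have h2 := h.inv_mem_A hv1 hv2 h1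
  exact hne (mem_centralizer_singleton_iff.mp h2).symm

theorem index_eq : 𝐍.index = Nat.card 𝐀 + 1 := by
  classical
  letI : Fintype G := Fintype.ofFinite G
  letI : Fintype (G ⧸ 𝐍) := Fintype.ofFinite _
  have hf := h.one_lt_f
  have hdvd := h.hA.index_dvd
  have hi0 : 𝐍.index ≠ 0 := index_ne_zero_of_finite
  have hi1 := h.index_ne_one
  have hA0 := h.hA.one_lt
  have hle : (𝐍.index - 1) * (𝐟 - 1) ≤ Nat.card 𝐀 * (𝐟 - 1) := by
    have h1 : (Finset.univ.filter (fun y : G ⧸ 𝐍 => y ≠ pt 𝐀)).card = 𝐍.index - 1 := by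
      rw [Finset.filter_ne' Finset.univ (pt 𝐀), Finset.card_erase_of_mem (Finset.mem_univ _), Finset.card_univ,
        ← Nat.card_eq_fintype_card]
      rfl
    have h2 : ∀ y ∈ Finset.univ.filter (fun y : G ⧸ 𝐍 => y ≠ pt 𝐀),
        (Finset.univ.filter (fun d : G => d ≠ 1 ∧ d • pt 𝐀 = pt 𝐀 ∧ d • y = y)).card = 𝐟 - 1 := by
      intro y hy
      have hy' := (Finset.mem_filter.mp hy).2
      rw [← (h.count y hy').2]
      have h3 : Finset.univ.filter (fun d : G => d ≠ 1 ∧ d • pt 𝐀 = pt 𝐀 ∧ d • y = y) =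
          (Finset.univ.filter (fun d : G => d ∈ stabilizer G (pt 𝐀) ⊓ stabilizer G y)).erase 1 := by
        ext d
        simp only [Finset.mem_filter, Finset.mem_univ, true_and, Finset.mem_erase, mem_inf, mem_stabilizer_iff]
      rw [h3, Finset.card_erase_of_mem (by simp)]
      congr 1
      rw [← Fintype.card_subtype, ← Nat.card_eq_fintype_card]
    have h3 : ∑ y ∈ Finset.univ.filter (fun y : G ⧸ 𝐍 => y ≠ pt 𝐀),
        (Finset.univ.filter (fun d : G => d ≠ 1 ∧ d • pt 𝐀 = pt 𝐀 ∧ d • y = y)).card = (𝐍.index - 1) * (𝐟 - 1) := by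
      rw [Finset.sum_congr rfl h2, Finset.sum_const, h1, smul_eq_mul]
    rw [← h3, ← Finset.card_biUnion]
    · have h4 : Nat.card 𝐀 * (𝐟 - 1) = (Finset.univ.filter (fun d : G => d ∈ 𝐍 ∧ d ∉ 𝐀)).card := by
        have h5 : Nat.card 𝐍 = Nat.card 𝐀 * 𝐟 := by
          rw [← card_mul_index (𝐀.subgroupOf 𝐍)]
          congr 1
          exact Nat.card_congr (subgroupOfEquivOfLe le_normalizer).toEquiv
        have h6 : Finset.univ.filter (fun d : G => d ∈ 𝐍 ∧ d ∉ 𝐀) =
            Finset.univ.filter (fun d : G => d ∈ 𝐍) \ Finset.univ.filter (fun d : G => d ∈ 𝐀) := by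
          ext d; simp
        have h7 : Finset.univ.filter (fun d : G => d ∈ 𝐀) ⊆ Finset.univ.filter (fun d : G => d ∈ 𝐍) := by
          intro d hd
          simp only [Finset.mem_filter, Finset.mem_univ, true_and] at hd ⊢
          exact le_normalizer hd
        rw [h6, Finset.card_sdiff_of_subset h7, ← Fintype.card_subtype, ← Fintype.card_subtype,
          ← Nat.card_eq_fintype_card, ← Nat.card_eq_fintype_card]
        change _ = Nat.card 𝐍 - Nat.card 𝐀
        rw [h5, Nat.mul_sub, mul_one]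
      rw [h4]
      apply Finset.card_le_card
      intro d hd
      simp only [Finset.mem_biUnion, Finset.mem_filter, Finset.mem_univ, true_and] at hd ⊢
      obtain ⟨y, hy, hd1, hdp, hdy⟩ := hd
      exact ⟨smul_pt_eq.mp hdp, h.not_mem_A hy hd1 hdy⟩
    · intro y hy z hz hyz
      have hy' := (Finset.mem_filter.mp hy).2
      have hz' := (Finset.mem_filter.mp hz).2
      change Disjoint _ _
      rw [Finset.disjoint_left]
      intro d hd hd'
      simp only [Finset.mem_filter, Finset.mem_univ, true_and] at hd hd'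
      rcases h.fix_two hy' hd.1 hd.2.1 hd.2.2 hd'.2.2 with e | e
      · exact hz' e
      · exact hyz e.symm
  have h1 : 𝐍.index - 1 ≤ Nat.card 𝐀 := Nat.le_of_mul_le_mul_right hle (by omega)
  have h2 := Nat.le_of_dvd (by omega) hdvd
  omega

theorem zass : IsZassenhausGroup G (G ⧸ 𝐍) := by
  classical
  have h6 := h.index_eq
  have hf := h.one_lt_f
  have hq := h.hA.one_lt
  have hfle := h.hA.relIndex_le
  refine ⟨?_, h.hA.two_trans rfl h6, ?_, ?_, ?_⟩
  · constructor
    intro g g' hgg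
    have hfix : ∀ x : G ⧸ 𝐍, (g'⁻¹ * g) • x = x := by
      intro x
      rw [mul_smul, hgg x, inv_smul_smul]
    have h7 : 2 < Nat.card (G ⧸ 𝐍) := by
      rw [← Subgroup.index, h6]; omega
    letI : Fintype (G ⧸ 𝐍) := Fintype.ofFinite _
    rw [Nat.card_eq_fintype_card, Fintype.two_lt_card_iff] at h7
    obtain ⟨a, b, c, hab, hac, hbc⟩ := h7
    have h8 := h.hA.three_fix rfl h6 hab hbc hac (hfix a) (hfix b) (hfix c)
    exact (inv_mul_eq_one.mp h8).symm
  · intro g a b c hab hbc hac ha hb hc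
    exact h.hA.three_fix rfl h6 hab hbc hac ha hb hc
  · have h7 : 1 < Nat.card (G ⧸ 𝐍) := by
      rw [← Subgroup.index, h6]; omega
    haveI := Finite.one_lt_card_iff_nontrivial.mp h7
    obtain ⟨b, hb⟩ := _root_.exists_ne (pt 𝐀)
    have h8 := (h.count b hb).2
    have h9 : 1 < Nat.card ↥(MulAction.stabilizer G (pt 𝐀) ⊓ MulAction.stabilizer G b) := by
      rw [h8]; omega
    haveI := Finite.one_lt_card_iff_nontrivial.mp h9
    obtain ⟨z, hz⟩ := _root_.exists_ne (1 : ↥(MulAction.stabilizer G (pt 𝐀) ⊓ MulAction.stabilizer G b))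
    exact ⟨z, fun e => hz (Subtype.ext e), pt 𝐀, b, Ne.symm hb, z.2.1, z.2.2⟩
  · intro N hN htr
    by_contra hcon
    push Not at hcon
    -- elements of `N` fixing the base point
    have hfixN : ∀ n ∈ N, n ∈ 𝐀 → n = 1 := by
      intro n hn hnA
      have h1 : (⟨n, hn⟩ : N) ∈ MulAction.stabilizer N (pt 𝐀) := by
        rw [MulAction.mem_stabilizer_iff]
        exact smul_pt_eq.mpr (le_normalizer hnA)
      have h2 : (⟨n, hn⟩ : N) ∈ (⊥ : Subgroup N) := by
        rw [← hcon (pt 𝐀)]
        exact h1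
      exact congrArg Subtype.val (mem_bot.mp h2)
    have hinvN : ∀ w : G, w ∈ 𝐀 → w ≠ 1 → w * w = 1 → ∀ n ∈ N, w * n * w⁻¹ = n⁻¹ := by
      intro w hwA hw1 hw2
      apply inv_of_fpf hw2
      intro n hn hnw
      exact hfixN n hn (h.hA.cen w hwA hw1 n hnw.symm)
    -- another involution
    have hci := h.card_inv
    have h9 : 1 < {v : G | v ∈ 𝐀 ∧ v ≠ 1 ∧ v * v = 1}.ncard := by rw [hci]; exact hf
    obtain ⟨w, ⟨hwA, hw1, hw2⟩, hwu⟩ := Set.exists_ne_of_one_lt_ncard h9 u
    have huw : u * w ∈ 𝐀 := mul_mem h.uA hwA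
    have huw1 : u * w ≠ 1 := by
      intro e
      apply hwu
      have h10 : u * (u * w) = u := by rw [e, mul_one]
      rw [← mul_assoc, h.u2, one_mul] at h10
      exact h10
    have hNA : ∀ n ∈ N, n ∈ 𝐀 := by
      intro n hn
      apply h.hA.cen _ huw huw1
      have e1 := hinvN w hwA hw1 hw2 n hn
      have e2 := hinvN u h.uA h.u1 h.u2 n⁻¹ (inv_mem hn)
      have e3 : u * w * n * (u * w)⁻¹ = n := by
        calc u * w * n * (u * w)⁻¹ = u * (w * n * w⁻¹) * u⁻¹ := by group
          _ = n := by rw [e1, e2, inv_inv]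
      exact (mul_inv_eq_iff_eq_mul.mp e3).symm
    have h7 : 1 < Nat.card (G ⧸ 𝐍) := by
      rw [← Subgroup.index, h6]; omega
    haveI := Finite.one_lt_card_iff_nontrivial.mp h7
    obtain ⟨b, hb⟩ := _root_.exists_ne (pt 𝐀)
    obtain ⟨n, hn⟩ := htr.exists_smul_eq (pt 𝐀) b
    apply hb
    rw [← hn]
    exact smul_pt_eq.mpr (le_normalizer (hNA n n.2))

/-- the identification -/
theorem final (hTI : ∀ x : G, IsTISubset (centralizer ({x} : Set G) : Set G)) :
    ∃ n : ℕ, 2 ≤ n ∧ Nonempty (G ≃* Matrix.ProjectiveSpecialLinearGroup (Fin 2) (GaloisField 2 n)) := by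
  classical
  have hZ := h.zass
  have h6 := h.index_eq
  have hΩ : Nat.card (G ⧸ 𝐍) = Nat.card 𝐀 + 1 := by rw [← h6]; rfl
  have hf := h.one_lt_f
  have hfle := h.hA.relIndex_le
  have h2 := h.two_dvd
  haveI : IsSimpleGroup G := H20.Zass.isSimple_of_odd hZ (by
    rw [hΩ]
    exact Even.add_one (even_iff_two_dvd.mpr h2))
  rcases H20.Zass.simple_classification hZ with ⟨F, iF, iFin, h1, ⟨e2⟩⟩ | ⟨a, ha, x, y, hxy⟩
  · rw [hΩ] at h1
    have hF : Fintype.card F = Nat.card 𝐀 := by omega
    have hd := h.two_dvd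
    rw [← hF] at hd
    obtain ⟨p, hp, n, hpn, hcard⟩ := FiniteField.card' F
    have hp2 : p = 2 := by
      rw [hcard] at hd
      exact ((Nat.prime_dvd_prime_iff_eq Nat.prime_two hpn).mp (Nat.prime_two.dvd_of_dvd_pow hd)).symm
    subst hp2
    refine ⟨n, ?_, ?_⟩
    · by_contra hlt
      have hn : (n : ℕ) ≤ 1 := by omega
      have : Fintype.card F ≤ 2 ^ 1 := by rw [hcard]; exact Nat.pow_le_pow_right (by norm_num) hn
      omega
    · haveI : Fact (Nat.Prime 2) := ⟨Nat.prime_two⟩
      haveI : Fintype (GaloisField 2 n) := Fintype.ofFinite _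
      have eK : F ≃+* GaloisField 2 n := FiniteField.ringEquivOfCardEq (by
        rw [hcard, ← Nat.card_eq_fintype_card, GaloisField.card 2 n n.ne_zero])
      exact ⟨e2.trans (H5.PSLCongr eK)⟩
  · exact (zass_ti hZ hTI ha x y hxy).elim

end

end Ev

end Cfsg.Agent.H24
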