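import Cfsg.Agent.H24.TIF
import Cfsg.Agent.H18.CN5
import Cfsg.Agent.H1.FrobCent

set_option autoImplicit false
set_option linter.unusedSectionVars false
set_option linter.style.haveILetI false
set_option linter.unusedVariables false
set_option linter.unusedSimpArgs false
set_option maxHeartbeats 1000000

/-! Groups all of whose centralizers are TI: preliminaries. -/

open Cfsg Subgroup
open scoped Pointwise

namespace Cfsg.Agent.H24

universe u

variable {G : Type u} [Group G] [Finite G]

/-- elements commute with their conjugates (2-Engel condition) on a subgroup -/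
def Eng (X : Subgroup G) : Prop := ∀ x ∈ X, ∀ g ∈ X, x * (g * x * g⁻¹) = (g * x * g⁻¹) * x

theorem Eng.mono {X Y : Subgroup G} (h : X ≤ Y) (hY : Eng Y) : Eng X :=
  fun x hx g hg => hY x (h hx) g (h hg)

theorem pow_eq_one_of_isPGroup {p : ℕ} {x : G} (hx : IsPGroup p (zpowers x)) : ∃ k, x ^ p ^ k = 1 := by
  obtain ⟨k, hk⟩ := hx ⟨x, mem_zpowers x⟩
  exact ⟨k, congrArg Subtype.val hk⟩

theorem Eng.nil {X : Subgroup G} (h : Eng X) : Group.IsNilpotent X := by
  rw [H18.nil_iff_comm]
  intro p q hp hq hpq x hx y hy hxp hyq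
  obtain ⟨k, hk⟩ := pow_eq_one_of_isPGroup hxp
  obtain ⟨l, hl⟩ := pow_eq_one_of_isPGroup hyq
  -- `c = x⁻¹ (y x y⁻¹)`
  set c := x⁻¹ * (y * x * y⁻¹) with hc
  have h1 : Commute x⁻¹ (y * x * y⁻¹) := (show Commute x (y * x * y⁻¹) from h x hx y hy).inv_left
  have h2 : c ^ p ^ k = 1 := by
    rw [hc, h1.mul_pow, inv_pow, hk, conj_pow, hk]
    simp
  have h3 : Commute (x⁻¹ * y * x) y⁻¹ := by
    have := h y hy x⁻¹ (inv_mem hx)
    rw [inv_inv] at this
    exact (show Commute y (x⁻¹ * y * x) from this).symm.inv_right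
  have h4 : c ^ q ^ l = 1 := by
    have e : c = (x⁻¹ * y * x) * y⁻¹ := by rw [hc]; group
    have e2 : (x⁻¹ * y * x) ^ q ^ l = 1 := by
      have : x⁻¹ * y * x = x⁻¹ * y * x⁻¹⁻¹ := by rw [inv_inv]
      rw [this, conj_pow, hl]; simp
    rw [e, h3.mul_pow, inv_pow, hl, e2]
    simp
  have h5 : orderOf c = 1 := by
    have hco : Nat.Coprime (p ^ k) (q ^ l) :=
      Nat.Coprime.pow _ _ ((Nat.coprime_primes hp.out hq.out).mpr hpq)
    exact Nat.eq_one_of_dvd_coprimes hco (orderOf_dvd_of_pow_eq_one h2) (orderOf_dvd_of_pow_eq_one h4)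
  rw [orderOf_eq_one_iff, hc, inv_mul_eq_one] at h5
  exact (mul_inv_eq_iff_eq_mul.mp h5.symm).symm

section ti

variable (hTI : ∀ x : G, IsTISubset (centralizer ({x} : Set G) : Set G))
include hTI

theorem ti_norm {x y g : G} (hy : y * x = x * y) (hy1 : y ≠ 1) (hgy : g * y = y * g) :
    g ∈ normalizer (centralizer ({x} : Set G) : Set G) := by
  by_contra hc
  apply hy1
  apply hTI x g hc y (mem_centralizer_singleton_iff.mpr hy)
  have : g * y * g⁻¹ = y := mul_inv_eq_iff_eq_mul.mpr hgy
  rw [this]
  exact mem_centralizer_singleton_iff.mpr hy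

theorem ti_eng {x : G} (hx1 : x ≠ 1) : Eng (centralizer ({x} : Set G)) := by
  intro k hk g hg
  rw [mem_centralizer_singleton_iff] at hk hg
  have h1 := ti_norm hTI (x := k) (y := x) hk.symm hx1 hg
  have h2 := (mem_normalizer_iff.mp h1 k).mp (mem_centralizer_singleton_iff.mpr rfl)
  exact (mem_centralizer_singleton_iff.mp h2).symm

theorem ti_hti {p : ℕ} [Fact p.Prime] (hp : p ∣ Nat.card G) :
    ∃ (z : G) (P : Sylow p G), orderOf z = p ∧ z ∈ (P : Subgroup G) ∧ (P : Subgroup G) ≤ centralizer ({z} : Set G) ∧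
      HTI (centralizer ({z} : Set G)) := by
  classical
  obtain ⟨P⟩ : Nonempty (Sylow p G) := inferInstance
  have hP1 : (P : Subgroup G) ≠ ⊥ := by
    intro e
    apply P.not_dvd_index
    rw [e, index_bot]; exact hp
  haveI : Nontrivial P := (Subgroup.nontrivial_iff_ne_bot _).mpr hP1
  haveI := P.isPGroup'.center_nontrivial
  have hcp : p ∣ Nat.card (center (P : Subgroup G)) := by
    obtain ⟨n, hn⟩ := IsPGroup.iff_card.mp (P.isPGroup'.to_subgroup (center (P : Subgroup G)))
    have h1 : n ≠ 0 := by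
      rintro rfl
      rw [pow_zero] at hn
      have := Finite.one_lt_card_iff_nontrivial.mpr ‹Nontrivial (center (P : Subgroup G))›
      omega
    rw [hn]
    exact dvd_pow_self p h1
  obtain ⟨z, hz⟩ := exists_prime_orderOf_dvd_card' p hcp
  have hzo : orderOf ((z : (P : Subgroup G)) : G) = p := by
    rw [Subgroup.orderOf_coe, Subgroup.orderOf_coe, hz]
  set w : G := ((z : (P : Subgroup G)) : G) with hw
  have hw1 : w ≠ 1 := by
    intro e
    rw [e, orderOf_one] at hzo
    exact (Fact.out : p.Prime).one_lt.ne hzo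
  have hwP : w ∈ (P : Subgroup G) := (z : (P : Subgroup G)).2
  have hwc : ∀ g ∈ (P : Subgroup G), g * w = w * g := by
    intro g hg
    exact congrArg Subtype.val (mem_center_iff.mp z.2 ⟨g, hg⟩)
  have hPK : (P : Subgroup G) ≤ centralizer ({w} : Set G) := fun g hg => mem_centralizer_singleton_iff.mpr (hwc g hg)
  refine ⟨w, P, hzo, hwP, hPK, ?_⟩
  have hKn : Group.IsNilpotent (centralizer ({w} : Set G)) := (ti_eng hTI hw1).nil
  -- `p`-elements of the normalizer lie in `P`
  have hpel : ∀ g ∈ normalizer (centralizer ({w} : Set G) : Set G), IsPGroup p (zpowers g) → g ∈ (P : Subgroup G) := by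
    intro g hg hgp
    have hmemP : ∀ y ∈ centralizer ({w} : Set G), IsPGroup p (zpowers y) → y ∈ (P : Subgroup G) := by
      intro y hy hyp
      -- `y` commutes with `p'`-elements
      have hnorm : ((P.subtype hPK : Sylow p (centralizer ({w} : Set G))) : Subgroup (centralizer ({w} : Set G))).Normal :=
        ((Group.isNilpotent_of_finite_tfae (G := centralizer ({w} : Set G))).out 0 3 rfl rfl).mp hKn p inferInstance (P.subtype hPK)
      have hyp' : IsPGroup p (zpowers (⟨y, hy⟩ : centralizer ({w} : Set G))) :=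
        H23.isPGroup_zpowers_subtype.1 hyp
      obtain ⟨R, hR⟩ := hyp'.exists_le_sylow
      have hRP : R = P.subtype hPK := by
        obtain ⟨h, hh⟩ := MulAction.exists_smul_eq (centralizer ({w} : Set G)) (P.subtype hPK) R
        rw [← hh, Sylow.smul_eq_of_normal]
      rw [hRP] at hR
      have h1 := hR (mem_zpowers _)
      exact h1
    have hgN : g ∈ normalizer ((P : Subgroup G) : Set G) := by
      apply mem_normalizer_fintype
      intro x hx
      apply hmemP _ ((mem_normalizer_iff.mp hg x).mp (hPK hx))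
      obtain ⟨k, hk⟩ := IsPGroup.iff_orderOf.mp P.isPGroup' ⟨x, hx⟩
      have hxo : orderOf x = p ^ k := by
        rw [← hk, Subgroup.orderOf_mk]
      have h2 : orderOf (g * x * g⁻¹) = orderOf x := by
        have := orderOf_injective (MulAut.conj g).toMonoidHom (MulAut.conj g).injective x
        simpa using this
      apply IsPGroup.of_card (n := k)
      rw [Nat.card_zpowers, h2, hxo]
    have h3 : g ∈ zpowers g ⊓ normalizer ((P : Subgroup G) : Set G) := ⟨mem_zpowers g, hgN⟩
    have h4 : zpowers g ⊓ normalizer ((P : Subgroup G) : Set G) = zpowers g ⊓ P := hgp.inf_normalizer_sylow P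
    rw [h4] at h3
    exact h3.2
  have hcen : ∀ k ∈ centralizer ({w} : Set G), k ≠ 1 → ∀ g : G, g * k = k * g → g ∈ centralizer ({w} : Set G) := by
    intro k hk hk1
    have hkn : Group.IsNilpotent (centralizer ({k} : Set G)) := (ti_eng hTI hk1).nil
    have hle : centralizer ({k} : Set G) ≤ centralizer ({w} : Set G) := by
      apply H18.le_of_prime_power
      intro q hq g hg hgq
      rw [mem_centralizer_singleton_iff] at hg
      by_cases hqp : q = p
      · subst hqp
        apply hPK
        apply hpel g _ hgq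
        exact ti_norm hTI (mem_centralizer_singleton_iff.mp hk) hk1 hg
      · rw [mem_centralizer_singleton_iff]
        apply H18.nil_iff_comm.mp hkn q p hq inferInstance hqp g (mem_centralizer_singleton_iff.mpr hg) w
          (mem_centralizer_singleton_iff.mpr (mem_centralizer_singleton_iff.mp hk).symm) hgq
        exact H18.isPGroup_zpowers_of_orderOf hzo
    intro g hg
    exact hle (mem_centralizer_singleton_iff.mpr hg)
  refine ⟨?_, ?_, hcen, ?_⟩
  · intro hc
    apply hw1
    have : w ∈ centralizer ({w} : Set G) := mem_centralizer_singleton_iff.mpr rfl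
    rw [hc] at this
    exact mem_bot.mp this
  · rw [Nat.coprime_iff_gcd_eq_one]
    by_contra hne
    obtain ⟨r, hr, hpd⟩ := Nat.exists_prime_and_dvd hne
    have h1 : r ∣ Nat.card (centralizer ({w} : Set G)) := hpd.trans (Nat.gcd_dvd_left _ _)
    have h2 : r ∣ (centralizer ({w} : Set G)).index := hpd.trans (Nat.gcd_dvd_right _ _)
    haveI := Fact.mk hr
    obtain ⟨y, hy⟩ := exists_prime_orderOf_dvd_card' r h1
    have hyo : orderOf (y : G) = r := by rw [Subgroup.orderOf_coe]; exact hy
    have hy1 : (y : G) ≠ 1 := by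
      intro e; rw [e, orderOf_one] at hyo; exact hr.one_lt.ne hyo
    have hpg : IsPGroup r (zpowers (y : G)) := by
      apply IsPGroup.of_card (n := 1)
      rw [Nat.card_zpowers, hyo, pow_one]
    obtain ⟨R, hR⟩ := hpg.exists_le_sylow
    have hyR : (y : G) ∈ (R : Subgroup G) := hR (mem_zpowers _)
    haveI : Nontrivial R := ⟨⟨1, ⟨y, hyR⟩, fun e => hy1 (congrArg Subtype.val e).symm⟩⟩
    haveI := R.isPGroup'.center_nontrivial
    obtain ⟨z, hz1⟩ := _root_.exists_ne (1 : center (R : Subgroup G))
    have hz1' : ((z : (R : Subgroup G)) : G) ≠ 1 := fun e => hz1 (Subtype.ext (Subtype.ext e))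
    have hzc : ∀ g ∈ (R : Subgroup G), g * z = z * g := by
      intro g hg
      exact congrArg Subtype.val (mem_center_iff.mp z.2 ⟨g, hg⟩)
    have hzK : ((z : (R : Subgroup G)) : G) ∈ centralizer ({w} : Set G) :=
      hcen y y.2 hy1 _ (hzc y hyR).symm
    have hle : (R : Subgroup G) ≤ centralizer ({w} : Set G) := fun g hg => hcen _ hzK hz1' g (hzc g hg)
    exact R.not_dvd_index (h2.trans (index_dvd_of_le hle))
  · intro g a ha ha1 hg
    by_contra hc
    exact ha1 (hTI w g hc a ha hg)

end ti

/-- nilpotent Frobenius complements with the Engel condition -/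
theorem frob_eng {H : Subgroup G} (hH : IsFrobeniusComplement H) (hE : Eng H) :
    IsCyclic H ∨ ∃ m : ℕ, Odd m ∧ Nonempty (H ≃* Multiplicative (ZMod m) × QuaternionGroup 2) := by
  have hn := hE.nil
  rcases H18.frobcompl_struct hH hn with h | ⟨C, Q, hCQ, hcomm, hC, hodd, n, ⟨e⟩⟩
  · exact Or.inl h
  have hCH : C ≤ H := by rw [← hCQ]; exact le_sup_left
  have hQH : Q ≤ H := by rw [← hCQ]; exact le_sup_right
  have hcc : C ≤ centralizer (Q : Set G) := fun a ha => mem_centralizer_iff.mpr fun b hb => (hcomm a ha b hb).symm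
  have hQcard : Nat.card Q = 4 * 2 ^ n := by
    rw [Nat.card_congr e.toEquiv, Nat.card_eq_fintype_card, QuaternionGroup.card]
  have hcop : (Nat.card C).Coprime (Nat.card Q) := by
    rw [hQcard]
    have h1 : (Nat.card C).Coprime 2 := (Nat.coprime_two_right).mpr hodd
    have e4 : 4 * 2 ^ n = 2 ^ (n + 2) := by rw [pow_add]; ring
    rw [e4]
    exact h1.pow_right _
  have hn2 : n < 2 := by
    by_contra hcon
    push Not at hcon
    set x : QuaternionGroup (2 ^ n) := QuaternionGroup.xa 0 with hx
    set g : QuaternionGroup (2 ^ n) := QuaternionGroup.a 1 with hg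
    have h1 := hE (e.symm x) (hQH (e.symm x).2) (e.symm g) (hQH (e.symm g).2)
    have h2 : e.symm x * (e.symm g * e.symm x * (e.symm g)⁻¹) = (e.symm g * e.symm x * (e.symm g)⁻¹) * e.symm x :=
      Subtype.ext h1
    rw [← map_inv, ← map_mul, ← map_mul, ← map_mul, ← map_mul] at h2
    have h3 := e.symm.injective h2
    have hginv : g⁻¹ = QuaternionGroup.a (-1) := by
      rw [hg]
      rfl
    rw [hginv, hx, hg, QuaternionGroup.a_mul_xa, QuaternionGroup.xa_mul_a, QuaternionGroup.xa_mul_xa,
      QuaternionGroup.xa_mul_xa, QuaternionGroup.a.injEq] at h3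
    have h4 : ((4 : ℕ) : ZMod (2 * 2 ^ n)) = 0 := by
      have h5 : (0 : ZMod (2 * 2 ^ n)) - (0 - 1 + -1) - (0 - 1 + -1 - 0) = 4 := by ring
      have h6 : (0 : ZMod (2 * 2 ^ n)) - (0 - 1 + -1) - (0 - 1 + -1 - 0) = 0 := by
        rw [sub_eq_zero]
        have := h3
        generalize ((2 ^ n : ℕ) : ZMod (2 * 2 ^ n)) = t at this
        linear_combination -this
      push_cast
      rw [← h5, h6]
    rw [ZMod.natCast_eq_zero_iff] at h4
    have h7 := Nat.le_of_dvd (by norm_num) h4
    have h8 : 2 ^ 2 ≤ 2 ^ n := Nat.pow_le_pow_right (by norm_num) hcon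
    omega
  interval_cases n
  · left
    have hQc : IsCyclic Q := by
      have h1 : IsCyclic (QuaternionGroup 1) := by
        apply isCyclic_of_orderOf_eq_card (QuaternionGroup.xa 0 : QuaternionGroup 1)
        rw [Nat.card_eq_fintype_card, QuaternionGroup.card, QuaternionGroup.orderOf_xa]
      exact isCyclic_of_surjective e.symm.toMonoidHom e.symm.surjective
    rw [← hCQ]
    exact H18.isCyclic_sup hC hQc hcc hcop
  · right
    refine ⟨Nat.card C, hodd, ?_⟩
    haveI := hC
    have eC : C ≃* Multiplicative (ZMod (Nat.card C)) := (zmodCyclicMulEquiv hC).symm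
    have eQ : Q ≃* QuaternionGroup 2 := e
    let F : C × Q →* G :=
      { toFun := fun x => (x.1 : G) * x.2
        map_one' := by simp
        map_mul' := fun x y => by
          change ((x.1 : G) * y.1) * (x.2 * y.2) = (x.1 * x.2) * (y.1 * y.2)
          have := hcomm y.1 y.1.2 x.2 x.2.2
          calc ((x.1 : G) * y.1) * (x.2 * y.2) = x.1 * (y.1 * x.2) * y.2 := by group
            _ = x.1 * (x.2 * y.1) * y.2 := by rw [this]
            _ = _ := by group }
    have hFH : ∀ x, F x ∈ H := fun x => mul_mem (hCH x.1.2) (hQH x.2.2)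
    let f : C × Q →* H := F.codRestrict H hFH
    have hf : Function.Bijective f := by
      constructor
      · rw [injective_iff_map_eq_one]
        rintro ⟨a, b⟩ hab
        have h1 : (a : G) * b = 1 := congrArg Subtype.val hab
        have h3 : (a : G) ∈ Q := by rw [eq_inv_of_mul_eq_one_left h1]; exact inv_mem b.2
        have h2 : (a : G) ∈ C ⊓ Q := ⟨a.2, h3⟩
        rw [H1.inf_eq_bot_of_card_coprime hcop, mem_bot] at h2
        rw [h2, one_mul] at h1
        exact Prod.ext (Subtype.ext h2) (Subtype.ext h1)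
      · rintro ⟨h, hh⟩
        have h1 : C ⊔ Q ≤ F.range := by
          apply sup_le
          · intro c hc
            exact ⟨(⟨c, hc⟩, 1), by change c * ((1 : Q) : G) = c; simp⟩
          · intro c hc
            exact ⟨(1, ⟨c, hc⟩), by change ((1 : C) : G) * c = c; simp⟩
        rw [hCQ] at h1
        obtain ⟨x, hx⟩ := h1 hh
        exact ⟨x, Subtype.ext hx⟩
    exact ⟨((MulEquiv.ofBijective f hf).symm).trans (MulEquiv.prodCongr eC eQ)⟩

end Cfsg.Agent.H24
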