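import Mathlib
import Cfsg.Agent.H13.SZ
import Cfsg.Agent.H23.Coprime4
import Cfsg.Agent.H23.RankOne
import Cfsg.Agent.H1.Coprime2
import Cfsg.Prelude.Def_OddOrderLocal

set_option autoImplicit false
set_option linter.all false

/-! # H24/TIHall: nonnormal TI Hall subgroups of π-separable groups -/

namespace Cfsg.Agent.H24.TIHall

open Subgroup
open scoped Pointwise

variable {G : Type*} [Group G] [Finite G] {H : Subgroup G}

theorem normalizer_of_ti (hTI : Cfsg.IsTISubset (H : Set G)) {A : Subgroup G} (hA : A ≤ H)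
    (hne : A ≠ ⊥) : normalizer (A : Set G) ≤ normalizer (H : Set G) := by
  intro x hx
  by_contra hx2
  obtain ⟨y, hy1⟩ := (Subgroup.ne_bot_iff_exists_ne_one).mp hne
  have h1 : x * y * x⁻¹ ∈ A := (Subgroup.mem_normalizer_iff.mp hx y).mp y.2
  exact hy1 (Subtype.ext (hTI x hx2 y (hA y.2) (hA h1)))

/-- the order of a TI-subgroup, Hall in its normalizer, is coprime to its index. -/
theorem coprime_index (hTI : Cfsg.IsTISubset (H : Set G))
    (hHall : (Nat.card H).Coprime (H.subgroupOf (Subgroup.normalizer (H : Set G))).index) :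
    (Nat.card H).Coprime H.index := by
  by_contra hc
  obtain ⟨p, hp, h1, h2⟩ := Nat.Prime.not_coprime_iff_dvd.mp hc
  haveI : Fact p.Prime := ⟨hp⟩
  let P : Sylow p H := default
  let P' : Subgroup G := (P : Subgroup H).map H.subtype
  have hP'H : P' ≤ H := by
    rintro _ ⟨x, -, rfl⟩; exact x.2
  have hP'p : IsPGroup p P' := P.2.map _
  have hcP : Nat.card P' = Nat.card P := Nat.card_congr
    ((P : Subgroup H).equivMapOfInjective _ H.subtype_injective).toEquiv.symm
  have hrel : P'.relIndex H = (P : Subgroup H).index := by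
    show (P'.subgroupOf H).index = _
    congr 1
    exact Subgroup.comap_map_eq_self_of_injective H.subtype_injective _
  have hne : P' ≠ ⊥ := by
    intro h
    have : ¬ p ∣ Nat.card H := by
      have h3 : Nat.card P = 1 := by rw [← hcP, h, Subgroup.card_bot]
      have h4 := P.card_eq_multiplicity
      rw [h3] at h4
      intro h5
      have h6 : 1 ≤ (Nat.card H).factorization p :=
        (Nat.Prime.dvd_iff_one_le_factorization hp Nat.card_pos.ne').mp h5
      have := Nat.one_lt_pow (by omega) hp.one_lt (n := (Nat.card H).factorization p)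
      omega
    exact this h1
  have hidx : p ∣ P'.index := by
    rw [← Subgroup.relIndex_mul_index hP'H]
    exact dvd_mul_of_dvd_right h2 _
  have hNN : normalizer (P' : Set G) ≤ normalizer (H : Set G) := normalizer_of_ti hTI hP'H hne
  have hd : p ∣ P'.relIndex (normalizer (P' : Set G)) := by
    have hmod := Sylow.prime_dvd_card_quotient_normalizer (p := p)
      (n := (Nat.card H).factorization p) (H := P')
      (by
        rw [pow_succ, ← Subgroup.card_mul_index P', hcP, P.card_eq_multiplicity]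
        exact mul_dvd_mul_left _ hidx)
      (by rw [hcP, P.card_eq_multiplicity])
    exact hmod
  have hd2 : p ∣ P'.relIndex (normalizer (H : Set G)) := by
    rw [← Subgroup.relIndex_mul_relIndex P' _ _ Subgroup.le_normalizer hNN]
    exact dvd_mul_of_dvd_left hd _
  rw [← Subgroup.relIndex_mul_relIndex P' H _ hP'H Subgroup.le_normalizer, hrel] at hd2
  rcases (Nat.Prime.dvd_mul hp).mp hd2 with h | h
  · exact P.not_dvd_index h
  · have := Nat.dvd_gcd h1 h
    rw [show Nat.gcd (Nat.card H) (H.relIndex (normalizer (H : Set G))) = 1 from hHall] at this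
    exact hp.one_lt.ne' (Nat.dvd_one.mp this)

/-- largest normal subgroup of order coprime to `n`, as a maximal one. -/
theorem exists_max_coprime (n : ℕ) : ∃ O : Subgroup G, O.Normal ∧ (Nat.card O).Coprime n ∧
    ∀ K : Subgroup G, K.Normal → (Nat.card K).Coprime n → K ≤ O := by
  obtain ⟨O, hO⟩ := (Set.toFinite {K : Subgroup G | K.Normal ∧ (Nat.card K).Coprime n}).exists_maximal
    ⟨⊥, inferInstance, by rw [Subgroup.card_bot]; exact Nat.coprime_one_left n⟩
  obtain ⟨h1, h2⟩ := hO.prop
  refine ⟨O, h1, h2, fun K hK hKc => ?_⟩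
  have h3 : (K ⊔ O : Subgroup G).Normal := inferInstance
  have h4 : (Nat.card (K ⊔ O : Subgroup G)).Coprime n :=
    Nat.Coprime.coprime_dvd_left (H1.card_sup_dvd_of_normal_right K O) (Nat.Coprime.mul_left hKc h2)
  have h5 := hO.le_of_ge (y := K ⊔ O) ⟨h3, h4⟩ le_sup_right
  exact le_sup_left.trans h5

/-- the Frattini step: `O ⊔ N_G(H) = G` and the `π`-section above `O`. -/
theorem frattini (hTI : Cfsg.IsTISubset (H : Set G))
    (hcop : (Nat.card H).Coprime H.index) (hH : H ≠ ⊥)
    (hsep : ∃ (n : ℕ) (M : Fin (n + 1) → Subgroup G), M 0 = ⊥ ∧ M (Fin.last n) = ⊤ ∧ Monotone M ∧ (∀ i, (M i).Normal) ∧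
      ∀ i : Fin n, (∀ q : ℕ, q.Prime → q ∣ (M i.castSucc).relIndex (M i.succ) → q ∣ Nat.card H) ∨
        ((M i.castSucc).relIndex (M i.succ)).Coprime (Nat.card H))
    (O : Subgroup G) (hON : O.Normal) (hOc : (Nat.card O).Coprime (Nat.card H))
    (hOmax : ∀ K : Subgroup G, K.Normal → (Nat.card K).Coprime (Nat.card H) → K ≤ O) :
    ∃ M : Subgroup G, M.Normal ∧ O < M ∧ M = O ⊔ (M ⊓ H) ∧ O ⊔ normalizer (H : Set G) = ⊤ := by
  obtain ⟨n, M, hM0, hMn, hMm, hMN, hMi⟩ := hsep
  obtain ⟨i, hi1, hi2⟩ : ∃ i : Fin n, M i.castSucc ≤ O ∧ ¬ M i.succ ≤ O := by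
    by_contra hcon
    push Not at hcon
    have hall : ∀ i : Fin (n + 1), M i ≤ O := by
      intro i
      induction i using Fin.induction with
      | zero => rw [hM0]; exact bot_le
      | succ i ih => exact hcon i ih
    have h1 := hall (Fin.last n)
    rw [hMn, top_le_iff] at h1
    rw [h1, Subgroup.card_top] at hOc
    have h2 : Nat.card H ∣ Nat.card G := Subgroup.card_subgroup_dvd_card H
    have h3 := Nat.Coprime.eq_one_of_dvd hOc.symm h2
    exact hH (Subgroup.card_eq_one.mp h3)
  haveI := hMN i.succ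
  haveI := hON
  set X : Subgroup G := O ⊔ M i.succ with hX
  have hXN : X.Normal := inferInstance
  have hOX : O ≤ X := le_sup_left
  have hrel : O.relIndex X ∣ (M i.castSucc).relIndex (M i.succ) := by
    rw [hX, Subgroup.relIndex_sup_left]
    exact Subgroup.relIndex_dvd_of_le_left _ hi1
  have hcX : Nat.card X = Nat.card O * O.relIndex X := by
    exact (H1.card_mul_relIndex hOX).symm
  have hpi : ∀ q : ℕ, q.Prime → q ∣ O.relIndex X → q ∣ Nat.card H := by
    rcases hMi i with h | h
    · exact fun q hq hqd => h q hq (hqd.trans hrel)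
    · exfalso
      have h1 : (Nat.card X).Coprime (Nat.card H) := by
        rw [hcX]; exact Nat.Coprime.mul_left hOc (Nat.Coprime.coprime_dvd_left hrel h)
      exact hi2 (le_sup_right.trans (hOmax X hXN h1))
  have hd1 : (O.relIndex X).Coprime (H.relIndex X) := by
    rw [Nat.coprime_iff_gcd_eq_one]
    by_contra hne
    obtain ⟨q, hq, hq1, hq2⟩ := Nat.Prime.not_coprime_iff_dvd.mp hne
    have h3 := Nat.dvd_gcd (hpi q hq hq1) (hq2.trans (H13.relIndex_dvd_index_right H X))
    rw [hcop] at h3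
    exact hq.one_lt.ne' (Nat.dvd_one.mp h3)
  have hcXH : Nat.card X = Nat.card (X ⊓ H : Subgroup G) * H.relIndex X := by
    have := H1.card_mul_relIndex (K := X ⊓ H) (H := X) inf_le_left
    rw [Subgroup.inf_relIndex_left] at this
    exact this.symm
  have hcO : (Nat.card O).Coprime (Nat.card (X ⊓ H : Subgroup G)) :=
    Nat.Coprime.coprime_dvd_right (Subgroup.card_dvd_of_le inf_le_right) hOc
  have hcard : Nat.card (X ⊓ H : Subgroup G) = O.relIndex X := by
    apply Nat.dvd_antisymm
    · have : Nat.card (X ⊓ H : Subgroup G) ∣ Nat.card O * O.relIndex X := by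
        rw [← hcX]; exact Subgroup.card_dvd_of_le inf_le_left
      exact Nat.Coprime.dvd_of_dvd_mul_left hcO.symm this
    · have : O.relIndex X ∣ Nat.card (X ⊓ H : Subgroup G) * H.relIndex X := by
        rw [← hcXH, hcX]; exact dvd_mul_left _ _
      exact Nat.Coprime.dvd_of_dvd_mul_right hd1 this
  have hXeq : X = O ⊔ (X ⊓ H) := by
    symm
    apply Subgroup.eq_of_le_of_card_ge (sup_le hOX inf_le_left)
    apply Nat.le_of_dvd Nat.card_pos
    rw [hcX, ← hcard]
    exact Nat.Coprime.mul_dvd_of_dvd_of_dvd hcO (Subgroup.card_dvd_of_le le_sup_left)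
      (Subgroup.card_dvd_of_le le_sup_right)
  have hlt : O < X := lt_of_le_of_ne hOX (fun h => hi2 (by rw [h]; exact le_sup_right))
  have hne : X ⊓ H ≠ ⊥ := by
    intro h
    rw [h, sup_bot_eq] at hXeq
    exact hlt.ne hXeq.symm
  refine ⟨X, hXN, hlt, hXeq, ?_⟩
  rw [eq_top_iff]
  intro g _
  have hsz := H13.sz_conj_rel_ft O (MulAut.conj g • (X ⊓ H)) (X ⊓ H) (Subgroup.normalizer_eq_top O ▸ le_top)
    hcO (H1.conj_smul_card_eq g _) (by
      rw [← hXeq]
      intro x hx
      rw [Subgroup.mem_pointwise_smul_iff_inv_smul_mem] at hx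
      simp only [MulAut.smul_def, MulAut.inv_apply, MulAut.conj_symm_apply] at hx
      have := hXN.conj_mem _ hx.1 g
      have e : g * (g⁻¹ * x * g) * g⁻¹ = x := by group
      rwa [e] at this)
  obtain ⟨o, ho, heq⟩ := hsz
  rw [← mul_smul, ← map_mul] at heq
  have h1 : o * g ∈ normalizer ((X ⊓ H : Subgroup G) : Set G) :=
    H1.mem_normalizer_iff_conj_smul.mpr heq
  have h2 := normalizer_of_ti hTI inf_le_right hne h1
  have h3 : g = o⁻¹ * (o * g) := by group
  rw [h3]
  exact Subgroup.mul_mem_sup (O.inv_mem ho) h2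

/-- centralizers of single elements of `H` in `O` centralize `H`. -/
theorem centralizer_le (hTI : Cfsg.IsTISubset (H : Set G)) (O : Subgroup G) (hON : O.Normal)
    (hOc : (Nat.card O).Coprime (Nat.card H)) (a : G) (ha : a ∈ H) (ha1 : a ≠ 1) :
    O ⊓ centralizer ({a} : Set G) ≤ centralizer (H : Set G) := by
  have hdis : O ⊓ H = ⊥ := Subgroup.inf_eq_bot_of_coprime hOc
  intro x hx
  obtain ⟨hxO, hxa⟩ := Subgroup.mem_inf.mp hx
  rw [Subgroup.mem_centralizer_singleton_iff] at hxa
  have hxN : x ∈ normalizer (H : Set G) := by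
    by_contra h
    refine ha1 (hTI x h a ha ?_)
    rw [hxa]; simpa using ha
  rw [Subgroup.mem_centralizer_iff]
  intro h hh
  have h1 : x * h * x⁻¹ * h⁻¹ ∈ O ⊓ H := by
    refine ⟨?_, H.mul_mem ((Subgroup.mem_normalizer_iff.mp hxN h).mp hh) (H.inv_mem hh)⟩
    have := O.mul_mem hxO (hON.conj_mem _ (O.inv_mem hxO) h)
    have e : x * (h * x⁻¹ * h⁻¹) = x * h * x⁻¹ * h⁻¹ := by group
    rwa [e] at this
  rw [hdis, Subgroup.mem_bot] at h1
  have h2 : x * h * x⁻¹ = h := by
    calc x * h * x⁻¹ = (x * h * x⁻¹ * h⁻¹) * h := by group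
      _ = h := by rw [h1, one_mul]
  calc h * x = (x * h * x⁻¹) * x := by rw [h2]
    _ = x * h := by group

/-- `H` does not centralize `O`. -/
theorem not_le_centralizer (hnn : ¬ H.Normal) (O : Subgroup G)
    (hfr : O ⊔ normalizer (H : Set G) = ⊤) : ¬ O ≤ centralizer (H : Set G) := by
  intro h
  apply hnn
  have h1 : O ≤ normalizer (H : Set G) := h.trans (Subgroup.centralizer_le_normalizer _)
  rw [sup_eq_right.mpr h1] at hfr
  exact Subgroup.normalizer_eq_top_iff.mp hfr

/-- abelian subgroups of `H` are cyclic. -/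
theorem isCyclic_of_comm (hTI : Cfsg.IsTISubset (H : Set G)) (hnn : ¬ H.Normal)
    (O : Subgroup G) (hON : O.Normal) (hOc : (Nat.card O).Coprime (Nat.card H))
    (hfr : O ⊔ normalizer (H : Set G) = ⊤) (A : Subgroup G) (hA : A ≤ H)
    (hAc : IsMulCommutative A) : IsCyclic A := by
  by_contra hnc
  apply not_le_centralizer hnn O hfr
  haveI := hON
  have h := H23.iSup_centralizer_of_not_isCyclic hAc hnc (G := O)
    (Subgroup.normalizer_eq_top O ▸ le_top)
    (Nat.Coprime.coprime_dvd_left (Subgroup.card_dvd_of_le hA) hOc.symm)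
  rw [← h]
  refine iSup_le fun a => ?_
  exact centralizer_le hTI O hON hOc a (hA a.2.1) a.2.2

/-- Sylow subgroups of `H` for odd primes are cyclic. -/
theorem isCyclic_pgroup (hTI : Cfsg.IsTISubset (H : Set G)) (hnn : ¬ H.Normal)
    (O : Subgroup G) (hON : O.Normal) (hOc : (Nat.card O).Coprime (Nat.card H))
    (hfr : O ⊔ normalizer (H : Set G) = ⊤) (p : ℕ) [Fact p.Prime] (P : Subgroup G) (hP : P ≤ H)
    (hPp : IsPGroup p P) (hor : p ≠ 2 ∨ IsMulCommutative P) : IsCyclic P := by
  rcases hor with h2 | hc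
  swap
  · exact isCyclic_of_comm hTI hnn O hON hOc hfr P hP hc
  by_contra hnc
  obtain ⟨E, hE, hEc, hEp⟩ := H23.exists_normal_sq_of_odd hPp h2 hnc
  let A : Subgroup G := E.map P.subtype
  have hA : A ≤ H := by
    rintro _ ⟨x, -, rfl⟩; exact hP x.2
  have hcA : Nat.card A = p ^ 2 := by
    rw [← hEc]
    exact Nat.card_congr (E.equivMapOfInjective _ P.subtype_injective).toEquiv.symm
  have hAc : IsMulCommutative A := IsPGroup.isMulCommutative_of_card_eq_prime_sq hcA
  have hcyc := isCyclic_of_comm hTI hnn O hON hOc hfr A hA hAc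
  obtain ⟨g, hg⟩ := hcyc.exists_generator
  have h3 : orderOf g = p ^ 2 := by
    rw [← hcA]; exact orderOf_eq_card_of_forall_mem_zpowers hg
  have h4 : g ^ p = 1 := by
    obtain ⟨x, hx, hxg⟩ := g.2
    apply Subtype.ext
    rw [Subgroup.coe_pow, ← hxg, ← map_pow, hEp x hx, map_one]; rfl
  have h5 := orderOf_dvd_of_pow_eq_one h4
  rw [h3] at h5
  have hp := (Fact.out : p.Prime)
  have h6 := Nat.le_of_dvd hp.pos h5
  have h7 := hp.one_lt
  nlinarith

end Cfsg.Agent.H24.TIHall
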