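import Mathlib

set_option autoImplicit false

/-! # H24/ThreeOrb: an operator `T` of prime order `q` on an `𝔽_p`-space whose cyclic submodules all
have the same size and which is conjugate to all its powers: `p` is a primitive root mod `q`. -/

namespace Cfsg.Agent.H24

open Polynomial

section scalar

variable {p : ℕ} [hp : Fact p.Prime] {V : Type*} [AddCommGroup V] [Module (ZMod p) V] [Finite V]

/-- cyclic submodule -/
def cyc (T : Module.End (ZMod p) V) (v : V) : Submodule (ZMod p) V :=
  Submodule.span (ZMod p) (Set.range (fun j : ℕ => (T ^ j) v))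

theorem mem_cyc_self (T : Module.End (ZMod p) V) (v : V) : v ∈ cyc T v :=
  Submodule.subset_span ⟨0, by simp⟩

theorem cyc_le {T : Module.End (ZMod p) V} {v : V} {U : Submodule (ZMod p) V}
    (hU : ∀ u ∈ U, T u ∈ U) (hv : v ∈ U) : cyc T v ≤ U := by
  rw [cyc, Submodule.span_le]
  rintro _ ⟨j, rfl⟩
  show (T ^ j) v ∈ U
  induction j with
  | zero => simpa using hv
  | succ j ih => rw [pow_succ']; exact hU _ ih

theorem cyc_invariant (T : Module.End (ZMod p) V) (v : V) : ∀ u ∈ cyc T v, T u ∈ cyc T v := by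
  intro u hu
  rw [cyc] at hu ⊢
  induction hu using Submodule.span_induction with
  | mem x hx =>
    obtain ⟨j, rfl⟩ := hx
    apply Submodule.subset_span
    exact ⟨j + 1, by simp [pow_succ']⟩
  | zero => simp
  | add x y _ _ hx hy => rw [map_add]; exact Submodule.add_mem _ hx hy
  | smul a x _ hx => rw [map_smul]; exact Submodule.smul_mem _ _ hx

theorem adjoin_invariant {T c : Module.End (ZMod p) V} (hc : c ∈ Algebra.adjoin (ZMod p) {T})
    {U : Submodule (ZMod p) V} (hU : ∀ u ∈ U, T u ∈ U) : ∀ u ∈ U, c u ∈ U := by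
  induction hc using Algebra.adjoin_induction with
  | mem x hx =>
    rw [Set.mem_singleton_iff] at hx
    rw [hx]; exact hU
  | algebraMap r =>
    intro u hu
    rw [Module.algebraMap_end_apply]
    exact Submodule.smul_mem _ _ hu
  | add x y _ _ hx hy =>
    intro u hu
    exact Submodule.add_mem _ (hx u hu) (hy u hu)
  | mul x y _ _ hx hy =>
    intro u hu
    exact hx _ (hy u hu)

theorem card_cyc_le {T : Module.End (ZMod p) V} {v : V} (α : V ≃+ V) (i : ℕ)
    (h : ∀ u, α (T u) = (T ^ i) (α u)) : Nat.card (cyc T v) ≤ Nat.card (cyc T (α v)) := by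
  have hlin : ∀ (a : ZMod p) (u : V), α (a • u) = a • α u := fun a u => ZMod.map_smul α.toAddMonoidHom a u
  let αl : V →ₗ[ZMod p] V := { toFun := α, map_add' := α.map_add, map_smul' := hlin }
  have h1 : (cyc T v).map αl ≤ cyc T (α v) := by
    rw [cyc, Submodule.map_span, Submodule.span_le]
    rintro _ ⟨_, ⟨j, rfl⟩, rfl⟩
    show α ((T ^ j) v) ∈ _
    have h2 : ∀ j : ℕ, α ((T ^ j) v) = (T ^ (i * j)) (α v) := by
      intro j
      induction j with
      | zero => simp
      | succ j ih =>
        rw [pow_succ', Module.End.mul_apply, h, ih, ← Module.End.mul_apply, ← pow_add]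
        congr 2
        ring
    rw [h2]
    exact Submodule.subset_span ⟨i * j, rfl⟩
  refine Nat.card_le_card_of_injective (fun x : cyc T v => (⟨α x, h1 ⟨x, x.2, rfl⟩⟩ : cyc T (α v))) ?_
  intro a b hab
  have : α a = α b := congrArg Subtype.val hab
  exact Subtype.ext (α.injective this)

theorem prod_X_sub_C_zmod : ∏ a : ZMod p, (X - C a : (ZMod p)[X]) = X ^ p - X := by
  have h1 := FiniteField.roots_X_pow_card_sub_X (ZMod p)
  rw [ZMod.card] at h1
  have h2 := Polynomial.prod_multiset_X_sub_C_of_monic_of_roots_card_eq (p := (X ^ p - X : (ZMod p)[X]))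
    (by
      apply Polynomial.monic_X_pow_sub
      rw [Polynomial.degree_X]
      exact_mod_cast hp.out.one_lt) (by
      rw [h1, FiniteField.X_pow_card_sub_X_natDegree_eq _ hp.out.one_lt]
      exact ZMod.card p)
  rw [h1] at h2
  exact h2

/-- an element of `𝔽_p[T]` fixed by Frobenius is a scalar -/
theorem scalar_of_pow_eq [Nontrivial V] {T : Module.End (ZMod p) V}
    (hA : ∀ v w : V, v ≠ 0 → w ≠ 0 → ∃ (α : V ≃+ V) (i : ℕ), α v = w ∧ ∀ u, α (T u) = (T ^ i) (α u))
    {c : Module.End (ZMod p) V} (hc : c ∈ Algebra.adjoin (ZMod p) {T}) (hcp : c ^ p = c) :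
    ∃ a : ZMod p, c = algebraMap (ZMod p) _ a := by
  classical
  have hcomm : ∀ v, c (T v) = T (c v) := by
    have : Commute c T := by
      clear hcp
      induction hc using Algebra.adjoin_induction with
      | mem x hx =>
        rw [Set.mem_singleton_iff] at hx
        rw [hx]
      | algebraMap r => exact Algebra.commutes r T
      | add x y _ _ hx hy => exact hx.add_left hy
      | mul x y _ _ hx hy => exact hx.mul_left hy
    intro v
    exact congrArg (fun f : Module.End (ZMod p) V => f v) this.eq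
  have hcard : ∀ v w : V, v ≠ 0 → w ≠ 0 → Nat.card (cyc T v) ≤ Nat.card (cyc T w) := by
    intro v w hv hw
    obtain ⟨α, i, hαv, hα⟩ := hA v w hv hw
    rw [← hαv]
    exact card_cyc_le α i hα
  -- at most one eigenvalue
  have huniq : ∀ a b : ZMod p, a ≠ b → ∀ v w : V, v ≠ 0 → w ≠ 0 → c v = a • v → c w = b • w → False := by
    intro a b hab v w hv hw hcv hcw
    have hu0 : v + w ≠ 0 := by
      intro h
      have h1 : w = -v := eq_neg_of_add_eq_zero_right h
      rw [h1, map_neg, hcv, smul_neg, neg_inj] at hcw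
      have h2 : (a - b) • v = 0 := by rw [sub_smul, hcw, sub_self]
      rcases smul_eq_zero.1 h2 with h3 | h3
      · exact hab (sub_eq_zero.1 h3)
      · exact hv h3
    set u := v + w with hu
    have hinv := cyc_invariant T u
    have hcu : c u ∈ cyc T u := adjoin_invariant hc hinv u (mem_cyc_self T u)
    have h1 : (a - b) • v ∈ cyc T u := by
      have h2 : (a - b) • v = c u - b • u := by
        rw [hu, map_add, hcv, hcw, smul_add, sub_smul]; abel
      rw [h2]
      exact Submodule.sub_mem _ hcu (Submodule.smul_mem _ _ (mem_cyc_self T u))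
    have hvu : v ∈ cyc T u := by
      have h2 : v = (a - b)⁻¹ • ((a - b) • v) := by
        rw [smul_smul, inv_mul_cancel₀ (sub_ne_zero.2 hab), one_smul]
      rw [h2]
      exact Submodule.smul_mem _ _ h1
    have hle : cyc T v ≤ cyc T u := cyc_le hinv hvu
    have heq : cyc T v = cyc T u := by
      apply SetLike.coe_injective
      apply Set.eq_of_subset_of_ncard_le hle
      exact hcard u v hu0 hv
    have hwv : w ∈ cyc T v := by
      rw [heq]
      have h2 : w = u - v := by rw [hu]; abel
      rw [h2]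
      exact Submodule.sub_mem _ (mem_cyc_self T u) hvu
    have hle2 : cyc T v ≤ LinearMap.ker (c - algebraMap (ZMod p) _ a) := by
      apply cyc_le
      · intro x hx
        rw [LinearMap.mem_ker, LinearMap.sub_apply, Module.algebraMap_end_apply, sub_eq_zero] at hx ⊢
        rw [hcomm, hx, map_smul]
      · rw [LinearMap.mem_ker, LinearMap.sub_apply, Module.algebraMap_end_apply, hcv, sub_self]
    have h3 := hle2 hwv
    rw [LinearMap.mem_ker, LinearMap.sub_apply, Module.algebraMap_end_apply, hcw, ← sub_smul] at h3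
    rcases smul_eq_zero.1 h3 with h4 | h4
    · exact hab (sub_eq_zero.1 h4).symm
    · exact hw h4
  -- existence
  letI : CommRing (Algebra.adjoin (ZMod p) {T}) := Algebra.adjoinCommRingOfComm (ZMod p) (by
    intro a ha b hb
    rw [Set.mem_singleton_iff] at ha hb
    rw [ha, hb])
  set c' : Algebra.adjoin (ZMod p) {T} := ⟨c, hc⟩ with hc'
  have hprod : ∏ a : ZMod p, (c' - algebraMap (ZMod p) _ a) = 0 := by
    have h1 := congrArg (Polynomial.aeval c') (prod_X_sub_C_zmod (p := p))
    rw [map_prod] at h1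
    simp only [map_sub, aeval_X, aeval_C, map_pow] at h1
    rw [h1, sub_eq_zero]
    exact Subtype.ext hcp
  have hinjprod : ∀ s : Finset (ZMod p),
      (∀ a ∈ s, ∀ v : V, ((c' - algebraMap (ZMod p) _ a : Algebra.adjoin (ZMod p) {T}) : Module.End (ZMod p) V) v = 0 → v = 0) →
      ∀ v : V, ((∏ a ∈ s, (c' - algebraMap (ZMod p) _ a) : Algebra.adjoin (ZMod p) {T}) : Module.End (ZMod p) V) v = 0 → v = 0 := by
    intro s
    induction s using Finset.induction_on with
    | empty =>
      intro _ v hv
      rw [Finset.prod_empty] at hv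
      simpa using hv
    | insert a s has ih =>
      intro h v hv
      rw [Finset.prod_insert has] at hv
      have hv' : ((c' - algebraMap (ZMod p) _ a : Algebra.adjoin (ZMod p) {T}) : Module.End (ZMod p) V)
        (((∏ a ∈ s, (c' - algebraMap (ZMod p) _ a) : Algebra.adjoin (ZMod p) {T}) : Module.End (ZMod p) V) v) = 0 := hv
      have h1 := h a (Finset.mem_insert_self a s) _ hv'
      exact ih (fun b hb => h b (Finset.mem_insert_of_mem hb)) v h1
  have hcoe : ∀ (a : ZMod p) (v : V), ((c' - algebraMap (ZMod p) _ a : Algebra.adjoin (ZMod p) {T}) : Module.End (ZMod p) V) v = c v - a • v := by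
    intro a v
    rfl
  obtain ⟨v₀, hv₀⟩ := exists_ne (0 : V)
  have hex : ∃ a : ZMod p, ∃ v : V, v ≠ 0 ∧ c v = a • v := by
    by_contra hcon
    push Not at hcon
    apply hv₀
    apply hinjprod Finset.univ (fun a _ v hv => ?_) v₀
    · rw [hprod]; rfl
    · by_contra hne
      apply hcon a v hne
      rw [hcoe] at hv
      exact sub_eq_zero.1 hv
  obtain ⟨a, v, hv, hcv⟩ := hex
  refine ⟨a, ?_⟩
  have hprod' : (∏ b ∈ Finset.univ.erase a, (c' - algebraMap (ZMod p) _ b)) * (c' - algebraMap (ZMod p) _ a) = 0 := by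
    rw [Finset.prod_erase_mul _ _ (Finset.mem_univ a)]
    exact hprod
  ext w
  have h1 : ((∏ b ∈ Finset.univ.erase a, (c' - algebraMap (ZMod p) _ b) : Algebra.adjoin (ZMod p) {T}) : Module.End (ZMod p) V)
      (((c' - algebraMap (ZMod p) _ a : Algebra.adjoin (ZMod p) {T}) : Module.End (ZMod p) V) w) = 0 := by
    have := congrArg (fun x : Algebra.adjoin (ZMod p) {T} => (x : Module.End (ZMod p) V) w) hprod'
    exact this
  have h2 := hinjprod _ (by
    intro b hb u hu
    by_contra hne
    rw [hcoe] at hu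
    exact huniq a b (Finset.ne_of_mem_erase hb).symm v u hv hne hcv (sub_eq_zero.1 hu)) _ h1
  rw [hcoe] at h2
  rw [Module.algebraMap_end_apply]
  exact sub_eq_zero.1 h2

end scalar

section order

variable {p q : ℕ} [hp : Fact p.Prime] [hq : Fact q.Prime] {V : Type*} [AddCommGroup V]
  [Module (ZMod p) V] [Finite V]

/-- fixed points of powers -/
theorem fix_pow {T : Module.End (ZMod p) V} (hTq : T ^ q = 1) (hfree : ∀ v, T v = v → v = 0)
    {i : ℕ} (hi : ¬ q ∣ i) {v : V} (h : (T ^ i) v = v) : v = 0 := by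
  apply hfree
  have hcop : Nat.Coprime i q := ((Nat.Prime.coprime_iff_not_dvd hq.out).2 hi).symm
  obtain ⟨k, -, hk⟩ := Nat.exists_mul_mod_eq_one_of_coprime hcop hq.out.one_lt
  have h1 : ∀ m : ℕ, (T ^ (i * m)) v = v := by
    intro m
    induction m with
    | zero => simp
    | succ m ih => rw [Nat.mul_succ, pow_add, Module.End.mul_apply, h, ih]
  have h2 : T ^ (i * k) = T := by
    have h3 := Nat.div_add_mod (i * k) q
    rw [hk] at h3
    rw [← h3, pow_add, pow_mul, hTq, one_pow, one_mul, pow_one]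
  have h3 := h1 k
  rwa [h2] at h3

theorem pow_eq_of_cast_eq {M : Type*} [Monoid M] {T : M} (hTq : T ^ q = 1)
    {i j : ℕ} (h : (i : ZMod q) = j) : T ^ i = T ^ j := by
  have h1 : i % q = j % q := (ZMod.natCast_eq_natCast_iff' i j q).1 h
  rw [← Nat.div_add_mod i q, ← Nat.div_add_mod j q, pow_add, pow_add, pow_mul, pow_mul, hTq,
    one_pow, one_pow, h1]

theorem orderOf_eq_of_homogeneous_aux [Nontrivial V] (hpq : p ≠ q) (T : Module.End (ZMod p) V)
    (hTq : T ^ q = 1) (hfree : ∀ v, T v = v → v = 0)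
    (hA : ∀ v w : V, v ≠ 0 → w ≠ 0 → ∃ (α : V ≃+ V) (i : ℕ), α v = w ∧ ∀ u, α (T u) = (T ^ i) (α u))
    (hB : ∀ i : ℕ, ¬ q ∣ i → ∃ α : V ≃+ V, ∀ u, α (T u) = (T ^ i) (α u))
    {R : Type*} [CommRing R] [Algebra (ZMod p) R] (ι : R →ₐ[ZMod p] Module.End (ZMod p) V)
    (hι : Function.Injective ι) (τ : R) (hτ : ι τ = T)
    (hgen : ∀ r : R, ι r ∈ Algebra.adjoin (ZMod p) {T}) :
    orderOf (p : ZMod q) = q - 1 := by
  classical
  have hcop : Nat.Coprime p q := (Nat.coprime_primes hp.out hq.out).2 hpq
  set y : (ZMod q)ˣ := ZMod.unitOfCoprime p hcop with hy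
  set H : Subgroup (ZMod q)ˣ := Subgroup.zpowers y with hH
  haveI : Fintype H := Fintype.ofFinite _
  have hτq : τ ^ q = 1 := hι (by rw [map_pow, hτ, hTq, map_one])
  haveI : CharP R p := by
    haveI : Nontrivial R := by
      obtain ⟨v, hv⟩ := exists_ne (0 : V)
      refine ⟨⟨1, 0, fun h => hv ?_⟩⟩
      have := congrArg (fun x : R => (ι x) v) h
      simpa using this
    exact charP_of_injective_algebraMap (algebraMap (ZMod p) R).injective p
  set F : R[X] := ∏ h : H, (X - C (τ ^ ((h : (ZMod q)ˣ) : ZMod q).val)) with hF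
  have hFfrob : F.map (frobenius R p) = F := by
    rw [hF, Polynomial.map_prod]
    refine Fintype.prod_equiv (Equiv.mulLeft (⟨y, Subgroup.mem_zpowers y⟩ : H)) _ _ ?_
    intro h
    rw [Polynomial.map_sub, Polynomial.map_X, Polynomial.map_C, frobenius_def, ← pow_mul]
    congr 2
    apply pow_eq_of_cast_eq hτq
    rw [ZMod.natCast_zmod_val]
    push_cast
    rw [ZMod.natCast_zmod_val]
    rw [mul_comm]
    rfl
  have hcoeff : ∀ n : ℕ, ∃ a : ZMod p, F.coeff n = algebraMap (ZMod p) R a := by
    intro n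
    have h1 : (F.coeff n) ^ p = F.coeff n := by
      have h2 := congrArg (fun G : R[X] => G.coeff n) hFfrob
      simp only [Polynomial.coeff_map, frobenius_def] at h2
      exact h2
    obtain ⟨a, ha⟩ := scalar_of_pow_eq (T := T) hA (c := ι (F.coeff n)) (hgen _)
      (by rw [← map_pow, h1])
    refine ⟨a, hι ?_⟩
    rw [ha, AlgHom.commutes]
  have hlift : F ∈ Polynomial.lifts (algebraMap (ZMod p) R) := by
    rw [Polynomial.lifts_iff_coeff_lifts]
    intro n
    obtain ⟨a, ha⟩ := hcoeff n
    exact ⟨a, ha.symm⟩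
  obtain ⟨F₀, hF₀⟩ := (Polynomial.mem_lifts _).1 hlift
  have haev : ∀ i : ℕ, aeval (τ ^ i) F₀ = ∏ h : H, (τ ^ i - τ ^ ((h : (ZMod q)ˣ) : ZMod q).val) := by
    intro i
    rw [aeval_def, ← Polynomial.eval_map, hF₀, hF, Polynomial.eval_prod]
    simp
  have haev1 : aeval τ F₀ = 0 := by
    have h1 := haev 1
    rw [pow_one] at h1
    rw [h1]
    apply Finset.prod_eq_zero (Finset.mem_univ (1 : H))
    rw [sub_eq_zero]
    have h2 : ((((1 : H) : (ZMod q)ˣ) : ZMod q)).val = 1 := by
      simp [ZMod.val_one]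
    rw [h2, pow_one]
  have hcoeR : ∀ (g : (ZMod p)[X]) (i : ℕ), ι (aeval (τ ^ i) g) = aeval (T ^ i) g := by
    intro g i
    have h1 := Polynomial.aeval_algHom_apply ι (τ ^ i) g
    rw [map_pow, hτ] at h1
    exact h1.symm
  -- the main point
  have hall : ∀ z : (ZMod q)ˣ, z ∈ H := by
    intro z
    by_contra hz
    set i : ℕ := ((z : ZMod q)).val with hi
    have hiq : ¬ q ∣ i := by
      intro hd
      have h1 : ((i : ℕ) : ZMod q) = 0 := (ZMod.natCast_eq_zero_iff i q).2 hd
      rw [hi, ZMod.natCast_zmod_val] at h1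
      exact z.ne_zero h1
    obtain ⟨α, hα⟩ := hB i hiq
    have hαs : ∀ (a : ZMod p) (u : V), α (a • u) = a • α u := fun a u => ZMod.map_smul α.toAddMonoidHom a u
    have hαpow : ∀ (j : ℕ) (u : V), α ((T ^ j) u) = ((T ^ i) ^ j) (α u) := by
      intro j
      induction j with
      | zero => intro u; simp
      | succ j ih => intro u; rw [pow_succ', Module.End.mul_apply, hα, ih, pow_succ', Module.End.mul_apply]
    have hαpoly : ∀ (g : (ZMod p)[X]) (u : V), α ((aeval T g) u) = (aeval (T ^ i) g) (α u) := by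
      intro g
      induction g using Polynomial.induction_on' with
      | add f g hf hg => intro u; rw [map_add, map_add, LinearMap.add_apply, LinearMap.add_apply, map_add, hf, hg]
      | monomial n a =>
        intro u
        rw [aeval_monomial, aeval_monomial, Module.End.mul_apply, Module.End.mul_apply,
          Module.algebraMap_end_apply, Module.algebraMap_end_apply, hαs, hαpow]
    have h1 : (aeval T F₀ : Module.End (ZMod p) V) = 0 := by
      have h2 := hcoeR F₀ 1
      rw [pow_one, pow_one, haev1, map_zero] at h2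
      exact h2.symm
    have h2 : (aeval (T ^ i) F₀ : Module.End (ZMod p) V) = 0 := by
      ext w
      obtain ⟨u, rfl⟩ := α.surjective w
      rw [← hαpoly, h1]
      simp
    have h3 : ∏ h : H, (τ ^ i - τ ^ ((h : (ZMod q)ˣ) : ZMod q).val) = 0 := by
      rw [← haev]
      apply hι
      rw [hcoeR, h2, map_zero]
    -- but it is injective
    have h4 : ∀ s : Finset H, ∀ v : V,
        (ι (∏ h ∈ s, (τ ^ i - τ ^ ((h : (ZMod q)ˣ) : ZMod q).val))) v = 0 → v = 0 := by
      intro s
      induction s using Finset.induction_on with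
      | empty =>
        intro v hv
        rw [Finset.prod_empty, map_one] at hv
        exact hv
      | insert h s hhs ih =>
        intro v hv
        rw [Finset.prod_insert hhs, map_mul, Module.End.mul_apply, map_sub, map_pow, map_pow, hτ,
          LinearMap.sub_apply] at hv
        set w := (ι (∏ h ∈ s, (τ ^ i - τ ^ ((h : (ZMod q)ˣ) : ZMod q).val))) v with hw
        apply ih
        rw [← hw]
        rw [sub_eq_zero] at hv
        -- `T^i w = T^h w`; multiply by `T^(q - h)`
        set j := ((h : (ZMod q)ˣ) : ZMod q).val with hj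
        have hjq : j < q := ZMod.val_lt _
        have h5 : (T ^ (i + (q - j))) w = w := by
          rw [add_comm, pow_add, Module.End.mul_apply, hv, ← Module.End.mul_apply, ← pow_add,
            Nat.sub_add_cancel hjq.le, hTq]
          rfl
        apply fix_pow hTq hfree (i := i + (q - j)) ?_ h5
        intro hd
        apply hz
        have h6 : ((i + (q - j) : ℕ) : ZMod q) = 0 := (ZMod.natCast_eq_zero_iff _ q).2 hd
        rw [Nat.cast_add, Nat.cast_sub hjq.le, ZMod.natCast_self, zero_sub, ← sub_eq_add_neg,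
          sub_eq_zero, hi, hj, ZMod.natCast_zmod_val, ZMod.natCast_zmod_val] at h6
        have h7 : z = (h : (ZMod q)ˣ) := Units.ext h6
        rw [h7]
        exact h.2
    obtain ⟨v, hv⟩ := exists_ne (0 : V)
    apply hv
    apply h4 Finset.univ v
    rw [h3, map_zero]; rfl
  have htop : H = ⊤ := by
    rw [eq_top_iff]
    intro z _
    exact hall z
  have h1 : orderOf y = q - 1 := by
    rw [← Nat.card_zpowers, ← hH, htop, Subgroup.card_top, Nat.card_eq_fintype_card,
      ZMod.card_units]
  rw [← h1, ← orderOf_units, hy]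
  rfl

theorem orderOf_eq_of_homogeneous [Nontrivial V] (hpq : p ≠ q) (T : Module.End (ZMod p) V)
    (hTq : T ^ q = 1) (hfree : ∀ v, T v = v → v = 0)
    (hA : ∀ v w : V, v ≠ 0 → w ≠ 0 → ∃ (α : V ≃+ V) (i : ℕ), α v = w ∧ ∀ u, α (T u) = (T ^ i) (α u))
    (hB : ∀ i : ℕ, ¬ q ∣ i → ∃ α : V ≃+ V, ∀ u, α (T u) = (T ^ i) (α u)) :
    orderOf (p : ZMod q) = q - 1 := by
  letI : CommRing (Algebra.adjoin (ZMod p) {T}) := Algebra.adjoinCommRingOfComm (ZMod p) (by
    intro a ha b hb
    rw [Set.mem_singleton_iff] at ha hb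
    rw [ha, hb])
  exact orderOf_eq_of_homogeneous_aux hpq T hTq hfree hA hB
    (R := Algebra.adjoin (ZMod p) {T}) (Algebra.adjoin (ZMod p) {T}).val Subtype.val_injective
    ⟨T, Algebra.self_mem_adjoin_singleton _ _⟩ rfl (fun r => r.2)

end order

end Cfsg.Agent.H24
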