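import Mathlib
import Cfsg.Agent.H24.ThreeOrb
import Cfsg.Agent.H21.Lin

set_option autoImplicit false

/-! # H24/ThreeOrb2: semilinear automorphisms when `p` is a primitive root mod `q` -/

namespace Cfsg.Agent.H24

open Polynomial

variable {p q : ℕ} [hp : Fact p.Prime] [hq : Fact q.Prime] {V : Type*} [AddCommGroup V]
  [Module (ZMod p) V] [Finite V]

theorem exists_pow_eq_of_orderOf (hpq : p ≠ q) (hord : orderOf (p : ZMod q) = q - 1)
    {i : ℕ} (hi : ¬ q ∣ i) : ∃ k : ℕ, ((p ^ k : ℕ) : ZMod q) = i := by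
  have hcop : Nat.Coprime p q := (Nat.coprime_primes hp.out hq.out).2 hpq
  have hicop : Nat.Coprime i q := ((Nat.Prime.coprime_iff_not_dvd hq.out).2 hi).symm
  set y : (ZMod q)ˣ := ZMod.unitOfCoprime p hcop with hy
  have h1 : orderOf y = q - 1 := by
    rw [← hord, ← orderOf_units, hy]; rfl
  have h2 : Subgroup.zpowers y = ⊤ := by
    apply Subgroup.eq_top_of_card_eq
    rw [Nat.card_zpowers, h1, Nat.card_eq_fintype_card, ZMod.card_units]
  have h3 : ZMod.unitOfCoprime i hicop ∈ Subgroup.zpowers y := by rw [h2]; exact Subgroup.mem_top _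
  rw [← mem_powers_iff_mem_zpowers] at h3
  obtain ⟨k, hk⟩ := h3
  refine ⟨k, ?_⟩
  have h4 := congrArg (fun u : (ZMod q)ˣ => (u : ZMod q)) hk
  simp only [Units.val_pow_eq_pow_val] at h4
  push_cast
  exact h4

theorem irreducible_cyclotomic_of_orderOf (hpq : p ≠ q) (hord : orderOf (p : ZMod q) = q - 1) :
    Irreducible (cyclotomic q (ZMod p)) := by
  have hpn : ¬ p ∣ q := fun h => hpq ((Nat.prime_dvd_prime_iff_eq hp.out hq.out).1 h)
  apply ZMod.irreducible_of_dvd_cyclotomic_of_natDegree hpn dvd_rfl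
  rw [natDegree_cyclotomic, Nat.totient_prime hq.out, ← hord, ← orderOf_units]
  rfl

theorem exists_semilinear (hpq : p ≠ q) (T : Module.End (ZMod p) V) (hTq : T ^ q = 1)
    (hfree : ∀ v, T v = v → v = 0) (hord : orderOf (p : ZMod q) = q - 1) (i : ℕ) (hi : ¬ q ∣ i)
    (v w : V) (hv : v ≠ 0) (hw : w ≠ 0) :
    ∃ φ : V ≃+ V, φ v = w ∧ ∀ u, φ (T u) = (T ^ i) (φ u) := by
  classical
  haveI hirr : Fact (Irreducible (cyclotomic q (ZMod p))) := ⟨irreducible_cyclotomic_of_orderOf hpq hord⟩
  -- `Φ_q(T) = 0`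
  have hT0 : (aeval T (cyclotomic q (ZMod p)) : Module.End (ZMod p) V) = 0 := by
    have h1 := congrArg (fun g : (ZMod p)[X] => (aeval T g : Module.End (ZMod p) V)) (cyclotomic_prime_mul_X_sub_one (ZMod p) q)
    simp only [map_mul, map_sub, aeval_X, map_one, map_pow, hTq, sub_self] at h1
    have hinj : Function.Injective (T - 1 : Module.End (ZMod p) V) := by
      rw [injective_iff_map_eq_zero]
      intro u hu
      apply hfree
      rw [LinearMap.sub_apply, Module.End.one_apply, sub_eq_zero] at hu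
      exact hu
    have hsurj := Finite.surjective_of_injective hinj
    ext u
    obtain ⟨t, rfl⟩ := hsurj u
    have h2 := congrArg (fun f : Module.End (ZMod p) V => f t) h1
    simpa using h2
  set f := cyclotomic q (ZMod p) with hf
  let ρ : AdjoinRoot f →+* Module.End (ZMod p) V :=
    Ideal.Quotient.lift (Ideal.span {f}) (aeval T : (ZMod p)[X] →ₐ[ZMod p] Module.End (ZMod p) V).toRingHom (by
      intro a ha
      obtain ⟨b, rfl⟩ := Ideal.mem_span_singleton'.1 ha
      show aeval T (b * f) = 0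
      rw [map_mul, hT0, mul_zero])
  have hρroot : ρ (AdjoinRoot.root f) = T := by
    show aeval T X = T
    rw [aeval_X]
  letI : Module (AdjoinRoot f) V := Module.compHom V ρ
  have hsm : ∀ (e : AdjoinRoot f) (u : V), e • u = ρ e u := fun e u => rfl
  haveI : Module.Finite (AdjoinRoot f) V := Module.Finite.of_finite
  haveI : CharP (AdjoinRoot f) p := charP_of_injective_algebraMap (algebraMap (ZMod p) (AdjoinRoot f)).injective p
  haveI : Finite (AdjoinRoot f) := by
    haveI := (cyclotomic.monic q (ZMod p)).finite_adjoinRoot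
    exact Module.finite_of_finite (ZMod p)
  set ζ : AdjoinRoot f := AdjoinRoot.root f with hζ
  have hζq : ζ ^ q = 1 := by
    have h0 : f * (X - 1) = X ^ q - 1 := cyclotomic_prime_mul_X_sub_one (ZMod p) q
    have h1 := congrArg (fun g : (ZMod p)[X] => AdjoinRoot.mk f g) h0
    simp only [map_mul, map_sub, AdjoinRoot.mk_X, map_one, map_pow, AdjoinRoot.mk_self, zero_mul] at h1
    exact (sub_eq_zero.1 h1.symm)
  obtain ⟨k, hk⟩ := exists_pow_eq_of_orderOf hpq hord hi
  set σ : AdjoinRoot f ≃+* AdjoinRoot f := iterateFrobeniusEquiv (AdjoinRoot f) p k with hσ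
  have hσζ : σ ζ = ζ ^ i := by
    rw [hσ, iterateFrobeniusEquiv_def]
    exact pow_eq_of_cast_eq hζq hk
  let b := Module.finBasis (AdjoinRoot f) V
  let s : V ≃+ V := (b.repr.toAddEquiv.trans (Finsupp.mapRange.addEquiv σ.toAddEquiv)).trans b.repr.symm.toAddEquiv
  have hs : ∀ (e : AdjoinRoot f) (u : V), s (e • u) = σ e • s u := by
    intro e u
    show b.repr.symm (Finsupp.mapRange.addEquiv σ.toAddEquiv (b.repr (e • u))) =
      σ e • b.repr.symm (Finsupp.mapRange.addEquiv σ.toAddEquiv (b.repr u))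
    rw [← map_smul, map_smul b.repr]
    congr 1
    ext j
    simp
  have hsv : s v ≠ 0 := fun h => hv (s.map_eq_zero_iff.1 h)
  obtain ⟨A, hA⟩ := H21.exists_equiv_of_linInd (K := AdjoinRoot f) (fun _ : Fin 1 => s v) (fun _ : Fin 1 => w)
    (LinearIndependent.of_subsingleton 0 hsv) (LinearIndependent.of_subsingleton 0 hw)
  refine ⟨s.trans A.toAddEquiv, hA 0, ?_⟩
  intro u
  have h1 : T u = ζ • u := by rw [hsm, hρroot]
  have h2 : ∀ u, (T ^ i) u = ζ ^ i • u := by
    intro u
    rw [hsm, map_pow, hρroot]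
  show A (s (T u)) = (T ^ i) (A (s u))
  rw [h1, hs, hσζ, h2, map_smul]

end Cfsg.Agent.H24
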