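import Mathlib
import Cfsg.Prelude.Def_Transfer
import Cfsg.Agent.H24.ThreeOrb2
import Cfsg.Agent.H1.Basic
import Cfsg.Agent.H3.BurnsidePQ
import Cfsg.Agent.H23.Coprime4

set_option autoImplicit false

/-! # H24/ThreeOrb3: groups whose automorphism group has exactly three orbits, mixed order -/

namespace Cfsg.Agent.H24

open Subgroup
open scoped IsMulCommutative

section conjLin

variable {G : Type*} [Group G] {p : ℕ} [hp : Fact p.Prime]

/-- additive copy of an abelian subgroup -/
def Vec (A : Subgroup G) : Type _ := Additive A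

namespace Vec

variable {A : Subgroup G}

/-- underlying element -/
def val (v : Vec A) : G := ((Additive.toMul (v : Additive A) : A) : G)

/-- constructor -/
def mk (x : G) (hx : x ∈ A) : Vec A := (Additive.ofMul (⟨x, hx⟩ : A) : Additive A)

theorem val_mk (x : G) (hx : x ∈ A) : (mk x hx).val = x := rfl

theorem val_mem (v : Vec A) : v.val ∈ A := (Additive.toMul (v : Additive A) : A).2

theorem ext' {v w : Vec A} (h : v.val = w.val) : v = w := by
  apply Additive.toMul.injective
  exact Subtype.ext h

noncomputable instance instAddCommGroup [IsMulCommutative A] : AddCommGroup (Vec A) :=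
  inferInstanceAs (AddCommGroup (Additive A))

instance instFinite [Finite G] : Finite (Vec A) := inferInstanceAs (Finite (Additive A))

theorem val_add [IsMulCommutative A] (v w : Vec A) : (v + w).val = v.val * w.val := rfl

theorem val_zero [IsMulCommutative A] : (0 : Vec A).val = 1 := rfl

theorem val_nsmul [IsMulCommutative A] (n : ℕ) (v : Vec A) : (n • v).val = v.val ^ n := by
  induction n with
  | zero => rw [zero_smul, val_zero, pow_zero]
  | succ n ih => rw [succ_nsmul, val_add, ih, pow_succ]

end Vec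

/-- the action of `x` by conjugation on the abelian normal subgroup `A`, as a linear map -/
noncomputable def conjLin (A : Subgroup G) [hA : A.Normal] [IsMulCommutative A]
    [Module (ZMod p) (Vec A)] (x : G) : Module.End (ZMod p) (Vec A) :=
  AddMonoidHom.toZModLinearMap p
    { toFun := fun v => Vec.mk (x * v.val * x⁻¹) (hA.conj_mem _ v.val_mem x)
      map_zero' := Vec.ext' (by rw [Vec.val_mk, Vec.val_zero]; group)
      map_add' := fun v w => Vec.ext' (by
        rw [Vec.val_mk, Vec.val_add, Vec.val_add, Vec.val_mk, Vec.val_mk]; group) }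

variable (A : Subgroup G) [A.Normal] [IsMulCommutative A] [Module (ZMod p) (Vec A)]

theorem conjLin_apply (x : G) (v : Vec A) :
    (conjLin (p := p) A x v).val = x * v.val * x⁻¹ := rfl

theorem conjLin_pow_apply (x : G) (i : ℕ) (v : Vec A) :
    (conjLin (p := p) A x ^ i) v = conjLin (p := p) A (x ^ i) v := by
  induction i generalizing v with
  | zero =>
    apply Vec.ext'
    rw [conjLin_apply]
    simp
  | succ i ih =>
    rw [pow_succ', Module.End.mul_apply, ih]
    apply Vec.ext'
    rw [conjLin_apply, conjLin_apply, conjLin_apply, pow_succ']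
    group

end conjLin

theorem orderOf_of_orbits {G : Type*} [Group G] [Finite G] {p q : ℕ} [hp : Fact p.Prime]
    [hq : Fact q.Prime] (hpq : p ≠ q) (A : Subgroup G) [hAn : A.Normal] [IsMulCommutative A]
    [Module (ZMod p) (Vec A)] (hA1 : A ≠ ⊥) (hAα : ∀ (α : MulAut G) (x : G), x ∈ A → α x ∈ A)
    (b : G) (hb : orderOf b = q) (hordA : ∀ x ∈ A, x ≠ 1 → orderOf x = p)
    {a : G}
    (horbp : ∀ g : G, orderOf g = p → ∃ α : MulAut G, α a = g)
    (horbq : ∀ g : G, orderOf g = q → ∃ α : MulAut G, α b = g)
    (hfree : ∀ x y : G, orderOf x = q → orderOf y = p → x * y * x⁻¹ ≠ y)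
    (hgenb : ∀ g : G, ∃ i : ℕ, ∃ u ∈ A, g = u * b ^ i) : orderOf (p : ZMod q) = q - 1 := by
  haveI : Nontrivial (Vec A) := by
    obtain ⟨c, hc, hc1⟩ := (Subgroup.bot_or_exists_ne_one A).resolve_left hA1
    refine ⟨⟨Vec.mk c hc, 0, fun h => hc1 ?_⟩⟩
    have := congrArg Vec.val h
    rwa [Vec.val_mk, Vec.val_zero] at this
  set T := conjLin (p := p) A b with hT
  let res : MulAut G → (Vec A ≃+ Vec A) := fun α =>
    { toFun := fun v => Vec.mk (α v.val) (hAα α _ v.val_mem)
      invFun := fun v => Vec.mk (α.symm v.val) (hAα α.symm _ v.val_mem)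
      left_inv := fun v => Vec.ext' (α.symm_apply_apply _)
      right_inv := fun v => Vec.ext' (α.apply_symm_apply _)
      map_add' := fun v w => Vec.ext' (map_mul α _ _) }
  have hresval : ∀ (α : MulAut G) (v : Vec A), (res α v).val = α v.val := fun α v => rfl
  have hres : ∀ (α : MulAut G) (u : G) (i : ℕ), u ∈ A → α b = u * b ^ i →
      ∀ v : Vec A, res α (T v) = (T ^ i) (res α v) := by
    intro α u i hu hαb v
    rw [hT, conjLin_pow_apply]
    apply Vec.ext'
    rw [conjLin_apply, hresval, hresval, conjLin_apply]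
    rw [map_mul, map_mul, map_inv, hαb]
    have h1 : b ^ i * (α v.val) * (b ^ i)⁻¹ ∈ A := hAn.conj_mem _ (hAα α _ v.val_mem) _
    have h2 : u * (b ^ i * (α v.val) * (b ^ i)⁻¹) = (b ^ i * (α v.val) * (b ^ i)⁻¹) * u := by
      have := mul_comm' (⟨u, hu⟩ : A) (⟨_, h1⟩ : A)
      exact congrArg Subtype.val this
    calc u * b ^ i * α v.val * (u * b ^ i)⁻¹
        = (u * (b ^ i * (α v.val) * (b ^ i)⁻¹)) * u⁻¹ := by group
      _ = _ := by rw [h2]; group
  apply orderOf_eq_of_homogeneous (V := Vec A) hpq T
  · apply LinearMap.ext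
    intro v
    rw [hT, conjLin_pow_apply, ← hb, pow_orderOf_eq_one]
    apply Vec.ext'
    rw [conjLin_apply]
    simp
  · intro v hv
    by_contra hne
    have h1 : b * v.val * b⁻¹ = v.val := by
      rw [← conjLin_apply (p := p), ← hT, hv]
    refine hfree b _ hb (hordA _ v.val_mem ?_) h1
    intro h
    apply hne
    exact Vec.ext' h
  · intro v w hv hw
    have hv' : v.val ≠ 1 := fun h => hv (Vec.ext' h)
    have hw' : w.val ≠ 1 := fun h => hw (Vec.ext' h)
    obtain ⟨α, hα⟩ := horbp _ (hordA _ v.val_mem hv')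
    obtain ⟨β, hβ⟩ := horbp _ (hordA _ w.val_mem hw')
    obtain ⟨i, u, hu, hi⟩ := hgenb ((β * α⁻¹) b)
    refine ⟨res (β * α⁻¹), i, ?_, hres _ u i hu hi⟩
    apply Vec.ext'
    rw [hresval, ← hα, MulAut.mul_apply, MulAut.inv_apply_self, hβ]
  · intro i hi
    have h1 : orderOf (b ^ i) = q := by
      rw [← hb]
      apply Nat.Coprime.orderOf_pow
      rw [hb]; exact (Nat.Prime.coprime_iff_not_dvd hq.out).2 hi
    obtain ⟨α, hα⟩ := horbq _ h1
    exact ⟨res α, hres α 1 i (one_mem _) (by rw [hα, one_mul])⟩

section forward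

variable {G : Type*} [Group G] [Finite G]

/-- the forward direction, once a characteristic abelian `p`-subgroup is known -/
theorem three_orb_forward {p q : ℕ} [hp : Fact p.Prime] [hq : Fact q.Prime] (hpq : p ≠ q)
    {a b : G} (ha : orderOf a = p) (hb : orderOf b = q)
    (horb : ∀ g : G, g ≠ 1 → (∃ α : MulAut G, α a = g) ∨ (∃ α : MulAut G, α b = g))
    (A : Subgroup G) (hAc : A.Characteristic) (hA1 : A ≠ ⊥) (hAab : IsMulCommutative A)
    (hAp : IsPGroup p A) :
    ∃ (p q n : ℕ) (_ : Fact p.Prime) (_ : Fact q.Prime), p ≠ q ∧ 1 ≤ n ∧ Nat.card G = p ^ n * q ∧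
      (∀ P : Sylow p G, (P : Subgroup G).Normal ∧ Cfsg.IsElementaryAbelian p (P : Subgroup G)) ∧
      orderOf (p : ZMod q) = q - 1 ∧
      ∀ x y : G, orderOf x = q → orderOf y = p → x * y * x⁻¹ ≠ y := by
  classical
  have hord : ∀ g : G, g ≠ 1 → orderOf g = p ∨ orderOf g = q := by
    intro g hg
    rcases horb g hg with ⟨α, rfl⟩ | ⟨α, rfl⟩
    · left; rw [← ha]; exact MulEquiv.orderOf_eq α a
    · right; rw [← hb]; exact MulEquiv.orderOf_eq α b
  have horbp : ∀ g : G, orderOf g = p → ∃ α : MulAut G, α a = g := by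
    intro g hg
    rcases horb g (by rintro rfl; rw [orderOf_one] at hg; exact hp.out.one_lt.ne hg) with h | ⟨α, rfl⟩
    · exact h
    · exfalso
      have : orderOf (α b) = orderOf b := MulEquiv.orderOf_eq α b
      rw [hg, hb] at this
      exact hpq this
  have horbq : ∀ g : G, orderOf g = q → ∃ α : MulAut G, α b = g := by
    intro g hg
    rcases horb g (by rintro rfl; rw [orderOf_one] at hg; exact hq.out.one_lt.ne hg) with ⟨α, rfl⟩ | h
    · exfalso
      have : orderOf (α a) = orderOf a := MulEquiv.orderOf_eq α a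
      rw [hg, ha] at this
      exact hpq this.symm
    · exact h
  have hAα : ∀ (α : MulAut G) (x : G), x ∈ A → α x ∈ A := by
    intro α x hx
    have h1 := Subgroup.characteristic_iff_map_le.1 hAc α
    exact h1 ⟨x, hx, rfl⟩
  haveI hAn : A.Normal := inferInstance
  -- elements of `A`
  have hordA : ∀ x ∈ A, x ≠ 1 → orderOf x = p := by
    intro x hx hx1
    rcases hord x hx1 with h | h
    · exact h
    · exfalso
      obtain ⟨k, hk⟩ := IsPGroup.iff_orderOf.1 hAp ⟨x, hx⟩
      rw [Subgroup.orderOf_mk, h] at hk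
      have h1 : q ∣ p ^ k := hk ▸ dvd_rfl
      exact hpq ((Nat.prime_dvd_prime_iff_eq hq.out hp.out).1 (hq.out.dvd_of_dvd_pow h1)).symm
  have haA : ∀ g : G, orderOf g = p → g ∈ A := by
    obtain ⟨c, hc, hc1⟩ := (Subgroup.bot_or_exists_ne_one A).resolve_left hA1
    obtain ⟨α, hα⟩ := horbp c (hordA c hc hc1)
    have h1 : a ∈ A := by
      have := hAα α⁻¹ c hc
      rwa [← hα, MulAut.inv_apply_self] at this
    intro g hg
    obtain ⟨β, rfl⟩ := horbp g hg
    exact hAα β a h1
  have hexp : ∀ x ∈ A, x ^ p = 1 := by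
    intro x hx
    by_cases h : x = 1
    · rw [h, one_pow]
    · rw [← hordA x hx h, pow_orderOf_eq_one]
  have hsyl : ∀ P : Sylow p G, (P : Subgroup G) = A := by
    intro P
    have h1 : (P : Subgroup G) ≤ A := by
      intro x hx
      by_cases h : x = 1
      · rw [h]; exact one_mem _
      · apply haA
        rcases hord x h with h' | h'
        · exact h'
        · exfalso
          obtain ⟨k, hk⟩ := IsPGroup.iff_orderOf.1 P.isPGroup' ⟨x, hx⟩
          rw [Subgroup.orderOf_mk, h'] at hk
          have h1 : q ∣ p ^ k := hk ▸ dvd_rfl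
          exact hpq ((Nat.prime_dvd_prime_iff_eq hq.out hp.out).1 (hq.out.dvd_of_dvd_pow h1)).symm
    exact (P.is_maximal' hAp h1).symm
  have hfree : ∀ x y : G, orderOf x = q → orderOf y = p → x * y * x⁻¹ ≠ y := by
    intro x y hx hy hxy
    have hc : Commute x y := by
      have : x * y = y * x := by
        calc x * y = (x * y * x⁻¹) * x := by group
          _ = y * x := by rw [hxy]
      exact this
    have h1 : orderOf (x * y) = q * p := by
      rw [hc.orderOf_mul_eq_mul_orderOf_of_coprime, hx, hy]
      rw [hx, hy]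
      exact (Nat.coprime_primes hq.out hp.out).2 hpq.symm
    have h2 : x * y ≠ 1 := by
      intro h
      rw [h, orderOf_one] at h1
      have := hq.out.two_le
      have := hp.out.two_le
      nlinarith
    rcases hord _ h2 with h3 | h3
    · rw [h1] at h3
      have := hq.out.two_le
      have := hp.out.two_le
      nlinarith
    · rw [h1] at h3
      have := hq.out.two_le
      have := hp.out.two_le
      nlinarith
  -- cardinalities
  obtain ⟨P⟩ := (inferInstance : Nonempty (Sylow p G))
  obtain ⟨Q⟩ := (inferInstance : Nonempty (Sylow q G))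
  have hAcard : Nat.card A = p ^ (Nat.card G).factorization p := by
    rw [← hsyl P]; exact P.card_eq_multiplicity
  have hordQ : ∀ x ∈ (Q : Subgroup G), x ≠ 1 → orderOf x = q := by
    intro x hx hx1
    rcases hord x hx1 with h | h
    · exfalso
      obtain ⟨k, hk⟩ := IsPGroup.iff_orderOf.1 Q.isPGroup' ⟨x, hx⟩
      rw [Subgroup.orderOf_mk, h] at hk
      have h1 : p ∣ q ^ k := hk ▸ dvd_rfl
      exact hpq ((Nat.prime_dvd_prime_iff_eq hp.out hq.out).1 (hp.out.dvd_of_dvd_pow h1))
    · exact h
  have hcopAQ : ∀ B : Subgroup G, B ≤ (Q : Subgroup G) → (Nat.card B).Coprime (Nat.card A) := by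
    intro B hB
    obtain ⟨k, hk⟩ := IsPGroup.iff_card.1 (Q.isPGroup'.to_le hB)
    rw [hk, hAcard]
    exact Nat.Coprime.pow _ _ ((Nat.coprime_primes hq.out hp.out).2 hpq.symm)
  have hqG : q ∣ Nat.card G := hb ▸ orderOf_dvd_natCard b
  have hQne : (Q : Subgroup G) ≠ ⊥ := by
    intro h
    have h1 := Q.dvd_card_of_dvd_card hqG
    rw [h, Subgroup.card_bot] at h1
    exact hq.out.one_lt.ne' (Nat.dvd_one.1 h1)
  have hQcard : Nat.card Q = q := by
    haveI : Nontrivial Q := (Subgroup.nontrivial_iff_ne_bot _).2 hQne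
    haveI := Q.isPGroup'.center_nontrivial
    obtain ⟨z, hz1⟩ := exists_ne (1 : Subgroup.center Q)
    have hzQ : ((z : Q) : G) ∈ (Q : Subgroup G) := (z : Q).2
    have hz1' : ((z : Q) : G) ≠ 1 := by
      intro h
      apply hz1
      exact Subtype.ext (Subtype.ext h)
    have hzord := hordQ _ hzQ hz1'
    have hzle : zpowers ((z : Q) : G) ≤ (Q : Subgroup G) := (zpowers_le).2 hzQ
    have hzcard : Nat.card (zpowers ((z : Q) : G)) = q := by rw [Nat.card_zpowers, hzord]
    by_contra hne
    have hlt : ¬ ((Q : Subgroup G) ≤ zpowers ((z : Q) : G)) := by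
      intro h
      apply hne
      have : (Q : Subgroup G) = zpowers ((z : Q) : G) := le_antisymm h hzle
      exact (Subgroup.card_le_of_le h |>.trans hzcard.le).antisymm (hzcard.ge.trans (Subgroup.card_le_of_le hzle))
    obtain ⟨t, htQ, htz⟩ := Set.not_subset.1 hlt
    have hzt : ((z : Q) : G) * t = t * ((z : Q) : G) := by
      have := Subgroup.mem_center_iff.1 z.2 ⟨t, htQ⟩
      exact (congrArg Subtype.val this).symm
    set B : Subgroup G := Subgroup.closure {((z : Q) : G), t} with hB
    have hBQ : B ≤ (Q : Subgroup G) := by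
      rw [hB, Subgroup.closure_le]
      rintro y (rfl | rfl)
      · exact hzQ
      · exact htQ
    have hBc : IsMulCommutative B := by
      rw [hB]
      apply Subgroup.isMulCommutative_closure
      rintro x (rfl | rfl) y (rfl | rfl)
      · rfl
      · exact hzt
      · exact hzt.symm
      · rfl
    have htB : t ∈ B := Subgroup.subset_closure (by simp)
    have hzB : ((z : Q) : G) ∈ B := Subgroup.subset_closure (by simp)
    have hnc : ¬ IsCyclic B := by
      intro hcyc
      obtain ⟨g, hg⟩ := hcyc.exists_generator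
      have hcardB : Nat.card B = orderOf g := (orderOf_eq_card_of_forall_mem_zpowers hg).symm
      have hg1 : (g : G) ≠ 1 := by
        intro h
        have hg1' : g = 1 := Subtype.ext h
        have h1 := hg ⟨((z : Q) : G), hzB⟩
        rw [hg1', Subgroup.zpowers_one_eq_bot, Subgroup.mem_bot] at h1
        exact hz1' (congrArg Subtype.val h1)
      have h1 : orderOf g = q := by
        rw [← Subgroup.orderOf_coe]
        exact hordQ _ (hBQ g.2) hg1
      have h2 : zpowers ((z : Q) : G) = B :=
        Subgroup.eq_of_le_of_card_ge ((zpowers_le).2 hzB) (by rw [hcardB, h1, hzcard])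
      apply htz
      rw [SetLike.mem_coe, h2]
      exact htB
    have hgen := H23.iSup_centralizer_of_not_isCyclic (A := B) (G := A) hBc hnc
      (by rw [Subgroup.normalizer_eq_top_iff.2 hAn]; exact le_top) (hcopAQ B hBQ)
    apply hA1
    rw [← hgen, iSup_eq_bot]
    rintro ⟨y, hyB, hy1⟩
    rw [eq_bot_iff]
    intro x hx
    rw [Subgroup.mem_bot]
    by_contra hx1
    rw [Subgroup.mem_inf, Subgroup.mem_centralizer_singleton_iff] at hx
    apply hfree y x (hordQ y (hBQ hyB) hy1) (hordA x hx.1 hx1)
    have h1 : x * y = y * x := hx.2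
    calc y * x * y⁻¹ = (x * y) * y⁻¹ := by rw [h1]
      _ = x := by group
  have hGcard : Nat.card G = p ^ (Nat.card G).factorization p * q := by
    have h1 : Nat.card G ≠ 0 := Nat.card_pos.ne'
    have h2 : (Nat.card G).factorization q = 1 := by
      have h3 : Nat.card Q = q ^ (Nat.card G).factorization q := Q.card_eq_multiplicity
      rw [hQcard] at h3
      have h4 : q ^ 1 = q ^ (Nat.card G).factorization q := by rw [pow_one]; exact h3
      exact (Nat.pow_right_injective hq.out.two_le h4).symm
    apply Nat.eq_of_factorization_eq h1 (mul_ne_zero (pow_ne_zero _ hp.out.ne_zero) hq.out.ne_zero)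
    intro r
    rw [Nat.factorization_mul (pow_ne_zero _ hp.out.ne_zero) hq.out.ne_zero, Finsupp.add_apply,
      hp.out.factorization_pow, hq.out.factorization, Finsupp.single_apply, Finsupp.single_apply]
    by_cases hrp : p = r
    · subst hrp
      rw [if_pos rfl, if_neg (Ne.symm hpq), add_zero]
    · rw [if_neg hrp, zero_add]
      by_cases hrq : q = r
      · subst hrq
        rw [if_pos rfl, h2]
      · rw [if_neg hrq]
        by_cases hrprime : r.Prime
        · apply Nat.factorization_eq_zero_of_not_dvd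
          intro hd
          haveI : Fact r.Prime := ⟨hrprime⟩
          obtain ⟨x, hx⟩ := exists_prime_orderOf_dvd_card' r hd
          rcases hord x (by rintro rfl; rw [orderOf_one] at hx; exact hrprime.one_lt.ne hx) with h | h
          · exact hrp (h.symm.trans hx)
          · exact hrq (h.symm.trans hx)
        · exact Nat.factorization_eq_zero_of_not_prime _ hrprime
  have hn1 : 1 ≤ (Nat.card G).factorization p :=
    (hp.out.dvd_iff_one_le_factorization Nat.card_pos.ne').1 (ha ▸ orderOf_dvd_natCard a)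
  -- the operator
  haveI := hAab
  have hindex : A.index = q := by
    have h1 := A.card_mul_index
    rw [hAcard] at h1
    rw [hGcard] at h1
    have h2 : (p ^ (Nat.card G).factorization p * q).factorization p = (Nat.card G).factorization p := by
      rw [← hGcard]
    rw [h2] at h1
    exact Nat.eq_of_mul_eq_mul_left (pow_pos hp.out.pos _) h1
  have hbA : b ∉ A := by
    intro h
    have := hordA b h (by rintro rfl; rw [orderOf_one] at hb; exact hq.out.one_lt.ne hb)
    rw [hb] at this
    exact hpq this.symm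
  have hgenb : ∀ g : G, ∃ i : ℕ, ∃ u ∈ A, g = u * b ^ i := by
    intro g
    have h1 : Nat.card (G ⧸ A) = q := hindex
    have h2 : (QuotientGroup.mk b : G ⧸ A) ≠ 1 := by
      intro h
      exact hbA ((QuotientGroup.eq_one_iff b).1 h)
    obtain ⟨i, hi⟩ := mem_powers_of_prime_card h1 h2 (g' := (QuotientGroup.mk g : G ⧸ A))
    refine ⟨i, g * (b ^ i)⁻¹, ?_, by group⟩
    rw [← QuotientGroup.eq_one_iff]
    have h3 : ((g * (b ^ i)⁻¹ : G) : G ⧸ A) = (QuotientGroup.mk g : G ⧸ A) * ((QuotientGroup.mk b : G ⧸ A) ^ i)⁻¹ := rfl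
    rw [h3]
    have h4 : (QuotientGroup.mk b : G ⧸ A) ^ i = QuotientGroup.mk g := hi
    rw [h4]
    exact mul_inv_cancel _
  refine ⟨p, q, (Nat.card G).factorization p, hp, hq, hpq, hn1, hGcard, ?_, ?_, hfree⟩
  · intro P
    rw [hsyl P]
    exact ⟨hAn, hAab, hexp⟩
  · have hmod : ∀ x : Vec A, p • x = 0 := by
      intro x
      apply Vec.ext'
      rw [Vec.val_nsmul, Vec.val_zero]
      exact hexp _ x.val_mem
    exact @orderOf_of_orbits G _ _ p q hp hq hpq A hAn hAab (AddCommGroup.zmodModule hmod) hA1 hAα b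
      hb hordA a horbp horbq hfree hgenb

end forward

end Cfsg.Agent.H24
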