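import Mathlib
import Cfsg.Agent.H24.ThreeOrb3

set_option autoImplicit false

/-! # H24/ThreeOrb4: the backward direction -/

namespace Cfsg.Agent.H24

open Subgroup
open scoped IsMulCommutative Pointwise

theorem exists_aut_extend {G : Type*} [Group G] [Finite G] {p q : ℕ} [hp : Fact p.Prime]
    [hq : Fact q.Prime] (hpq : p ≠ q) (A : Subgroup G) [hAn : A.Normal] [IsMulCommutative A]
    [Module (ZMod p) (Vec A)] (b : G) (hb : orderOf b = q) (hc : A.IsComplement' (zpowers b))
    (hfree : ∀ v ∈ A, b * v * b⁻¹ = v → v = 1) (hord : orderOf (p : ZMod q) = q - 1)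
    (i : ℕ) (hi : ¬ q ∣ i) (v w : G) (hv : v ∈ A) (hw : w ∈ A) (hv1 : v ≠ 1) (hw1 : w ≠ 1) :
    ∃ α : MulAut G, α v = w ∧ α b = b ^ i := by
  classical
  set T := conjLin (p := p) A b with hT
  obtain ⟨φ, hφ1, hφ2⟩ := exists_semilinear (V := Vec A) hpq T (by
    apply LinearMap.ext
    intro v
    rw [hT, conjLin_pow_apply, ← hb, pow_orderOf_eq_one]
    apply Vec.ext'
    rw [conjLin_apply]
    simp) (by
    intro u hu
    apply Vec.ext'
    rw [Vec.val_zero]
    apply hfree _ u.val_mem
    rw [← conjLin_apply (p := p), ← hT, hu]) hord i hi (Vec.mk v hv) (Vec.mk w hw)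
    (fun h => hv1 (by have := congrArg Vec.val h; rwa [Vec.val_mk, Vec.val_zero] at this))
    (fun h => hw1 (by have := congrArg Vec.val h; rwa [Vec.val_mk, Vec.val_zero] at this))
  have hφk : ∀ (k : ℕ) (u : Vec A), φ ((T ^ k) u) = (T ^ (i * k)) (φ u) := by
    intro k
    induction k with
    | zero => intro u; simp
    | succ k ih =>
      intro u
      rw [pow_succ', Module.End.mul_apply, hφ2, ih, ← Module.End.mul_apply, ← pow_add]
      congr 2
      ring
  let fn : A ≃* A :=
    { toFun := fun a => ⟨(φ (Vec.mk a a.2)).val, Vec.val_mem _⟩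
      invFun := fun a => ⟨(φ.symm (Vec.mk a a.2)).val, Vec.val_mem _⟩
      left_inv := fun a => Subtype.ext (by
        show (φ.symm (Vec.mk (φ (Vec.mk a a.2)).val _)).val = a
        have h1 : Vec.mk (φ (Vec.mk (a : G) a.2)).val (Vec.val_mem _) = φ (Vec.mk (a : G) a.2) := Vec.ext' rfl
        rw [h1, φ.symm_apply_apply]
        rfl)
      right_inv := fun a => Subtype.ext (by
        show (φ (Vec.mk (φ.symm (Vec.mk a a.2)).val _)).val = a
        have h1 : Vec.mk (φ.symm (Vec.mk (a : G) a.2)).val (Vec.val_mem _) = φ.symm (Vec.mk (a : G) a.2) := Vec.ext' rfl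
        rw [h1, φ.apply_symm_apply]
        rfl)
      map_mul' := fun a c => Subtype.ext (by
        show (φ (Vec.mk ((a : G) * c) _)).val = (φ (Vec.mk a a.2)).val * (φ (Vec.mk c c.2)).val
        have h1 : Vec.mk ((a : G) * c) (mul_mem a.2 c.2) = Vec.mk (a : G) a.2 + Vec.mk (c : G) c.2 := Vec.ext' rfl
        rw [h1, map_add, Vec.val_add]) }
  have hfn : ∀ a : A, ((fn a : A) : G) = (φ (Vec.mk a a.2)).val := fun a => rfl
  have hcomm : ∀ s t : zpowers b, s * t = t * s := fun s t => mul_comm' s t
  let fg₀ : zpowers b →* zpowers b :=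
    { toFun := fun t => t ^ i
      map_one' := one_pow i
      map_mul' := fun s t => (show Commute s t from hcomm s t).mul_pow i }
  have hfg₀ : Function.Bijective fg₀ := by
    have hinj : Function.Injective fg₀ := by
      rw [injective_iff_map_eq_one]
      intro t ht
      have h1 : t ^ i = 1 := ht
      have h2 : orderOf t ∣ q := by
        rw [← hb, ← Nat.card_zpowers b]
        exact orderOf_dvd_natCard t
      have h3 := orderOf_dvd_of_pow_eq_one h1
      rcases (Nat.dvd_prime hq.out).1 h2 with h4 | h4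
      · exact orderOf_eq_one_iff.1 h4
      · exact absurd (h4 ▸ h3) hi
    exact Finite.injective_iff_bijective.1 hinj
  let fg : zpowers b ≃* zpowers b := MulEquiv.ofBijective fg₀ hfg₀
  have hfg : ∀ t : zpowers b, fg t = t ^ i := fun t => rfl
  have hcompat : ∀ g : zpowers b,
      (((A.normalizerMonoidHom).comp (inclusion (A.normalizer_eq_top ▸ le_top) : zpowers b →* _)) g).trans fn =
      fn.trans (((A.normalizerMonoidHom).comp (inclusion (A.normalizer_eq_top ▸ le_top) : zpowers b →* _)) (fg g)) := by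
    rintro ⟨g, hg⟩
    rw [← mem_powers_iff_mem_zpowers] at hg
    obtain ⟨k, rfl⟩ := hg
    ext a
    show ((fn ⟨b ^ k * (a : G) * (b ^ k)⁻¹, _⟩ : A) : G) = (b ^ k) ^ i * ((fn a : A) : G) * ((b ^ k) ^ i)⁻¹
    rw [hfn, hfn]
    have h1 : Vec.mk (b ^ k * (a : G) * (b ^ k)⁻¹) (hAn.conj_mem _ a.2 _) = (T ^ k) (Vec.mk (a : G) a.2) := by
      apply Vec.ext'
      rw [hT, conjLin_pow_apply, conjLin_apply]
      rfl
    show (φ (Vec.mk (b ^ k * (a : G) * (b ^ k)⁻¹) _)).val = _
    rw [h1, hφk, hT, conjLin_pow_apply, conjLin_apply, ← pow_mul, mul_comm k i]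
  let e := SemidirectProduct.mulEquivSubgroup hc
  let α : MulAut G := (e.symm.trans (SemidirectProduct.congr fn fg hcompat)).trans e
  have he1 : ∀ a : A, e (SemidirectProduct.inl a) = (a : G) := by
    intro a
    show (a : G) * ((1 : zpowers b) : G) = a
    simp
  have he2 : ∀ t : zpowers b, e (SemidirectProduct.inr t) = (t : G) := by
    intro t
    show ((1 : A) : G) * (t : G) = t
    simp
  refine ⟨α, ?_, ?_⟩
  · show e (SemidirectProduct.congr fn fg hcompat (e.symm v)) = w
    have h1 : e.symm v = SemidirectProduct.inl ⟨v, hv⟩ := by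
      rw [MulEquiv.symm_apply_eq, he1]
    rw [h1]
    have h2 : SemidirectProduct.congr fn fg hcompat (SemidirectProduct.inl ⟨v, hv⟩) =
        SemidirectProduct.inl (fn ⟨v, hv⟩) := by
      ext
      · rfl
      · show ((fg 1 : zpowers b) : G) = 1
        rw [map_one]; rfl
    rw [h2, he1, hfn]
    show (φ (Vec.mk v hv)).val = w
    rw [hφ1]; rfl
  · show e (SemidirectProduct.congr fn fg hcompat (e.symm b)) = b ^ i
    have h1 : e.symm b = SemidirectProduct.inr ⟨b, mem_zpowers b⟩ := by
      rw [MulEquiv.symm_apply_eq, he2]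
    rw [h1]
    have h2 : SemidirectProduct.congr fn fg hcompat (SemidirectProduct.inr ⟨b, mem_zpowers b⟩) =
        SemidirectProduct.inr (⟨b, mem_zpowers b⟩ ^ i) := by
      ext
      · show ((fn 1 : A) : G) = 1
        rw [map_one]; rfl
      · rfl
    rw [h2, he2]
    rfl

theorem three_orb_backward {G : Type*} [Group G] [Finite G] {p q n : ℕ} [hp : Fact p.Prime]
    [hq : Fact q.Prime] (hpq : p ≠ q) (hn : 1 ≤ n) (hcard : Nat.card G = p ^ n * q)
    (hP : ∀ P : Sylow p G, (P : Subgroup G).Normal ∧ Cfsg.IsElementaryAbelian p (P : Subgroup G))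
    (hord : orderOf (p : ZMod q) = q - 1)
    (hfree : ∀ x y : G, orderOf x = q → orderOf y = p → x * y * x⁻¹ ≠ y) :
    Nat.card (MulAction.orbitRel.Quotient (MulAut G) G) = 3 := by
  classical
  obtain ⟨P⟩ := (inferInstance : Nonempty (Sylow p G))
  obtain ⟨hAn, hAab, hexp⟩ := hP P
  set A : Subgroup G := (P : Subgroup G) with hA
  haveI := hAn
  haveI := hAab
  have hpq' : ¬ p ∣ q := fun h => hpq ((Nat.prime_dvd_prime_iff_eq hp.out hq.out).1 h)
  have hqp' : ¬ q ∣ p := fun h => hpq ((Nat.prime_dvd_prime_iff_eq hq.out hp.out).1 h).symm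
  have hfac : (Nat.card G).factorization p = n := by
    rw [hcard, Nat.factorization_mul (pow_ne_zero _ hp.out.ne_zero) hq.out.ne_zero, Finsupp.add_apply,
      hp.out.factorization_pow, Finsupp.single_apply, if_pos rfl,
      Nat.factorization_eq_zero_of_not_dvd hpq', add_zero]
  have hAcard : Nat.card A = p ^ n := by rw [← hfac]; exact P.card_eq_multiplicity
  have hidx : A.index = q := by
    have h1 := A.card_mul_index
    rw [hAcard, hcard] at h1
    exact Nat.eq_of_mul_eq_mul_left (pow_pos hp.out.pos _) h1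
  have hordA : ∀ x ∈ A, x ≠ 1 → orderOf x = p := fun x hx hx1 =>
    orderOf_eq_prime (hexp x hx) hx1
  obtain ⟨a, ha⟩ := exists_prime_orderOf_dvd_card' (G := G) p (by
    rw [hcard]; exact (dvd_pow_self p (by omega)).mul_right q)
  obtain ⟨b, hb⟩ := exists_prime_orderOf_dvd_card' (G := G) q (by rw [hcard]; exact dvd_mul_left _ _)
  have hpA : ∀ x : G, orderOf x = p → x ∈ A := by
    intro x hx
    have h1 : IsPGroup p (zpowers x) := IsPGroup.of_card (n := 1) (by rw [Nat.card_zpowers, hx, pow_one])
    obtain ⟨S, hS⟩ := h1.exists_le_sylow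
    haveI : Subsingleton (Sylow p G) := (Sylow.unique_of_normal P hAn).instSubsingleton
    rw [hA, Subsingleton.elim P S]
    exact hS (mem_zpowers x)
  have hbA : b ∉ A := by
    intro h
    have := hordA b h (by rintro rfl; rw [orderOf_one] at hb; exact hq.out.one_lt.ne hb)
    exact hpq (this.symm.trans hb)
  have hout : ∀ g : G, g ∉ A → orderOf g = q := by
    intro g hg
    have h1 : g ^ q ∈ A := by
      rw [← QuotientGroup.eq_one_iff]
      have h2 : ((g ^ q : G) : G ⧸ A) = (g : G ⧸ A) ^ q := rfl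
      rw [h2, ← hidx]
      exact pow_card_eq_one'
    have h2 : (g ^ q) ^ p = 1 := hexp _ h1
    by_cases h3 : g ^ q = 1
    · exact orderOf_eq_prime h3 (by rintro rfl; exact hg (one_mem _))
    · exfalso
      have h4 : orderOf (g ^ q) = p := orderOf_eq_prime h2 h3
      have h5 : orderOf (g ^ p) = q := by
        apply orderOf_eq_prime
        · rw [← pow_mul, mul_comm p q, pow_mul, h2]
        · intro h6
          apply hg
          apply hpA
          exact orderOf_eq_prime h6 (by rintro rfl; exact hg (one_mem _))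
      apply hfree (g ^ p) (g ^ q) h5 h4
      rw [← pow_add, ← zpow_natCast g p, ← zpow_neg, ← zpow_natCast g (p + q), ← zpow_add,
        ← zpow_natCast g q]
      congr 1
      push_cast; ring
  have hcardb : Nat.card (zpowers b) = q := by rw [Nat.card_zpowers, hb]
  have hc : A.IsComplement' (zpowers b) := by
    apply Subgroup.isComplement'_of_coprime
    · rw [hAcard, hcardb, hcard]
    · rw [hAcard, hcardb]
      exact Nat.Coprime.pow_left _ ((Nat.coprime_primes hp.out hq.out).2 hpq)
  have hmod : ∀ x : Vec A, p • x = 0 := by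
    intro x
    apply Vec.ext'
    rw [Vec.val_nsmul, Vec.val_zero]
    exact hexp _ x.val_mem
  have haut := @exists_aut_extend G _ _ p q hp hq hpq A hAn hAab (AddCommGroup.zmodModule hmod) b hb hc
    (by
      intro v hv hvb
      by_contra hv1
      exact hfree b v hb (hordA v hv hv1) hvb) hord
  -- conjugacy outside `A`
  have hconj : ∀ g : G, g ∉ A → ∃ c : G, ∃ i : ℕ, ¬ q ∣ i ∧ c * g * c⁻¹ = b ^ i := by
    intro g hg
    have hg' := hout g hg
    have hqfac : (Nat.card G).factorization q = 1 := by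
      rw [hcard, Nat.factorization_mul (pow_ne_zero _ hp.out.ne_zero) hq.out.ne_zero, Finsupp.add_apply,
        hq.out.factorization_self, Nat.factorization_eq_zero_of_not_dvd (fun h => hqp' (hq.out.dvd_of_dvd_pow h)), zero_add]
    let S1 : Sylow q G := Sylow.ofCard (zpowers g) (by rw [Nat.card_zpowers, hg', hqfac, pow_one])
    let S2 : Sylow q G := Sylow.ofCard (zpowers b) (by rw [hcardb, hqfac, pow_one])
    obtain ⟨c, hc'⟩ := MulAction.exists_smul_eq G S1 S2
    have h1 : MulAut.conj c • (zpowers g) = zpowers b := congrArg (fun S : Sylow q G => (S : Subgroup G)) hc'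
    have h2 : c * g * c⁻¹ ∈ zpowers b := by
      rw [← h1]
      exact H1.conj_mem_conj_smul (mem_zpowers g)
    rw [← mem_powers_iff_mem_zpowers] at h2
    obtain ⟨i, hi⟩ := h2
    have hi' : b ^ i = c * g * c⁻¹ := hi
    refine ⟨c, i, ?_, hi'.symm⟩
    rintro ⟨k, rfl⟩
    rw [pow_mul, ← hb, pow_orderOf_eq_one, one_pow] at hi'
    apply hg
    have h3 : g = c⁻¹ * (c * g * c⁻¹) * c := by group
    rw [h3, ← hi']
    simp
  -- orbits
  have haA := hpA a ha
  have ha1 : a ≠ 1 := by rintro rfl; rw [orderOf_one] at ha; exact hp.out.one_lt.ne ha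
  have hb1 : b ≠ 1 := by rintro rfl; rw [orderOf_one] at hb; exact hq.out.one_lt.ne hb
  let orb : G → MulAction.orbitRel.Quotient (MulAut G) G := fun g => Quotient.mk'' g
  have horb : ∀ g h : G, orb g = orb h ↔ ∃ α : MulAut G, α h = g := by
    intro g h
    rw [Quotient.eq'']
    exact Iff.rfl
  have hordorb : ∀ g h : G, orb g = orb h → orderOf g = orderOf h := by
    intro g h hgh
    obtain ⟨α, rfl⟩ := (horb g h).1 hgh
    exact MulEquiv.orderOf_eq α h
  have hall : ∀ x : MulAction.orbitRel.Quotient (MulAut G) G, x = orb 1 ∨ x = orb a ∨ x = orb b := by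
    intro x
    induction x using Quotient.inductionOn' with
    | h g =>
      by_cases hg1 : g = 1
      · left; rw [hg1]
      right
      by_cases hgA : g ∈ A
      · left
        obtain ⟨α, hα, -⟩ := haut 1 (fun h => hq.out.one_lt.ne' (Nat.dvd_one.1 h)) a g haA hgA ha1 hg1
        exact (horb g a).2 ⟨α, hα⟩
      · right
        obtain ⟨c, i, hi, hci⟩ := hconj g hgA
        obtain ⟨α, -, hα⟩ := haut i hi a a haA haA ha1 ha1
        refine (horb g b).2 ⟨MulAut.conj c⁻¹ * α, ?_⟩
        rw [MulAut.mul_apply, hα, ← hci, MulAut.conj_apply]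
        group
  have h1a : orb 1 ≠ orb a := by
    intro h
    have := hordorb _ _ h
    rw [orderOf_one, ha] at this
    exact hp.out.one_lt.ne this
  have h1b : orb 1 ≠ orb b := by
    intro h
    have := hordorb _ _ h
    rw [orderOf_one, hb] at this
    exact hq.out.one_lt.ne this
  have hab : orb a ≠ orb b := by
    intro h
    have := hordorb _ _ h
    rw [ha, hb] at this
    exact hpq this
  have huniv : (Set.univ : Set (MulAction.orbitRel.Quotient (MulAut G) G)) = {orb 1, orb a, orb b} := by
    ext x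
    simp only [Set.mem_univ, true_iff, Set.mem_insert_iff, Set.mem_singleton_iff]
    exact hall x
  rw [← Set.ncard_univ, huniv, Set.ncard_eq_three]
  exact ⟨_, _, _, h1a, h1b, hab, rfl⟩

end Cfsg.Agent.H24
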