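import Mathlib

set_option autoImplicit false

/-!
# H24.TwoPrimes: two primes with gap at least four between `n` and `2 n`
-/

namespace Cfsg.Agent.H24

open Real in
theorem real_main2 {x : ℝ} (x_large : (2048 : ℝ) ≤ x) :
    x * (2 * x) ^ (√(2 * x) + 2) * 4 ^ (2 * x / 3) ≤ 4 ^ x := by
  let f : ℝ → ℝ := fun x => log x + √(2 * x) * log (2 * x) + 2 * log (2 * x) - log 4 / 3 * x
  have hf' : ∀ x, 0 < x → 0 < x * (2 * x) ^ (√(2 * x) + 2) / 4 ^ (x / 3) := fun x h =>
    div_pos (mul_pos h (rpow_pos_of_pos (mul_pos two_pos h) _)) (rpow_pos_of_pos four_pos _)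
  have hf : ∀ x, 0 < x → f x = log (x * (2 * x) ^ (√(2 * x) + 2) / 4 ^ (x / 3)) := by
    intro x h5
    have h6 := mul_pos (zero_lt_two' ℝ) h5
    have h7 := rpow_pos_of_pos h6 (√(2 * x) + 2)
    rw [log_div (mul_pos h5 h7).ne' (rpow_pos_of_pos four_pos _).ne', log_mul h5.ne' h7.ne',
      log_rpow h6, log_rpow zero_lt_four, ← mul_div_right_comm, ← mul_div, mul_comm x, add_mul, ← add_assoc]
  have h5 : 0 < x := lt_of_lt_of_le (by norm_num1) x_large
  rw [← div_le_one (rpow_pos_of_pos four_pos x), ← div_div_eq_mul_div, ← rpow_sub four_pos, ←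
    mul_div 2 x, mul_div_left_comm, ← mul_one_sub, (by norm_num1 : (1 : ℝ) - 2 / 3 = 1 / 3),
    mul_one_div, ← log_nonpos_iff (hf' x h5).le, ← hf x h5]
  have h : ConcaveOn ℝ (Set.Ioi 0.5) f := by
    apply ConcaveOn.sub
    · apply ConcaveOn.add
      · apply ConcaveOn.add
        · exact strictConcaveOn_log_Ioi.concaveOn.subset
            (Set.Ioi_subset_Ioi (by norm_num)) (convex_Ioi 0.5)
        convert!
          ((strictConcaveOn_sqrt_mul_log_Ioi.concaveOn.comp_linearMap ((2 : ℝ) • LinearMap.id)))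
          using 1
        ext x
        simp only [Set.mem_Ioi, Set.mem_preimage, LinearMap.smul_apply,
          LinearMap.id_coe, id_eq, smul_eq_mul]
        rw [← mul_lt_mul_iff_right₀ (two_pos)]
        norm_num1
        rfl
      · have h1 : ConcaveOn ℝ (Set.Ioi 0.5) (fun x : ℝ => log x) :=
          strictConcaveOn_log_Ioi.concaveOn.subset
            (Set.Ioi_subset_Ioi (by norm_num)) (convex_Ioi 0.5)
        have h2 : ConcaveOn ℝ (Set.Ioi 0.5) (fun x : ℝ => 2 * (log 2 + log x)) := by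
          have h3 := (concaveOn_const (log 2) (convex_Ioi (0.5 : ℝ))).add h1
          exact h3.smul (by norm_num : (0 : ℝ) ≤ 2)
        refine h2.congr ?_
        intro y hy
        have hy' : (0 : ℝ) < y := lt_trans (by norm_num) hy
        simp only
        rw [log_mul (by norm_num) hy'.ne']
    apply ConvexOn.smul
    · refine div_nonneg (log_nonneg (by norm_num1)) (by norm_num1)
    · exact convexOn_id (convex_Ioi (0.5 : ℝ))
  suffices ∃ x1 x2, 0.5 < x1 ∧ x1 < x2 ∧ x2 ≤ x ∧ 0 ≤ f x1 ∧ f x2 ≤ 0 by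
    obtain ⟨x1, x2, h1, h2, h0, h3, h4⟩ := this
    exact (h.right_le_of_le_left'' h1 ((h1.trans h2).trans_le h0) h2 h0 (h4.trans h3)).trans h4
  refine ⟨18, 2048, by norm_num1, by norm_num1, x_large, ?_, ?_⟩
  · have : √(2 * 18 : ℝ) = 6 := (sqrt_eq_iff_mul_self_eq_of_pos (by norm_num1)).mpr (by norm_num1)
    rw [hf _ (by norm_num1), log_nonneg_iff (by positivity), this, one_le_div (by norm_num1)]
    norm_num1
  · have : √(2 * 2048) = 64 :=
      (sqrt_eq_iff_mul_self_eq_of_pos (by norm_num1)).mpr (by norm_num1)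
    rw [hf _ (by norm_num1), log_nonpos_iff (hf' _ (by norm_num1)).le, this,
        div_le_one (by positivity)]
    have e1 : ((2 : ℝ) * 2048) ^ ((64 : ℝ) + 2) = 2 ^ (792 : ℕ) := by
      rw [show ((2 : ℝ) * 2048) = 2 ^ (12 : ℕ) by norm_num, show ((64 : ℝ) + 2) = ((66 : ℕ) : ℝ) by norm_num,
        rpow_natCast, ← pow_mul]
    have e2 : (2 : ℝ) ^ (1365 : ℕ) ≤ 4 ^ ((2048 : ℝ) / 3) := by
      rw [show (4 : ℝ) = 2 ^ (2 : ℝ) by norm_num, ← rpow_mul (by norm_num), ← rpow_natCast]
      apply rpow_le_rpow_of_exponent_le (by norm_num)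
      norm_num
    rw [e1]
    refine le_trans ?_ e2
    rw [show (2048 : ℝ) = 2 ^ (11 : ℕ) by norm_num, ← pow_add]
    exact pow_le_pow_right₀ (by norm_num) (by norm_num)

theorem main2 {n : ℕ} (n_large : 2048 ≤ n) :
    n * (2 * n) ^ (Nat.sqrt (2 * n) + 2) * 4 ^ (2 * n / 3) ≤ 4 ^ n := by
  rw [← @Nat.cast_le ℝ]
  simp only [Nat.cast_mul, Nat.cast_pow, ← Real.rpow_natCast, Nat.cast_ofNat, Nat.cast_add]
  refine _root_.trans ?_ (real_main2 (by exact_mod_cast n_large))
  gcongr
  · have n2_pos : 0 < 2 * n := by positivity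
    exact_mod_cast n2_pos
  · have h := @Real.nat_sqrt_le_real_sqrt (2 * n)
    push_cast at h
    exact h
  · norm_num1
  · exact Nat.cast_div_le.trans (by norm_cast)

theorem centralBinom_le2 (n : ℕ) (n_large : 2 < n) (a : ℕ)
    (hno : ∀ p : ℕ, p.Prime → n < p → p ≤ 2 * n → p = a ∨ p = a + 2) :
    Nat.centralBinom n ≤ (2 * n) ^ (Nat.sqrt (2 * n) + 2) * 4 ^ (2 * n / 3) := by
  classical
  have n_pos : 0 < n := (Nat.zero_le _).trans_lt n_large
  have n2_pos : 1 ≤ 2 * n := Nat.mul_pos (zero_lt_two' ℕ) n_pos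
  set f : ℕ → ℕ := fun x => x ^ n.centralBinom.factorization x with hf
  have hf1 : ∀ x, f x ≤ 2 * n := by
    intro x
    exact Nat.pow_factorization_choose_le (Nat.mul_pos two_pos n_pos)
  have hfp : ∀ x, ¬ x.Prime → f x = 1 := by
    intro x hx
    rw [hf]
    simp only
    rw [Nat.factorization_eq_zero_of_not_prime n.centralBinom hx, _root_.pow_zero]
  have hfpos : ∀ x, 1 ≤ f x := by
    intro x
    by_cases hx : x.Prime
    · exact Nat.one_le_iff_ne_zero.mpr (pow_ne_zero _ hx.ne_zero)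
    · rw [hfp x hx]
  have htot : n.centralBinom = ∏ x ∈ Finset.range (2 * n + 1), f x :=
    (n.prod_pow_factorization_centralBinom).symm
  -- small part
  have hsmall : ∏ x ∈ Finset.range (2 * n / 3 + 1), f x ≤ (2 * n) ^ (Nat.sqrt (2 * n)) * 4 ^ (2 * n / 3) := by
    let S := {p ∈ Finset.range (2 * n / 3 + 1) | Nat.Prime p}
    have : ∏ x ∈ S, f x = ∏ x ∈ Finset.range (2 * n / 3 + 1), f x := by
      refine Finset.prod_filter_of_ne fun p _ h => ?_
      contrapose h
      exact hfp p h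
    rw [← this, ← Finset.prod_filter_mul_prod_filter_not S (· ≤ Nat.sqrt (2 * n))]
    apply mul_le_mul'
    · refine (Finset.prod_le_prod' fun p _ => (hf1 p : f p ≤ 2 * n)).trans ?_
      have : (Finset.Icc 1 (Nat.sqrt (2 * n))).card = Nat.sqrt (2 * n) := by rw [Nat.card_Icc, Nat.add_sub_cancel]
      rw [Finset.prod_const]
      refine pow_right_mono₀ n2_pos ((Finset.card_le_card fun x hx => ?_).trans this.le)
      obtain ⟨h1, h2⟩ := Finset.mem_filter.1 hx
      exact Finset.mem_Icc.mpr ⟨(Finset.mem_filter.1 h1).2.one_lt.le, h2⟩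
    · refine le_trans ?_ (primorial_le_four_pow (2 * n / 3))
      refine (Finset.prod_le_prod' fun p hp => (?_ : f p ≤ p)).trans ?_
      · obtain ⟨h1, h2⟩ := Finset.mem_filter.1 hp
        refine (pow_right_mono₀ (Finset.mem_filter.1 h1).2.one_lt.le ?_).trans (pow_one p).le
        exact Nat.factorization_choose_le_one (Nat.sqrt_lt'.mp <| not_le.1 h2)
      refine Finset.prod_le_prod_of_subset_of_one_le' (Finset.filter_subset _ _) ?_
      exact fun p hp _ => (Finset.mem_filter.1 hp).2.one_lt.le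
  -- total
  have h1 : ∏ x ∈ Finset.range (2 * n + 1), f x ≤
      ∏ x ∈ (Finset.range (2 * n / 3 + 1) ∪ {a, a + 2}), f x := by
    have e : ∏ x ∈ Finset.range (2 * n + 1), f x =
        ∏ x ∈ (Finset.range (2 * n + 1)).filter (fun x => x ∈ (Finset.range (2 * n / 3 + 1) ∪ {a, a + 2})), f x := by
      symm
      refine Finset.prod_filter_of_ne fun x hx h => ?_
      by_contra hc
      apply h
      rw [Finset.mem_union, not_or, Finset.mem_range, Finset.mem_insert, Finset.mem_singleton, not_or] at hc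
      obtain ⟨hc1, hc2, hc3⟩ := hc
      by_cases hxp : x.Prime
      · rw [Finset.mem_range] at hx
        have hxn : x ≤ n := by
          by_contra hc
          rcases hno x hxp (by omega) (by omega) with h | h
          · exact hc2 h
          · exact hc3 h
        have h3 : 2 * n < 3 * x := by
          have : 2 * n / 3 < x := by omega
          rw [Nat.div_lt_iff_lt_mul (by norm_num)] at this
          omega
        rw [hf]
        simp only
        rw [Nat.factorization_centralBinom_of_two_mul_self_lt_three_mul n_large hxn h3, Nat.pow_zero]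
      · exact hfp x hxp
    rw [e]
    exact Finset.prod_le_prod_of_subset_of_one_le' (fun x hx => (Finset.mem_filter.mp hx).2)
      (fun x _ _ => hfpos x)
  have h2 : ∏ x ∈ (Finset.range (2 * n / 3 + 1) ∪ {a, a + 2}), f x ≤
      (∏ x ∈ Finset.range (2 * n / 3 + 1), f x) * (∏ x ∈ ({a, a + 2} : Finset ℕ), f x) := by
    rw [← Finset.prod_union_inter]
    exact Nat.le_mul_of_pos_right _ (Finset.prod_pos fun x _ => hfpos x)
  have h3 : ∏ x ∈ ({a, a + 2} : Finset ℕ), f x ≤ (2 * n) ^ 2 := by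
    rw [Finset.prod_pair (by omega), pow_two]
    exact Nat.mul_le_mul (hf1 _) (hf1 _)
  rw [htot]
  calc _ ≤ _ := h1
    _ ≤ _ := h2
    _ ≤ ((2 * n) ^ (Nat.sqrt (2 * n)) * 4 ^ (2 * n / 3)) * (2 * n) ^ 2 := Nat.mul_le_mul hsmall h3
    _ = _ := by ring

theorem two_primes_large (n : ℕ) (hn : 2048 ≤ n) :
    ∃ p q : ℕ, p.Prime ∧ q.Prime ∧ n < p ∧ p + 4 ≤ q ∧ q ≤ 2 * n := by
  by_contra hc
  push Not at hc
  obtain ⟨b, hb, hnb, hb2⟩ := Nat.exists_prime_lt_and_le_two_mul n (by omega)
  classical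
  have hex : ∃ a, a.Prime ∧ n < a ∧ a ≤ 2 * n := ⟨b, hb, hnb, hb2⟩
  set a := Nat.find hex with ha
  obtain ⟨h1, h2, h3⟩ := Nat.find_spec hex
  have key : ∀ p : ℕ, p.Prime → n < p → p ≤ 2 * n → p = a ∨ p = a + 2 := by
    intro p hp hnp hp2
    have hap : a ≤ p := Nat.find_min' hex ⟨hp, hnp, hp2⟩
    have h4 := hc a p h1 hp h2
    have h5 : p < a + 4 := by
      by_contra h6
      have := h4 (by omega)
      omega
    have h6 : p % 2 = 1 := hp.eq_two_or_odd.resolve_left (by omega)
    have h7 : a % 2 = 1 := h1.eq_two_or_odd.resolve_left (by omega)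
    omega
  have h4 := centralBinom_le2 n (by omega) a key
  have h5 : 4 ^ n < n * n.centralBinom := Nat.four_pow_lt_mul_centralBinom n (by omega)
  have h6 := main2 hn
  have h7 : n * n.centralBinom ≤ n * ((2 * n) ^ (Nat.sqrt (2 * n) + 2) * 4 ^ (2 * n / 3)) :=
    Nat.mul_le_mul_left n h4
  rw [← mul_assoc] at h7
  omega

theorem two_primes (n : ℕ) (hn : 9 ≤ n) :
    ∃ p q : ℕ, p.Prime ∧ q.Prime ∧ n < p ∧ p + 4 ≤ q ∧ q ≤ 2 * n := by
  rcases le_or_gt 2048 n with h | h
  · exact two_primes_large n h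
  rcases lt_or_ge n 13 with h1 | h1
  · exact ⟨13, 17, by norm_num, by norm_num, by omega, by omega, by omega⟩
  rcases lt_or_ge n 19 with h2 | h2
  · exact ⟨19, 23, by norm_num, by norm_num, by omega, by omega, by omega⟩
  rcases lt_or_ge n 31 with h3 | h3
  · exact ⟨31, 37, by norm_num, by norm_num, by omega, by omega, by omega⟩
  rcases lt_or_ge n 53 with h4 | h4
  · exact ⟨53, 61, by norm_num, by norm_num, by omega, by omega, by omega⟩
  rcases lt_or_ge n 97 with h5 | h5
  · exact ⟨97, 103, by norm_num, by norm_num, by omega, by omega, by omega⟩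
  rcases lt_or_ge n 181 with h6 | h6
  · exact ⟨181, 193, by norm_num, by norm_num, by omega, by omega, by omega⟩
  rcases lt_or_ge n 353 with h7 | h7
  · exact ⟨353, 359, by norm_num, by norm_num, by omega, by omega, by omega⟩
  rcases lt_or_ge n 691 with h8 | h8
  · exact ⟨691, 701, by norm_num, by norm_num, by omega, by omega, by omega⟩
  rcases lt_or_ge n 1373 with h9 | h9
  · exact ⟨1373, 1381, by norm_num, by norm_num, by omega, by omega, by omega⟩
  · exact ⟨2731, 2741, by norm_num, by norm_num, by omega, by omega, by omega⟩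

end Cfsg.Agent.H24
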