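import Mathlib
import Cfsg.Agent.H1.Coprime2
import Cfsg.Agent.H1.Hall
import Cfsg.Agent.H1.Cores
import Cfsg.Agent.H13.SZ

set_option autoImplicit false
set_option linter.all false

/-! # H24/ZCop: coprime action on a Z-group: `C_H(Q)` and `[H,Q]` have coprime orders -/

namespace Cfsg.Agent.H24.ZCop

open Subgroup
open scoped Pointwise commutatorElement

variable {G : Type*} [Group G] [Finite G]

theorem le_normalizer_sup {A B C : Subgroup G} (h1 : C ≤ normalizer (A : Set G))
    (h2 : C ≤ normalizer (B : Set G)) : C ≤ normalizer ((A ⊔ B : Subgroup G) : Set G) :=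
  (le_inf h1 h2).trans (Subgroup.normalizer_inf_normalizer_le_normalizer_sup A B)

/-- core of the argument: a Sylow subgroup `S` of `K = [K,Q]` centralized by `Q` is trivial (Z-groups). -/
theorem sylow_eq_bot (K Q : Subgroup G) (hKQ : ⁅K, Q⁆ = K) (hQ : Q ≤ normalizer (K : Set G))
    [hZ : IsZGroup K] (r : ℕ) [Fact r.Prime]
    (S : Sylow r K) (hS : (S : Subgroup K).map K.subtype ≤ centralizer (Q : Set G)) :
    (S : Subgroup K) = ⊥ := by
  classical
  haveI hScyc : IsCyclic S := hZ.isZGroup r Fact.out S
  set S' : Subgroup G := (S : Subgroup K).map K.subtype with hS'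
  have hQS : ⁅Q, S'⁆ = ⊥ := by
    rw [Subgroup.commutator_comm, Subgroup.commutator_eq_bot_iff_le_centralizer]
    exact hS
  -- first: N_K(S) ≤ C_K(S)
  have hNC : normalizer (S : Set K) ≤ centralizer (S : Set K) := by
    rcases Sylow.normalizer_le_centralizer_or_le_commutator S with h | h
    · exact h
    · haveI : IsCyclic (_root_.commutator K) := IsZGroup.isCyclic_commutator K
      -- S normal in K
      have hSn : (S : Subgroup K).Normal := by
        let T : Sylow r (_root_.commutator K) := S.subtype h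
        haveI hTn : (T : Subgroup (_root_.commutator K)).Normal := inferInstance
        haveI hTc : (T : Subgroup (_root_.commutator K)).Characteristic := Sylow.characteristic_of_normal T hTn
        have : ((T : Subgroup (_root_.commutator K)).map (_root_.commutator K).subtype).Normal :=
          inferInstance
        rwa [show (T : Subgroup (_root_.commutator K)).map (_root_.commutator K).subtype = S by
          simpa [T] using h] at this
      have h2 : ⁅⁅S', K⁆, Q⁆ = ⊥ := by
        have h3 : ⁅S', K⁆ ≤ S' := by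
          rw [Subgroup.commutator_le]
          rintro _ ⟨s, hs, rfl⟩ k hk
          have := hSn.conj_mem _ ((S : Subgroup K).inv_mem hs) ⟨k, hk⟩
          have h4 := (S : Subgroup K).mul_mem hs this
          refine ⟨_, h4, ?_⟩
          simp [commutatorElement_def, mul_assoc]
        rw [eq_bot_iff, ← hQS, Subgroup.commutator_comm Q S']
        exact Subgroup.commutator_mono h3 le_rfl
      have h1 : ⁅⁅Q, S'⁆, K⁆ = ⊥ := by rw [hQS]; simp
      have h5 := Subgroup.commutator_commutator_eq_bot_of_rotate h1 h2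
      rw [hKQ, Subgroup.commutator_eq_bot_iff_le_centralizer] at h5
      refine le_trans le_top ?_
      intro k _
      rw [Subgroup.mem_centralizer_iff]
      intro s hs
      apply Subtype.ext
      have h6 := Subgroup.mem_centralizer_iff.mp (h5 k.2) (s : G) ⟨s, hs, rfl⟩
      simpa using h6
  -- normal r-complement
  haveI : IsMulCommutative (S : Subgroup K) := inferInstance
  let f := MonoidHom.transferSylow S hNC
  have hcompl := MonoidHom.ker_transferSylow_isComplement' S hNC
  set L : Subgroup K := f.ker with hL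
  have hLcop : ¬ r ∣ Nat.card L := MonoidHom.not_dvd_card_ker_transferSylow S hNC
  have hmem : ∀ x : K, x ∈ L ↔ (orderOf x).Coprime r := by
    intro x
    constructor
    · intro hx
      have h1 : orderOf x ∣ Nat.card L := by
        have := orderOf_dvd_natCard (⟨x, hx⟩ : L)
        rwa [← Subgroup.orderOf_coe] at this
      exact Nat.Coprime.coprime_dvd_left h1 ((Nat.Prime.coprime_iff_not_dvd Fact.out).mpr hLcop).symm
    · intro hx
      rw [MonoidHom.mem_ker]
      have h1 : orderOf (f x) ∣ orderOf x := orderOf_map_dvd f x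
      obtain ⟨n, hn⟩ := IsPGroup.iff_orderOf.mp S.2 (f x)
      have h2 : (orderOf (f x)).Coprime (orderOf (f x)) := by
        conv_rhs => rw [hn]
        exact Nat.Coprime.pow_right n (Nat.Coprime.coprime_dvd_left h1 hx)
      have h3 : orderOf (f x) = 1 := by
        rw [Nat.coprime_self] at h2; exact h2
      exact orderOf_eq_one_iff.mp h3
  set L' : Subgroup G := L.map K.subtype with hL'
  have hLn : L.Normal := inferInstance
  have hQL : ∀ q ∈ Q, ∀ x ∈ L', q * x * q⁻¹ ∈ L' := by
    rintro q hq _ ⟨x, hx, rfl⟩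
    have h1 : q * (x : G) * q⁻¹ ∈ K := (Subgroup.mem_normalizer_iff.mp (hQ hq) x).mp x.2
    refine ⟨⟨_, h1⟩, ?_, rfl⟩
    change (⟨q * (x : G) * q⁻¹, h1⟩ : K) ∈ L
    rw [hmem]
    have h2 : orderOf (⟨q * (x : G) * q⁻¹, h1⟩ : K) = orderOf x := by
      rw [← Subgroup.orderOf_coe, ← Subgroup.orderOf_coe]
      exact orderOf_injective (MulAut.conj q).toMonoidHom (MulAut.conj q).injective (x : G)
    rw [h2]
    exact (hmem x).mp hx
  have hKL : ∀ k l : G, k ∈ K → l ∈ L' → k * l * k⁻¹ ∈ L' := by
    rintro k _ hk ⟨x, hx, rfl⟩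
    exact ⟨_, hLn.conj_mem x hx ⟨k, hk⟩, rfl⟩
  have hKle : K ≤ L' := by
    conv_lhs => rw [← hKQ]
    rw [Subgroup.commutator_le]
    intro k hk q hq
    -- k = s * l
    have hk2 : (⟨k, hk⟩ : K) ∈ (L ⊔ (S : Subgroup K) : Subgroup K) := by
      rw [hcompl.sup_eq_top]; trivial
    rw [sup_comm] at hk2
    obtain ⟨s, hs, l, hl, hsl⟩ := (Subgroup.mem_sup_of_normal_right).mp hk2
    have hsl' : k = (s : G) * (l : G) := by
      have := congrArg Subtype.val hsl
      simpa using this.symm
    have hsq : q * (s : G) = (s : G) * q := by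
      have := Subgroup.mem_centralizer_iff.mp (hS ⟨s, hs, rfl⟩) q hq
      simpa using this
    have h1 : ⁅k, q⁆ = s * ((l : G) * (q * (l : G)⁻¹ * q⁻¹)) * (s : G)⁻¹ := by
      rw [commutatorElement_def, hsl']
      have h2 : (s : G)⁻¹ * q⁻¹ = q⁻¹ * (s : G)⁻¹ := by
        rw [← mul_inv_rev, hsq, mul_inv_rev]
      calc (s : G) * l * q * ((s : G) * l)⁻¹ * q⁻¹ = s * (l * (q * (l : G)⁻¹)) * ((s : G)⁻¹ * q⁻¹) := by group
        _ = s * (l * (q * (l : G)⁻¹)) * (q⁻¹ * (s : G)⁻¹) := by rw [h2]
        _ = s * ((l : G) * (q * (l : G)⁻¹ * q⁻¹)) * (s : G)⁻¹ := by group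
    rw [h1]
    refine hKL _ _ s.2 (L'.mul_mem ⟨l, hl, rfl⟩ (hQL q hq _ (L'.inv_mem ⟨l, hl, rfl⟩)))
  have hLtop : L = ⊤ := by
    rw [eq_top_iff]
    intro k _
    obtain ⟨x, hx, hxk⟩ := hKle k.2
    have : x = k := Subtype.ext hxk
    rwa [← this]
  have hdis := hcompl.disjoint
  rw [hLtop] at hdis
  rw [top_disjoint] at hdis
  exact hdis

theorem coprime_centralizer_commutator (H Q : Subgroup G) (hQ : Q ≤ normalizer (H : Set G))
    (hcop : (Nat.card Q).Coprime (Nat.card H)) [hZ : IsZGroup H] :
    (Nat.card (H ⊓ centralizer (Q : Set G) : Subgroup G)).Coprime (Nat.card (⁅H, Q⁆ : Subgroup G)) := by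
  by_contra hc
  obtain ⟨r, hr, h1, h2⟩ := Nat.Prime.not_coprime_iff_dvd.mp hc
  haveI : Fact r.Prime := ⟨hr⟩
  have hsolvZ : Group.IsSolvable H := inferInstance
  have hsol : Group.IsSolvable Q ∨ Group.IsSolvable H := Or.inr hsolvZ
  set C : Subgroup G := H ⊓ centralizer (Q : Set G) with hC
  set K : Subgroup G := ⁅H, Q⁆ with hK
  have hKH : K ≤ H := H1.commutator_le_left_of_le_normalizer hQ
  have hHK : H ≤ normalizer (K : Set G) := H1.left_le_normalizer_commutator H Q
  have hQK : Q ≤ normalizer (K : Set G) := H1.right_le_normalizer_commutator H Q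
  have hKQ : ⁅K, Q⁆ = K := H1.commutator_commutator_eq Q H hQ hcop hsol
  -- Sylow of C
  let Rc : Subgroup G := ((default : Sylow r C) : Subgroup C).map C.subtype
  have hRcC : Rc ≤ C := by
    rintro _ ⟨x, -, rfl⟩; exact x.2
  have hRcp : IsPGroup r Rc := (default : Sylow r C).2.map _
  have hRcne : Rc ≠ ⊥ := by
    intro h
    have h3 := (Subgroup.map_eq_bot_iff_of_injective _ C.subtype_injective).mp h
    have h4 := (default : Sylow r C).card_eq_multiplicity
    rw [h3, Subgroup.card_bot] at h4
    have h6 : 1 ≤ (Nat.card C).factorization r :=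
      (Nat.Prime.dvd_iff_one_le_factorization hr Nat.card_pos.ne').mp h1
    have := Nat.one_lt_pow (by omega) hr.one_lt (n := (Nat.card C).factorization r)
    omega
  have hQRc : Q ≤ normalizer (Rc : Set G) := by
    refine le_trans ?_ (Subgroup.centralizer_le_normalizer _)
    intro q hq
    rw [Subgroup.mem_centralizer_iff]
    intro x hx
    exact (Subgroup.mem_centralizer_iff.mp (hRcC hx).2 q hq).symm
  obtain ⟨R, hRcR, hQR⟩ := H1.exists_invariant_sylow_ge Q H hQ hcop hsol r Rc
    (hRcC.trans inf_le_left) hRcp hQRc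
  set R' : Subgroup G := (R : Subgroup H).map H.subtype with hR'
  haveI hRcyc : IsCyclic R := hZ.isZGroup r hr R
  haveI hR'cyc : IsCyclic R' :=
    isCyclic_of_surjective _ ((R : Subgroup H).equivMapOfInjective _ H.subtype_injective).surjective
  have hR'p : IsPGroup r R' := R.2.map _
  have hR'H : R' ≤ H := by
    rintro _ ⟨x, -, rfl⟩; exact x.2
  have hcopR : (Nat.card Q).Coprime (Nat.card R') :=
    Nat.Coprime.coprime_dvd_right (Subgroup.card_dvd_of_le hR'H) hcop
  have hR'C : R' ≤ centralizer (Q : Set G) := by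
    rcases IsPGroup.commutator_eq_bot_or_commutator_eq_self hR'p hQR hcopR.symm with h | h
    · rw [Subgroup.commutator_comm, Subgroup.commutator_eq_bot_iff_le_centralizer] at h
      exact h
    · exfalso
      haveI : IsMulCommutative R' := inferInstance
      have h3 := (H1.abelian_coprime_decomposition Q R' hQR hcopR).1
      rw [Subgroup.commutator_comm, h, inf_assoc] at h3
      apply hRcne
      rw [eq_bot_iff, ← h3]
      exact le_inf hRcR (le_inf (hRcC.trans inf_le_right) hRcR)
  -- trace on K
  have hidx : ¬ r ∣ ((R'.subgroupOf K).index) := by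
    intro hd
    have h3 : R'.relIndex K = (R : Subgroup H).relIndex (K.subgroupOf H) := by
      have h4 : R'.subgroupOf H = R := Subgroup.comap_map_eq_self_of_injective H.subtype_injective _
      have h5 : (R'.subgroupOf H).relIndex (K.subgroupOf H) = R'.relIndex K :=
        Subgroup.relIndex_subgroupOf hKH
      rw [← h5, h4]
    have hd' : r ∣ R'.relIndex K := hd
    rw [h3] at hd'
    haveI : (K.subgroupOf H).Normal := by
      constructor
      intro n hn g
      rw [Subgroup.mem_subgroupOf] at hn ⊢
      exact (Subgroup.mem_normalizer_iff.mp (hHK g.2) n).mp hn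
    have h6 : (R : Subgroup H).relIndex (K.subgroupOf H) ∣ (R : Subgroup H).index :=
      H13.relIndex_dvd_index_right _ _
    exact R.not_dvd_index (hd'.trans h6)
  have hp : IsPGroup r (R'.subgroupOf K) := hR'p.comap_subtype
  let S : Sylow r K := hp.toSylow hidx
  haveI : IsZGroup K := IsZGroup.of_injective (f := Subgroup.inclusion hKH) (Subgroup.inclusion_injective hKH)
  have hSbot := sylow_eq_bot K Q hKQ hQK r S (by
    rintro _ ⟨x, hx, rfl⟩
    exact hR'C hx)
  have h3 := S.card_eq_multiplicity
  rw [hSbot, Subgroup.card_bot] at h3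
  have h6 : 1 ≤ (Nat.card K).factorization r :=
    (Nat.Prime.dvd_iff_one_le_factorization hr Nat.card_pos.ne').mp h2
  have := Nat.one_lt_pow (by omega) hr.one_lt (n := (Nat.card K).factorization r)
  omega

end Cfsg.Agent.H24.ZCop
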